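import Cfsg.Agent.U4F.Bas
import Cfsg.Agent.U5F.Semi

/-! Automorphisms of `U K` are standard modulo the commutator subgroup. -/

set_option autoImplicit false
set_option linter.unusedSectionVars false

namespace Cfsg.Lib.U4F

open Cfsg Cfsg.FusionSystem Subgroup Equiv Cfsg.Lib.Fus U
open Cfsg.Lib.U5F (UF qq SC sc_refl)

universe u

variable {K : Type u} [Field K] [StarRing K] [Finite K] [UF K]

namespace AutS

theorem mul_of {s : K → K} (ha : ∀ a b, s (a + b) = s a + s b) (h1 : s 1 = 1)
    (hs : ∀ c, star c = c → ∀ t, s (c * t) = s c * s t)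
    (hn : ∀ t, s (t * star t) = s t * star (s t)) (a b : K) : s (a * b) = s a * s b := by
  have st : ∀ t, s (star t) = star (s t) := fun t => by
    have := hn (t + 1)
    rw [show (t + 1) * star (t + 1) = t * star t + t + star t + 1 by rw [star_add, star_one]; ring,
      ha, ha, ha, ha, h1, hn, star_add, star_one] at this
    linear_combination this
  have sq : s (a * a) = s a * s a := by
    have := hs (a + star a) (by rw [star_add, star_star, add_comm]) a
    rw [add_mul, ha, ha, mul_comm (star a), hn, st] at this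
    linear_combination this
  by_cases h : star a = a
  · exact hs a h b
  have h' : a - star a ≠ 0 := fun e => h (sub_eq_zero.1 e).symm
  have h'' : star a - a ≠ 0 := sub_ne_zero.2 h
  obtain ⟨d, hd, e⟩ : ∃ d, star d = d ∧ d * (a - star a) = b - star b :=
    ⟨(b - star b) / (a - star a), by
      rw [star_div₀, star_sub, star_sub, star_star, star_star]; field_simp; ring, by field_simp⟩
  have hc : star (b - d * a) = b - d * a := by
    rw [star_sub, star_mul', hd]; linear_combination e
  have e1 : s b = s (b - d * a) + s d * s a := by rw [← hs d hd, ← ha, sub_add_cancel]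
  rw [show a * b = (b - d * a) * a + d * (a * a) by ring, ha, hs _ hc, hs d hd, sq, e1]
  ring

theorem alg {T S χ A ψ C : K → K} (ha : ∀ a b, T (a + b) = T a + T b) (hb : Function.Bijective T)
    (hA : ∀ x, star (A x) = -A x) (hA0 : ∀ x, star x = -x → A x = 0 → x = 0)
    (hC : ∀ x, star (C x) = -C x) (hC0 : ∀ x, star x = -x → C x = 0 → x = 0)
    (h1 : ∀ t x, star x = -x → S (t * x) = T t * A x)
    (h2 : ∀ t s, C (s * star t - t * star s) = S s * star (T t) - T t * star (S s))
    (h3 : ∀ t x, star x = -x → C (t * star t * x) + χ (t * x) =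
      ψ x * star (T t) - T t * star (ψ x) + T t * star (T t) * A x) :
    ∃ (a b : K) (σ : K ≃+* K), a ≠ 0 ∧ b ≠ 0 ∧ (∀ t, T t = a / b * σ t) ∧
      ∀ x, star x = -x → A x = b * star b * σ x := by
  obtain ⟨i, i0, hi⟩ := U5F.exists_skew (K := K)
  have T0 : T 0 = 0 := by simpa using ha 0 0
  have Tn : ∀ t, t ≠ 0 → T t ≠ 0 := fun t h e => h (hb.1 (e.trans T0.symm))
  have t1 := Tn 1 one_ne_zero
  have ai : A i ≠ 0 := fun e => i0 (hA0 i hi e)
  have sk : ∀ {c x : K}, star c = c → star x = -x → star (c * x) = -(c * x) := fun hc hx => by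
    rw [star_mul', hc, hx, mul_neg]
  obtain ⟨ρ, hρ⟩ : ∃ ρ : K → K, ∀ c, T c = ρ c * T 1 := ⟨fun c => T c / T 1, fun c => by field_simp⟩
  have Ac : ∀ c, star c = c → ∀ x, star x = -x → A (c * x) = ρ c * A x := fun c hc x hx => by
    have e := h1 1 _ (sk hc hx)
    rw [one_mul, h1 c x hx, hρ c] at e
    exact mul_left_cancel₀ t1 (by linear_combination -e)
  have Tc : ∀ c, star c = c → ∀ t, T (c * t) = ρ c * T t := fun c hc t => by
    have e := h1 t _ (sk hc hi)
    rw [← mul_assoc, mul_comm t, h1 _ i hi, Ac c hc i hi] at e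
    exact mul_right_cancel₀ ai (by linear_combination e)
  have ρr : ∀ c, star c = c → star (ρ c) = ρ c := fun c hc => by
    have e := hA (c * i)
    rw [Ac c hc i hi, star_mul', hA] at e
    exact mul_right_cancel₀ ai (by linear_combination -e)
  have Cc : ∀ c, star c = c → ∀ x, star x = -x → C (c * x) = ρ c * C x := fun c hc x hx => by
    obtain ⟨y, rfl⟩ := U5F.exists_im hx
    have e1 := h2 1 y
    have e2 := h2 c y
    rw [star_one, mul_one, one_mul] at e1
    rw [hc, hρ c, star_mul', ρr c hc, show y * c - c * star y = c * (y - star y) by ring] at e2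
    linear_combination e2 - ρ c * e1
  have nr : ∀ t : K, star (t * star t) = t * star t := fun t => by
    rw [star_mul', star_star, mul_comm]
  have key : ∀ t, T t * star (T t) * A i = C (t * star t * i) := fun t => by
    by_cases hq : ∃ c : K, star c = c ∧ c ≠ 0 ∧ c ≠ 1
    · obtain ⟨c, hc, c0, c1⟩ := hq
      have E : ∀ c, star c = c → ∀ x, star x = -x → (ρ c ^ 2 - ρ c) *
          (T t * star (T t) * A x - C (t * star t * x)) =
          ψ (c * x) * star (T t) - T t * star (ψ (c * x)) -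
            ρ c * (ψ x * star (T t) - T t * star (ψ x)) := fun c hc x hx => by
        have e1 := h3 (c * t) x hx
        have e2 := h3 t _ (sk hc hx)
        rw [show c * t * star (c * t) * x = c * (c * (t * star t * x)) by rw [star_mul', hc]; ring,
          Cc c hc _ (sk hc (sk (nr t) hx)), Cc c hc _ (sk (nr t) hx), Tc c hc, star_mul',
          ρr c hc] at e1
        rw [show t * star t * (c * x) = c * (t * star t * x) by ring, Cc c hc _ (sk (nr t) hx),
          Ac c hc x hx, show t * (c * x) = c * t * x by ring] at e2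
        linear_combination e2 - e1
      have hcc : star (c * c) = c * c := by rw [star_mul', hc]
      have e1 := E c hc i hi
      have e2 := E c hc _ (sk hc hi)
      have e3 := E _ hcc i hi
      have e4 : ρ (c * c) = ρ c * ρ c :=
        mul_right_cancel₀ t1 (by rw [← hρ, Tc c hc, hρ c, mul_assoc])
      rw [show t * star t * (c * i) = c * (t * star t * i) by ring, Cc c hc _ (sk (nr t) hi),
        Ac c hc i hi, ← mul_assoc c c] at e2
      rw [e4] at e3
      have u0 : ρ c ≠ 0 := fun e => Tn c c0 (by rw [hρ, e, zero_mul])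
      have u1 : ρ c - 1 ≠ 0 := fun e => c1 (hb.1 (by rw [hρ, sub_eq_zero.1 e, one_mul]))
      exact sub_eq_zero.1 (mul_left_cancel₀ (pow_ne_zero 2 (mul_ne_zero u0 u1))
        (by linear_combination e3 - e2 - ρ c * e1))
    · have r : ∀ c : K, star c = c → c ≠ 0 → c = 1 := fun c hc c0 =>
        by_contra fun c1 => hq ⟨c, hc, c0, c1⟩
      have h2 : (2 : K) = 0 := by_contra fun e => one_ne_zero (α := K) (by
        linear_combination r 2 (star_ofNat 2) e)
      have r' : ∀ x : K, star x = -x → x ≠ 0 → x = 1 := fun x hx =>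
        r x (by linear_combination hx - x * h2)
      by_cases t0 : t = 0
      · have := Cc 0 (star_zero K) i hi
        rw [(mul_eq_zero.1 ((hρ 0).symm.trans T0)).resolve_right t1, zero_mul, zero_mul] at this
        simp only [t0, T0, zero_mul, this]
      · rw [r _ (nr t) (mul_ne_zero t0 (star_ne_zero.2 t0)), one_mul,
          r _ (nr (T t)) (mul_ne_zero (Tn t t0) (star_ne_zero.2 (Tn t t0))), one_mul,
          r' _ (hA i) ai, r' _ (hC i) fun e => i0 (hC0 i hi e)]
  have ρ1 : ρ 1 = 1 := mul_right_cancel₀ t1 (by rw [← hρ, one_mul])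
  have hm := mul_of (s := ρ) (fun a b => mul_right_cancel₀ t1 (by rw [add_mul, ← hρ, ← hρ, ← hρ, ha]))
    ρ1 (fun c hc t => mul_right_cancel₀ t1 (by rw [← hρ, Tc c hc, hρ t, mul_assoc])) fun t => by
      have e1 := key 1
      have e2 := key t
      rw [star_one, mul_one, one_mul] at e1
      rw [Cc _ (nr t) i hi, ← e1, hρ t, star_mul'] at e2
      exact mul_right_cancel₀ (mul_ne_zero (mul_ne_zero t1 (star_ne_zero.2 t1)) ai)
        (by linear_combination -e2)
  obtain ⟨σ, hσ⟩ := U5F.Semi.aux ha hb fun a b => by rw [hρ (a * b), hρ a, hρ b, hm]; ring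
  have si : σ i ≠ 0 := σ.map_ne_zero_iff.2 i0
  have si' : star (σ i) = -σ i := by rw [← U5F.sc σ, hi, map_neg]
  obtain ⟨b, hb'⟩ := U5F.exists_norm (c := A i / σ i) (by rw [star_div₀, hA, si', neg_div_neg_eq])
  have b0 : b ≠ 0 := fun e => div_ne_zero ai si (by rw [← hb', e, zero_mul])
  refine ⟨T 1 * b, b, σ, mul_ne_zero t1 b0, b0, fun t => by rw [mul_div_cancel_right₀ _ b0, hσ],
    fun x hx => ?_⟩
  have hc : star (x / i) = x / i := by rw [star_div₀, hx, hi, neg_div_neg_eq]
  have e : ρ (x / i) = σ (x / i) := mul_right_cancel₀ t1 (by rw [← hρ, hσ, mul_comm])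
  have := Ac _ hc i hi
  rw [div_mul_cancel₀ _ i0, e, map_div₀] at this
  rw [this, hb']
  ring

variable (α : MulAut (U K)) {g : U K}

theorem cm_map (g x : U K) :
    (α x)⁻¹ * (α g * α x * (α g)⁻¹) = α (x⁻¹ * (g * x * g⁻¹)) := by
  simp only [map_mul, map_inv]

theorem mZ (h : g ∈ Z K) : α g ∈ Z K := mem_Z_iff.2 fun x => by
  obtain ⟨y, rfl⟩ := α.surjective x
  rw [← map_mul, ← map_mul, mem_Z_iff.1 h y]

theorem mW (h : g ∈ W K) : α g ∈ W K := mem_W_iff.2 fun x => by
  obtain ⟨y, rfl⟩ := α.surjective x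
  rw [cm_map]
  exact mZ α (mem_W_iff.1 h y)

theorem mV (h : g ∈ V K) : α g ∈ V K := mem_V_iff.2 fun x hx => by
  obtain ⟨y, rfl⟩ := α.surjective x
  have hy : y ∈ W K := by simpa using mW α.symm hx
  rw [← map_mul, ← map_mul, mem_V_iff.1 h y hy]

end AutS

open AutS in
theorem aut_gam (α : MulAut (U K)) : ∃ (a b : K) (σ : K ≃+* K) (hσ : SC σ), a ≠ 0 ∧ b ≠ 0 ∧
    ∀ g, (gam a b σ hσ g)⁻¹ * α g ∈ W K := by
  classical
  obtain ⟨sk, k1, k2⟩ : ∃ sk : K → K, (∀ x, star (sk x) = -sk x) ∧ ∀ x, star x = -x → sk x = x :=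
    ⟨fun x => if star x = -x then x else 0, fun x => by by_cases h : star x = -x <;> simp [h],
      fun x h => if_pos h⟩
  have z : star (0 : K) = -0 := by simp
  let gT : K → U K := fun t => ⟨t, 0, 0, 0, z, z⟩
  let gS : K → U K := fun s => ⟨0, 0, s, 0, z, z⟩
  let gX : K → U K := fun x => ⟨0, 0, 0, sk x, z, k1 x⟩
  let gZ : K → U K := fun x => ⟨0, sk x, 0, 0, k1 x, z⟩
  have hT : ∀ g, (α g).t = (α (gT g.t)).t := fun g => by
    have h2 := mV α (g := (gT g.t)⁻¹ * g) (by simp [mem_V, gT])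
    rw [map_mul, map_inv, mem_V, mul_t, inv_t] at h2
    linear_combination h2
  have hadd : ∀ a b, (α (gT (a + b))).t = (α (gT a)).t + (α (gT b)).t := fun a b => by
    have := hT (gT a * gT b)
    rw [map_mul, mul_t, mul_t] at this
    exact this.symm
  have hsurj : Function.Surjective fun t => (α (gT t)).t := fun t => ⟨(α.symm (gT t)).t, by
    simp only [← hT, MulEquiv.apply_symm_apply]; rfl⟩
  have hl : ∀ t, (α (gT t)).x2 = 0 := fun t => by
    have k : ∀ t t', (α (gT t)).t * (α (gT t')).x2 = (α (gT t')).t * (α (gT t)).x2 := fun t t' =>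
      cm_Z.1 (cm_map α _ _ ▸ mZ α (cm_Z.2 (by simp [gT])))
    obtain ⟨d, hd⟩ := U5F.UF.nt (K := K)
    obtain ⟨t1, h1⟩ := hsurj 1
    obtain ⟨t2, h2⟩ := hsurj d
    have e1 := k t1 t2
    have e2 := k t1 t
    simp only at h1 h2
    rw [h1, h2, one_mul] at e1
    have e3 := (α (gT t2)).h2
    rw [e1, star_mul', (α (gT t1)).h2] at e3
    have e4 : (α (gT t1)).x2 = 0 :=
      (mul_eq_zero.1 (by linear_combination -e3)).resolve_left (sub_ne_zero.2 hd)
    rwa [h1, one_mul, e4, mul_zero] at e2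
  have hX : ∀ g, (α g).x2 = (α (gX g.x2)).x2 := fun g => by
    have h2 := (mW α (g := (gT g.t * gX g.x2)⁻¹ * g) (by simp [mem_W, gT, gX, k2 _ g.h2])).2
    rw [map_mul, map_inv, map_mul, mul_x2, inv_x2, mul_x2, hl] at h2
    linear_combination h2
  have hW : ∀ w ∈ W K, (α w).s = (α (gS w.s)).s ∧
      (α w).x1 = (α (gZ w.x1)).x1 + (α (gS w.s)).x1 := fun w hw => by
    have e : w = gZ w.x1 * gS w.s := by ext <;> simp [gZ, gS, hw.1, hw.2, k2 _ w.h1]
    have h2 := mZ α (g := gZ w.x1) ⟨rfl, rfl, rfl⟩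
    have := congrArg α e
    rw [map_mul] at this
    rw [this, mul_s, mul_x1, h2.1, h2.2.1]
    simp
  have s0 : α (gS 0) = 1 := map_one α
  obtain ⟨a, b, σ, ha, hb, h1, h2⟩ := alg (T := fun t => (α (gT t)).t) (S := fun s => (α (gS s)).s)
    (χ := fun s => (α (gS s)).x1) (A := fun x => (α (gX x)).x2) (ψ := fun x => (α (gX x)).s)
    (C := fun x => (α (gZ x)).x1) hadd (Finite.surjective_iff_bijective.1 hsurj)
    (fun x => (α (gX x)).h2) (fun x hx e => by
      have : gX x ∈ W K := by simpa using mW α.symm (g := α (gX x)) ⟨mV α rfl, e⟩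
      exact (k2 x hx).symm.trans this.2) (fun x => (α (gZ x)).h1) (fun x hx e => by
      have := α.injective ((eq_one_of_Z (mZ α (g := gZ x) ⟨rfl, rfl, rfl⟩) e).trans (map_one α).symm)
      exact (k2 x hx).symm.trans (congrArg U.x1 this)) (fun t x hx => by
      have e := (hW _ (cm_W (gT t) (gX x))).1
      have e2 : (α (gX x)).t = 0 := mV α rfl
      rw [← cm_map, cm_s, cm_s, e2] at e
      simpa [gT, gX, k2 x hx] using e.symm) (fun t s => by
      have e := (hW _ (cm_W (gT t) (gS s))).2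
      have e2 := mW α (g := gS s) ⟨rfl, rfl⟩
      rw [← cm_map, cm_x1_V _ e2.1, cm_x1_V _ (x := gS s) rfl, cm_s, e2.2] at e
      simpa [gT, gS, s0] using e.symm) fun t x hx => by
      have e := (hW _ (cm_W (gT t) (gX x))).2
      rw [← cm_map, cm_x1_V _ (mV α (g := gX x) rfl), cm_x1_V _ (x := gX x) rfl, cm_s] at e
      simpa [gT, gX, k2 x hx] using e.symm
  refine ⟨a, b, σ, U5F.sc σ, ha, hb, fun g => ⟨?_, ?_⟩⟩
  · rw [mul_t, inv_t, gam_t, hT, h1, neg_add_cancel]
  · rw [mul_x2, inv_x2, gam_x2, hX, h2 _ g.h2, neg_add_cancel]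

end Cfsg.Lib.U4F
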