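import Cfsg.Agent.U4F.Bas
import Cfsg.Agent.U5F.BG

/-! The automorphisms of `Q` in a fusion system over `U K`. -/

set_option autoImplicit false
set_option linter.unusedSectionVars false

namespace Cfsg.Lib.U4F

open Cfsg Cfsg.FusionSystem Subgroup Equiv Cfsg.Lib.Fus U
open Cfsg.Lib.U5F (UF qq SC sc_refl)

universe u

variable {K : Type u} [Field K] [StarRing K] [Finite K] [UF K] {p : ℕ} [Fact p.Prime] [CharP K p]
  {F F' : FusionSystem (⊤ : Subgroup (U K))} {f : Perm (U K)}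

namespace B1

theorem Z_le_Q : Z K ≤ Q K := fun _ h => h.2.2

theorem maps_Z (hf : PIso F f (Q K) (Q K)) {z : U K} (hz : z ∈ Z K) : f z ∈ Z K :=
  U5F.BG.maps_center (fun _ => mem_Z_iff') Z_le_Q hf hz

theorem piso_cj (F : FusionSystem (⊤ : Subgroup (U K))) (P : Subgroup (U K)) [hP : P.Normal]
    (k : U K) : PIso F (cj k) P P :=
  (Mor.cj F le_top (mem_top k)).piso_of_maps fun _ hx => hP.conj_mem _ hx k

theorem lt_top : Q K < ⊤ := lt_top_iff_ne_top.2 fun e => by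
  obtain ⟨i, h0, hi⟩ := U5F.exists_skew (K := K)
  exact h0 (show (⟨0, 0, 0, i, by simp, hi⟩ : U K) ∈ Q K from e ▸ mem_top _)

theorem gam_mem {a b : K} {σ : K ≃+* K} {hσ : SC σ} {g : U K} (hg : g ∈ Q K) :
    gam a b σ hσ g ∈ Q K := by simp [mem_Q, mem_Q.1 hg]

theorem th_mul {f : U K → U K} (hm : ∀ g ∈ Q K, f g ∈ Q K)
    (hh : ∀ g ∈ Q K, ∀ h ∈ Q K, f (g * h) = f g * f h) (e : ∀ g ∈ Q K, pi1 (f g) = pi1 g)
    {g h : U K} (hg : g ∈ Q K) (hh' : h ∈ Q K) :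
    ((g * h)⁻¹ * f (g * h)).x1 = (g⁻¹ * f g).x1 + (h⁻¹ * f h).x1 := by
  have h1 := (pi1_eq hg (hm g hg)).1 (e g hg).symm
  have h2 := (pi1_eq hh' (hm h hh')).1 (e h hh').symm
  rw [hh g hg h hh', show (g * h)⁻¹ * (f g * f h) = h⁻¹ * (g⁻¹ * f g) * f h by group,
    comm_Z _ h1, mul_assoc, mul_x1, h1.1, h2.2.1]
  simp

theorem exists_th {f : U K → U K} (hm : ∀ g ∈ Q K, f g ∈ Q K)
    (hh : ∀ g ∈ Q K, ∀ h ∈ Q K, f (g * h) = f g * f h) (e : ∀ g ∈ Q K, pi1 (f g) = pi1 g) :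
    ∃ Θ : K × K →+ K, ∀ g ∈ Q K, (g⁻¹ * f g).x1 = Θ (pi1 g) := by
  have hZ : ∀ z ∈ Z K, f z = z := fun z hz => by
    obtain ⟨w, hw⟩ := bf_surj (v := ((1 : K), (0 : K))) (by simp) z.h1
    obtain ⟨g, hg, eg⟩ := exists_Q ((1 : K), (0 : K))
    obtain ⟨x, hx, rfl⟩ := exists_Q w
    have c : ∀ {g x : U K}, g ∈ Q K → x ∈ Q K → x⁻¹ * (g * x * g⁻¹) ∈ Z K := fun hg hx =>
      cm_Z.2 (by rw [mem_Q.1 hg, mem_Q.1 hx, mul_zero, mul_zero])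
    have e1 : x⁻¹ * (g * x * g⁻¹) = z := Z_ext (c hg hx) hz (by rw [cm_x1_Q hg hx, eg, hw])
    have e2 : f x * f z * f g = f g * f x := by
      rw [← hh _ hx _ (Z_le_Q hz), ← hh _ (mul_mem hx (Z_le_Q hz)) _ hg, ← hh _ hg _ hx, ← e1]
      congr 1; group
    have e3 : f z = (f x)⁻¹ * (f g * f x * (f g)⁻¹) := by rw [← e2]; group
    rw [e3, ← e1]
    exact Z_ext (c (hm g hg) (hm x hx)) (c hg hx)
      (by rw [cm_x1_Q (hm g hg) (hm x hx), cm_x1_Q hg hx, e g hg, e x hx])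
  have hw : ∀ g ∈ Q K, ∀ h ∈ Q K, pi1 g = pi1 h → (h⁻¹ * f h).x1 = (g⁻¹ * f g).x1 :=
    fun g hg h hh' e' => by
      have h1 := (pi1_eq hg hh').1 e'
      have := th_mul hm hh e hg (Z_le_Q h1)
      rwa [hZ _ h1, inv_mul_cancel, mul_inv_cancel_left, one_x1, add_zero] at this
  choose s hs es using exists_Q (K := K)
  refine ⟨AddMonoidHom.mk' (fun v => ((s v)⁻¹ * f (s v)).x1) fun v w => ?_,
    fun g hg => hw _ (hs _) g hg (es _)⟩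
  rw [← th_mul hm hh e (hs v) (hs w)]
  exact hw _ (mul_mem (hs v) (hs w)) _ (hs _) (by rw [pi1_mul (hs w), es, es, es])

end B1

open B1

theorem exists_X1 (hf : PIso F f (Q K) (Q K)) :
    ∃ φ ∈ X1 F, ∀ g ∈ Q K, pi1 (f g) = φ (pi1 g) := by
  obtain ⟨φ, e⟩ := U5F.BG.exists_perm pi1 exists_Q (fun _ ha _ hb => pi1_eq ha hb)
    (fun _ => mem_Z_iff') Z_le_Q hf
  exact ⟨φ, ⟨f, hf, e⟩, e⟩

theorem ext1 (hF : F.IsSaturated p) (hf : PIso F f (Q K) (Q K)) {φ : Perm (K × K)}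
    (e : ∀ g ∈ Q K, pi1 (f g) = φ (pi1 g)) (h : P1 φ) : Ext F (Q K) f :=
  U5F.BG.ext_gen (X := W K) (Y := Z K) (isP p) hF (fun _ hz g _ => comm_Z g hz) comm_QQ.ge
    (fun _ h => ⟨h.1, h.2.2⟩) le_rfl (fun g x _ => cm_W g x) (fun g _ hx => mem_W_iff.1 hx g)
    (fun g x hx => mul_mem (inv_mem hx) ((inferInstance : (Z K).Normal).conj_mem x hx g)) hf
    (fun z hz => ⟨by
      have := congrArg Prod.fst (e z hz.2)
      rwa [show pi1 z = (0, z.s) by rw [pi1, hz.1], h] at this, hf.maps hz.2⟩)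
    (fun _ hx => maps_Z hf hx) fun _ hx => maps_Z hf hx

theorem inn1 (hE : F.IsEssential p (Q K)) (hf : PIso F f (Q K) (Q K))
    (e : ∀ g ∈ Q K, pi1 (f g) = pi1 g) : ∃ k ∈ Q K, ∀ g ∈ Q K, f g = k * g * k⁻¹ :=
  U5F.BG.inn_gen (isP p) hE (fun _ => mem_Z_iff') comm_QQ.ge Z_le_Q hf
    fun g hg => (pi1_eq hg (hf.maps hg)).1 (e g hg).symm

theorem bo1 (hF : F.IsSaturated p) (hs : Std F) : Bo1 (X1 F) := by
  rintro φ ⟨f, hf, e⟩ h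
  obtain ⟨k, hk, ek⟩ := ext1 hF hf e h
  obtain ⟨w, a, b, σ, hσ, ha, hb, ew⟩ := hs k hk
  refine ⟨w.x2, a, b, σ, w.h2, ha, hb, fun v => ?_⟩
  obtain ⟨g, hg, rfl⟩ := exists_Q v
  rw [← e g hg, ek g hg, ew, pi1_conj w (gam_mem hg), pi1_gam]

theorem mv1 (hF : F.IsSaturated p) (hE : F.IsEssential p (Q K)) : ∃ g ∈ X1 F, ¬ P1 g := by
  by_contra hn
  refine closure_extendable_ne_of_isEssential (isP_top p) hF hE
    (le_antisymm ((closure_le _).2 fun _ h => h.mem) fun α hα => subset_closure ?_)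
  have hf := piso_pext_of_mem le_top hα
  obtain ⟨φ, hφ, e⟩ := exists_X1 hf
  obtain ⟨k, hk, ek⟩ := ext1 hF hf e (by_contra fun h => hn ⟨φ, hφ, h⟩)
  exact ⟨⊤, k, B1.lt_top, hk.mor, fun x hx => (ek x hx).symm⟩

theorem inn_lin {f : U K → U K} (hm : ∀ g ∈ Q K, f g ∈ Q K)
    (hh : ∀ g ∈ Q K, ∀ h ∈ Q K, f (g * h) = f g * f h) (e : ∀ g ∈ Q K, pi1 (f g) = pi1 g)
    (hl : ∀ c : K, star c = c → ∀ g ∈ Q K, ∀ h ∈ Q K, pi1 h = c • pi1 g →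
      (h⁻¹ * f h).x1 = c * (g⁻¹ * f g).x1) : ∃ k ∈ Q K, ∀ g ∈ Q K, f g = k * g * k⁻¹ := by
  obtain ⟨Θ, hΘ⟩ := exists_th hm hh e
  have lin : ∀ c : K, star c = c → ∀ v, Θ (c • v) = c * Θ v := fun c hc v => by
    obtain ⟨g, hg, rfl⟩ := exists_Q v
    obtain ⟨h, hh', e'⟩ := exists_Q (c • pi1 g)
    rw [← e', ← hΘ g hg, ← hΘ h hh', hl c hc g hg h hh' e']
  have sk : ∀ v, star (Θ v) = -Θ v := fun v => by
    obtain ⟨g, hg, rfl⟩ := exists_Q v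
    rw [← hΘ g hg, U.h1]
  have k : ∀ ϑ : K → K, (∀ a b, ϑ (a + b) = ϑ a + ϑ b) → (∀ c t, star c = c → ϑ (c * t) = c * ϑ t) →
      (∀ t, star (ϑ t) = -ϑ t) → ∃ a, ∀ t, ϑ t = star a * t - a * star t := fun ϑ h1 h2 h3 => by
    obtain ⟨a, b, h4⟩ := U5F.f0lin h1 h2
    have := (U5F.sep (a := star b + a) (b := star a + b) fun t => by
      have := h3 t
      rw [h4, star_add, star_mul', star_mul', star_star] at this
      linear_combination this).2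
    exact ⟨star a, fun t => by rw [h4, star_star]; linear_combination star t * this⟩
  obtain ⟨a, ha⟩ := k (fun t => Θ (t, 0)) (fun a b => by rw [← map_add]; simp)
    (fun c t hc => by rw [← lin c hc]; simp) fun _ => sk _
  obtain ⟨b, hb⟩ := k (fun t => Θ (0, t)) (fun a b => by rw [← map_add]; simp)
    (fun c t hc => by rw [← lin c hc]; simp) fun _ => sk _
  obtain ⟨k, hk, ek⟩ := exists_Q (b, a)
  refine ⟨k, hk, fun g hg => mul_left_cancel (a := g⁻¹) (Z_ext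
    ((pi1_eq hg (hm g hg)).1 (e g hg).symm)
    (cm_Z.2 (by rw [mem_Q.1 hg, mem_Q.1 hk, mul_zero, mul_zero])) ?_)⟩
  have : Θ (pi1 g) = Θ (g.t, 0) + Θ (0, g.s) := by rw [← map_add]; simp [pi1]
  rw [hΘ g hg, cm_x1_Q hk hg, ek, this, ha, hb]
  simp only [bf, pi1]
  ring

theorem B1.inn_th {f : U K → U K} (hm : ∀ g ∈ Q K, f g ∈ Q K)
    (hh : ∀ g ∈ Q K, ∀ h ∈ Q K, f (g * h) = f g * f h) (e : ∀ g ∈ Q K, pi1 (f g) = pi1 g)
    (hl : ∀ Θ : K × K →+ K, (∀ g ∈ Q K, (g⁻¹ * f g).x1 = Θ (pi1 g)) →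
      ∀ c : K, star c = c → ∀ v, Θ (c • v) = c * Θ v) :
    ∃ k ∈ Q K, ∀ g ∈ Q K, f g = k * g * k⁻¹ := by
  obtain ⟨Θ, hΘ⟩ := exists_th hm hh e
  exact inn_lin hm hh e fun c hc g hg h hh' e' => by rw [hΘ g hg, hΘ h hh', e', hl Θ hΘ c hc]

theorem inn_prime (hq : qq K = p) {f : U K → U K} (hm : ∀ g ∈ Q K, f g ∈ Q K)
    (hh : ∀ g ∈ Q K, ∀ h ∈ Q K, f (g * h) = f g * f h) (e : ∀ g ∈ Q K, pi1 (f g) = pi1 g) :
    ∃ k ∈ Q K, ∀ g ∈ Q K, f g = k * g * k⁻¹ :=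
  inn_th hm hh e fun Θ _ c hc v => by
    obtain ⟨n, rfl⟩ := real_prime hq hc
    rw [Nat.cast_smul_eq_nsmul, map_nsmul, nsmul_eq_mul]

end Cfsg.Lib.U4F
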