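import Cfsg.Agent.U4F.L1a
import Cfsg.Agent.Class.DicksonLemma

/-! The opposite root group on `K²` is scalar on `0 × K`. -/

set_option autoImplicit false
set_option linter.unusedSectionVars false

namespace Cfsg.Lib.U4F

open Cfsg Cfsg.FusionSystem Subgroup Equiv Cfsg.Lib.Fus
open Cfsg.Lib.U5F (UF qq SC sc_refl Tr Iv LTr Sec Loc SEm MinL)
open scoped MatrixGroups

universe u v

variable {K : Type u} [Field K] [StarRing K] [Finite K] [UF K] {p : ℕ} [Fact p.Prime] [CharP K p]
variable {X : Subgroup (Perm (K × K))} {g : Perm (K × K)} {ν : K × K → K × K}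

namespace L1c

theorem char_ne (h2 : (2 : K) ≠ 0) : ringChar K ≠ 2 := fun e =>
  h2 (by exact_mod_cast (ringChar.spec K 2).2 (by rw [e]))

theorem exists_sq (h2 : (2 : K) ≠ 0) {c : K} (hc : star c = c) : ∃ y, c = y * y := by
  have := Fintype.ofFinite K
  by_cases h0 : c = 0
  · exact ⟨0, by simp [h0]⟩
  refine (FiniteField.isSquare_iff (char_ne h2) h0).2 ?_
  have h1 := FiniteField.odd_card_of_char_ne_two (char_ne h2)
  rw [U5F.Fld.base.1] at h1 ⊢
  rw [U5F.star_eq_pow] at hc
  obtain ⟨r, hr⟩ : Odd (qq K) := (Nat.odd_pow_iff two_ne_zero).1 (Nat.odd_iff.2 h1)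
  rw [hr] at hc ⊢
  have e : (2 * r + 1) ^ 2 / 2 = 2 * r * (r + 1) := by
    rw [show (2 * r + 1) ^ 2 = 1 + 2 * (2 * r * (r + 1)) by ring]; omega
  have e' : c ^ (2 * r) = 1 := mul_right_cancel₀ h0 (by rw [← pow_succ, hc, one_mul])
  rw [e, pow_mul, e', one_pow]

/-- The eigenvalues of a real-linear map. -/
theorem eig (h2 : (2 : K) ≠ 0) (a b : K) :
    (∃ s μ : K, s ≠ 0 ∧ star μ = μ ∧ a * s + b * star s = μ * s) ∨
    ∃ α u w : K, star α ≠ α ∧ (∀ x, u * x + w * star x = 0 → x = 0) ∧
      ∀ x, a * (u * x + w * star x) + b * star (u * x + w * star x) =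
        u * (α * x) + w * star (α * x) := by
  by_cases hb : b = 0
  · by_cases ha : star a = a
    · exact Or.inl ⟨1, a, one_ne_zero, ha, by simp [hb]⟩
    · exact Or.inr ⟨a, 1, 0, ha, by simp, by simp [hb]⟩
  obtain ⟨y, hy⟩ := exists_sq h2 (c := (a - star a) ^ 2 + 4 * (b * star b)) (by
    simp only [star_add, star_mul', star_pow, star_sub, star_star, star_ofNat]; ring)
  obtain ⟨α, hα⟩ : ∃ α : K, α ^ 2 - (a + star a) * α + (a * star a - b * star b) = 0 :=
    ⟨(a + star a + y) / 2, by field_simp; linear_combination -hy⟩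
  have hα' : star α ^ 2 - (a + star a) * star α + (a * star a - b * star b) = 0 := by
    have := congrArg star hα
    simp only [star_add, star_mul', star_pow, star_sub, star_star, star_zero] at this
    linear_combination this
  have e : ∀ x, a * (b * x + (star α - star a) * star x) + b * star (b * x + (star α - star a) *
      star x) = b * (α * x) + (star α - star a) * star (α * x) := fun x => by
    simp only [star_add, star_mul', star_sub, star_star]
    linear_combination -star x * hα'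
  by_cases hr : star α = α
  · obtain ⟨x, hx⟩ : ∃ x, b * x + (star α - star a) * star x ≠ 0 := by
      by_contra hn
      push Not at hn
      exact hb (U5F.sep hn).1
    exact Or.inl ⟨_, α, hx, hr, by rw [e, star_mul', hr]; ring⟩
  refine Or.inr ⟨α, b, star α - star a, hr, fun x hx => ?_, e⟩
  have e' := e x
  rw [hx, star_mul'] at e'
  have : (star α - α) * b * x = 0 := by
    simp only [mul_zero, star_zero, add_zero] at e'
    linear_combination e' + star α * hx
  simpa [hb, sub_eq_zero, hr] using this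

variable (K) in
/-- The fixed field of the involution. -/
def Re : Subfield K where
  carrier := {c | star c = c}
  one_mem' := star_one K
  zero_mem' := star_zero K
  mul_mem' := fun {a b} (ha : star a = a) (hb : star b = b) => by
    change star (a * b) = a * b; rw [star_mul', ha, hb]
  add_mem' := fun {a b} (ha : star a = a) (hb : star b = b) => by
    change star (a + b) = a + b; rw [star_add, ha, hb]
  neg_mem' := fun {a} (ha : star a = a) => by
    change star (-a) = -a; rw [star_neg, ha]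
  inv_mem' := fun a (ha : star a = a) => by
    change star a⁻¹ = a⁻¹; rw [star_inv₀, ha]

theorem dickson (h2 : (2 : K) ≠ 0) (hq : qq K ≠ 3) {α : K} (hα : star α ≠ α) (G : Subgroup SL(2, K))
    (hU : ∀ c : K, star c = c → Class.slU c ∈ G) (hV : ∀ c : K, star c = c → Class.slV (c * α) ∈ G) :
    G = ⊤ := by
  have h := Class.dicksonGroup_eq_top (k := Re K) (K := K) (α := α)
    (by rw [Algebra.ringChar_eq (Re K) K]; exact char_ne h2) hq
    (fun e => hα (by simp [e])) (IsIntegral.of_finite _ _) (by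
      refine eq_top_iff.2 fun x _ => ?_
      have hd : α - star α ≠ 0 := sub_ne_zero.2 hα.symm
      have hd' : star α - α ≠ 0 := sub_ne_zero.2 hα
      have h1 : (x - star x) / (α - star α) ∈ Re K := by
        change star _ = _
        rw [star_div₀, star_sub, star_sub, star_star, star_star]; field_simp; ring
      have h0 : (α * star x - x * star α) / (α - star α) ∈ Re K := by
        change star _ = _
        simp only [star_div₀, star_sub, star_mul', star_star]; field_simp; ring
      have e : x = algebraMap (Re K) K ⟨_, h0⟩ + algebraMap (Re K) K ⟨_, h1⟩ * α := by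
        change x = (α * star x - x * star α) / (α - star α) + (x - star x) / (α - star α) * α
        field_simp; ring
      rw [e]
      exact add_mem (Subalgebra.algebraMap_mem _ _) (mul_mem (Subalgebra.algebraMap_mem _ _)
        (Algebra.subset_adjoin rfl)))
  rw [eq_top_iff, ← h, Class.dicksonGroup, closure_le]
  rintro _ (⟨c, rfl⟩ | ⟨c, rfl⟩)
  · exact hU c c.2
  · exact hV c c.2

end L1c

open L1c

theorem scal1 (h : Hy1 p X) (hb : Bo1 X) (hq : qq K ≠ 3)
    (ti : ∀ g ∈ X, P1 g ∨ ∀ s, s ≠ 0 → (g (0, s)).1 ≠ 0) (hg : g ∈ X) (hn : ¬ P1 g)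
    (ho : Opp X g ν) : ∃ μ : K, μ ≠ 0 ∧ star μ = -μ ∧ ∀ s, (ν (0, s)).1 = μ * s := by
  have g0 : ∀ x ∈ X, x 0 = 0 := fun x hx => by simpa using h.add x hx 0 0
  have dj : ∀ v : K × K, v.1 = 0 → (g⁻¹ v).1 = 0 → v = 0 := fun v h1 h2 => by
    have e : g⁻¹ v = (0, (g⁻¹ v).2) := Prod.ext h2 rfl
    have e' : (g⁻¹ v).2 = 0 := by
      by_contra h3
      exact (ti g hg).resolve_left hn _ h3 (by rw [← e, perm_apply_inv, h1])
    rw [e', Perm.inv_eq_iff_eq] at e
    exact e.trans (g0 g hg)
  have mi : ∀ s, (ν (0, s)).1 = 0 → s = 0 := fun s hs =>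
    congrArg Prod.snd (dj (0, s) rfl ((ho.ker _).1 (dj _ hs (ho.im _))))
  have na : ∀ s t : K, ν (0, s + t) = ν (0, s) + ν (0, t) := fun s t => by
    rw [← ho.add, Prod.mk_add_mk, add_zero]
  have nl : ∀ c s : K, star c = c → ν (0, c * s) = c • ν (0, s) := fun c s hc => by
    rw [← ho.lin c hc, Prod.smul_mk, smul_zero, smul_eq_mul]
  have nn : ∀ v, ν (ν v) = 0 := fun v => (ho.ker _).2 (ho.im v)
  by_cases h2 : (2 : K) = 0
  · have e : ∀ s, s ≠ 0 → ∃ c, star c = c ∧ (ν (0, s)).1 = c * s := fun s hs =>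
      U5F.real_mul hs (by
        have := ho.alt h2 (0, s)
        simp only [bf, star_zero, mul_zero, zero_mul, sub_zero, zero_sub, neg_eq_zero] at this
        linear_combination this)
    obtain ⟨c, hc, e1⟩ := e 1 one_ne_zero
    refine ⟨c, fun e0 => one_ne_zero (mi 1 (by rw [e1, e0, zero_mul])),
      by rw [hc]; linear_combination c * h2, fun s => ?_⟩
    by_cases hs : star s = s
    · have := nl s 1 hs
      rw [mul_one] at this
      rw [this, Prod.smul_fst, e1, smul_eq_mul]; ring
    obtain ⟨c1, hc1, e2⟩ := e s (fun e0 => hs (by simp [e0]))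
    obtain ⟨c2, hc2, e3⟩ := e (1 + s) (fun e0 => hs (by
      rw [eq_neg_of_add_eq_zero_right e0]; simp))
    rw [na, Prod.fst_add, e1, e2] at e3
    have e4 := congrArg star e3
    simp only [star_add, star_mul', star_one, hc, hc1, hc2] at e4
    have e5 : (c1 - c2) * (star s - s) = 0 := by linear_combination e4 - e3
    have e6 : c1 = c2 := sub_eq_zero.1 ((mul_eq_zero.1 e5).resolve_right (sub_ne_zero.2 hs))
    rw [e2]
    rw [e6] at e3 ⊢
    linear_combination -s * e3
  obtain ⟨d, hd, hs⟩ := U5F.exists_skew (K := K)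
  obtain ⟨a, b, hM⟩ := U5F.f0lin (f := fun s => d * (ν (0, s)).1)
    (fun s t => by rw [na, Prod.fst_add, mul_add])
    (fun c t hc => by rw [nl c t hc, Prod.smul_fst, smul_eq_mul]; ring)
  have hu : ∀ c : K, star c = c → u1 (c * d) ∈ X := fun c hc =>
    h.u (by rw [star_mul', hc, hs]; ring)
  rcases eig h2 a b with ⟨s0, μ, h0, hμ, e⟩ | ⟨α, u, w, hα, hi, e⟩
  · rw [← hM] at e
    have hμ0 : μ ≠ 0 := fun e0 => h0 (mi _ (by simpa [e0, hd] using e))
    obtain ⟨φ, hφ, e1, -⟩ := ho.mem 1 (star_one K)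
    have hx := X.mul_mem (X.inv_mem hg) (X.mul_mem (hu (-μ⁻¹) (by simp [hμ])) hφ)
    have hi := h.add _ (X.inv_mem hg)
    have e2 : ∀ s, (g⁻¹ * (u1 (-μ⁻¹ * d) * φ)) (0, s) + g⁻¹ (ν (0, s)) =
        g⁻¹ (0, s - μ⁻¹ * (d * (ν (0, s)).1)) := fun s => by
      rw [Perm.mul_apply, Perm.mul_apply, ← hi, e1, u1_apply]
      congr 1
      ext <;> simp
      ring
    have hP := (ti _ hx).resolve_right fun e3 => e3 s0 h0 (by
      have := congrArg Prod.fst (e2 s0)
      rw [e, inv_mul_cancel_left₀ hμ0, sub_self, Prod.fst_add, ho.im, add_zero] at this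
      rw [this]
      exact congrArg Prod.fst (g0 _ (X.inv_mem hg)))
    refine ⟨μ / d, div_ne_zero hμ0 hd, by rw [star_div₀, hμ, hs]; field_simp, fun s => ?_⟩
    have e3 := congrArg Prod.fst (e2 s)
    rw [Prod.fst_add, ho.im, hP s, add_zero] at e3
    have e4 : s - μ⁻¹ * (d * (ν (0, s)).1) = 0 := congrArg Prod.snd (dj _ rfl e3.symm)
    field_simp at e4 ⊢
    linear_combination -e4
  exfalso
  let θ : K → K := fun x => u * x + w * star x
  have θa : ∀ x y, θ (x + y) = θ x + θ y := fun x y => by simp only [θ, star_add]; ring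
  have θl : ∀ c x, star c = c → θ (c * x) = c * θ x := fun c x hc => by
    simp only [θ, star_mul', hc]; ring
  have θi : Function.Injective θ := fun x y e0 => sub_eq_zero.1 (hi _ (by
    simp only [θ] at e0; rw [star_sub]; linear_combination e0))
  have θm : ∀ x, d * (ν (0, θ x)).1 = θ (α * x) := fun x => (hM _).trans (e x)
  let Θ : (Fin 2 → K) → K × K := fun z => ν (0, θ (z 0)) + (0, θ (z 1))
  have Θi : Function.Injective Θ := fun z z' e0 => by
    have e1 : z 0 = z' 0 := by
      have e1 : (ν (0, θ (z 0))).1 + 0 = (ν (0, θ (z' 0))).1 + 0 := congrArg Prod.fst e0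
      rw [add_zero, add_zero] at e1
      exact mul_left_cancel₀ (a := α) (fun e0 => hα (by rw [e0, star_zero])) (θi (by rw [← θm, ← θm, e1]))
    have e2 : z 1 = z' 1 := by
      have e3 : (ν (0, θ (z 0))).2 + θ (z 1) = (ν (0, θ (z' 0))).2 + θ (z' 1) := congrArg Prod.snd e0
      rw [e1] at e3
      exact θi (add_left_cancel e3)
    ext i; fin_cases i
    exacts [e1, e2]
  have Θs : Function.Surjective Θ :=
    (Finite.injective_iff_surjective_of_equiv (finTwoArrowEquiv K)).1 Θi
  let G : Subgroup SL(2, K) :=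
    { carrier := {A | ∃ φ ∈ X, ∀ z, φ (Θ z) = Θ (A.1.mulVec z)}
      one_mem' := ⟨1, X.one_mem, fun z => by simp⟩
      mul_mem' := by
        rintro A B ⟨φ, hφ, e1⟩ ⟨ψ, hψ, e2⟩
        exact ⟨φ * ψ, X.mul_mem hφ hψ, fun z => by
          rw [Perm.mul_apply, e2, e1, Matrix.mulVec_mulVec]; rfl⟩
      inv_mem' := by
        rintro A ⟨φ, hφ, e1⟩
        refine ⟨φ⁻¹, X.inv_mem hφ, fun z => ?_⟩
        have e : A.1 * (A⁻¹).1 = 1 := congrArg Subtype.val (mul_inv_cancel A)
        rw [Perm.inv_eq_iff_eq, e1, Matrix.mulVec_mulVec, e, Matrix.one_mulVec] }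
  have hV : ∀ (c : K) (z : Fin 2 → K), star c = c →
      u1 (-c * d) (Θ z) = Θ ((Class.slV (c * α)).1.mulVec z) := fun c z hc => by
    have e0 : (Class.slV (c * α)).1.mulVec z 0 = z 0 := by
      simp [Class.coe_slV, Matrix.mulVec, dotProduct, Fin.sum_univ_two]
    have e1 : (Class.slV (c * α)).1.mulVec z 1 = c * (α * z 0) + z 1 := by
      simp [Class.coe_slV, Matrix.mulVec, dotProduct, Fin.sum_univ_two, mul_assoc]
    simp only [Θ, e0, e1, u1_apply, θa, θl c _ hc, ← θm]
    ext <;> simp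
    ring
  have hG : G = ⊤ := dickson h2 hq hα G (fun c hc => by
      obtain ⟨φ, hφ, e1, -⟩ := ho.mem (-c) (by simp [hc])
      refine ⟨φ, hφ, fun z => ?_⟩
      have e0 : (Class.slU c).1.mulVec z 0 = z 0 + c * z 1 := by
        simp [Class.coe_slU, Matrix.mulVec, dotProduct, Fin.sum_univ_two]
      have e2 : (Class.slU c).1.mulVec z 1 = z 1 := by
        simp [Class.coe_slU, Matrix.mulVec, dotProduct, Fin.sum_univ_two]
      simp only [e1, Θ, e0, e2, ho.add, nn, θa, θl c _ hc, na, nl c _ hc, zero_add, neg_smul]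
      abel)
    fun c hc => ⟨_, hu (-c) (by simp [hc]), fun z => hV c z hc⟩
  obtain ⟨φ, hφ, e1⟩ : Class.slV (1 : K) ∈ G := hG ▸ mem_top _
  have e0 : ∀ z, (Class.slV (1 : K)).1.mulVec z 0 = z 0 := fun z => by
    simp [Class.coe_slV, Matrix.mulVec, dotProduct, Fin.sum_univ_two]
  have e2 : ∀ z, (Class.slV (1 : K)).1.mulVec z 1 = z 0 + z 1 := fun z => by
    simp [Class.coe_slV, Matrix.mulVec, dotProduct, Fin.sum_univ_two]
  have θ0 : θ 0 = 0 := by simp [θ]
  have n0 : ν (0, 0) = 0 := by simpa using na 0 0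
  obtain ⟨c, hc, rfl⟩ := hb.mem_A1 hφ (fun s => by
      obtain ⟨y, rfl⟩ := Finite.surjective_of_injective θi s
      have := e1 ![0, y]
      simpa [Θ, e0, e2, θ0, n0] using this)
    (fun v => by
      obtain ⟨z, rfl⟩ := Θs v
      rw [e1]; simp only [Θ, e0, Prod.fst_add])
  have hr : star (-c / d) = -c / d := by rw [star_div₀, star_neg, hc, hs]; field_simp
  have e3 := hV (-c / d) ![1, 0] hr
  rw [show -(-c / d) * d = c by field_simp, e1] at e3
  have e4 := congrFun (Θi e3) 1
  rw [e2] at e4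
  have e5 : 1 = -c / d * α := by
    simpa [Class.coe_slV, Matrix.mulVec, dotProduct, Fin.sum_univ_two] using e4
  have e6 := congrArg star e5
  rw [star_mul', hr, star_one] at e6
  have e7 : -c / d ≠ 0 := fun e0 => by simp [e0] at e5
  exact hα (mul_left_cancel₀ e7 (e6.symm.trans e5))

end Cfsg.Lib.U4F
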