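import Cfsg.Agent.U4F.L1b
import Cfsg.Agent.U4F.L1c

/-! The group induced on `Q / Z` contains the opposite root group. -/

set_option autoImplicit false
set_option linter.unusedSectionVars false

namespace Cfsg.Lib.U4F

open Cfsg Cfsg.FusionSystem Subgroup Equiv Cfsg.Lib.Fus
open Cfsg.Lib.U5F (UF qq SC sc_refl Tr Iv LTr Sec Loc SEm MinL)

universe u v

variable {K : Type u} [Field K] [StarRing K] [Finite K] [UF K] {p : ℕ} [Fact p.Prime] [CharP K p]
variable {X : Subgroup (Perm (K × K))} {g : Perm (K × K)} {ν : K × K → K × K}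

theorem L1d.eta (ho : Opp X g ν) (v : K × K) : g (0, (g⁻¹ (ν v)).2) = ν v := by
  rw [show ((0, (g⁻¹ (ν v)).2) : K × K) = g⁻¹ (ν v) from Prod.ext (ho.im v).symm rfl, perm_apply_inv]

theorem std1 (h : Hy1 p X) (hb : Bo1 X) (hq : qq K ≠ 3) (hg : g ∈ X) (hn : ¬ P1 g) :
    ∃ c : K, star c = -c ∧ ∀ s, (g (0, s)).2 = -c * (g (0, s)).1 := by
  obtain ⟨ν, ho⟩ := exists_opp h hg
  obtain ⟨μ, hμ0, hμ, e⟩ := scal1 h hb hq (fun g hg => ti1 h hb hq hg) hg hn ho
  have dj : ∀ v : K × K, v.1 = 0 → ν v = 0 → v = 0 := fun v h1 h2 => by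
    have e : g⁻¹ v = (0, (g⁻¹ v).2) := Prod.ext ((ho.ker v).1 h2) rfl
    have e' : (g⁻¹ v).2 = 0 := by
      by_contra h3
      exact (ti1 h hb hq hg).resolve_left hn _ h3 (by rw [← e, perm_apply_inv, h1])
    rw [e', Perm.inv_eq_iff_eq] at e
    exact e.trans (L1a.zero h hg)
  have na : ∀ s t : K, ν (0, s + t) = ν (0, s) + ν (0, t) := fun s t => by
    rw [← ho.add, Prod.mk_add_mk, add_zero]
  have nl : ∀ c s : K, star c = c → ν (0, c * s) = c • ν (0, s) := fun c s hc => by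
    rw [← ho.lin c hc, Prod.smul_mk, smul_zero, smul_eq_mul]
  suffices H : ∃ c : K, star c = -c ∧ ∀ y, (ν (0, y)).2 = -c * (μ * y) by
    obtain ⟨c, hc, H⟩ := H
    refine ⟨c, hc, fun s => ?_⟩
    have e1 := dj (g (0, s) - ν (0, (g (0, s)).1 / μ)) (by rw [Prod.fst_sub, e]; field_simp; ring)
      (by rw [L1b.nsub ho, L1b.nn ho, sub_zero, ho.ker, perm_inv_apply])
    have e2 := congrArg Prod.snd e1
    rw [Prod.snd_sub, H, mul_div_cancel₀ _ hμ0] at e2
    exact sub_eq_zero.1 e2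
  by_cases h2 : (2 : K) = 0
  · obtain ⟨x, y, hx⟩ := U5F.f0lin (f := fun t => (ν (0, t / μ)).2)
      (fun s t => by rw [add_div, na, Prod.snd_add])
      (fun c t hc => by rw [mul_div_assoc, nl c _ hc, Prod.smul_snd, smul_eq_mul])
    have e1 : ∀ t, ν (0, t / μ) = (t, x * t + y * star t) := fun t =>
      Prod.ext (by rw [e, mul_div_cancel₀ _ hμ0]) (hx t)
    obtain ⟨θ, hθ⟩ := UF.nt (K := K)
    have hθ' : star θ - θ ≠ 0 := sub_ne_zero.2 hθ
    have a1 : star x = -x := by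
      have := ho.iso _ _ (L1b.nn ho (0, 1 / μ)) (L1b.nn ho (0, θ / μ))
      rw [e1, e1] at this
      simp only [bf, star_add, star_mul', star_star, star_one] at this
      exact eq_neg_of_add_eq_zero_left (mul_right_cancel₀ hθ' (by linear_combination -this))
    have a2 : ∀ t, y * star t ^ 2 = star y * t ^ 2 := fun t => by
      have := h.sq h2 g hg (g⁻¹ (ν (0, t / μ))).2
      rw [L1d.eta ho, e1] at this
      simp only [star_add, star_mul', star_star, a1] at this
      linear_combination this - x * t * star t * h2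
    have a3 : star y = y := by simpa using (a2 1).symm
    have a4 : y = 0 := by
      have := a2 θ
      rw [a3] at this
      refine mul_right_cancel₀ (pow_ne_zero 2 hθ') ?_
      linear_combination this + (y * θ ^ 2 - y * θ * star θ) * h2
    refine ⟨-x, by rw [star_neg, a1], fun s => ?_⟩
    have := hx (μ * s)
    rw [mul_div_cancel_left₀ _ hμ0, a4] at this
    rw [this]; ring
  obtain ⟨l, hl, hl0, hl1⟩ := exists_real_sq (L1b.qq_ne_two h2) hq
  obtain ⟨d, hd, hs⟩ := U5F.exists_skew (K := K)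
  let P : K → K → K × K := fun x y => (0, x) + ν (0, y)
  have ha : ∀ c x y, u1 (c * d) (P x y) = P (x - c * (d * μ) * y) y := fun c x y => by
    simp only [P, u1_apply]
    ext <;> simp [e]
    ring
  have hw : ∀ c : K, c ≠ 0 → star c = c → ∃ w ∈ X, ∀ x y,
      w (P x y) = P (-c * (d * μ) * y) (x / (c * (d * μ))) := fun c hc0 hc => by
    have hr : star (c * (d * μ))⁻¹ = (c * (d * μ))⁻¹ := by
      rw [star_inv₀, star_mul', star_mul', hc, hs, hμ, neg_mul_neg]
    obtain ⟨φ, hφ, e1, -⟩ := ho.mem (-(c * (d * μ))⁻¹) (by rw [star_neg, hr])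
    have hu := h.u (c := c * d) (by rw [star_mul', hc, hs]; ring)
    refine ⟨u1 (c * d) * φ * u1 (c * d), X.mul_mem (X.mul_mem hu hφ) hu, fun x y => ?_⟩
    have e2 : ∀ x y, φ (P x y) = P x (y + (c * (d * μ))⁻¹ * x) := fun x y => by
      rw [e1]
      simp only [P]
      rw [ho.add, L1b.nn ho, na, nl _ _ hr, add_zero, neg_smul]
      abel
    rw [Perm.mul_apply, Perm.mul_apply, ha, e2, ha]
    congr 1 <;> field_simp <;> ring
  obtain ⟨w1, hw1, e1⟩ := hw (-1) (by simp) (by simp)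
  obtain ⟨w2, hw2, e2⟩ := hw l hl0 hl
  have e3 : ∀ x y, (w1 * w2) (P x y) = P (x / l) (l * y) := fun x y => by
    rw [Perm.mul_apply, e2, e1]
    congr 1 <;> field_simp
  have n0 : ν (0, 0) = 0 := by simpa using na 0 0
  have e4 : ∀ x, (w1 * w2) (0, x) = (0, x / l) := fun x => by simpa [P, n0] using e3 x 0
  obtain ⟨c, a, b, σ, hc, -, -, e5⟩ := hb _ (X.mul_mem hw1 hw2) fun s => by rw [e4]
  have a1 : ∀ x, a * star b * σ x = x / l := fun x => by
    simpa [u1_apply, gy] using congrArg Prod.snd ((e5 _).symm.trans (e4 x))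
  have hl2 : l ^ 2 - 1 ≠ 0 := sub_ne_zero.2 hl1
  refine ⟨c * l ^ 2 / (l ^ 2 - 1), by
    rw [star_div₀, star_mul', star_sub, star_pow, hl, hc, star_one]; ring, fun y => ?_⟩
  have a2 := (e5 _).symm.trans (e3 0 y)
  simp only [P, zero_div, nl l y hl, u1_apply, gy, a1, Prod.mk_zero_zero, zero_add, Prod.ext_iff,
    Prod.smul_fst, Prod.smul_snd, smul_eq_mul] at a2
  obtain ⟨a2, a3⟩ := a2
  rw [a2, e] at a3
  field_simp at a3 ⊢
  linear_combination -a3

theorem lin1 (h : Hy1 p X) (hb : Bo1 X) (hq : qq K ≠ 3) (mv : ∃ g ∈ X, ¬ P1 g) :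
    (∀ d : K, star d = -d → l1 d ∈ X) ∧
      ∀ g ∈ X, ∃ c d : K, star c = -c ∧ star d = -d ∧ P1 (l1 d * u1 c * g) := by
  constructor
  · obtain ⟨g0, hg0, hn0⟩ := mv
    obtain ⟨c, hc, e0⟩ := std1 h hb hq hg0 hn0
    have hg : u1 (-c) * g0 ∈ X := X.mul_mem (h.u (by rw [star_neg, hc])) hg0
    have hn : ¬ P1 (u1 (-c) * g0) := hn0
    have e1 : ∀ s, ((u1 (-c) * g0) (0, s)).2 = 0 := fun s => by
      rw [Perm.mul_apply, u1_apply, e0, sub_self]
    generalize u1 (-c) * g0 = g at hg hn e1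
    obtain ⟨ν, ho⟩ := exists_opp h hg
    obtain ⟨μ, hμ0, hμ, e⟩ := scal1 h hb hq (fun g hg => ti1 h hb hq hg) hg hn ho
    have e2 : ∀ s, ν (0, s) = (μ * s, 0) := fun s => Prod.ext (e s) (by
      have := e1 (g⁻¹ (ν (0, s))).2
      rwa [L1d.eta ho] at this)
    have e3 : ∀ v : K × K, ν v = (μ * v.2, 0) := fun v => by
      have a : v = ν (0, v.1 / μ) + (0, v.2) := by rw [e2, mul_div_cancel₀ _ hμ0]; simp
      rw [a, ho.add, L1b.nn ho, zero_add, e2 v.2, e2]
      simp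
    intro d hd
    obtain ⟨φ, hφ, e4, -⟩ := ho.mem (d / μ) (by rw [star_div₀, hd, hμ, neg_div_neg_eq])
    have : l1 d = φ := Equiv.ext fun v => by
      rw [e4, e3, l1_apply]
      ext <;> simp
      field_simp
    rwa [this]
  · intro g hg
    by_cases hn : P1 g
    · exact ⟨0, 0, by simp, by simp, fun s => by simp [l1_apply, u1_apply, hn s]⟩
    obtain ⟨c, hc, e⟩ := std1 h hb hq hg hn
    obtain ⟨d, hd, hs⟩ := U5F.exists_skew (K := K)
    refine ⟨d - c, -d⁻¹, by rw [star_sub, hc, hs]; ring, by rw [star_neg, star_inv₀, hs, inv_neg],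
      fun s => ?_⟩
    simp only [Perm.mul_apply, l1_apply, u1_apply, e]
    field_simp
    ring

end Cfsg.Lib.U4F
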