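import Cfsg.Agent.U4F.B1
import Cfsg.Agent.U4F.L1d

/-! The group induced on `Q / Z` and the torus of the Levi factor `SL₂(q)`. -/

set_option autoImplicit false
set_option linter.unusedSectionVars false

namespace Cfsg.Lib.U4F

open Cfsg Cfsg.FusionSystem Subgroup Equiv Cfsg.Lib.Fus U
open Cfsg.Lib.U5F (UF qq SC sc_refl)

universe u

theorem H1.syl_gen {G : Type*} [Group G] [Finite G] {p : ℕ} [Fact p.Prime] (hG : IsPGroup p G)
    {F : FusionSystem (⊤ : Subgroup G)} (hF : F.IsSaturated p) {P : Subgroup G} [hP : P.Normal]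
    {Y : Type*} (π : G → Y) (hs : ∀ v, ∃ g ∈ P, π g = v)
    (hex : ∀ f, PIso F f P P → ∃ φ : Perm Y, ∀ g ∈ P, π (f g) = φ (π g)) {X A : Subgroup (Perm Y)}
    (hX : ∀ φ, φ ∈ X ↔ ∃ f, PIso F f P P ∧ ∀ g ∈ P, π (f g) = φ (π g))
    (hA : ∀ φ, φ ∈ A ↔ ∃ k, ∀ g ∈ P, π (k * g * k⁻¹) = φ (π g)) : SylIn p A X := by
  have hN : (⊤ : Subgroup G) ≤ normalizer (P : Set G) := by rw [normalizer_eq_top]
  have hT := (sat_sylIn (hG.to_subgroup ⊤) hF
    (isFullyNormalized_of_le_normalizer le_top hN)).subgroupOf_top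
  have uq : ∀ {φ ψ : Perm Y}, (∀ g ∈ P, φ (π g) = ψ (π g)) → φ = ψ := fun e => Equiv.ext fun v => by
    obtain ⟨g, hg, rfl⟩ := hs v
    exact e g hg
  choose r hr using fun α : F.autGroup P => hex _ (piso_pext_of_mem le_top α.2)
  let ρ : F.autGroup P →* Perm Y := MonoidHom.mk' r fun α β => uq fun g hg => by
    rw [← hr _ g hg, Perm.mul_apply, ← hr _ g hg, ← hr _ _ (pext_mem _ hg), coe_mul, map_mul,
      Perm.mul_apply]
  have := hT.map ρ
  rwa [show ((autInducedBy ⊤ P).subgroupOf (F.autGroup P)).map ρ = A from ?_,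
    show (⊤ : Subgroup (F.autGroup P)).map ρ = X from ?_] at this
  · refine le_antisymm ?_ fun φ hφ => ?_
    · rintro _ ⟨α, -, rfl⟩
      exact (hX _).2 ⟨_, piso_pext_of_mem le_top α.2, hr α⟩
    · obtain ⟨f, hf, e⟩ := (hX φ).1 hφ
      exact ⟨⟨hf.aut, hf.aut_mem⟩, trivial, uq fun g hg => by
        rw [← e g hg, ← hf.pext_aut hg]; exact (hr _ g hg).symm⟩
  · refine le_antisymm ?_ fun φ hφ => ?_
    · rintro _ ⟨α, hα, rfl⟩
      obtain ⟨k, -, e⟩ := mem_autInducedBy_pext.1 (mem_subgroupOf.1 hα)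
      exact (hA _).2 ⟨k, fun g hg => by rw [← e g hg]; exact hr α g hg⟩
    · obtain ⟨k, e⟩ := (hA φ).1 hφ
      have hf : PIso F (cj k) P P :=
        (Mor.cj F le_top (mem_top k)).piso_of_maps fun _ hx => hP.conj_mem _ hx k
      exact ⟨⟨hf.aut, hf.aut_mem⟩, mem_subgroupOf.2 (mem_autInducedBy_pext.2
        ⟨k, trivial, fun g hg => hf.pext_aut hg⟩), uq fun g hg => by
          rw [← e g hg, ← cj_apply, ← hf.pext_aut hg]; exact (hr _ g hg).symm⟩

variable {K : Type u} [Field K] [StarRing K] [Finite K] [UF K] {p : ℕ} [Fact p.Prime] [CharP K p]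
variable {F F' : FusionSystem (⊤ : Subgroup (U K))} {f : Perm (U K)}

theorem hy1 (hF : F.IsSaturated p) : Hy1 p (X1 F) where
  add := by
    rintro φ ⟨f, hf, e⟩ v w
    obtain ⟨g, hg, rfl⟩ := exists_Q v
    obtain ⟨h, hh, rfl⟩ := exists_Q w
    rw [← pi1_mul hh, ← e _ (mul_mem hg hh), hf.map_mul hg hh, pi1_mul (hf.maps hh), e g hg, e h hh]
  syl := H1.syl_gen (isP p) hF pi1 exists_Q (fun _ hf => (exists_X1 hf).imp fun _ h => h.2)
    (fun _ => Iff.rfl) fun φ => ⟨by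
      rintro ⟨c, hc, rfl⟩
      exact ⟨⟨0, 0, 0, c, by simp, hc⟩, fun g hg => pi1_conj _ hg⟩, fun ⟨k, e⟩ =>
      ⟨k.x2, k.h2, Equiv.ext fun v => by
        obtain ⟨g, hg, rfl⟩ := exists_Q v
        rw [← e g hg, pi1_conj k hg]⟩⟩
  sim := by
    classical
    rintro φ ⟨f, hf, e⟩
    refine ⟨fun x => if h : star x = -x then (f ⟨0, x, 0, 0, h, by simp⟩).x1 else 0, fun v w => ?_⟩
    obtain ⟨g, hg, rfl⟩ := exists_Q v
    obtain ⟨h, hh, rfl⟩ := exists_Q w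
    have h1 : h⁻¹ * (g * h * g⁻¹) ∈ Z K := cm_Z.2 (by rw [mem_Q.1 hg, mem_Q.1 hh, mul_zero, mul_zero])
    have h2 : f h * f (h⁻¹ * (g * h * g⁻¹)) = f g * f h * (f g)⁻¹ := by
      rw [← hf.map_mul hh (B1.Z_le_Q h1), mul_inv_cancel_left, hf.map_conj hg hh]
    simp only [dif_pos (bf_skew _ _)]
    rw [← e g hg, ← e h hh, ← cm_x1_Q (hf.maps hg) (hf.maps hh), ← h2, inv_mul_cancel_left]
    congr 2
    exact Z_ext h1 ⟨rfl, rfl, rfl⟩ (cm_x1_Q hg hh)
  sq := by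
    rintro h2 φ ⟨f, hf, e⟩ s
    have hg : (⟨0, 0, s, 0, by simp, by simp⟩ : U K) ∈ Q K := rfl
    have h1 := hf.map_mul hg hg
    have h3 := e _ hg
    rw [show (⟨0, 0, s, 0, by simp, by simp⟩ : U K) * ⟨0, 0, s, 0, by simp, by simp⟩ = 1 by
      ext <;> simp; linear_combination s * h2, show f 1 = 1 from left_eq_mul.1 (by
        rw [← hf.map_mul (one_mem _) (one_mem _), mul_one])] at h1
    have h4 := congrArg U.x1 h1
    rw [one_x1, mul_x1, mem_Q.1 (hf.maps hg)] at h4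
    rw [show (0, s) = pi1 (⟨0, 0, s, 0, by simp, by simp⟩ : U K) from rfl, ← h3]
    simp only [pi1]
    linear_combination -h4 - (f ⟨0, 0, s, 0, by simp, by simp⟩).x1 * h2

theorem piso_gam {a b : K} {σ : K ≃+* K} {hσ : SC σ} (ha : a ≠ 0) (hb : b ≠ 0)
    (h : Mor F ⊤ (gam a b σ hσ)) : PIso F (gamA a b σ hσ ha hb).toEquiv ⊤ ⊤ ∧
      PIso F (gamA a b σ hσ ha hb).toEquiv (Q K) (Q K) ∧
      PIso F (gamA a b σ hσ ha hb).toEquiv (V K) (V K) := by
  have h' : Mor F ⊤ ((gamA a b σ hσ ha hb).toEquiv : Perm (U K)) := h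
  exact ⟨h'.piso_top, (h'.restrict le_top).piso_of_maps fun _ hx => B1.gam_mem (hσ := hσ) hx,
    (h'.restrict le_top).piso_of_maps fun x hx => show a / b * σ x.t = 0 by simp [mem_V.1 hx]⟩

theorem gy_mem {a b : K} {σ : K ≃+* K} {hσ : SC σ} (ha : a ≠ 0) (hb : b ≠ 0)
    (h : Mor F ⊤ (gam a b σ hσ)) : ∃ φ ∈ X1 F, ∀ v, φ v = gy a b σ v := by
  obtain ⟨φ, hφ, e⟩ := exists_X1 (piso_gam ha hb h).2.1
  refine ⟨φ, hφ, fun v => ?_⟩
  obtain ⟨g, hg, rfl⟩ := exists_Q v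
  exact (e g hg).symm

theorem torY (hF : F.IsSaturated p) (hs : Std F) {a b : K} {σ : K ≃+* K} (hσ : SC σ) (ha : a ≠ 0)
    (hb : b ≠ 0) (h : ∃ φ ∈ X1 F, ∀ v, φ v = gy a b σ v) : Mor F ⊤ (gam a b σ hσ) := by
  obtain ⟨φ, ⟨f, hf, e⟩, hφ⟩ := h
  obtain ⟨k, hk, ek⟩ := ext1 hF hf e fun c => by simp [hφ, gy]
  obtain ⟨u, a', b', σ', hσ', ha', hb', eu⟩ := hs k hk
  have hg : Mor F ⊤ (gam a' b' σ' hσ') :=
    (hk.mor.conj_comp (mem_top u⁻¹)).congr fun x _ => by rw [eu]; group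
  have key : ∀ v, gy a b σ v = u1 u.x2 (gy a' b' σ' v) := fun v => by
    obtain ⟨g, hg, rfl⟩ := exists_Q v
    rw [← hφ, ← e g hg, ek g hg, eu, pi1_conj _ (B1.gam_mem hg), pi1_gam]
  have k1 : ∀ t, a / b * σ t = a' / b' * σ' t := fun t => congrArg Prod.fst (key (t, 0))
  have k2 : a * star b = a' * star b' := by simpa [gy, u1_apply] using key (0, 1)
  have k3 : a / b = a' / b' := by simpa using k1 1
  have k4 : ∀ t, σ' t = σ t := fun t => mul_left_cancel₀ (div_ne_zero ha hb) (by rw [k1, k3])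
  have k5 : b * star b = b' * star b' := mul_left_cancel₀ (div_ne_zero ha hb) (by
    conv_rhs => rw [k3]
    field_simp
    exact k2)
  have k6 : a * star a = a' * star a' := by
    have e1 : a = a / b * b := by field_simp
    have e2 : a' = a / b * b' := by rw [k3]; field_simp
    rw [e1, e2, star_mul', star_mul']
    linear_combination (a / b * star (a / b)) * k5
  exact hg.congr fun x _ => by ext <;> simp [k2, k3, k4, k5, k6]

theorem l1_mem (hF : F.IsSaturated p) (hs : Std F) (hq : qq K ≠ 3) (hE : F.IsEssential p (Q K))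
    (d : K) (hd : star d = -d) : l1 d ∈ X1 F :=
  (lin1 (hy1 hF) (bo1 hF hs) hq (mv1 hF hE)).1 d hd

theorem tor1 (hF : F.IsSaturated p) (hs : Std F) (hq : qq K ≠ 3) (hE : F.IsEssential p (Q K)) :
    Tor1 F := fun _ hm hr =>
  torY hF hs sc_refl one_ne_zero hm (tor_of_l1 (hy1 hF).syl.le (l1_mem hF hs hq hE) hm hr)

end Cfsg.Lib.U4F
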