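import Cfsg.Agent.U4F.Bas

/-! Groups of additive permutations of `H K` with Sylow subgroup `T2 K`: basic facts. -/

set_option autoImplicit false
set_option linter.unusedSectionVars false

namespace Cfsg.Lib.U4F

open Cfsg Cfsg.FusionSystem Subgroup Equiv Cfsg.Lib.Fus
open Cfsg.Lib.U5F (UF qq SC sc_refl Tr Iv LTr Sec Loc SEm MinL)

universe u v

variable {K : Type u} [Field K] [StarRing K] [Finite K] [UF K] {p : ℕ} [Fact p.Prime] [CharP K p]
variable {X : Subgroup (Perm (H K))} {g k : Perm (H K)} {v w : H K}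

theorem Hy2.u (h : Hy2 p X) (t : K) : u2 t ∈ X := h.syl.le ⟨t, rfl⟩

theorem u2_inj {t t' : K} (h : u2 t = u2 t') : t = t' := by
  obtain ⟨d, hd, hs⟩ := U5F.exists_skew (K := K)
  have e : (u2 t ⟨0, 0, d, by simp, hs⟩).s = (u2 t' ⟨0, 0, d, by simp, hs⟩).s := by rw [h]
  simp only [u2_s, zero_add] at e
  exact mul_right_cancel₀ hd e

theorem n2_u2 (t : K) : N2 (u2 t) := fun t' =>
  ⟨t', by rw [← u2_neg, ← u2_add, ← u2_add]; congr 1; ring⟩

theorem N2.mul (hg : N2 g) (hk : N2 k) : N2 (g * k) := fun t => by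
  obtain ⟨t1, h1⟩ := hk t
  obtain ⟨t2, h2⟩ := hg t1
  exact ⟨t2, by rw [← h2, ← h1]; group⟩

theorem N2.inv (hg : N2 g) : N2 g⁻¹ := fun t => by
  choose f hf using hg
  have hi : Function.Injective f := fun a b e => by
    have e' : g * u2 a * g⁻¹ = g * u2 b * g⁻¹ := by rw [hf, hf, e]
    exact u2_inj (mul_left_cancel (mul_right_cancel e'))
  obtain ⟨t0, rfl⟩ := Finite.surjective_of_injective hi t
  exact ⟨t0, by rw [← hf]; group⟩

theorem n2_gh {a b : K} {σ : K ≃+* K} {hσ : SC σ} (ha : a ≠ 0) (hb : b ≠ 0)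
    (e : ∀ v, g v = gh a b σ hσ v) (t : K) : g * u2 t * g⁻¹ = u2 (a / b * σ t) := by
  have hb' : star b ≠ 0 := star_ne_zero.2 hb
  rw [mul_inv_eq_iff_eq_mul]
  refine Equiv.ext fun v => ?_
  rw [Perm.mul_apply, Perm.mul_apply, e, e]
  ext <;> simp only [gh_x1, gh_s, gh_x2, u2_x1, u2_s, u2_x2, map_add, map_sub,
    map_mul, hσ _, star_mul', star_div₀, star_star] <;> field_simp

theorem iz_iff : IZ v ↔ ∀ t, u2 t v = v := by
  constructor
  · rintro ⟨h1, h2⟩ t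
    ext <;> simp [h1, h2]
  · intro h
    have h2 : v.x2 = 0 := by simpa using congrArg H.s (h 1)
    refine ⟨(U5F.sep (a := -star v.s) (b := v.s) fun t => ?_).2, h2⟩
    have e := congrArg H.x1 (h t)
    rw [u2_x1, h2] at e
    linear_combination e

theorem N2.iz (hg : N2 g) (hv : IZ v) : IZ (g v) := iz_iff.2 fun t => by
  obtain ⟨t0, h⟩ := hg.inv t
  have e : u2 t = g * u2 t0 * g⁻¹ := by rw [← h]; group
  rw [e, Perm.mul_apply, Perm.mul_apply, perm_inv_apply, iz_iff.1 hv]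

namespace L2a

/-- The hyperplane `x2 = 0` is generated by the commutators with the root group. -/
theorem gen (P : H K → Prop) (ha : ∀ v w, P v → P w → P (v + w)) (h : ∀ t v, P (u2 t v - v))
    (hw : w.x2 = 0) : P w := by
  obtain ⟨d, hd, hs⟩ := U5F.exists_skew (K := K)
  obtain ⟨y, hy⟩ := U5F.exists_im (c := w.x1 - w.s / d * star (w.s / d) * d) (by
    rw [star_sub, star_mul', star_mul', star_star, w.h1, hs]; ring)
  have e : w = (u2 (w.s / d) ⟨0, 0, d, by simp, hs⟩ - ⟨0, 0, d, by simp, hs⟩) +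
      (u2 1 ⟨0, y, 0, by simp, by simp⟩ - ⟨0, y, 0, by simp, by simp⟩) := by
    ext
    · simp only [H.add_x1, H.sub_x1, u2_x1, star_one, star_zero]; linear_combination -hy
    · simp only [H.add_s, H.sub_s, u2_s]; field_simp; ring
    · simp [hw]
  rw [e]
  exact ha _ _ (h _ _) (h _ _)

theorem map_sub' (ha : ∀ v w, g (v + w) = g v + g w) (v w : H K) : g (v - w) = g v - g w := by
  rw [eq_sub_iff_add_eq, ← ha, sub_add_cancel]

theorem p_smul (p : ℕ) [CharP K p] (v : H K) : p • v = 0 := by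
  have h : ∀ n : ℕ, (n • v).x1 = n * v.x1 ∧ (n • v).s = n * v.s ∧ (n • v).x2 = n * v.x2 := by
    intro n
    induction n with
    | zero => simp
    | succ n ih =>
      rw [succ_nsmul, H.add_x1, H.add_s, H.add_x2, ih.1, ih.2.1, ih.2.2]
      push_cast
      exact ⟨by ring, by ring, by ring⟩
  obtain ⟨h1, h2, h3⟩ := h p
  rw [CharP.cast_eq_zero, zero_mul] at h1 h2 h3
  exact H.ext h1 h2 h3

theorem pow_fix (p : ℕ) [CharP K p] (ha : ∀ v w, g (v + w) = g v + g w)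
    (h : g (g v - v) = g v - v) : (g ^ p) v = v := by
  have h0 : g 0 = 0 := by simpa using map_sub' ha 0 0
  have h1 : ∀ n : ℕ, g (n • (g v - v)) = n • (g v - v) := by
    intro n
    induction n with
    | zero => simpa using h0
    | succ n ih => rw [succ_nsmul, ha, ih, h]
  have h2 : ∀ n : ℕ, (g ^ n) v = v + n • (g v - v) := by
    intro n
    induction n with
    | zero => simp
    | succ n ih => rw [pow_succ', Perm.mul_apply, ih, ha, h1, succ_nsmul]; abel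
  rw [h2, p_smul, add_zero]

/-- Two Sylow subgroups which meet a common subgroup. -/
theorem key (h : Hy2 p X) (hg : g ∈ X) {C : Subgroup (Perm (H K))} (hC : C ≤ X)
    (h1 : ∀ t, g * u2 t * g⁻¹ ∈ C) {t : K} (ht : t ≠ 0) (h2 : u2 t ∈ C) :
    ∃ c ∈ C, N2 (g⁻¹ * c) := by
  have hS : SylIn p ((T2 K).map (MulAut.conj g).toMonoidHom) C :=
    (h.syl.conj (le_normalizer hg)).mono (by rintro _ ⟨_, ⟨t, rfl⟩, rfl⟩; exact h1 t) hC
  obtain ⟨c, hc, e⟩ := hS.exists_conj (U := zpowers (u2 t)) (zpowers_le.2 h2)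
    (h.syl.pgroup.to_le (zpowers_le.2 ⟨t, rfl⟩))
  obtain ⟨_, ⟨t', rfl⟩, e'⟩ := e _ (mem_zpowers _)
  have e' : g * u2 t' * g⁻¹ = c * u2 t * c⁻¹ := e'
  refine ⟨c, hc, h.ti _ (X.mul_mem (X.inv_mem hg) (hC hc)) t t' ht ?_⟩
  calc _ = g⁻¹ * (c * u2 t * c⁻¹) * g := by group
    _ = _ := by rw [← e']; group

/-- An additive character of `K` is trivial on some line. -/
theorem line (χ : AddChar K ℂ) : ∃ t : K, t ≠ 0 ∧ ∀ c, star c = -c → χ (t * c) = 1 := by
  classical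
  let S : AddSubgroup K :=
    { carrier := {c | star c = -c}
      zero_mem' := by simp
      add_mem' := fun {a b} (ha : star a = -a) (hb : star b = -b) => by
        change star (a + b) = -(a + b); rw [star_add, ha, hb]; ring
      neg_mem' := fun {a} (ha : star a = -a) => by
        change star (-a) = -(-a); rw [star_neg, ha] }
  haveI := Fintype.ofFinite S
  haveI := Fintype.ofFinite K
  let Φ : K → AddChar S ℂ := fun t =>
    χ.compAddMonoidHom ((AddMonoidHom.mulLeft t).comp S.subtype)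
  have hc : Fintype.card (AddChar S ℂ) < Fintype.card K := by
    rw [AddChar.card_eq, ← Nat.card_eq_fintype_card, ← Nat.card_eq_fintype_card, U5F.card_K (K := K)]
    have e : Nat.card S = qq K := U5F.card_skew
    have := U5F.two_le_qq (K := K)
    rw [e]; nlinarith
  obtain ⟨a, b, hab, e⟩ := Fintype.exists_ne_map_eq_of_card_lt Φ hc
  refine ⟨a - b, sub_ne_zero.2 hab, fun c hc => ?_⟩
  have e' : χ (a * c) = χ (b * c) := DFunLike.congr_fun e ⟨c, hc⟩
  rw [sub_mul, AddChar.map_sub_eq_div, e', div_self]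
  exact (χ.val_isUnit _).ne_zero

end L2a

open L2a

theorem N2.x2 (ha : ∀ v w, g (v + w) = g v + g w) (hg : N2 g) (hv : v.x2 = 0) : (g v).x2 = 0 := by
  refine gen (fun v => (g v).x2 = 0) (fun v w a b => by rw [ha, H.add_x2, a, b, add_zero])
    (fun t v => ?_) hv
  obtain ⟨t', e⟩ := hg t
  have e' : g (u2 t v) = u2 t' (g v) := by
    rw [← e, Perm.mul_apply, Perm.mul_apply, perm_inv_apply]
  rw [map_sub' ha, e', H.sub_x2, u2_x2, sub_self]

theorem exists_u2 (h2 : v.x2 = w.x2) (h0 : v.x2 ≠ 0) (hq : qd v = qd w) : ∃ t, u2 t v = w := by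
  have hs : (u2 ((w.s - v.s) / v.x2) v).s = w.s := by rw [u2_s]; field_simp; ring
  refine ⟨(w.s - v.s) / v.x2, H.ext ?_ hs h2⟩
  rw [← qd_u2 ((w.s - v.s) / v.x2) v, qd, qd, hs, u2_x2, ← h2] at hq
  exact mul_right_cancel₀ h0 (add_right_cancel hq)

theorem mem_T2_of_p {X : Subgroup (Perm (H K))} (h : SylIn p (T2 K) X) (hg : g ∈ X) (hn : N2 g)
    (hp : ∃ n, g ^ p ^ n = 1) : g ∈ T2 K := by
  obtain ⟨n, hp⟩ := hp
  refine h.le_of_normalizes (U := zpowers g) (zpowers_le.2 hg) ?_ (zpowers_le.2 ?_) (mem_zpowers g)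
  · rintro ⟨_, m, rfl⟩
    refine ⟨n, Subtype.ext ?_⟩
    change (g ^ m) ^ p ^ n = 1
    rw [← zpow_natCast, ← zpow_mul, mul_comm, zpow_mul, zpow_natCast, hp, one_zpow]
  · refine mem_normalizer_iff.2 fun x => ⟨?_, ?_⟩
    · rintro ⟨t, rfl⟩
      exact hn t
    · rintro ⟨t, e⟩
      obtain ⟨t', e'⟩ := hn.inv t
      exact ⟨t', by rw [← e', ← e]; group⟩

theorem zw (h : Hy2 p X) (hg : g ∈ X) (hv : IZ v) (hx : (g v).x2 = 0) : IZ (g v) := by
  by_contra hn
  have hs : (g v).s ≠ 0 := fun e => hn ⟨e, hx⟩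
  obtain ⟨c, hc, e⟩ := key h hg (C := X ⊓ MulAction.stabilizer (Perm (H K)) (g v)) inf_le_left
    (fun t => ⟨X.mul_mem (X.mul_mem hg (h.u t)) (X.inv_mem hg), by
      change (g * u2 t * g⁻¹) (g v) = g v
      rw [Perm.mul_apply, Perm.mul_apply, perm_inv_apply, iz_iff.1 hv]⟩) hs
    ⟨h.u _, by
      change u2 (g v).s (g v) = g v
      ext <;> simp [hx]⟩
  have e1 : c (g v) = g v := hc.2
  have e2 := e.inv.iz hv
  rw [mul_inv_rev, inv_inv, Perm.mul_apply, ← e1, perm_inv_apply] at e2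
  exact hn e2

theorem wz (h : Hy2 p X) (hg : g ∈ X) (a : K) :
    ∃ w : H K, w.s = a ∧ w.x2 = 0 ∧ (g⁻¹ w).x2 = 0 := by
  by_contra hn
  have hi := h.add _ (X.inv_mem hg)
  let M : AddSubgroup (H K) :=
    { carrier := {v | ∃ z, IZ z ∧ (g⁻¹ (v - z)).x2 = 0}
      zero_mem' := ⟨0, ⟨rfl, rfl⟩, by rw [map_sub' hi, sub_self]; rfl⟩
      add_mem' := by
        rintro v w ⟨z, hz, e⟩ ⟨z', hz', e'⟩
        refine ⟨z + z', ⟨by simp [hz.1, hz'.1], by simp [hz.2, hz'.2]⟩, ?_⟩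
        rw [add_sub_add_comm, hi, H.add_x2, e, e', add_zero]
      neg_mem' := by
        rintro v ⟨z, hz, e⟩
        refine ⟨-z, ⟨by simp [hz.1], by simp [hz.2]⟩, ?_⟩
        have e0 : -v - -z = 0 - 0 - (v - z) := by abel
        rw [e0, map_sub' hi, map_sub' hi, sub_self, H.sub_x2, e]; simp }
  let j : K →+ H K := AddMonoidHom.mk' (fun s => ⟨0, s, 0, by simp, by simp⟩) fun a b => by
    ext <;> simp
  have h0 : QuotientAddGroup.mk' M (j a) ≠ 0 := fun e => by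
    obtain ⟨z, hz, e'⟩ := (QuotientAddGroup.eq_zero_iff _).1 e
    exact hn ⟨j a - z, by simp [j, hz.1], by simp [j, hz.2], e'⟩
  obtain ⟨ψ, hψ⟩ := (AddChar.exists_apply_ne_zero (α := H K ⧸ M)).2 h0
  let χ : AddChar (H K) ℂ := ψ.compAddMonoidHom (QuotientAddGroup.mk' M)
  have hM : ∀ v ∈ M, χ v = 1 := fun v hv => by
    change ψ (QuotientAddGroup.mk' M v) = 1
    rw [show QuotientAddGroup.mk' M v = 0 from (QuotientAddGroup.eq_zero_iff _).2 hv,
      AddChar.map_zero_eq_one]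
  have hs : ∀ v w, χ (v - w) = 1 → χ v = χ w := fun v w e => by
    rw [← sub_add_cancel v w, AddChar.map_add_eq_mul, e, one_mul]
  obtain ⟨t, ht, e⟩ := line (χ.compAddMonoidHom j)
  let C : Subgroup (Perm (H K)) :=
    { carrier := {x | x ∈ X ∧ ∀ v, χ (x v) = χ v}
      one_mem' := ⟨X.one_mem, fun _ => rfl⟩
      mul_mem' := fun {x y} hx hy => ⟨X.mul_mem hx.1 hy.1, fun v => by
        rw [Perm.mul_apply, hx.2, hy.2]⟩
      inv_mem' := fun {x} hx => ⟨X.inv_mem hx.1, fun v => by rw [← hx.2, perm_apply_inv]⟩ }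
  have h1 : ∀ t, g * u2 t * g⁻¹ ∈ C := fun t =>
    ⟨X.mul_mem (X.mul_mem hg (h.u t)) (X.inv_mem hg), fun v => hs _ _ (hM _ ⟨0, ⟨rfl, rfl⟩, by
      rw [sub_zero, map_sub' hi, Perm.mul_apply, Perm.mul_apply, perm_inv_apply, H.sub_x2, u2_x2,
        sub_self]⟩)⟩
  have h2 : u2 t ∈ C := ⟨h.u t, fun v => hs _ _ (by
    have e1 : χ (j (t * v.x2)) = 1 := e _ v.h2
    rw [← e1]
    refine hs _ _ (hM _ ⟨u2 t v - v - j (t * v.x2), ⟨by simp [j], by simp [j]⟩, ?_⟩)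
    rw [map_sub' hi, sub_self]; rfl)⟩
  obtain ⟨c, hc, hN⟩ := key h hg (C := C) (fun x hx => hx.1) h1 ht h2
  refine hψ (gen (fun v => χ v = 1) (fun v w a b => by rw [AddChar.map_add_eq_mul, a, b, one_mul])
    (fun t v => ?_) (w := j a) rfl)
  obtain ⟨t', e'⟩ := hN t
  have e1 : u2 t = c⁻¹ * (g * u2 t' * g⁻¹) * c := by rw [← e']; group
  have e2 : u2 t ∈ C := e1 ▸ C.mul_mem (C.mul_mem (C.inv_mem hc) (h1 t')) hc
  rw [AddChar.map_sub_eq_div, e2.2, div_self]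
  exact (χ.val_isUnit _).ne_zero

namespace L2a

theorem x2_of_iz (h : Hy2 p X) (hg : g ∈ X) (hz : ∀ v, IZ v → IZ (g v)) (hv : v.x2 = 0) :
    (g v).x2 = 0 := by
  obtain ⟨w, h1, h2, h3⟩ := wz h (X.inv_mem hg) v.s
  rw [inv_inv] at h3
  have e := (hz (v - w) ⟨by simp [h1], by simp [hv, h2]⟩).2
  rwa [map_sub' (h.add g hg), H.sub_x2, h3, sub_zero] at e

end L2a

theorem n2_of_iz (h : Hy2 p X) (hg : g ∈ X) (hz : ∀ v, IZ v → IZ (g v)) : N2 g := by
  have hz' : ∀ v, IZ v → IZ (g⁻¹ v) := fun v hv => Perm.perm_symm_on_of_perm_on_finite hz hv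
  let C : Subgroup (Perm (H K)) :=
    { carrier := {x | x ∈ X ∧ (∀ v, (x v).x2 = v.x2) ∧ (∀ v, v.x2 = 0 → (x v).s = v.s) ∧
        ∀ v, IZ v → x v = v}
      one_mem' := ⟨X.one_mem, fun _ => rfl, fun _ _ => rfl, fun _ _ => rfl⟩
      mul_mem' := by
        rintro x y ⟨a0, a1, a2, a3⟩ ⟨b0, b1, b2, b3⟩
        refine ⟨X.mul_mem a0 b0, fun v => ?_, fun v hv => ?_, fun v hv => ?_⟩ <;> rw [Perm.mul_apply]
        · rw [a1, b1]
        · rw [a2 _ ((b1 v).trans hv), b2 v hv]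
        · rw [b3 v hv, a3 v hv]
      inv_mem' := by
        rintro x ⟨a0, a1, a2, a3⟩
        have b1 : ∀ v, (x⁻¹ v).x2 = v.x2 := fun v => by rw [← a1, perm_apply_inv]
        refine ⟨X.inv_mem a0, b1, fun v hv => ?_, fun v hv => ?_⟩
        · rw [← a2 _ ((b1 v).trans hv), perm_apply_inv]
        · rw [Perm.inv_eq_iff_eq, a3 v hv] }
  have hP : IsPGroup p C := by
    rintro ⟨x, hx⟩
    refine ⟨2, Subtype.ext ?_⟩
    change x ^ p ^ 2 = 1
    obtain ⟨b0, b1, -, -⟩ := C.pow_mem hx p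
    obtain ⟨a0, a1, a2, a3⟩ := hx
    rw [pow_two, pow_mul]
    refine Equiv.ext fun v => pow_fix p (h.add _ b0) ?_
    have e : ((x ^ p) v - v).x2 = 0 := by rw [H.sub_x2, b1, sub_self]
    exact pow_fix p (h.add _ a0) (a3 _ ⟨by rw [H.sub_s, a2 _ e, sub_self],
      by rw [H.sub_x2, a1, sub_self]⟩)
  have hT : C = T2 K := h.syl.max C (by
    rintro _ ⟨t, rfl⟩
    exact ⟨h.u t, fun _ => rfl, fun v hv => by simp [hv], fun v hv => iz_iff.1 hv t⟩)
    (fun x hx => hx.1) hP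
  intro t
  have e : ∀ v, (g * u2 t * g⁻¹) v - v = g (u2 t (g⁻¹ v) - g⁻¹ v) := fun v => by
    rw [map_sub' (h.add g hg), perm_apply_inv, Perm.mul_apply, Perm.mul_apply]
  have hm : g * u2 t * g⁻¹ ∈ C := by
    refine ⟨X.mul_mem (X.mul_mem hg (h.u t)) (X.inv_mem hg), fun v => ?_, fun v hv => ?_,
      fun v hv => ?_⟩
    · rw [← sub_eq_zero, ← H.sub_x2, e]
      exact x2_of_iz h hg hz (by simp)
    · rw [← sub_eq_zero, ← H.sub_s, e]
      have e' := x2_of_iz h (X.inv_mem hg) hz' hv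
      exact (hz _ ⟨by rw [H.sub_s, u2_s, e']; ring, by simp⟩).1
    · rw [Perm.mul_apply, Perm.mul_apply, iz_iff.1 (hz' v hv), perm_apply_inv]
  rw [hT] at hm
  exact hm

end Cfsg.Lib.U4F
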