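import Cfsg.Agent.U4F.Ess
import Cfsg.Agent.U4F.L2a
import Cfsg.Agent.U4F.H1

/-! The automorphisms of `V` in a fusion system over `U K`. -/

set_option autoImplicit false
set_option linter.unusedSectionVars false

namespace Cfsg.Lib.U4F

open Cfsg Cfsg.FusionSystem Subgroup Equiv Cfsg.Lib.Fus U
open Cfsg.Lib.U5F (UF qq SC sc_refl)

universe u

variable {K : Type u} [Field K] [StarRing K] [Finite K] [UF K] {p : ℕ} [Fact p.Prime] [CharP K p]
  {F F' : FusionSystem (⊤ : Subgroup (U K))} {f : Perm (U K)}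

namespace B2

/-- The inverse of `pi2`. -/
def jv (v : H K) : U K := ⟨0, v.x1, v.s, v.x2, v.h1, v.h2⟩

theorem jv_mem (v : H K) : jv v ∈ V K := rfl

theorem jv_pi2 {g : U K} (hg : g ∈ V K) : jv (pi2 g) = g := pi2_inj (jv_mem _) hg rfl

theorem conj_eq {P : Subgroup (U K)} {k : U K → U K} (hk : Mor F P k) (hP : V K ≤ P)
    (hm : ∀ g ∈ V K, k g ∈ V K) {φ : Perm (H K)} (e : ∀ g ∈ V K, pi2 (k g) = φ (pi2 g))
    {g : U K} (hg : g ∈ P) : φ * u2 g.t * φ⁻¹ = u2 (k g).t := by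
  rw [mul_inv_eq_iff_eq_mul]
  refine Equiv.ext fun v => ?_
  obtain ⟨x, hx, rfl⟩ := exists_V v
  rw [Perm.mul_apply, Perm.mul_apply, ← pi2_conj g hx,
    ← e _ ((inferInstance : (V K).Normal).conj_mem x hx g), hk.map_conj hg (hP hx),
    pi2_conj _ (hm x hx), e x hx]

theorem lt_top : V K < ⊤ := lt_top_iff_ne_top.2 fun e =>
  one_ne_zero (show (⟨1, 0, 0, 0, by simp, by simp⟩ : U K) ∈ V K from e ▸ mem_top _)

end B2

open B2

theorem exists_X2 (hf : PIso F f (V K) (V K)) :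
    ∃ φ ∈ X2 F, ∀ g ∈ V K, pi2 (f g) = φ (pi2 g) := by
  let φ : Perm (H K) := ⟨fun v => pi2 (f (jv v)), fun v => pi2 (f⁻¹ (jv v)),
    fun v => by simp only [jv_pi2 (hf.maps (jv_mem v)), perm_inv_apply]; rfl,
    fun v => by simp only [jv_pi2 (hf.inv_maps (jv_mem v)), perm_apply_inv]; rfl⟩
  have e : ∀ g ∈ V K, pi2 (f g) = φ (pi2 g) := fun g hg => by
    change _ = pi2 (f (jv (pi2 g)))
    rw [jv_pi2 hg]
  exact ⟨φ, ⟨f, hf, e⟩, e⟩

theorem add_X2 {φ : Perm (H K)} (h : φ ∈ X2 F) (v w : H K) : φ (v + w) = φ v + φ w := by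
  obtain ⟨f, hf, e⟩ := h
  obtain ⟨g, hg, rfl⟩ := exists_V v
  obtain ⟨h, hh, rfl⟩ := exists_V w
  rw [← pi2_mul hg, ← e _ (mul_mem hg hh), hf.map_mul hg hh, pi2_mul (hf.maps hg), e g hg, e h hh]

theorem syl_X2 (hF : F.IsSaturated p) : SylIn p (T2 K) (X2 F) :=
  H1.syl_gen (isP p) hF pi2 exists_V (fun _ hf => (exists_X2 hf).imp fun _ h => h.2)
    (fun _ => Iff.rfl) fun φ => ⟨by
      rintro ⟨c, rfl⟩
      exact ⟨⟨c, 0, 0, 0, by simp, by simp⟩, fun g hg => pi2_conj _ hg⟩, fun ⟨k, e⟩ =>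
      ⟨k.t, Equiv.ext fun v => by
        obtain ⟨g, hg, rfl⟩ := exists_V v
        rw [← e g hg, pi2_conj k hg]⟩⟩

theorem ext_comm (hF : F.IsSaturated p) (hf : PIso F f (V K) (V K)) {φ : Perm (H K)}
    (e : ∀ g ∈ V K, pi2 (f g) = φ (pi2 g)) {P : Subgroup (U K)} (hP : V K ≤ P)
    (h : ∀ g ∈ P, ∃ t', φ * u2 g.t * φ⁻¹ = u2 t') :
    ∃ k : Perm (U K), Mor F P k ∧ (∀ g ∈ V K, k g = f g) ∧
      ∀ g ∈ P, φ * u2 g.t * φ⁻¹ = u2 (k g).t := by
  have hV : (V K).Normal := inferInstance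
  have hN : (⊤ : Subgroup (U K)) ≤ normalizer (V K : Set (U K)) := by rw [normalizer_eq_top]
  obtain ⟨k, hk, ek⟩ := hf.exists_ext_le (R := P) (sat_receptive (isP_top p) hF
    (isFullyNormalized_of_le_normalizer le_top hN)) fun g hg => by
      obtain ⟨t', ht⟩ := h g hg
      refine ⟨trivial, hN trivial, ⟨t', 0, 0, 0, by simp, by simp⟩, trivial, fun x hx => ?_⟩
      refine pi2_inj (hf.maps (hV.conj_mem x hx g)) (hV.conj_mem _ (hf.maps hx) _) ?_
      rw [e _ (hV.conj_mem x hx g), pi2_conj g hx, pi2_conj _ (hf.maps hx), e x hx]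
      change _ = u2 t' _
      rw [← ht, Perm.mul_apply, Perm.mul_apply, perm_inv_apply]
  exact ⟨k, hk, ek, fun g hg => conj_eq hk hP (fun x hx => ek x hx ▸ hf.maps hx)
    (fun x hx => by rw [ek x hx, e x hx]) hg⟩

theorem ext2 (hF : F.IsSaturated p) (hf : PIso F f (V K) (V K)) {φ : Perm (H K)}
    (e : ∀ g ∈ V K, pi2 (f g) = φ (pi2 g)) (h : N2 φ) : Ext F (V K) f := by
  obtain ⟨k, hk, ek, -⟩ := ext_comm hF hf e le_top fun g _ => h g.t
  exact ⟨k, hk.piso_top, fun g hg => (ek g hg).symm⟩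

theorem n2_of_ext (hf : PIso F f ⊤ ⊤) {φ : Perm (H K)}
    (e : ∀ g ∈ V K, pi2 (f g) = φ (pi2 g)) : N2 φ := fun t =>
  ⟨_, conj_eq hf.mor le_top (fun g hg => (top_V hf g).2 hg) e
    (g := ⟨t, 0, 0, 0, by simp, by simp⟩) trivial⟩

theorem hy2 (hF : F.IsSaturated p) (he : Hess F p) : Hy2 p (X2 F) where
  add := fun _ h => add_X2 h
  syl := syl_X2 hF
  ti := by
    rintro φ ⟨f, hf, e⟩ t t' ht h
    let P : Subgroup (U K) := sub K (fun g => φ * u2 g.t * φ⁻¹ ∈ T2 K)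
      (by rw [one_t, u2_zero, mul_one, mul_inv_cancel]; exact one_mem _)
      (fun g h a b => by
        have := mul_mem a b
        rw [mul_t, u2_add]
        convert this using 1
        group)
      fun g a => by
        have := inv_mem a
        rw [inv_t, u2_neg]
        convert this using 1
        group
    have hP : V K ≤ P := fun g hg => by
      change φ * u2 g.t * φ⁻¹ ∈ T2 K
      rw [mem_V.1 hg, u2_zero, mul_one, mul_inv_cancel]; exact one_mem _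
    obtain ⟨k, hk, ek, -⟩ := ext_comm hF hf e hP fun g hg => hg
    obtain ⟨k', hk', ek'⟩ := ext_of_lt hF he (lt_of_le_of_ne hP fun e1 => ht
      (e1.ge (show (⟨t, 0, 0, 0, by simp, by simp⟩ : U K) ∈ P from ⟨t', h⟩))) hk
    exact n2_of_ext hk' fun g hg => by rw [← ek' g (hP hg), ek g hg, e g hg]

theorem mv2 (hF : F.IsSaturated p) (hE : F.IsEssential p (V K)) : ∃ g ∈ X2 F, ¬ N2 g := by
  by_contra hn
  refine closure_extendable_ne_of_isEssential (isP_top p) hF hE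
    (le_antisymm ((closure_le _).2 fun _ h => h.mem) fun α hα => subset_closure ?_)
  have hf := piso_pext_of_mem le_top hα
  obtain ⟨φ, hφ, e⟩ := exists_X2 hf
  obtain ⟨k, hk, ek⟩ := ext2 hF hf e (by_contra fun h => hn ⟨φ, hφ, h⟩)
  exact ⟨⊤, k, B2.lt_top, hk.mor, fun x hx => (ek x hx).symm⟩

theorem low2_iff : Low2 F ↔ ∀ r, l2 r ∈ X2 F :=
  ⟨fun h r => ⟨lo2 r, h r, fun g _ => pi2_lo2 r g⟩, fun h r => by
    obtain ⟨f, hf, e⟩ := h r
    exact hf.congr fun x hx => pi2_inj (hf.maps hx) ((lo2_mem r x).2 hx)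
      ((e x hx).trans (pi2_lo2 r x).symm)⟩

end Cfsg.Lib.U4F
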