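import Cfsg.Agent.U4F.Def2
import Cfsg.Agent.U5F.Fld
import Cfsg.Agent.U5F.Gen

/-! Basic facts on the group `U K`. -/

set_option autoImplicit false
set_option linter.unusedSectionVars false
set_option linter.unnecessarySeqFocus false

namespace Cfsg.Lib.U4F

open Cfsg Cfsg.FusionSystem Subgroup Equiv Cfsg.Lib.Fus U
open Cfsg.Lib.U5F (UF qq SC sc_refl Tr Iv LTr Sec Loc SEm MinL)
open Cfsg.Lib.Perm (F4 F9)

section Bas
variable {K : Type*} [Field K] [StarRing K] {g x : U K}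

instance : (V K).Normal := ⟨fun x hx g => by
  have : x.t = 0 := hx
  simp [mem_V, this]⟩
instance : (Q K).Normal := ⟨fun x hx g => by
  have : x.x2 = 0 := hx
  simp [mem_Q, this]⟩
instance : (W K).Normal := ⟨fun x hx g => by constructor <;> simp [hx.1, hx.2]⟩
instance : (Z K).Normal := ⟨fun x hx g => by
  refine ⟨?_, ?_, ?_⟩ <;> simp [hx.1, hx.2]⟩
instance (a : K) : (R a).Normal := ⟨fun x ⟨c, h1, h2⟩ g => ⟨c, h1, by simp [h2]⟩⟩

theorem V_le_R (a : K) : V K ≤ R a := fun _ h => ⟨0, star_zero _, by rw [zero_mul]; exact h⟩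
theorem Z_le_W : Z K ≤ W K := fun _ h => ⟨h.1, h.2.2⟩
theorem W_le_V : W K ≤ V K := fun _ h => h.1
theorem W_le_Q : W K ≤ Q K := fun _ h => h.2
theorem Z_le_V : Z K ≤ V K := fun _ h => h.1
theorem Z_le_Q : Z K ≤ Q K := fun _ h => h.2.2

theorem cm_W (g x : U K) : x⁻¹ * (g * x * g⁻¹) ∈ W K := by constructor <;> simp

theorem cm_s (g x : U K) : (x⁻¹ * (g * x * g⁻¹)).s = g.t * x.x2 - x.t * g.x2 := by simp; ring

theorem cm_Z : x⁻¹ * (g * x * g⁻¹) ∈ Z K ↔ g.t * x.x2 = x.t * g.x2 := by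
  rw [mem_Z, cm_s, sub_eq_zero]
  exact ⟨fun h => h.2.1, fun h => ⟨(cm_W g x).1, h, (cm_W g x).2⟩⟩

theorem cm_x1_V (g : U K) (hx : x ∈ V K) : (x⁻¹ * (g * x * g⁻¹)).x1 =
    x.s * star g.t - g.t * star x.s + g.t * star g.t * x.x2 := by
  simp [mem_V.1 hx, g.h2]; ring

theorem cm_x1_Q (hg : g ∈ Q K) (hx : x ∈ Q K) :
    (x⁻¹ * (g * x * g⁻¹)).x1 = bf (pi1 g) (pi1 x) := by
  simp [mem_Q.1 hx, mem_Q.1 hg, bf, pi1]; ring

theorem cm_eq_one : x⁻¹ * (g * x * g⁻¹) = 1 ↔ g * x = x * g := by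
  rw [inv_mul_eq_one, eq_mul_inv_iff_mul_eq, eq_comm]

theorem comm_V_iff (hx : x ∈ V K) :
    g * x = x * g ↔ g.t * x.x2 = 0 ∧ x.s * star g.t = g.t * star x.s := by
  simp only [U.ext_iff, mul_t, mul_x1, mul_s, mul_x2, mem_V.1 hx, star_zero]
  constructor
  · rintro ⟨-, a, b, -⟩
    have : g.t * x.x2 = 0 := by linear_combination b
    exact ⟨this, by linear_combination a - star g.t * this⟩
  · rintro ⟨a, b⟩
    exact ⟨by ring, by linear_combination b + star g.t * a, by linear_combination a, by ring⟩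

theorem comm_Z (g : U K) (hx : x ∈ Z K) : g * x = x * g :=
  (comm_V_iff hx.1).2 (by simp [hx.2.1, hx.2.2])

theorem comm_V (hg : g ∈ V K) (hx : x ∈ V K) : g * x = x * g :=
  (comm_V_iff hx).2 (by simp [mem_V.1 hg])

theorem Z_ext (hg : g ∈ Z K) (hx : x ∈ Z K) (h : g.x1 = x.x1) : g = x :=
  U.ext (hg.1.trans hx.1.symm) h (hg.2.1.trans hx.2.1.symm) (hg.2.2.trans hx.2.2.symm)

theorem eq_one_of_Z (hx : x ∈ Z K) (h : x.x1 = 0) : x = 1 := Z_ext hx (one_mem _) h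

theorem cm_QQ (hg : g ∈ Q K) (hx : x ∈ Q K) : x⁻¹ * (g * x * g⁻¹) ∈ Z K :=
  cm_Z.2 (by rw [mem_Q.1 hg, mem_Q.1 hx, mul_zero, mul_zero])

theorem cm_WZ (g : U K) (hx : x ∈ W K) : x⁻¹ * (g * x * g⁻¹) ∈ Z K :=
  cm_Z.2 (by rw [hx.1, hx.2, mul_zero, zero_mul])

theorem cm_WZ' (hg : g ∈ W K) (x : U K) : x⁻¹ * (g * x * g⁻¹) ∈ Z K :=
  cm_Z.2 (by rw [hg.1, hg.2, mul_zero, zero_mul])

theorem comm_Q (hg : g ∈ Q K) (hx : x ∈ Q K) : g * x = x * g ↔ bf (pi1 g) (pi1 x) = 0 := by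
  rw [← cm_eq_one, ← cm_x1_Q hg hx]
  exact ⟨fun h => by rw [h, one_x1], eq_one_of_Z (cm_QQ hg hx)⟩

theorem pi1_eq (hg : g ∈ Q K) (hx : x ∈ Q K) : pi1 g = pi1 x ↔ g⁻¹ * x ∈ Z K := by
  simp only [pi1, Prod.mk.injEq, mem_Z, mul_t, mul_s, mul_x2, inv_t, inv_s, inv_x2, mem_Q.1 hg,
    mem_Q.1 hx]
  exact ⟨fun h => ⟨by linear_combination -h.1, by linear_combination -h.2, by ring⟩,
    fun h => ⟨by linear_combination -h.1, by linear_combination -h.2.1⟩⟩

theorem bf_skew (v w : K × K) : star (bf v w) = -bf v w := by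
  simp only [bf, star_sub, star_mul', star_star]; ring

theorem bf_swap (v w : K × K) : bf w v = -bf v w := by simp only [bf]; ring

theorem bf_add_left (v v' w : K × K) : bf (v + v') w = bf v w + bf v' w := by
  simp only [bf, Prod.fst_add, Prod.snd_add, star_add]; ring

theorem bf_add_right (v w w' : K × K) : bf v (w + w') = bf v w + bf v w' := by
  simp only [bf, Prod.fst_add, Prod.snd_add, star_add]; ring

theorem bf_smul_left {c : K} (hc : star c = c) (v w : K × K) : bf (c • v) w = c * bf v w := by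
  simp only [bf, Prod.smul_fst, Prod.smul_snd, smul_eq_mul, star_mul', hc]; ring

theorem bf_smul_right {c : K} (hc : star c = c) (v w : K × K) : bf v (c • w) = c * bf v w := by
  simp only [bf, Prod.smul_fst, Prod.smul_snd, smul_eq_mul, star_mul', hc]; ring

theorem exists_equivU {K' : Type*} [Field K'] [StarRing K'] (e : K ≃+* K')
    (he : ∀ x, e (star x) = star (e x)) : Nonempty (U K ≃* U K') := by
  have he' : ∀ x, e.symm (star x) = star (e.symm x) := fun x => e.injective (by simp [he])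
  exact ⟨{ toFun := fun g => ⟨e g.t, e g.x1, e g.s, e g.x2, by rw [← he, g.h1, map_neg],
              by rw [← he, g.h2, map_neg]⟩
           invFun := fun g => ⟨e.symm g.t, e.symm g.x1, e.symm g.s, e.symm g.x2,
              by rw [← he', g.h1, map_neg], by rw [← he', g.h2, map_neg]⟩
           left_inv := fun g => by ext <;> simp
           right_inv := fun g => by ext <;> simp
           map_mul' := fun g h => by ext <;> simp [he] }⟩

theorem pow_coord {P : Subgroup (U K)} {f : U K → K}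
    (h : ∀ a ∈ P, ∀ b ∈ P, f (a * b) = f a + f b) (hg : g ∈ P) (n : ℕ) : f (g ^ n) = n * f g := by
  induction n with
  | zero => simpa using h 1 (one_mem _) 1 (one_mem _)
  | succ n ih => rw [pow_succ, h _ (pow_mem hg n) _ hg, ih]; push_cast; ring

theorem pow_zero_coord (p : ℕ) [CharP K p] {P : Subgroup (U K)} (f : U K → K)
    (h : ∀ a ∈ P, ∀ b ∈ P, f (a * b) = f a + f b) (hg : g ∈ P) : f (g ^ p) = 0 := by
  rw [pow_coord h hg, CharP.cast_eq_zero, zero_mul]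

theorem pow_W (p : ℕ) [CharP K p] (g : U K) : g ^ p ∈ W K :=
  ⟨pow_zero_coord p (P := ⊤) U.t (fun _ _ _ _ => rfl) trivial,
    pow_zero_coord p (P := ⊤) U.x2 (fun _ _ _ _ => rfl) trivial⟩

theorem pow_Z (p : ℕ) [CharP K p] (hg : g ∈ Q K) : g ^ p ∈ Z K :=
  ⟨(pow_W p g).1, pow_zero_coord p U.s (fun _ _ _ hb => by simp [mem_Q.1 hb]) hg, (pow_W p g).2⟩

theorem pow_V (p : ℕ) [CharP K p] (hg : g ∈ V K) : g ^ p = 1 :=
  U.ext (pow_W p g).1 (pow_zero_coord p U.x1 (fun _ ha _ _ => by simp [mem_V.1 ha]) hg)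
    (pow_zero_coord p U.s (fun _ ha _ _ => by simp [mem_V.1 ha]) hg) (pow_W p g).2

theorem isP (p : ℕ) [CharP K p] : IsPGroup p (U K) := fun g => ⟨2, by
  rw [pow_succ, pow_one, pow_mul]
  exact pow_V p (pow_W p g).1⟩

theorem isP_top (p : ℕ) [CharP K p] : IsPGroup p (⊤ : Subgroup (U K)) := (isP p).to_subgroup _

variable {p : ℕ} [Fact p.Prime] [CharP K p] [Finite K] [UF K]

/-- An element that is real against every element vanishes. -/
theorem eq_zero_of_real {a : K} (h : ∀ t, a * star t = t * star a) : a = 0 :=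
  (U5F.sep (a := -star a) (b := a) fun t => by linear_combination h t).2

theorem bf_nondeg {v : K × K} (h : ∀ w, bf v w = 0) : v = 0 :=
  Prod.ext (eq_zero_of_real fun t => by
      have := h (0, t)
      simp only [bf, star_zero] at this
      linear_combination -this)
    (eq_zero_of_real fun t => by
      have := h (t, 0)
      simp only [bf, star_zero] at this
      linear_combination -this)

theorem bf_surj {v : K × K} (hv : v ≠ 0) {c : K} (hc : star c = -c) : ∃ w, bf v w = c := by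
  obtain ⟨w, hw⟩ : ∃ w, bf v w ≠ 0 := by
    by_contra! h
    exact hv (bf_nondeg h)
  refine ⟨(c / bf v w) • w, ?_⟩
  rw [bf_smul_right (by rw [star_div₀, hc, bf_skew, neg_div_neg_eq]), div_mul_cancel₀ _ hw]

theorem bf_perp {v w : K × K} (hv : v ≠ 0) (h : ∀ y, bf v y = 0 → bf w y = 0) :
    ∃ c : K, star c = c ∧ w = c • v := by
  obtain ⟨d, d0, hd⟩ := U5F.exists_skew (K := K)
  obtain ⟨y₀, h0⟩ := bf_surj hv hd
  have r : ∀ a b, star (bf a b / d) = bf a b / d := fun a b => by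
    rw [star_div₀, hd, bf_skew, neg_div_neg_eq]
  have r' : ∀ a b, star (-(bf a b / d)) = -(bf a b / d) := fun a b => by rw [star_neg, r]
  refine ⟨_, r w y₀, ?_⟩
  rw [← add_neg_eq_zero, ← neg_smul]
  refine bf_nondeg fun y => ?_
  have := h (y + (-(bf v y / d)) • y₀) (by
    rw [bf_add_right, bf_smul_right (r' _ _), h0]; field_simp; ring)
  rw [bf_add_right, bf_smul_right (r' _ _)] at this
  rw [bf_add_left, bf_smul_left (r' _ _)]
  linear_combination this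

theorem mem_Z_iff' : x ∈ Z K ↔ ∀ g ∈ Q K, g * x = x * g := by
  refine ⟨fun h g _ => comm_Z g h, fun h => ?_⟩
  have hx : x ∈ Q K := by
    have := cm_s ⟨1, 0, 0, 0, by simp, by simp⟩ x
    rw [cm_eq_one.2 (h _ rfl)] at this
    simpa [mem_Q] using this.symm
  have := bf_nondeg (v := pi1 x) fun w => by
    obtain ⟨g, hg, rfl⟩ := exists_Q w
    exact (comm_Q hx hg).1 (h g hg).symm
  exact ⟨congrArg Prod.fst this, congrArg Prod.snd this, hx⟩

theorem mem_Z_iff : x ∈ Z K ↔ ∀ g, g * x = x * g :=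
  ⟨fun h g => comm_Z g h, fun h => mem_Z_iff'.2 fun g _ => h g⟩

theorem mem_W_iff : x ∈ W K ↔ ∀ g, x⁻¹ * (g * x * g⁻¹) ∈ Z K := by
  refine ⟨fun h g => cm_WZ g h, fun h => ?_⟩
  obtain ⟨d, d0, hd⟩ := U5F.exists_skew (K := K)
  have a := cm_Z.1 (h ⟨0, 0, 0, d, by simp, hd⟩)
  have b := cm_Z.1 (h ⟨1, 0, 0, 0, by simp, by simp⟩)
  exact ⟨by simpa [d0] using a, by simpa using b⟩

theorem mem_V_iff : g ∈ V K ↔ ∀ x ∈ W K, g * x = x * g :=
  ⟨fun h _ hx => comm_V h hx.1, fun h => eq_zero_of_real fun s =>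
    ((comm_V_iff (x := ⟨0, 0, s, 0, by simp, by simp⟩) rfl).1 (h _ ⟨rfl, rfl⟩)).2.symm⟩

theorem mem_V_iff' : g ∈ V K ↔ ∀ x ∈ V K, g * x = x * g :=
  ⟨fun h _ hx => comm_V h hx, fun h => mem_V_iff.2 fun x hx => h x hx.1⟩

theorem comm_QQ : ⁅Q K, Q K⁆ = Z K := by
  refine le_antisymm (U5F.comm_le_of_cm fun x hx y hy => cm_QQ hy hx) fun z hz => ?_
  obtain ⟨w, hw⟩ := bf_surj (v := ((1 : K), (0 : K))) (by simp) z.h1
  obtain ⟨g, hg, e⟩ := exists_Q ((1 : K), (0 : K))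
  obtain ⟨x, hx, rfl⟩ := exists_Q w
  rw [Z_ext hz (cm_QQ hg hx) (by rw [cm_x1_Q hg hx, e, hw])]
  exact U5F.cm_mem_comm hx hg

theorem comm_top : ⁅(⊤ : Subgroup (U K)), (⊤ : Subgroup (U K))⁆ = W K := by
  refine le_antisymm (U5F.comm_le_of_cm fun x _ y _ => cm_W y x) fun w hw => ?_
  obtain ⟨d, d0, hd⟩ := U5F.exists_skew (K := K)
  have h1 := cm_s (⟨w.s / d, 0, 0, 0, by simp, by simp⟩ : U K) ⟨0, 0, 0, d, by simp, hd⟩
  have h2 := cm_W (⟨w.s / d, 0, 0, 0, by simp, by simp⟩ : U K) ⟨0, 0, 0, d, by simp, hd⟩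
  have h3 := U5F.cm_mem_comm (X := ⊤) (Y := ⊤) (y := (⟨w.s / d, 0, 0, 0, by simp, by simp⟩ : U K))
    (x := ⟨0, 0, 0, d, by simp, hd⟩) trivial trivial
  generalize (_ : U K)⁻¹ * _ = y at h1 h2 h3
  have h4 : y⁻¹ * w ∈ Z K := (pi1_eq h2.2 hw.2).1 (Prod.ext (h2.1.trans hw.1.symm) (by
    show y.s = w.s
    rw [h1]; simp [d0]))
  rw [← comm_QQ] at h4
  simpa using mul_mem h3 (commutator_mono le_top le_top h4)

theorem card_U : Nat.card (U K) = qq K ^ 6 := by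
  rw [Nat.card_congr (β := K × K × {x : K // star x = -x} × {x : K // star x = -x})
    ⟨fun g => (g.t, g.s, ⟨g.x1, g.h1⟩, ⟨g.x2, g.h2⟩),
      fun v => ⟨v.1, v.2.2.1, v.2.1, v.2.2.2, v.2.2.1.2, v.2.2.2.2⟩, fun _ => rfl, fun _ => rfl⟩]
  simp only [Nat.card_prod, U5F.card_K, U5F.card_skew]; ring

theorem card_Q : Nat.card (Q K) = qq K ^ 5 := by
  rw [Nat.card_congr (β := K × K × {x : K // star x = -x})
    ⟨fun g => (g.1.t, g.1.s, ⟨g.1.x1, g.1.h1⟩),
      fun v => ⟨⟨v.1, v.2.2, v.2.1, 0, v.2.2.2, by simp⟩, rfl⟩,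
      fun g => Subtype.ext (U.ext rfl rfl rfl (mem_Q.1 g.2).symm), fun _ => rfl⟩]
  simp only [Nat.card_prod, U5F.card_K, U5F.card_skew]; ring

theorem card_V : Nat.card (V K) = qq K ^ 4 := by
  rw [Nat.card_congr (β := K × {x : K // star x = -x} × {x : K // star x = -x})
    ⟨fun g => (g.1.s, ⟨g.1.x1, g.1.h1⟩, ⟨g.1.x2, g.1.h2⟩),
      fun v => ⟨⟨0, v.2.1, v.1, v.2.2, v.2.1.2, v.2.2.2⟩, rfl⟩,
      fun g => Subtype.ext (U.ext (mem_V.1 g.2).symm rfl rfl rfl), fun _ => rfl⟩]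
  simp only [Nat.card_prod, U5F.card_K, U5F.card_skew]; ring

theorem card_W : Nat.card (W K) = qq K ^ 3 := by
  rw [Nat.card_congr (β := K × {x : K // star x = -x})
    ⟨fun g => (g.1.s, ⟨g.1.x1, g.1.h1⟩),
      fun v => ⟨⟨0, v.2, v.1, 0, v.2.2, by simp⟩, rfl, rfl⟩,
      fun g => Subtype.ext (U.ext g.2.1.symm rfl rfl g.2.2.symm), fun _ => rfl⟩]
  simp only [Nat.card_prod, U5F.card_K, U5F.card_skew]; ring

theorem card_Z : Nat.card (Z K) = qq K := by
  rw [Nat.card_congr (β := {x : K // star x = -x})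
    ⟨fun g => ⟨g.1.x1, g.1.h1⟩, fun v => ⟨⟨0, v, 0, 0, v.2, by simp⟩, rfl, rfl, rfl⟩,
      fun g => Subtype.ext (U.ext g.2.1.symm rfl g.2.2.1.symm g.2.2.2.symm), fun _ => rfl⟩,
    U5F.card_skew]

theorem card_R {a : K} (ha : a ≠ 0) : Nat.card (R a) = qq K ^ 5 := by
  rw [Nat.card_congr
    (β := {x : K // star x = x} × K × {x : K // star x = -x} × {x : K // star x = -x})
    ⟨fun g => (⟨g.1.t / a, by
        obtain ⟨c, h1, h2⟩ := g.2
        rwa [h2, mul_div_cancel_right₀ _ ha]⟩, g.1.s, ⟨g.1.x1, g.1.h1⟩, ⟨g.1.x2, g.1.h2⟩),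
      fun v => ⟨⟨v.1 * a, v.2.2.1, v.2.1, v.2.2.2, v.2.2.1.2, v.2.2.2.2⟩, v.1, v.1.2, rfl⟩,
      fun g => Subtype.ext (U.ext (div_mul_cancel₀ _ ha) rfl rfl rfl),
      fun v => Prod.ext (Subtype.ext (mul_div_cancel_right₀ _ ha)) rfl⟩]
  simp only [Nat.card_prod, U5F.card_K, U5F.card_skew]
  rw [← qq]; ring

theorem card_H : Nat.card (H K) = qq K ^ 4 := by
  rw [Nat.card_congr (β := K × {x : K // star x = -x} × {x : K // star x = -x})
    ⟨fun g => (g.s, ⟨g.x1, g.h1⟩, ⟨g.x2, g.h2⟩),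
      fun v => ⟨v.2.1, v.1, v.2.2, v.2.1.2, v.2.2.2⟩, fun _ => rfl, fun _ => rfl⟩]
  simp only [Nat.card_prod, U5F.card_K, U5F.card_skew]; ring

theorem qq_le {s : Finset K} (h : ∀ x : K, star x = x → x ∈ s) : qq K ≤ s.card := by
  rw [← Nat.card_eq_finsetCard]
  exact Nat.card_le_card_of_injective (fun x : {x : K // star x = x} => (⟨x, h _ x.2⟩ : s))
    fun a b e => Subtype.ext (Subtype.mk.inj e)

theorem exists_real_ne (h : qq K ≠ 2) : ∃ m : K, star m = m ∧ m ≠ 0 ∧ m ≠ 1 := by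
  classical
  by_contra! h'
  have h1 := qq_le (K := K) (s := {0, 1}) fun x hx => by
    by_cases e : x = 0
    · simp [e]
    · simp [h' x hx e]
  have h2 := U5F.two_le_qq (K := K)
  have h3 : ({0, 1} : Finset K).card ≤ 2 := Finset.card_le_two
  omega

theorem exists_real_sq (h : qq K ≠ 2) (h' : qq K ≠ 3) :
    ∃ m : K, star m = m ∧ m ≠ 0 ∧ m ^ 2 ≠ 1 := by
  classical
  by_contra! h0
  have h1 := qq_le (K := K) (s := {0, 1, -1}) fun x hx => by
    by_cases e : x = 0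
    · simp [e]
    · rcases sq_eq_one_iff.1 (h0 x hx e) with rfl | rfl <;> simp
  have h2 := U5F.two_le_qq (K := K)
  have h3 : ({0, 1, -1} : Finset K).card ≤ 3 := Finset.card_le_three
  omega

theorem real_prime (h : qq K = p) {c : K} (hc : star c = c) : ∃ n : ℕ, c = n := by
  have : Function.Bijective fun n : Fin p => (⟨(n : ℕ), by simp⟩ : {x : K // star x = x}) :=
    (Nat.bijective_iff_injective_and_card _).2 ⟨fun a b e =>
      Fin.ext (CharP.natCast_injOn_Iio K p a.2 b.2 (Subtype.mk.inj e)), by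
        rw [Nat.card_eq_fintype_card, Fintype.card_fin, ← qq, h]⟩
  obtain ⟨n, e⟩ := this.2 ⟨c, hc⟩
  exact ⟨n, (Subtype.mk.inj e).symm⟩

theorem qq_F4 : qq F4 = 2 := by
  have := U5F.card_K (K := F4)
  rw [Nat.card_eq_fintype_card, Perm.card_F4] at this
  exact (Nat.pow_left_injective two_ne_zero (this.symm.trans (by norm_num : 4 = 2 ^ 2)) :)

theorem qq_F9 : qq F9 = 3 := by
  have := U5F.card_K (K := F9)
  rw [Nat.card_eq_fintype_card, Perm.card_F9] at this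
  exact (Nat.pow_left_injective two_ne_zero (this.symm.trans (by norm_num : 9 = 3 ^ 2)) :)

instance : CharP F4 2 := charP_of_injective_algebraMap (algebraMap (ZMod 2) F4).injective 2
instance : CharP F9 3 := charP_of_injective_algebraMap (algebraMap (ZMod 3) F9).injective 3

variable {E : Subgroup (U K)} {L : Subgroup (Perm (U K))}

theorem loc_Z_le (h : Loc p E L) : Z K ≤ E := fun _ hz => h.cent fun x _ => (comm_Z x hz).symm

theorem loc_W_norm (h : Loc p E L) : W K ≤ normalizer (E : Set (U K)) := fun _ hz =>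
  U5F.mem_norm fun x _ => loc_Z_le h (cm_WZ' hz x)

theorem loc_W_le (h : Loc p E L) (h1 : Iv L (Z K)) : W K ≤ E := fun z hz =>
  h.rad z (loc_W_norm h hz) _ _ _ h1 h1 h1 (loc_Z_le h) le_rfl le_rfl (fun x _ => cm_WZ' hz x)
    (fun x _ => cm_WZ' hz x) (fun x _ => cm_WZ' hz x)
    fun _ hx => mem_bot.2 (cm_eq_one.2 (comm_Z z hx))

end Bas

end Cfsg.Lib.U4F
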