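import Cfsg.Agent.U4F.Lab

/-! The admissible sets of labels. -/

set_option autoImplicit false

namespace Cfsg.Lib.U4F

open Cfsg Subgroup Equiv
open Cfsg.Lib.U5F (UF qq SC sc_refl)
open Cfsg.Lib.Perm (F9)
open Lab

variable {X : Subgroup (Perm (F9 × F9))}

namespace C9b

/-- The additive permutations. -/
def Ad : Subgroup (Perm (F9 × F9)) where
  carrier := {φ | ∀ v w, φ (v + w) = φ v + φ w}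
  one_mem' _ _ := rfl
  mul_mem' {φ ψ} h k v w := by rw [Perm.mul_apply, k, h]; rfl
  inv_mem' {φ} h v w := φ.injective (by rw [h]; simp)

/-- A basis. -/
def bas : List (F9 × F9) := [(1, 0), (ii, 0), (0, 1), (0, ii)]

theorem map_bas {A : Type*} [AddCommGroup A] {f : F9 × F9 → A} (hf : ∀ v w, f (v + w) = f v + f w)
    (v : F9 × F9) : f v = v.1.re.val • f (1, 0) + v.1.im.val • f (ii, 0) + v.2.re.val • f (0, 1) +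
      v.2.im.val • f (0, ii) := by
  have e : ∀ x : F9, x = x.re.val • (1 : F9) + x.im.val • ii := by decide +kernel
  have : v = v.1.re.val • ((1 : F9), (0 : F9)) + v.1.im.val • (ii, (0 : F9)) +
      v.2.re.val • ((0 : F9), (1 : F9)) + v.2.im.val • ((0 : F9), ii) := by
    ext1
    · simpa only [Prod.fst_add, Prod.smul_fst, smul_zero, add_zero] using e v.1
    · simpa only [Prod.snd_add, Prod.smul_snd, smul_zero, add_zero, zero_add] using e v.2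
  change AddMonoidHom.mk' f hf v = _
  conv_lhs => rw [this]
  simp only [map_add, map_nsmul, AddMonoidHom.mk'_apply]

theorem ad_ext {f g : F9 × F9 → F9 × F9} (hf : ∀ v w, f (v + w) = f v + f w)
    (hg : ∀ v w, g (v + w) = g v + g w) (h : ∀ e ∈ bas, f e = g e) (v : F9 × F9) : f v = g v := by
  simp only [bas, List.forall_mem_cons] at h
  rw [map_bas hf, map_bas hg, h.1, h.2.1, h.2.2.1, h.2.2.2.1]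

theorem u1_ad (c : F9) : u1 c ∈ Ad := fun v w => by
  simp only [u1_apply, Prod.fst_add, Prod.snd_add, Prod.mk_add_mk, Prod.mk.injEq, true_and]; ring

theorem l1_ad (c : F9) : l1 c ∈ Ad := fun v w => by
  simp only [l1_apply, Prod.fst_add, Prod.snd_add, Prod.mk_add_mk, Prod.mk.injEq, and_true]; ring

theorem ey_ad (c : F9) : ey c ∈ Ad := fun v w => by
  simp only [ey_apply, Prod.fst_add, Prod.snd_add, Prod.mk_add_mk, Prod.mk.injEq, true_and, star_add]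
  ring

theorem hY_ad : hY ∈ Ad := fun v w => by
  simp only [hY_apply, Prod.fst_add, Prod.snd_add, Prod.mk_add_mk, mul_add]

theorem rr_ad (b : F9) : rr b ∈ Ad :=
  mul_mem (mul_mem (ey_ad b) (mul_mem (mul_mem (l1_ad _) hY_ad) (inv_mem (l1_ad _))))
    (inv_mem (ey_ad b))

/-- Words. -/
abbrev Wd : Type := List (ℕ × F9)

/-- The value of a letter. -/
def le : ℕ × F9 → Perm (F9 × F9)
  | (0, _) => u1 ii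
  | (1, _) => (u1 ii)⁻¹
  | (2, _) => hY
  | (3, _) => hY⁻¹
  | (4, b) => rr b
  | (_, b) => (rr b)⁻¹

/-- The value of a word. -/
def ev (w : Wd) : Perm (F9 × F9) := (w.map le).prod

theorem ev_mem {w : Wd} (hu : u1 ii ∈ X) (hh : hY ∈ X) (h : ∀ a ∈ w, a.1 < 4 ∨ rr a.2 ∈ X) :
    ev w ∈ X := list_prod_mem fun x hx => by
  obtain ⟨a, ha, rfl⟩ := List.mem_map.1 hx
  have := h a ha
  match a with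
  | (0, _) => exact hu
  | (1, _) => exact inv_mem hu
  | (2, _) => exact hh
  | (3, _) => exact inv_mem hh
  | (4, b) => exact this.resolve_left (by simp)
  | (n + 5, b) => exact inv_mem (this.resolve_left (by simp))

theorem ev_ad (w : Wd) : ev w ∈ Ad := ev_mem (u1_ad _) hY_ad fun _ _ => .inr (rr_ad _)

/-- Words which are not standard. -/
def forb : List Wd :=
  [[(4, ⟨0, 0⟩), (4, ⟨1, 1⟩), (4, ⟨0, 0⟩)],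
   [(4, ⟨0, 0⟩), (4, ⟨1, 2⟩), (4, ⟨0, 0⟩)],
   [(4, ⟨0, 0⟩), (4, ⟨2, 1⟩), (4, ⟨0, 0⟩)],
   [(4, ⟨0, 0⟩), (4, ⟨2, 2⟩), (4, ⟨0, 0⟩)],
   [(4, ⟨0, 1⟩), (4, ⟨1, 2⟩), (4, ⟨0, 1⟩)],
   [(4, ⟨0, 1⟩), (4, ⟨2, 2⟩), (4, ⟨0, 1⟩)],
   [(4, ⟨0, 2⟩), (4, ⟨1, 1⟩), (4, ⟨0, 2⟩)],
   [(4, ⟨0, 2⟩), (4, ⟨2, 1⟩), (4, ⟨0, 2⟩)],
   [(4, ⟨1, 0⟩), (4, ⟨2, 1⟩), (4, ⟨1, 0⟩)],
   [(4, ⟨1, 0⟩), (4, ⟨2, 2⟩), (4, ⟨1, 0⟩)],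
   [(4, ⟨1, 1⟩), (4, ⟨2, 0⟩), (4, ⟨1, 1⟩)],
   [(4, ⟨1, 2⟩), (4, ⟨2, 0⟩), (4, ⟨1, 2⟩)],
   [(4, ⟨0, 1⟩), (4, ⟨1, 1⟩), (4, ⟨2, 1⟩)],
   [(4, ⟨0, 2⟩), (4, ⟨1, 2⟩), (4, ⟨2, 2⟩)],
   [(4, ⟨1, 0⟩), (4, ⟨1, 1⟩), (4, ⟨1, 2⟩)],
   [(4, ⟨2, 0⟩), (4, ⟨2, 1⟩), (4, ⟨2, 2⟩)]]

/-- Words for the third label on a line. -/
def clos : List (Wd × F9) :=
  [([(0, 0), (4, ⟨0, 0⟩), (0, 0), (4, ⟨0, 1⟩), (1, 0), (5, ⟨0, 0⟩), (1, 0)], ⟨0, 2⟩),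
   ([(0, 0), (4, ⟨0, 0⟩), (0, 0), (4, ⟨0, 2⟩), (1, 0), (5, ⟨0, 0⟩), (1, 0)], ⟨0, 1⟩),
   ([(0, 0), (4, ⟨0, 0⟩), (0, 0), (4, ⟨1, 0⟩), (1, 0), (5, ⟨0, 0⟩), (1, 0)], ⟨2, 0⟩),
   ([(0, 0), (4, ⟨0, 0⟩), (0, 0), (4, ⟨2, 0⟩), (1, 0), (5, ⟨0, 0⟩), (1, 0)], ⟨1, 0⟩),
   ([(0, 0), (4, ⟨0, 1⟩), (0, 0), (4, ⟨0, 2⟩), (1, 0), (5, ⟨0, 1⟩), (1, 0)], ⟨0, 0⟩),
   ([(0, 0), (4, ⟨0, 1⟩), (0, 0), (4, ⟨1, 1⟩), (1, 0), (5, ⟨0, 1⟩), (1, 0)], ⟨2, 1⟩),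
   ([(0, 0), (4, ⟨0, 1⟩), (0, 0), (4, ⟨2, 1⟩), (1, 0), (5, ⟨0, 1⟩), (1, 0)], ⟨1, 1⟩),
   ([(0, 0), (4, ⟨0, 2⟩), (0, 0), (4, ⟨1, 2⟩), (1, 0), (5, ⟨0, 2⟩), (1, 0)], ⟨2, 2⟩),
   ([(0, 0), (4, ⟨0, 2⟩), (0, 0), (4, ⟨2, 2⟩), (1, 0), (5, ⟨0, 2⟩), (1, 0)], ⟨1, 2⟩),
   ([(0, 0), (4, ⟨1, 0⟩), (0, 0), (4, ⟨1, 1⟩), (1, 0), (5, ⟨1, 0⟩), (1, 0)], ⟨1, 2⟩),
   ([(0, 0), (4, ⟨1, 0⟩), (0, 0), (4, ⟨1, 2⟩), (1, 0), (5, ⟨1, 0⟩), (1, 0)], ⟨1, 1⟩),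
   ([(0, 0), (4, ⟨1, 0⟩), (0, 0), (4, ⟨2, 0⟩), (1, 0), (5, ⟨1, 0⟩), (1, 0)], ⟨0, 0⟩),
   ([(0, 0), (4, ⟨1, 1⟩), (0, 0), (4, ⟨1, 2⟩), (1, 0), (5, ⟨1, 1⟩), (1, 0)], ⟨1, 0⟩),
   ([(0, 0), (4, ⟨1, 1⟩), (0, 0), (4, ⟨2, 1⟩), (1, 0), (5, ⟨1, 1⟩), (1, 0)], ⟨0, 1⟩),
   ([(0, 0), (4, ⟨1, 2⟩), (0, 0), (4, ⟨2, 2⟩), (1, 0), (5, ⟨1, 2⟩), (1, 0)], ⟨0, 2⟩),
   ([(0, 0), (4, ⟨2, 0⟩), (0, 0), (4, ⟨2, 1⟩), (1, 0), (5, ⟨2, 0⟩), (1, 0)], ⟨2, 2⟩),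
   ([(0, 0), (4, ⟨2, 0⟩), (0, 0), (4, ⟨2, 2⟩), (1, 0), (5, ⟨2, 0⟩), (1, 0)], ⟨2, 1⟩),
   ([(0, 0), (4, ⟨2, 1⟩), (0, 0), (4, ⟨2, 2⟩), (1, 0), (5, ⟨2, 1⟩), (1, 0)], ⟨2, 0⟩)]

theorem forb_spec : ∀ w ∈ forb, (∀ s, (ev w (0, s)).1 = 0) ∧ ∀ c : F9, star c = -c →
    ∃ t ∈ [1, ii], (ev w (t, 0)).2 ≠ -c * (ev w (t, 0)).1 := by decide +kernel

theorem clos_spec : ∀ r ∈ clos, ∀ e ∈ bas, ev r.1 e = rr r.2 e := by decide +kernel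

/-- All labels. -/
def al : List F9 := [⟨0, 0⟩, ⟨0, 1⟩, ⟨0, 2⟩, ⟨1, 0⟩, ⟨1, 1⟩, ⟨1, 2⟩, ⟨2, 0⟩, ⟨2, 1⟩, ⟨2, 2⟩]

set_option synthInstance.maxSize 4000 in
theorem subs : ∀ l ∈ al.sublists, l ≠ [] → (∀ w ∈ forb, ¬ ∀ a ∈ w, a.1 < 4 ∨ a.2 ∈ l) →
    (∀ r ∈ clos, (∀ a ∈ r.1, a.1 < 4 ∨ a.2 ∈ l) → r.2 ∈ l) → l ∈ goodL := by decide +kernel

end C9b

open C9b

theorem good9 (hu : A1 F9 ≤ X) (hh : hY ∈ X) (hb : Bo1 X) (hne : (Sig X).Nonempty) :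
    Good (Sig X) := by
  classical
  have u : u1 ii ∈ X := hu ⟨ii, by decide, rfl⟩
  have m : ∀ x, x ∈ al.filter (fun x => x ∈ Sig X) ↔ rr x ∈ X := fun x => by
    have : ∀ x, x ∈ al := by decide +kernel
    rw [List.mem_filter, decide_eq_true_iff]
    exact and_iff_right (this x)
  refine ⟨_, subs _ (List.mem_sublists.2 List.filter_sublist) ?_ (fun w hw h => ?_) fun r hr h => ?_,
    Set.ext fun x => (m x).symm⟩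
  · obtain ⟨x, hx⟩ := hne
    exact List.ne_nil_of_mem ((m x).2 hx)
  · simp only [m] at h
    obtain ⟨c, a, b, σ, hc, -, -, e⟩ := hb _ (ev_mem u hh h) (forb_spec w hw).1
    obtain ⟨t, -, ht⟩ := (forb_spec w hw).2 c hc
    exact ht (by simp [e, u1_apply, gy])
  · simp only [m] at h ⊢
    rw [← show ev r.1 = rr r.2 from Equiv.ext (ad_ext (ev_ad _) (rr_ad _) (clos_spec r hr))]
    exact ev_mem u hh h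

end Cfsg.Lib.U4F
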