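import Cfsg.Agent.U4F.L1a
import Cfsg.Agent.U4F.C9b

/-! Generation of the group on `Q / Z` for `q = 3`. -/

set_option autoImplicit false
set_option linter.unusedVariables false

namespace Cfsg.Lib.U4F

open Cfsg Subgroup Equiv Cfsg.Lib.Fus
open Cfsg.Lib.U5F (UF qq SC sc_refl)
open Cfsg.Lib.Perm (F9)
open Lab C9b

variable {X Y : Subgroup (Perm (F9 × F9))}

namespace C9a

/-- The additive map with given images of the basis. -/
def ap (i0 i1 i2 i3 v : F9 × F9) : F9 × F9 :=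
  v.1.re.val • i0 + v.1.im.val • i1 + v.2.re.val • i2 + v.2.im.val • i3

/-- The conclusion for given images of the basis. -/
abbrev Cl (i0 i1 i2 i3 : F9 × F9) : Prop :=
  ap i0 i1 i2 i3 i0 = -(1, 0) → ap i0 i1 i2 i3 i1 = -(ii, 0) → ap i0 i1 i2 i3 i2 = -(0, 1) →
    ap i0 i1 i2 i3 i3 = -(0, ii) → (i2.1 = 0 ∧ i3.1 = 0) ∨ ∃ b, ∃ c ∈ [0, ii, -ii],
      [i0, i1, i2, i3] = bas.map (u1 c * rr b * (u1 c)⁻¹ :) ∨
      [i0, i1, i2, i3] = bas.map fun e => -(u1 c * rr b * (u1 c)⁻¹) e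

set_option synthInstance.maxSize 4000 in
theorem key : ∀ a0 b0 c0 a1 b1 a2 : ZMod 3, Cl (⟨a0, b0⟩, ⟨c0, 0⟩) (⟨a1, b1⟩, ⟨0, c0⟩)
    (⟨a2, 0⟩, ⟨b1, -b0⟩) (⟨0, a2⟩, ⟨-a1, a0⟩) := by decide +kernel

theorem bf_bas : ∀ w : F9 × F9, (bf (1, 0) w).im = -w.2.im ∧ (bf (ii, 0) w).im = w.2.re ∧
    (bf (0, 1) w).im = -w.1.im ∧ (bf (0, ii) w).im = w.1.re := by decide +kernel

theorem bf_neg (v w : F9 × F9) : bf v (-w) = -bf v w := by
  simp only [bf, Prod.fst_neg, Prod.snd_neg, star_neg]; ring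

theorem bf_hY (v w : F9 × F9) : bf (hY v) (hY w) = -bf v w := by
  have e : star ii = -ii := by decide
  have i : ii * ii = -1 := by decide
  simp only [bf, hY_apply, star_mul', star_neg, e]
  linear_combination (w.2 * star v.1 - v.1 * star w.2 - (v.2 * star w.1 - w.1 * star v.2)) * i

theorem hY_hY (v : F9 × F9) : hY (hY v) = -v := by
  have i : ii * ii = -1 := by decide
  ext1 <;> simp only [hY_apply, Prod.fst_neg, Prod.snd_neg]
  exacts [by linear_combination v.1 * i, by linear_combination v.2 * i]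

theorem u1_neg (c : F9) : u1 c * hY * (u1 c)⁻¹ * hY⁻¹ = u1 (-c) := Equiv.ext fun v => by
  have i : ii * ii = -1 := by decide
  have t : (3 : F9) = 0 := by decide
  simp only [Perm.mul_apply, hY_apply, hY_inv_apply, u1_apply, u1_inv_apply, Prod.mk.injEq]
  exact ⟨by linear_combination -v.1 * i,
    by linear_combination (2 * c * v.1 - v.2) * i - c * v.1 * t⟩

end C9a

open C9a

theorem list72 {m : Perm (F9 × F9)} (ha : ∀ v w, m (v + w) = m v + m w) (hm : ∀ v, m (m v) = -v)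
    (hb : ∀ v w, bf (m v) (m w) = -bf v w) : P1 m ∨ ∃ b c : F9, star c = -c ∧
      (m = u1 c * rr b * (u1 c)⁻¹ ∨ m = (u1 c * rr b * (u1 c)⁻¹)⁻¹) := by
  have anti : ∀ v w, (bf v (m w)).im = -(bf w (m v)).im := fun v w => by
    have := hb w (m v)
    rw [hm, bf_neg, bf_swap, neg_neg] at this
    rw [this, QuadraticAlgebra.im_neg]
  have z : ∀ x : ZMod 3, x = -x → x = 0 := by decide
  have e : ∀ v, m v = ap (m (1, 0)) (m (ii, 0)) (m (0, 1)) (m (0, ii)) v := map_bas ha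
  have c : Cl (m (1, 0)) (m (ii, 0)) (m (0, 1)) (m (0, ii)) := by
    have h00 := z _ (anti (1, 0) (1, 0))
    have h11 := z _ (anti (ii, 0) (ii, 0))
    have h22 := z _ (anti (0, 1) (0, 1))
    have h33 := z _ (anti (0, ii) (0, ii))
    have h01 := anti (1, 0) (ii, 0)
    have h02 := anti (1, 0) (0, 1)
    have h03 := anti (1, 0) (0, ii)
    have h12 := anti (ii, 0) (0, 1)
    have h13 := anti (ii, 0) (0, ii)
    have h23 := anti (0, 1) (0, ii)
    simp only [bf_bas, neg_eq_zero, neg_inj, neg_neg] at h00 h11 h22 h33 h01 h02 h03 h12 h13 h23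
    revert h00 h11 h22 h33 h01 h02 h03 h12 h13 h23
    generalize m (1, 0) = i0, m (ii, 0) = i1, m (0, 1) = i2, m (0, ii) = i3
    obtain ⟨⟨a0, b0⟩, c0, d0⟩ := i0
    obtain ⟨⟨a1, b1⟩, c1, d1⟩ := i1
    obtain ⟨⟨a2, b2⟩, c2, d2⟩ := i2
    obtain ⟨⟨a3, b3⟩, c3, d3⟩ := i3
    dsimp only
    rintro rfl rfl rfl rfl rfl h rfl rfl rfl rfl
    obtain rfl := neg_eq_iff_eq_neg.1 h
    exact key _ _ _ _ _ _
  rcases c (by rw [← e, hm]) (by rw [← e, hm]) (by rw [← e, hm]) (by rw [← e, hm]) with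
    ⟨u, u'⟩ | ⟨b, c, hc, u⟩
  · refine .inl fun s => ?_
    rw [map_bas ha]
    simp [u, u']
  have ad : u1 c * rr b * (u1 c)⁻¹ ∈ Ad := mul_mem (mul_mem (u1_ad c) (rr_ad b)) (inv_mem (u1_ad c))
  refine .inr ⟨b, c, (by decide : ∀ c ∈ [0, ii, -ii], star c = -c) c hc, u.imp (fun u => ?_) fun u => ?_⟩
  · exact Equiv.ext (ad_ext ha ad (List.map_inj_left.1 u))
  · have := ad_ext ha (fun v w => by rw [ad, neg_add]) (List.map_inj_left.1 u)
    refine eq_inv_of_mul_eq_one_right (Equiv.ext fun v => ?_)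
    rw [Perm.mul_apply, ← neg_inj, ← this, hm]; rfl

theorem gen9 (h : Hy1 3 X) (hb : Bo1 X) (hh : hY ∈ X) (h1 : ∀ g ∈ X, P1 g → g ∈ Y)
    (h2 : ∀ b, rr b ∈ X → rr b ∈ Y) : X ≤ Y := fun g hg => by
  have uY : ∀ c : F9, star c = -c → u1 c ∈ Y := fun c hc => h1 _ (h.u hc) fun _ => rfl
  have cj : ∀ g ∈ X, g * hY * g⁻¹ ∈ Y := fun g hg => by
    have m : g * hY * g⁻¹ ∈ X := mul_mem (mul_mem hg hh) (inv_mem hg)
    obtain ⟨γ, hγ⟩ := h.sim g hg
    rcases list72 (h.add _ m) (fun v => by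
      simp only [Perm.mul_apply, Perm.coe_inv, symm_apply_apply, hY_hY]
      rw [← zero_sub, L1a.msub h hg, L1a.zero h hg, apply_symm_apply, zero_sub]) (fun v w => by
      simp only [Perm.mul_apply, Perm.coe_inv]
      rw [hγ, bf_hY, ← bf_swap, ← hγ, apply_symm_apply, apply_symm_apply, bf_swap]) with
      u | ⟨b, c, hc, u⟩
    · exact h1 _ m u
    have r : rr b ∈ X := by
      have : u1 c * rr b * (u1 c)⁻¹ ∈ X := by
        rcases u with u | u <;> rw [u] at m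
        exacts [m, inv_mem_iff.1 m]
      simpa [mul_assoc] using mul_mem (mul_mem (inv_mem (h.u hc)) this) (h.u hc)
    have := mul_mem (mul_mem (uY c hc) (h2 b r)) (inv_mem (uY c hc))
    rcases u with u | u <;> rw [u]
    exacts [this, inv_mem this]
  have s : SylIn 3 (A1 F9) (X ⊓ Y) := ⟨le_inf h.syl.le (by rintro _ ⟨c, hc, rfl⟩; exact uY c hc),
    h.syl.pgroup, fun U a b => h.syl.max U a (b.trans inf_le_left)⟩
  obtain ⟨x, hx, e⟩ := s.exists_conj (U := (A1 F9).map (MulAut.conj g).toMonoidHom) (by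
    rintro _ ⟨_, ⟨c, hc, rfl⟩, rfl⟩
    refine mem_inf.2 ⟨mul_mem (mul_mem hg (h.u hc)) (inv_mem hg), ?_⟩
    have hc' : star (-c) = - -c := by rw [star_neg, hc]
    have := mul_mem (cj _ (mul_mem hg (h.u hc'))) (inv_mem (cj g hg))
    rw [← neg_neg c, ← u1_neg]
    convert this using 1
    simp only [MulEquiv.coe_toMonoidHom, MulAut.conj_apply]
    group) (h.syl.pgroup.map _)
  obtain ⟨c, -, e⟩ := e _ ⟨u1 ii, ⟨ii, by decide, rfl⟩, rfl⟩
  have e' : ∀ v, (x * g) (u1 ii v) = u1 c ((x * g) v) := fun v => by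
    rw [← e]; simp
  have c0 : c ≠ 0 := by
    rintro rfl
    have := e' (1, 0)
    rw [u1_apply 0, zero_mul, sub_zero, (x * g).injective.eq_iff] at this
    revert this
    decide
  have p : P1 (x * g) := fun s => by
    have := congrArg Prod.snd (e' (0, s))
    simp only [u1_apply, mul_zero, sub_zero] at this
    exact (mul_eq_zero.1 (by linear_combination this)).resolve_left c0
  rw [mem_inf] at hx
  simpa using mul_mem (inv_mem hx.2) (h1 _ (mul_mem hx.1 hg) p)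

theorem sig_ne (h : Hy1 3 X) (hb : Bo1 X) (hh : hY ∈ X) (mv : ∃ g ∈ X, ¬ P1 g) :
    (Sig X).Nonempty := by
  by_contra hn
  obtain ⟨g, hg, u⟩ := mv
  exact u (gen9 (Y := ⟨⟨⟨{g | P1 g}, P1.mul⟩, fun _ => rfl⟩, P1.inv⟩) h hb hh (fun _ _ h => h)
    (fun b hb => absurd ⟨b, hb⟩ hn) hg)

end Cfsg.Lib.U4F
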