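import Cfsg.Agent.U4F.C9b

/-! The standard elements which fix the base labels. -/

set_option autoImplicit false

namespace Cfsg.Lib.U4F

open Cfsg Subgroup Equiv
open Cfsg.Lib.U5F (UF qq SC sc_refl)
open Cfsg.Lib.Perm (F9)
open Lab
open C9b

variable {X : Subgroup (Perm (F9 × F9))} {a b : F9} {σ : F9 ≃+* F9}

namespace C9c

/-- Words for standard elements. -/
def dz : List (Wd × F9 × F9 × Bool) :=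
  [([], 1, 1, false),
   ([(4, ⟨0, 1⟩), (4, ⟨1, 0⟩), (4, ⟨0, 1⟩)], ⟨1, 2⟩, ⟨2, 1⟩, true),
   ([(4, ⟨0, 1⟩), (4, ⟨2, 0⟩), (4, ⟨0, 1⟩)], ⟨2, 2⟩, ⟨1, 1⟩, true),
   ([(4, ⟨0, 2⟩), (4, ⟨1, 0⟩), (4, ⟨0, 2⟩)], ⟨1, 1⟩, ⟨2, 2⟩, true),
   ([(4, ⟨0, 2⟩), (4, ⟨2, 0⟩), (4, ⟨0, 2⟩)], ⟨2, 1⟩, ⟨1, 2⟩, true),
   ([(4, ⟨1, 1⟩), (4, ⟨2, 2⟩), (4, ⟨1, 1⟩)], ⟨1, 1⟩, ⟨2, 2⟩, true),
   ([(4, ⟨1, 2⟩), (4, ⟨2, 1⟩), (4, ⟨1, 2⟩)], ⟨1, 2⟩, ⟨2, 1⟩, true),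
   ([(0, 0), (4, ⟨0, 0⟩), (4, ⟨0, 1⟩), (4, ⟨0, 2⟩)], ⟨0, 1⟩, ⟨0, 1⟩, true),
   ([(0, 0), (4, ⟨0, 0⟩), (4, ⟨1, 0⟩), (4, ⟨2, 0⟩)], ⟨1, 0⟩, ⟨1, 0⟩, true),
   ([(4, ⟨0, 1⟩), (4, ⟨0, 2⟩), (4, ⟨1, 0⟩), (4, ⟨2, 0⟩)], ⟨0, 2⟩, ⟨0, 2⟩, false),
   ([(0, 0), (4, ⟨0, 0⟩), (4, ⟨0, 1⟩), (4, ⟨2, 0⟩), (4, ⟨0, 2⟩)], ⟨2, 1⟩, ⟨1, 2⟩, false),
   ([(0, 0), (4, ⟨0, 0⟩), (4, ⟨0, 1⟩), (4, ⟨1, 0⟩), (4, ⟨0, 2⟩)], ⟨2, 2⟩, ⟨1, 1⟩, false)]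

theorem dz_spec : ∀ r ∈ dz, ∀ e ∈ bas,
    ev r.1 e = (r.2.1 * fl r.2.2.2 e.1, r.2.2.1 * fl r.2.2.2 e.2) := by decide +kernel

set_option synthInstance.maxSize 4000 in
theorem cover : ∀ l ∈ goodL, ∀ t : F9, t ≠ 0 → ∀ m ∈ [t, -t], ∀ e,
    (∀ x : F9, (∀ y ∈ l, x.re = y.re ∨ x.im = y.im) → m / star t * fl e x = x) →
      ∃ r ∈ dz, (∀ a ∈ r.1, a.1 < 4 ∨ a.2 ∈ l) ∧ r.2.2.2 = e ∧ ∃ j < 4,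
        t = (-ii) ^ j * r.2.1 ∧ m = ii ^ j * r.2.2.1 := by decide +kernel

theorem hY_pow (j : ℕ) (v : F9 × F9) : (hY ^ j) v = ((-ii) ^ j * v.1, ii ^ j * v.2) := by
  induction j with
  | zero => simp
  | succ j ih => rw [pow_succ', Perm.mul_apply, ih, hY_apply, pow_succ', pow_succ', mul_assoc, mul_assoc]

theorem fl_add (e : Bool) (x y : F9) : fl e (x + y) = fl e x + fl e y := by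
  cases e
  exacts [rfl, star_add x y]

end C9c

open C9c

theorem dzero9 (hu : A1 F9 ≤ X) (hh : hY ∈ X) (hg : Good (Sig X)) (ha : a ≠ 0) (hb : b ≠ 0)
    (h : ∀ x ∈ Bs (Sig X), lab a b σ x = x) : ∃ φ ∈ X, ∀ v, φ v = gy a b σ v := by
  obtain ⟨l, hl, e⟩ := hg
  obtain ⟨f, hf⟩ := exists_fl σ
  have k : ∀ a b : F9, a ≠ 0 → b ≠ 0 → a * star b ∈ [a / b, -(a / b)] ∧
      kap a b = a * star b / star (a / b) := by decide +kernel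
  rw [e] at h
  obtain ⟨r, hr, u, rfl, j, -, e1, e2⟩ := cover l hl (a / b) (div_ne_zero ha hb) _ (k a b ha hb).1 f
    fun x hx => by rw [← (k a b ha hb).2, ← hf]; exact h x (mem_Bs.2 hx)
  refine ⟨hY ^ j * ev r.1, mul_mem (pow_mem hh j) (ev_mem (hu ⟨ii, by decide, rfl⟩) hh fun a ha =>
    (u a ha).imp_right fun h => (Set.ext_iff.1 e a.2).2 h), fun v => ?_⟩
  rw [Perm.mul_apply, ad_ext (ev_ad _) (fun v w => by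
    simp only [Prod.fst_add, Prod.snd_add, fl_add, mul_add, Prod.mk_add_mk]) (dz_spec r hr) v, hY_pow,
    gy, hf, hf, e1, e2, mul_assoc, mul_assoc]

end Cfsg.Lib.U4F
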