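import Cfsg.Agent.U4F.L2b

/-! The opposite root group on `V`. -/

set_option autoImplicit false
set_option linter.unusedSectionVars false

namespace Cfsg.Lib.U4F

open Cfsg Cfsg.FusionSystem Subgroup Equiv Cfsg.Lib.Fus
open Cfsg.Lib.U5F (UF qq SC sc_refl Tr Iv LTr Sec Loc SEm MinL)

universe u v

variable {K : Type u} [Field K] [StarRing K] [Finite K] [UF K] {p : ℕ} [Fact p.Prime] [CharP K p]
variable {X : Subgroup (Perm (H K))} {g k : Perm (H K)} {v w : H K}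

namespace L2d

theorem l2_zero : l2 (0 : K) = 1 := Equiv.ext fun v => by ext <;> simp

theorem l2_add (r r' : K) : l2 (r + r') = l2 r * l2 r' := Equiv.ext fun v => by
  ext <;> simp only [Perm.mul_apply, l2_x1, l2_s, l2_x2, star_add, star_mul', v.h1] <;> ring

theorem l2_neg (r : K) : l2 (-r) = (l2 r)⁻¹ := by
  rw [eq_inv_iff_mul_eq_one, ← l2_add, neg_add_cancel, l2_zero]

theorem not_n2_l2 {r : K} (hr : r ≠ 0) : ¬ N2 (l2 r) := fun h => by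
  obtain ⟨d, hd, hs⟩ := U5F.exists_skew (K := K)
  have := (h.iz (v := ⟨d, 0, 0, hs, by simp⟩) ⟨rfl, rfl⟩).1
  simp [hr, hd] at this

theorem conj_eq (h : Hy2 p X) (hg : g ∈ X) (hn : ¬ N2 g) (hz : ∀ v, IZ v → (g v).s = 0)
    (hw : ∀ v : H K, v.x2 = 0 → (g v).x1 = 0) (t0 : K) : ∃ r, g * u2 t0 * g⁻¹ = l2 r := by
  by_cases h0 : t0 = 0
  · exact ⟨0, by rw [h0, u2_zero, l2_zero, mul_one, mul_inv_cancel]⟩
  have ha := h.add g hg
  have hZ : ∀ w : H K, w.x1 = 0 → w.s = 0 → IZ (g⁻¹ w) := fun w h1 h2 => by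
    obtain ⟨z, hz', e⟩ := exists_iz h hg hn w.h2
    rw [show w = g z from H.ext (h1.trans (hw z hz'.2).symm) (h2.trans (hz z hz').symm) e.symm,
      perm_inv_apply]
    exact hz'
  have hW : ∀ w : H K, w.x1 = 0 → (g⁻¹ w).x2 = 0 := fun w h1 => by
    obtain ⟨y, a1, a2, a3⟩ := wz h hg w.s
    have a4 := hw _ a3
    rw [perm_apply_inv] at a4
    have a5 := (hZ (w - y) (by simp [h1, a4]) (by simp [a1])).2
    rwa [L2a.map_sub' (h.add _ (X.inv_mem hg)), H.sub_x2, a3, sub_zero] at a5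
  have hq : ∀ x ∈ X, ∀ v, IZ v → qd (x v) = 0 := fun x hx v hv => by
    by_cases hN : N2 x
    · simp [qd, (hN.iz hv).1, (hN.iz hv).2]
    obtain ⟨t, ht⟩ := tr2 h hg hx hn hN
    have a1 := hz _ (ht.iz hv)
    have a2 := hw _ (ht.iz hv).2
    rw [Perm.mul_apply, Perm.mul_apply, perm_apply_inv] at a1 a2
    rw [← qd_u2 t, qd, a1, a2]; simp
  have hσ : g * u2 t0 * g⁻¹ ∈ X := X.mul_mem (X.mul_mem hg (h.u t0)) (X.inv_mem hg)
  have e : ∀ v, (g * u2 t0 * g⁻¹) v - v = g (u2 t0 (g⁻¹ v) - g⁻¹ v) := fun v => by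
    rw [L2a.map_sub' ha, perm_apply_inv, Perm.mul_apply, Perm.mul_apply]
  have b1 : ∀ v, ((g * u2 t0 * g⁻¹) v).x1 = v.x1 := fun v => by
    rw [← sub_eq_zero, ← H.sub_x1, e]
    exact hw _ (by simp)
  have b2 : ∀ v, v.x1 = 0 → ((g * u2 t0 * g⁻¹) v).s = v.s := fun v hv => by
    rw [← sub_eq_zero, ← H.sub_s, e]
    exact hz _ ⟨by rw [H.sub_s, u2_s, hW v hv]; ring, by simp⟩
  have b3 : ∀ v, v.x1 = 0 → v.s = 0 → (g * u2 t0 * g⁻¹) v = v := fun v h1 h2 => by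
    rw [Perm.mul_apply, Perm.mul_apply, iz_iff.1 (hZ v h1 h2), perm_apply_inv]
  have b4 : ¬ N2 (g * u2 t0 * g⁻¹) := fun hN => by
    obtain ⟨n, e1⟩ := h.syl.pgroup ⟨u2 t0, t0, rfl⟩
    have e1 : u2 t0 ^ p ^ n = 1 := congrArg Subtype.val e1
    obtain ⟨t', e2⟩ := mem_T2_of_p h.syl hσ hN ⟨n, by rw [conj_pow, e1, mul_one, mul_inv_cancel]⟩
    exact hn (h.ti g hg t0 t' h0 e2)
  generalize g * u2 t0 * g⁻¹ = σ at hσ b1 b2 b3 b4
  obtain ⟨t, ht⟩ := tr2 h hg hσ hn b4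
  obtain ⟨d, hd, hs⟩ := U5F.exists_skew (K := K)
  have c1 : ∀ v, IZ v → (σ v).s = -t * (σ v).x2 ∧ v.x1 = t * star t * (σ v).x2 := fun v hv => by
    have a1 := hz _ (ht.iz hv)
    have a2 := hw _ (ht.iz hv).2
    rw [Perm.mul_apply, Perm.mul_apply, perm_apply_inv] at a1 a2
    rw [u2_s] at a1
    have a3 : (σ v).s = -t * (σ v).x2 := by linear_combination a1
    rw [u2_x1, b1, a3, star_mul', star_neg, (σ v).h2] at a2
    exact ⟨a3, by linear_combination a2⟩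
  have ht0 : t ≠ 0 := fun e0 => hd (by
    simpa [e0] using (c1 ⟨d, 0, 0, hs, by simp⟩ ⟨rfl, rfl⟩).2)
  have ht1 : star t ≠ 0 := star_ne_zero.2 ht0
  have c2 : ∀ v, IZ v → σ v = l2 (-(star t)⁻¹) v := fun v hv => by
    obtain ⟨a1, a2⟩ := c1 v hv
    refine H.ext (b1 v) ?_ ?_
    · rw [l2_s, a1, a2, hv.1]; field_simp; ring
    · rw [l2_x2, a2, hv.1, hv.2, star_neg, star_inv₀, star_star, star_zero]; field_simp; ring
  generalize -(star t)⁻¹ = r at c2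
  have sp : ∀ v : H K, σ v = l2 r ⟨v.x1, 0, 0, v.h1, by simp⟩ +
      σ ⟨0, v.s, 0, by simp, by simp⟩ + ⟨0, 0, v.x2, by simp, v.h2⟩ := fun v => by
    rw [← c2 _ ⟨rfl, rfl⟩, ← b3 ⟨0, 0, v.x2, by simp, v.h2⟩ rfl rfl, ← h.add σ hσ, ← h.add σ hσ]
    congr 1
    ext <;> simp
  have b5 : ∀ b, (σ ⟨0, b, 0, by simp, by simp⟩).s = b := fun b => b2 _ rfl
  have c3 : ∀ b, (σ ⟨0, b, 0, by simp, by simp⟩).x2 = b * star r - r * star b := fun b => by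
    by_cases hb : b = 0
    · rw [b3 _ rfl hb]; simp [hb]
    obtain ⟨a, rfl⟩ : ∃ a, b = a * d := ⟨b / d, by field_simp⟩
    obtain ⟨z, hz', e1⟩ := exists_iz h hg hn hs
    have e2 := hq _ (X.mul_mem hσ (X.mul_mem (h.u a) hg)) z hz'
    rw [Perm.mul_apply, Perm.mul_apply, sp] at e2
    simp only [qd, u2_x1, u2_s, u2_x2, hz z hz', hw z hz'.2, e1, H.add_x1, H.add_s, H.add_x2, l2_x1,
      l2_s, l2_x2, b1, b5, zero_add, add_zero, zero_mul, mul_zero, star_zero, sub_zero,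
      star_add, star_mul', star_star, hs] at e2
    have ha0 : a ≠ 0 := left_ne_zero_of_mul hb
    refine mul_left_cancel₀ (mul_ne_zero (mul_ne_zero ha0 (star_ne_zero.2 ha0)) hd) ?_
    rw [star_mul', hs]
    linear_combination e2
  refine ⟨r, Equiv.ext fun v => ?_⟩
  rw [sp]
  ext
  · simp [b1]
  · simp [b2, add_comm]
  · simp only [H.add_x2, l2_x2, c3]; simp; ring

end L2d

open L2d

theorem low_of_nf (h : Hy2 p X) (hg : g ∈ X) (hn : ¬ N2 g) (hz : ∀ v, IZ v → (g v).s = 0)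
    (hw : ∀ v : H K, v.x2 = 0 → (g v).x1 = 0) (r : K) : l2 r ∈ X := by
  choose f hf using conj_eq h hg hn hz hw
  have hi : Function.Injective f := fun a b e => by
    have e' : g * u2 a * g⁻¹ = g * u2 b * g⁻¹ := by rw [hf, hf, e]
    exact u2_inj (mul_left_cancel (mul_right_cancel e'))
  obtain ⟨t, rfl⟩ := Finite.surjective_of_injective hi r
  rw [← hf]
  exact X.mul_mem (X.mul_mem hg (h.u t)) (X.inv_mem hg)

theorem tor_of_l2 (hu : T2 K ≤ X) (hl : ∀ r, l2 r ∈ X) {m : K} (hm : m ≠ 0) :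
    ∃ g ∈ X, ∀ v, g v = gh m m⁻¹ (RingEquiv.refl K) sc_refl v := by
  have hw : ∀ c : K, c ≠ 0 → ∃ w ∈ X, ∀ v : H K, (w v).x1 = c * star c * v.x2 ∧
      (w v).s = c * star v.s / star c ∧ (w v).x2 = v.x1 / (c * star c) := fun c h0 =>
    ⟨u2 c * l2 (-(star c)⁻¹) * u2 c, X.mul_mem (X.mul_mem (hu ⟨c, rfl⟩) (hl _)) (hu ⟨c, rfl⟩),
      fun v => by
        have h1 : star c ≠ 0 := star_ne_zero.2 h0
        simp only [Perm.mul_apply, u2_x1, u2_s, u2_x2, l2_x1, l2_s, l2_x2, star_add, star_sub,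
          star_mul', star_neg, star_inv₀, star_star, v.h1, v.h2]
        refine ⟨?_, ?_, ?_⟩ <;> field_simp <;> ring⟩
  obtain ⟨w1, h1, e1⟩ := hw m hm
  obtain ⟨w2, h2, e2⟩ := hw 1 one_ne_zero
  refine ⟨w1 * w2, X.mul_mem h1 h2, fun v => ?_⟩
  have h3 : star m ≠ 0 := star_ne_zero.2 hm
  ext <;> simp [e1, e2] <;> field_simp

theorem bru2 (h : Hy2 p X) (hl : ∀ r, l2 r ∈ X) (hg : g ∈ X) :
    ∃ r t, N2 (l2 r * u2 t * g) := by
  by_cases hn : N2 g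
  · exact ⟨0, 0, by rwa [l2_zero, u2_zero, one_mul, one_mul]⟩
  obtain ⟨t, ht⟩ := tr2 h (hl 1) hg (not_n2_l2 one_ne_zero) hn
  exact ⟨-1, t, by rwa [l2_neg]⟩

end Cfsg.Lib.U4F
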