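import Cfsg.Agent.U4F.B2
import Cfsg.Agent.U4F.H1
import Cfsg.Agent.U4F.L2d

/-! Comparison of two fusion systems containing the opposite root elements. -/

set_option autoImplicit false
set_option linter.unusedSectionVars false

namespace Cfsg.Lib.U4F

open Cfsg Cfsg.FusionSystem Subgroup Equiv Cfsg.Lib.Fus U
open Cfsg.Lib.U5F (UF qq SC sc_refl)

universe u

variable {K : Type u} [Field K] [StarRing K] [Finite K] [UF K] {p : ℕ} [Fact p.Prime] [CharP K p]
variable {F F' : FusionSystem (⊤ : Subgroup (U K))} {f : Perm (U K)}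

namespace Cmp

theorem of_ext (h : ∀ f, PIso F f ⊤ ⊤ → Mor F' ⊤ f) {P : Subgroup (U K)} (he : Ext F P f) :
    Mor F' P f := by
  obtain ⟨k, hk, e⟩ := he
  exact ((h k hk).restrict le_top).congr fun x hx => (e x hx).symm

theorem back {P : Subgroup (U K)} {n : Perm (U K)} {k : U K} (hn : PIso F' n P P)
    (hm : ∀ x ∈ P, (n * (cj k * f)) x ∈ P) (h : Mor F' P (n * (cj k * f) : Perm (U K))) :
    Mor F' P f :=
  ((h.pmul hn.symm.mor hm).conj_comp (mem_top k⁻¹)).congr fun x _ => by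
    simp only [Perm.mul_apply, perm_inv_apply, cj_apply]; group

end Cmp

theorem subV (hF : F.IsSaturated p) (he : Hess F p) (hl : Low2 F) (hl' : Low2 F')
    (h : ∀ f, PIso F f ⊤ ⊤ → Mor F' ⊤ f) (hf : PIso F f (V K) (V K)) : Mor F' (V K) f := by
  obtain ⟨φ, hφ, e⟩ := exists_X2 hf
  obtain ⟨r, t, h2⟩ := bru2 (hy2 hF he) (low2_iff.1 hl) hφ
  have hf' := (hf.trans (B1.piso_cj F (V K) ⟨t, 0, 0, 0, by simp, by simp⟩)).trans (hl r)
  refine Cmp.back (hl' r) (fun _ hx => hf'.maps hx) (Cmp.of_ext h (ext2 hF hf' (fun g hg => ?_) h2))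
  rw [Perm.mul_apply, Perm.mul_apply, Perm.mul_apply, Perm.mul_apply, pi2_lo2, cj_apply,
    pi2_conj _ (hf.maps hg), e g hg]

theorem subQ (hF : F.IsSaturated p) (hs : Std F) (hq : qq K ≠ 3) (hE : F.IsEssential p (Q K))
    (hl : Low1 F) (hl' : Low1 F') (h : ∀ f, PIso F f ⊤ ⊤ → Mor F' ⊤ f)
    (hf : PIso F f (Q K) (Q K)) : Mor F' (Q K) f := by
  obtain ⟨φ, hφ, e⟩ := exists_X1 hf
  obtain ⟨c, d, hc, hd, h2⟩ := (lin1 (hy1 hF) (bo1 hF hs) hq (mv1 hF hE)).2 φ hφ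
  have hf' := (hf.trans (B1.piso_cj F (Q K) ⟨0, 0, 0, c, by simp, hc⟩)).trans (hl d hd)
  refine Cmp.back (hl' d hd) (fun _ hx => hf'.maps hx)
    (Cmp.of_ext h (ext1 hF hf' (fun g hg => ?_) h2))
  rw [Perm.mul_apply, Perm.mul_apply, Perm.mul_apply, Perm.mul_apply, pi1_lo1, cj_apply,
    pi1_conj _ (hf.maps hg), e g hg]

theorem sub_of_low (hF : F.IsSaturated p) (hs : Std F) (he : Hess F p) (hq : qq K ≠ 3)
    (h1 : Low1 F) (h1' : Low1 F') (h2 : Low2 F) (h2' : Low2 F')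
    (h : ∀ f, PIso F f ⊤ ⊤ → Mor F' ⊤ f) : F.IsSubsystemOf F' :=
  sub_of_alperin_essential (isP_top p) hF fun P hP _ f hf => by
    rcases hP with rfl | hE
    · exact h f hf
    rcases he _ hE with rfl | rfl
    · exact subQ hF hs hq hE h1 h1' h hf
    · exact subV hF he h2 h2' h hf

end Cfsg.Lib.U4F
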