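import Cfsg.Agent.U4F.CoK

/-! The configuration in the Leech lattice exists. -/

set_option autoImplicit false

namespace Cfsg.Lib.U4F

open Cfsg Cfsg.Lib.Spor Cfsg.Lib.Spor.CK
open Cfsg.Lib.U5F (SC sc_refl)
open Cfsg.Lib.Perm (F9)

namespace Co

theorem cm_mm (a b : Co0) (n : ℕ) : mm (cm a) n (cm b) = cm (b * a ^ n) := by
  induction n with
  | zero => rw [pow_zero, mul_one]; rfl
  | succ n ih =>
    change mmul (mm (cm a) n (cm b)) (cm a) = _
    rw [ih, mmul_cm, pow_succ, mul_assoc]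

theorem cm_gen {A : ℕ} (h : A ∈ [mZ, mS1, mS2, mY, mT1, mT2]) : cm (el A) = A :=
  cm_el (k_gen A h).1

theorem cm_wV (g : U F9) : cm (wV (el mZ) (el mS1) (el mS2) (el mY) g) = cV g := by
  rw [cV, wV, ← cm_mm, ← cm_mm, ← cm_mm, ← one_mul (el mZ ^ _), ← cm_mm, cm_one,
    cm_gen (by simp), cm_gen (by simp), cm_gen (by simp), cm_gen (by simp)]

theorem rel : Rel (el mZ) (el mS1) (el mS2) (el mY) (el mT1) (el mT2) where
  pw := by
    have : ∀ A ∈ [mZ, mS1, mS2, mY, mT1, mT2], el A ^ 3 = 1 := fun A h => cm_inj <| by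
      rw [← one_mul (el A ^ 3), ← cm_mm, cm_one, cm_gen h]; exact (k_gen A h).2.1
    change ∀ y ∈ [mZ, mS1, mS2, mY, mT1, mT2].map el, _
    exact List.forall_mem_map.2 this
  cm := by
    have s : [mZ, mS1, mS2, mY] ⊆ [mZ, mS1, mS2, mY, mT1, mT2] := by simp
    have : ∀ A ∈ [mZ, mS1, mS2, mY], ∀ B ∈ [mZ, mS1, mS2, mY], el A * el B = el B * el A :=
      fun A h B h' => cm_inj <| by
        rw [← mmul_cm, ← mmul_cm, cm_gen (s h), cm_gen (s h')]; exact k_cm.1 A h B h'
    change ∀ y ∈ [mZ, mS1, mS2, mY].map el, ∀ y' ∈ [mZ, mS1, mS2, mY].map el, _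
    exact List.forall_mem_map.2 fun A h => List.forall_mem_map.2 (this A h)
  cd := cm_inj <| by rw [← mmul_cm, ← mmul_cm, cm_gen (by simp), cm_gen (by simp)]; exact k_cm.2.1
  ac g hg := cm_inj <| by
    rw [← mmul_cm, ← mmul_cm, cm_wV, cm_wV, cm_gen (by simp)]; exact (k_cm.2.2.2 g hg).1
  ad g hg := cm_inj <| by
    rw [← mmul_cm, ← mmul_cm, cm_wV, cm_wV, cm_gen (by simp)]; exact (k_cm.2.2.2 g hg).2

/-- The embedding. -/
noncomputable def io : U F9 →* Co0 := rel.hom

theorem cm_io (g : U F9) : cm (io g) = cf g := by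
  change cm (wU _ _ _ _ _ _ g) = _
  rw [cf, wU, ← mul_assoc, ← cm_mm, ← cm_mm, cm_wV, cm_gen (by simp), cm_gen (by simp)]

/-- The nine vectors. -/
noncomputable def vc (x : F9) : leechLattice := lv (pv x)

theorem pk_vc (x : F9) : pk (vc x) = pv x := (isLV_spec (k_lv x)).1
theorem nm_vc (x : F9) : nm (vc x) = 32 := (isLV_spec (k_lv x)).2
theorem sh_vc (x : F9) : Sh (vc x) := .of_eq (nm_vc x)

theorem smul_vc {w : Co0} {x y : F9} (h : app (cm w) (pv x) = pv y) : w • vc x = vc y :=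
  pk_inj ((sh_vc x).smul w) (sh_vc y) (by rw [← app_cm w (sh_vc x), pk_vc, pk_vc, h])

theorem conj_io {w : Co0} {g g' : U F9} (h : mmul (cm w) (cf g) = mmul (cf g') (cm w)) :
    w * io g * w⁻¹ = io g' := by
  rw [mul_inv_eq_iff_eq_mul]
  exact cm_inj (by rw [← mmul_cm, ← mmul_cm, cm_io, cm_io, h])

theorem Ok.spec {W : ℕ} {L : F9 → F9} {l : List (U F9)} {A : U F9 → U F9} (h : Ok W L l A) :
    ∃ w : Co0, (∀ x, w • vc x = vc (L x)) ∧ ∀ g ∈ l, w * io g * w⁻¹ = io (A g) := by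
  obtain ⟨w, rfl⟩ := isCo0_sound h.1
  exact ⟨w, fun x => smul_vc (h.2.1 x), fun g hg => conj_io (h.2.2 g hg)⟩

theorem fix_vc (g : U F9) (x : F9) : io g • vc x = vc x := by
  have e : ∀ A ∈ [mZ, mS1, mS2, mY, mT1, mT2], el A ∈ MulAction.stabilizer Co0 (vc x) :=
    fun A h => smul_vc (by rw [cm_gen h]; exact (k_gen A h).2.2 x)
  simp only [List.forall_mem_cons] at e
  obtain ⟨a, b, c, d, e, f, -⟩ := e
  exact mul_mem (mul_mem (mul_mem (mul_mem (pow_mem a _) (pow_mem b _)) (pow_mem c _))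
    (pow_mem d _)) (mul_mem (pow_mem e _) (pow_mem f _))

/-- `A` and `L` are induced by an element of `Co0`. -/
def Ind (L : F9 → F9) (A : U F9 → U F9) : Prop :=
  ∃ w : Co0, (∀ x, w • vc x = vc (L x)) ∧ ∀ g, w * io g * w⁻¹ = io (A g)

theorem Ind.comp {L L' : F9 → F9} {A A' : U F9 → U F9} (h : Ind L A) (h' : Ind L' A') :
    Ind (fun x => L (L' x)) fun g => A (A' g) := by
  obtain ⟨w, a, b⟩ := h
  obtain ⟨w', a', b'⟩ := h'
  exact ⟨w * w', fun x => by rw [mul_smul, a', a], fun g => by rw [← b, ← b']; group⟩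

theorem Ok.ind {W : ℕ} {L : F9 → F9} {a b : F9} {σ : F9 ≃+* F9} {hσ : SC σ} (ha : a ≠ 0) (hb : b ≠ 0)
    (h : Ok W L [gz, g1, g2, gx, h1, h2] (gam a b σ hσ)) : Ind L (gam a b σ hσ) := by
  obtain ⟨w, u, v⟩ := h.spec
  exact ⟨w, u, gen_top (((MulAut.conj w).toMonoidHom.comp io).eqLocusM
    (io.comp (gamA a b σ hσ ha hb).toMonoidHom)) v⟩

theorem ind_gam (a b : F9) (σ : F9 ≃+* F9) (hσ : SC σ) (ha : a ≠ 0) (hb : b ≠ 0) :
    Ind (lab a b σ) (gam a b σ hσ) := by
  have lg : ∀ a : F9, a ≠ 0 → ∃ i < 8, a = ze ^ i := by decide +kernel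
  have h1 : Ind (lab a 1 (RingEquiv.refl F9)) (dia a 1) := by
    obtain ⟨i, hi, rfl⟩ := lg a ha
    exact (k_dA i hi).ind ha one_ne_zero
  have h2 : Ind (lab 1 b (RingEquiv.refl F9)) (dia 1 b) := by
    obtain ⟨i, hi, rfl⟩ := lg b hb
    exact (k_dB i hi).ind one_ne_zero hb
  have h3 : Ind σ (gam 1 1 σ hσ) := by
    have e : ∀ x : F9, σ x = (x.re.val : F9) + (x.im.val : F9) * σ ii := fun x => by
      have : ∀ x : F9, x = (x.re.val : F9) + (x.im.val : F9) * ii := by decide +kernel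
      conv_lhs => rw [this x, map_add, map_mul, map_natCast, map_natCast]
    have i2 : σ ii * σ ii = -1 := by
      rw [← map_mul, show ii * ii = -1 by decide +kernel, map_neg, map_one]
    have : ∀ j : F9, j * j = -1 → (∀ x : F9, (x.re.val : F9) + (x.im.val : F9) * j = x) ∨
        ∀ x : F9, (x.re.val : F9) + (x.im.val : F9) * j = star x := by decide +kernel
    rcases this _ i2 with u | u
    · refine ⟨1, fun x => by rw [one_smul, e, u], fun g => ?_⟩
      rw [gam_congr fun x => (e x).trans (u x), dia_one, one_mul, inv_one, mul_one]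
    · obtain ⟨w, p, q⟩ := k_dS.ind one_ne_zero one_ne_zero
      refine ⟨w, fun x => by rw [p, e, u], fun g => (q g).trans (congrArg io ?_)⟩
      have e' : ∀ x, σ x = star x := fun x => (e x).trans (u x)
      refine U.ext ?_ ?_ ?_ ?_ <;> simp only [gam_t, gam_x1, gam_s, gam_x2, e'] <;> rfl
  obtain ⟨w, p, q⟩ := h1.comp (h2.comp h3)
  refine ⟨w, fun x => (p x).trans (congrArg vc ?_), fun g => (q g).trans (congrArg io ?_)⟩
  · simp only [lab, RingEquiv.refl_apply, star_div₀, star_one]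
    have := star_ne_zero.2 ha
    have := star_ne_zero.2 hb
    field_simp
  · refine U.ext ?_ ?_ ?_ ?_ <;>
      simp only [gam_t, gam_x1, gam_s, gam_x2, RingEquiv.refl_apply, star_one] <;> ring

theorem rr_add (b : F9) (v w : F9 × F9) : rr b (v + w) = rr b v + rr b w := by
  have e : ∀ v, rr b v = ey b (l1 ii (hY ((l1 ii)⁻¹ ((ey b)⁻¹ v)))) := fun _ => rfl
  have h : ∀ v, hY v = (-ii * v.1, ii * v.2) := fun _ => rfl
  simp only [e, h, ey_apply, l1_apply, l1_inv_apply, ey_inv_apply, Prod.fst_add, Prod.snd_add,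
    Prod.mk_add_mk, Prod.mk.injEq, star_add, star_sub, star_mul', star_neg]
  constructor <;> ring

theorem coe_vc (x : F9) (p : GolayPt) :
    (vc x : GolayPt → ℤ) p = (dg (pv x) (ptIdx p) : ℤ) - 8 := by
  rw [← pk_vc]; exact (congrFun (unpack_pack (sh_vc x).small) p).symm

theorem sum_cm (l : List Co0) :
    (l.map cm).sum = dsum 576 fun k => (l.map fun g => md (co0Mat g) k).sum := by
  induction l with
  | nil => simp [dsum]
  | cons g l ih => simp only [List.map_cons, List.sum_cons, ih, ← dsum_add]; rfl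

theorem sum_md_le (l : List Co0) (k : ℕ) : (l.map fun g => md (co0Mat g) k).sum ≤ 16 * l.length := by
  induction l with
  | nil => simp
  | cons g l ih =>
    have := md_le (small_co0Mat g) k
    simp only [List.map_cons, List.sum_cons, List.length_cons]; omega

theorem sum_fix (l : List Co0) {y : leechLattice} (h : ∀ g ∈ l, g • y = y) (p : GolayPt) :
    8 * (l.length : ℤ) * (y : GolayPt → ℤ) p = ∑ q,
      (((l.map fun g => md (co0Mat g) (24 * ptIdx p + 23 - ptIdx q)).sum : ℕ) - 8 * (l.length : ℤ)) *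
        (y : GolayPt → ℤ) q := by
  induction l with
  | nil => simp
  | cons g l ih =>
    have a := co0_coord g y p
    rw [h g List.mem_cons_self] at a
    have b := ih fun g hg => h g (List.mem_cons_of_mem _ hg)
    have : 8 * ((g :: l).length : ℤ) * (y : GolayPt → ℤ) p =
      8 * (y : GolayPt → ℤ) p + 8 * (l.length : ℤ) * (y : GolayPt → ℤ) p := by
      rw [List.length_cons]; push_cast; ring
    rw [this, a, b, ← Finset.sum_add_distrib]
    refine Finset.sum_congr rfl fun q _ => ?_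
    rw [List.map_cons, List.sum_cons, List.length_cons, Nat.cast_add, md_eq _ _ (ptIdx_lt q),
      vd_cast (small_co0Mat g _), idxPt_ptIdx, idxPt_ptIdx]
    push_cast; ring

theorem proj_vc (y : leechLattice) (h : ∀ g ∈ V F9, io g • y = y) :
    (72 : ℤ) • y = ∑ x, CK.dt y (vc x) • vc x := by
  have len : (lV.map io).length = 81 := by rw [List.length_map]; decide +kernel
  have mem : ∀ g ∈ lV, g ∈ V F9 := by
    have : ∀ g ∈ lV, g.t = 0 := by decide +kernel
    exact this
  have e : ((lV.map io).map cm).sum = mSum := by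
    have : cm ∘ io = cf := funext fun g => by rw [Function.comp_apply, cm_io]
    rw [List.map_map, this, k_sum]
  refine Subtype.ext (funext fun p => ?_)
  have a := sum_fix (lV.map io) (y := y) (fun g hg => by
    obtain ⟨k, hk, rfl⟩ := List.mem_map.1 hg
    exact h k (mem k hk)) p
  have b : ∀ q, ((((lV.map io).map fun g => md (co0Mat g) (24 * ptIdx p + 23 - ptIdx q)).sum : ℕ) : ℤ) =
      648 + 9 * ∑ x, (vc x : GolayPt → ℤ) p * (vc x : GolayPt → ℤ) q := fun q => by
    have := ptIdx_lt p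
    simp only [coe_vc]
    rw [← k_proj _ (ptIdx_lt p) _ (ptIdx_lt q), ← e, sum_cm, dg_dsum, if_pos (by omega)]
    intro i _
    have := sum_md_le (lV.map io) i
    omega
  simp only [b, len] at a
  simp only [AddSubgroup.coe_zsmul, AddSubmonoidClass.coe_finsetSum, Pi.smul_apply, Finset.sum_apply,
    smul_eq_mul, CK.dt, dotInt]
  have c : ∑ q, (648 + 9 * ∑ x, (vc x : GolayPt → ℤ) p * (vc x : GolayPt → ℤ) q - 8 * ((81 : ℕ) : ℤ)) *
      (y : GolayPt → ℤ) q = 9 * ∑ x, (∑ q, (y : GolayPt → ℤ) q * (vc x : GolayPt → ℤ) q) *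
        (vc x : GolayPt → ℤ) p := by
    simp only [Finset.sum_mul, Finset.mul_sum]
    rw [Finset.sum_comm]
    refine Finset.sum_congr rfl fun q _ => ?_
    rw [show ∀ s : ℤ, 648 + s - 8 * ((81 : ℕ) : ℤ) = s from fun s => by push_cast; ring, Finset.sum_mul]
    exact Finset.sum_congr rfl fun x _ => by ring
  rw [c] at a
  push_cast at a
  omega

end Co

open Co

theorem exists_coD : ∃ (ι : U F9 →* Co0) (v : F9 → leechLattice), CoD ι v := by
  refine ⟨io, vc, inj_of_gz io fun h => k_cm.2.2.1 (by rw [← cm_io, h, cm_one]), fix_vc, fun r => ?_,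
    ind_gam, fun b => ?_, nm_vc,
    fun x y h => dt_of_ip (sh_vc x) (sh_vc y) (pk_vc x) (pk_vc y) (k_ip x y h),
    Subtype.ext (funext fun p => ?_), proj_vc⟩
  · obtain ⟨w, p, q⟩ := (k_low r).spec
    refine ⟨w, p, fun g hg => ?_⟩
    let S : Submonoid (U F9) :=
      { carrier := {g | g ∈ V F9 ∧ w * io g * w⁻¹ = io (lo2 r g)}
        one_mem' := ⟨one_mem _, by
          rw [show lo2 r 1 = 1 from U.ext rfl rfl (by simp) (by simp), map_one]; group⟩
        mul_mem' := fun {g g'} u v => ⟨mul_mem u.1 v.1, by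
          rw [lo2_mul r u.1 v.1, map_mul, map_mul, ← u.2, ← v.2]; group⟩ }
    refine (gen_V S (fun g hg => ⟨?_, q g hg⟩) hg).2
    simp only [List.mem_cons, List.not_mem_nil, or_false] at hg
    rcases hg with rfl | rfl | rfl | rfl <;> exact rfl
  · obtain ⟨a, p, q⟩ := k_rf b
    obtain ⟨w, hw⟩ := isCo0_sound a
    rw [← hw] at p q
    refine ⟨w, fun x hx => smul_vc (p x hx), fun g hg => ?_⟩
    let S : Submonoid (U F9) :=
      { carrier := {g | g ∈ Q F9 ∧ ∃ g' ∈ Q F9, w * io g * w⁻¹ = io g' ∧ pi1 g' = rr b (pi1 g)}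
        one_mem' := ⟨one_mem _, 1, one_mem _, by rw [map_one]; group, by
          have := rr_add b 0 0
          rw [add_zero, left_eq_add] at this
          exact this.symm⟩
        mul_mem' := fun {g g'} ⟨u, k, hk, e, f⟩ ⟨u', k', hk', e', f'⟩ => ⟨mul_mem u u', k * k',
          mul_mem hk hk', by rw [map_mul, map_mul, ← e, ← e']; group,
          by rw [pi1_mul hk', pi1_mul u', rr_add, f, f']⟩ }
    refine (gen_Q S (fun g hg => ⟨?_, ?_⟩) hg).2
    · simp only [List.mem_cons, List.not_mem_nil, or_false] at hg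
      rcases hg with rfl | rfl | rfl | rfl | rfl <;> exact rfl
    · obtain ⟨a, ha⟩ := q g hg
      exact ⟨_, rfl, conj_io ha, rfl⟩
  · simp only [AddSubmonoidClass.coe_finsetSum, Finset.sum_apply, coe_vc]
    exact k_zero _ (ptIdx_lt p)

end Cfsg.Lib.U4F
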