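import Cfsg.Agent.U4F.Bas

/-! Finite facts on the labels. -/

set_option autoImplicit false

namespace Cfsg.Lib.U4F

open Cfsg Subgroup Equiv
open Cfsg.Lib.U5F (UF qq SC sc_refl)
open Cfsg.Lib.Perm (F9)

variable {X Y : Subgroup (Perm (F9 × F9))} {M M' : Set F9} {a b a' b' x : F9} {σ σ' : F9 ≃+* F9}

theorem sigma9 (σ : F9 ≃+* F9) : (∀ x, σ x = x) ∨ ∀ x, σ x = star x := by
  have e : ∀ x : F9, σ x = (x.re.val : F9) + (x.im.val : F9) * σ ii := fun x => by
    have : ∀ x : F9, x = (x.re.val : F9) + (x.im.val : F9) * ii := by decide +kernel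
    conv_lhs => rw [this x, map_add, map_mul, map_natCast, map_natCast]
  have i2 : σ ii * σ ii = -1 := by
    rw [← map_mul, show ii * ii = -1 by decide +kernel, map_neg, map_one]
  have : ∀ j : F9, j * j = -1 → (∀ x : F9, (x.re.val : F9) + (x.im.val : F9) * j = x) ∨
      ∀ x : F9, (x.re.val : F9) + (x.im.val : F9) * j = star x := by decide +kernel
  exact (this _ i2).imp (fun u x => (e x).trans (u x)) fun u x => (e x).trans (u x)

theorem hY_eq (v : F9 × F9) : hY v = gy ze ze⁻¹ (RingEquiv.refl F9) v := by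
  have e1 : ze / ze⁻¹ = -ii := by decide +kernel
  have e2 : ze * star ze⁻¹ = ii := by decide +kernel
  rw [gy, e1, e2]; rfl

namespace Lab

/-- The factor of `lab`. -/
def kap (a b : F9) : F9 := b * star b * ((a / b) / star (a / b))

theorem lab_eq : lab a b σ x = kap a b * σ x := rfl

theorem kap_mem (ha : a ≠ 0) (hb : b ≠ 0) : kap a b ∈ [1, -1, ii, -ii] := by
  revert a b; decide +kernel

theorem exists_kap : ∀ k ∈ [1, -1, ii, -ii], ∃ a, a ≠ 0 ∧ kap a 1 = k := by decide +kernel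

theorem sq_iff (x y : F9) : (x - y) ^ 5 = x - y ↔ x.re = y.re ∨ x.im = y.im := by
  revert x y; decide +kernel

theorem mem_Bs {l : List F9} : x ∈ Bs {x | x ∈ l} ↔ ∀ y ∈ l, x.re = y.re ∨ x.im = y.im := by
  simp only [Bs, Set.mem_ofPred_eq, sq_iff]

/-- The identity or the involution. -/
def fl (e : Bool) (x : F9) : F9 := bif e then star x else x

theorem exists_fl (σ : F9 ≃+* F9) : ∃ e, ∀ x, σ x = fl e x :=
  (sigma9 σ).elim (fun h => ⟨false, h⟩) fun h => ⟨true, h⟩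

theorem exists_sigma (e : Bool) : ∃ σ : F9 ≃+* F9, ∀ x, σ x = fl e x := by
  cases e
  exacts [⟨RingEquiv.refl F9, fun _ => rfl⟩, ⟨starRingAut, fun _ => rfl⟩]

theorem exists_nf (ha : a ≠ 0) (hb : b ≠ 0) (σ : F9 ≃+* F9) :
    ∃ k ∈ [1, -1, ii, -ii], ∃ e, ∀ x, lab a b σ x = k * fl e x := by
  obtain ⟨e, he⟩ := exists_fl σ
  exact ⟨_, kap_mem ha hb, e, fun x => by rw [lab_eq, he]⟩

theorem exists_lab {k : F9} (hk : k ∈ [1, -1, ii, -ii]) (e : Bool) :
    ∃ (a : F9) (σ : F9 ≃+* F9), a ≠ 0 ∧ ∀ x, lab a 1 σ x = k * fl e x := by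
  obtain ⟨a, ha, rfl⟩ := exists_kap k hk
  obtain ⟨σ, hσ⟩ := exists_sigma e
  exact ⟨a, σ, ha, fun x => by rw [lab_eq, hσ]⟩

theorem rr_eq (b : F9) : rr b = ey b * (l1 ii * hY * (l1 ii)⁻¹) * (ey b)⁻¹ := rfl

theorem hY_apply (v : F9 × F9) : hY v = (-ii * v.1, ii * v.2) := rfl
theorem hY_inv_apply (v : F9 × F9) : hY⁻¹ v = (ii * v.1, -ii * v.2) := rfl

theorem ey_u1 (b c : F9) : ey b * u1 c = u1 c * ey b := Equiv.ext fun v => by
  simp only [Perm.mul_apply, ey_apply, u1_apply, Prod.mk.injEq, true_and]; ring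

theorem l1_neg : l1 (-ii) * hY * (l1 (-ii))⁻¹ =
    (u1 ii * (l1 ii * hY * (l1 ii)⁻¹) * (u1 ii)⁻¹)⁻¹ := Equiv.ext (by decide +kernel)

end Lab

open Lab

theorem lab_lab (hσ : SC σ) : lab a b σ (lab a' b' σ' x) =
    lab (a * σ a') (b * σ b') (σ'.trans σ) x := by
  simp only [lab, map_mul, map_div₀, hσ _, star_mul', star_div₀, RingEquiv.trans_apply]
  ring

theorem lab_four (ha : a ≠ 0) (hb : b ≠ 0) : (lab a b σ)^[4] x = x := by
  obtain ⟨k, hk, e, h⟩ := exists_nf ha hb σ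
  have : ∀ k ∈ [1, -1, ii, -ii], ∀ e x, k * fl e (k * fl e (k * fl e (k * fl e x))) = x := by
    decide +kernel
  simpa only [Function.iterate_succ, Function.iterate_zero, Function.comp_apply, id, h]
    using this k hk e x

theorem lab_sub (x y : F9) : lab a b σ (x - y) = lab a b σ x - lab a b σ y := by
  rw [lab, lab, lab, map_sub, mul_sub]

theorem lab_sq (ha : a ≠ 0) (hb : b ≠ 0) : lab a b σ x ^ 5 = lab a b σ x ↔ x ^ 5 = x := by
  obtain ⟨k, hk, e, h⟩ := exists_nf ha hb σ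
  have : ∀ k ∈ [1, -1, ii, -ii], ∀ e x, (k * fl e x) ^ 5 = k * fl e x ↔ x ^ 5 = x := by
    decide +kernel
  rw [h]; exact this k hk e x

theorem lab_congr {hσ : SC σ} {hσ' : SC σ'} (ha : a ≠ 0) (hb : b ≠ 0) (_ha' : a' ≠ 0) (_hb' : b' ≠ 0)
    {k : U F9} (h : ∀ g, gam a b σ hσ g = k * gam a' b' σ' hσ' g * k⁻¹) (x : F9) :
    lab a b σ x = lab a' b' σ' x := by
  have ht : ∀ t, a / b * σ t = a' / b' * σ' t := fun t => by
    simpa using congrArg U.t (h ⟨t, 0, 0, 0, by simp, by simp⟩)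
  have e1 : a / b = a' / b' := by simpa using ht 1
  have e2 : ∀ t, σ t = σ' t := fun t => by
    have := ht t
    rw [← e1] at this
    exact mul_left_cancel₀ (div_ne_zero ha hb) this
  have e3 : b * star b = b' * star b' := by
    have : b * star b * σ ii = b' * star b' * σ' ii := by
      simpa only [gam_x2, U.mul_x2, U.inv_x2, add_add_neg_cancel'_right, add_neg_cancel_comm] using
        congrArg U.x2 (h ⟨0, 0, 0, ii, by simp, by decide⟩)
    rw [← e2] at this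
    exact mul_right_cancel₀ ((map_ne_zero σ).2 (by decide)) this
  rw [lab, lab, e1, e2, e3]

theorem lab_bs (ha : a ≠ 0) (hb : b ≠ 0) (h : ∀ x ∈ M, lab a b σ x ∈ M) (hx : x ∈ Bs M) :
    lab a b σ x ∈ Bs M := fun l hl => by
  have e : l = lab a b σ (lab a b σ (lab a b σ (lab a b σ l))) := (lab_four ha hb).symm
  rw [e, ← lab_sub, lab_sq ha hb]
  exact hx _ (h _ (h _ (h _ hl)))

theorem lab_sig (hu : A1 F9 ≤ X) (ha : a ≠ 0) (hb : b ≠ 0)
    (h : ∃ φ ∈ X, ∀ v, φ v = gy a b σ v) (hx : x ∈ Sig X) : lab a b σ x ∈ Sig X := by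
  obtain ⟨φ, hφ, e⟩ := h
  have hσ := U5F.sc σ
  have ha' := star_ne_zero.2 ha
  have hb' := star_ne_zero.2 hb
  have E1 : φ * ey x * φ⁻¹ = ey (lab a b σ x) := by
    rw [mul_inv_eq_iff_eq_mul]
    refine Equiv.ext fun v => ?_
    simp only [Perm.mul_apply, e, gy, ey_apply, lab, map_add, map_mul, hσ _, star_mul', star_div₀,
      Prod.mk.injEq, true_and]
    field_simp
  have E2 : φ * l1 ii * φ⁻¹ = l1 (σ ii / (b * star b)) := by
    rw [mul_inv_eq_iff_eq_mul]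
    refine Equiv.ext fun v => ?_
    simp only [Perm.mul_apply, e, gy, l1_apply, map_sub, map_mul, Prod.mk.injEq, and_true]
    field_simp
  have s : σ ii = ii ∨ σ ii = -ii := (sigma9 σ).imp (fun h => h ii) fun h => (h ii).trans (by decide)
  have E3 : φ * hY * φ⁻¹ = hY ∨ φ * hY * φ⁻¹ = hY⁻¹ := by
    refine s.imp (fun s => ?_) fun s => ?_ <;> rw [mul_inv_eq_iff_eq_mul] <;>
      refine Equiv.ext fun v => ?_ <;>
      simp only [Perm.mul_apply, e, gy, hY_apply, hY_inv_apply, map_neg, map_mul, s, Prod.mk.injEq] <;>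
      constructor <;> ring
  have E4 : σ ii / (b * star b) = ii ∨ σ ii / (b * star b) = -ii := by
    have : ∀ j b : F9, j = ii ∨ j = -ii → b ≠ 0 → j / (b * star b) = ii ∨ j / (b * star b) = -ii := by
      decide +kernel
    exact this _ _ s hb
  have m : φ * rr x * φ⁻¹ ∈ X := mul_mem (mul_mem hφ hx) (inv_mem hφ)
  have E : φ * rr x * φ⁻¹ = (φ * ey x * φ⁻¹) * ((φ * l1 ii * φ⁻¹) * (φ * hY * φ⁻¹) *
      (φ * l1 ii * φ⁻¹)⁻¹) * (φ * ey x * φ⁻¹)⁻¹ := by rw [rr_eq]; group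
  rw [E, E1, E2] at m
  generalize lab a b σ x = y at m ⊢
  generalize σ ii / (b * star b) = d at m E4
  have m' : ey y * (l1 d * hY * (l1 d)⁻¹) * (ey y)⁻¹ ∈ X := by
    rcases E3 with u | u <;> rw [u] at m
    · exact m
    · convert inv_mem m using 1; group
  rcases E4 with rfl | rfl
  · exact m'
  · have u : u1 ii ∈ X := hu ⟨ii, by decide, rfl⟩
    have c := ey_u1 y ii
    rw [l1_neg] at m'
    have := mul_mem (mul_mem (inv_mem u) (inv_mem m')) u
    change rr y ∈ X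
    rw [rr_eq]
    generalize l1 ii * hY * (l1 ii)⁻¹ = n at this ⊢
    convert this using 1
    calc _ = (u1 ii)⁻¹ * (u1 ii * ey y) * n * (u1 ii * ey y)⁻¹ * u1 ii := by group
      _ = _ := by rw [← c]; group

theorem bs_ne (h : Good M) : (Bs M).Nonempty := by
  obtain ⟨l, hl, rfl⟩ := h
  have : ∀ l ∈ goodL, ∃ x : F9, ∀ y ∈ l, x.re = y.re ∨ x.im = y.im := by decide +kernel
  obtain ⟨x, hx⟩ := this l hl
  exact ⟨x, mem_Bs.2 hx⟩

set_option synthInstance.maxSize 4000 in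
theorem max9 (h : Good M) (h' : Good M') (hle : M ⊆ M')
    (hd : ∀ (a b : F9) (σ : F9 ≃+* F9), a ≠ 0 → b ≠ 0 → (∀ x ∈ Bs M', lab a b σ x = x) →
      ∀ x ∈ Bs M, lab a b σ x = x) : M' = M := by
  obtain ⟨l, hl, rfl⟩ := h
  obtain ⟨l', hl', rfl⟩ := h'
  have : ∀ l ∈ goodL, ∀ l' ∈ goodL, (∀ x ∈ l, x ∈ l') → (∀ k ∈ [1, -1, ii, -ii], ∀ e,
      (∀ x : F9, (∀ y ∈ l', x.re = y.re ∨ x.im = y.im) → k * fl e x = x) →
        ∀ x : F9, (∀ y ∈ l, x.re = y.re ∨ x.im = y.im) → k * fl e x = x) → l' = l := by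
    decide +kernel
  rw [this l hl l' hl' hle fun k hk e u x hx => ?_]
  obtain ⟨a, σ, ha, v⟩ := exists_lab hk e
  rw [← v]
  exact hd a 1 σ ha one_ne_zero (fun x hx => (v x).trans (u x (mem_Bs.1 hx))) x (mem_Bs.2 hx)

end Cfsg.Lib.U4F
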