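import Cfsg.Agent.U4F.CoD
import Cfsg.Agent.U4F.Lab

/-! The normaliser of the Sylow subgroup permutes the nine vectors. -/

set_option autoImplicit false

namespace Cfsg.Lib.U4F

open Cfsg Subgroup Equiv
open Cfsg.Lib.U5F (UF qq SC sc_refl)
open Cfsg.Lib.Perm (F9)
open Cfsg.Lib.Spor Cfsg.Lib.Spor.CK Lab

variable {ι : U F9 →* Co0} {v : F9 → leechLattice}

namespace CoB

theorem card_range (h : CoD ι v) : Nat.card ι.range = 729 := by
  rw [← Nat.card_congr (MonoidHom.ofInjective h.inj).toEquiv, card_U, qq_F9]; rfl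

theorem surj (h : CoD ι v) {w : Co0} (hw : ∀ g, ∃ g', w * ι g * w⁻¹ = ι g') (g : U F9) :
    ∃ g', w * ι g' * w⁻¹ = ι g := by
  choose f hf using hw
  have : Function.Injective f := fun a b e => h.inj <| by
    have := (hf a).trans ((congrArg ι e).trans (hf b).symm)
    exact mul_left_cancel (mul_right_cancel this)
  obtain ⟨a, rfl⟩ := Finite.surjective_of_injective this g
  exact ⟨a, hf a⟩

theorem dt_sum {α : Type*} (y : leechLattice) (s : Finset α) (f : α → leechLattice) :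
    CK.dt y (∑ x ∈ s, f x) = ∑ x ∈ s, CK.dt y (f x) := by
  classical
  induction s using Finset.induction_on with
  | empty => simp [CK.dt, dotInt]
  | insert a s ha ih => rw [Finset.sum_insert ha, Finset.sum_insert ha, dt_add_right, ih]

theorem dt_zsmul (y z : leechLattice) (n : ℤ) : CK.dt y (n • z) = n * CK.dt y z := by
  simp only [CK.dt, dotInt, AddSubgroup.coe_zsmul, Pi.smul_apply, smul_eq_mul, Finset.mul_sum]
  exact Finset.sum_congr rfl fun _ _ => by ring

theorem le_nm {y : leechLattice} (h : y ≠ 0) : 32 ≤ CK.nm y :=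
  le_sqNorm_of_mem y.2 fun e => h (Subtype.ext e)

theorem eq_or (h : CoD ι v) {y : leechLattice} (hy : CK.nm y = 32) (hf : ∀ g, ι g • y = y) :
    ∃ b, y = v b ∨ y = -v b := by
  by_contra hn
  simp only [not_exists, not_or] at hn
  have b1 : ∀ b, -16 ≤ CK.dt y (v b) ∧ CK.dt y (v b) ≤ 16 := fun b => by
    have a1 := le_nm (sub_ne_zero.2 (hn b).1)
    have a2 := le_nm (y := y + v b) fun e => (hn b).2 (eq_neg_of_add_eq_zero_left e)
    rw [nm_sub, hy, h.nm] at a1
    rw [nm_add, hy, h.nm] at a2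
    omega
  have s1 := congrArg (CK.dt y) (h.proj y fun g _ => hf g)
  have s2 := congrArg (CK.dt y) h.sum
  simp only [dt_sum, dt_zsmul, dt_self, hy] at s1 s2
  have c : ∑ _b : F9, (256 : ℤ) = 72 * 32 := by
    rw [Finset.sum_const, Finset.card_univ, Perm.card_F9]; rfl
  have le : ∀ b ∈ Finset.univ, CK.dt y (v b) * CK.dt y (v b) ≤ 256 := fun b _ => by
    nlinarith [b1 b]
  have e := (Finset.sum_eq_sum_iff_of_le le).1 (s1.symm.trans c.symm)
  have d : (32 : ℤ) ∣ ∑ b, (CK.dt y (v b) + 16) := Finset.dvd_sum fun b hb => by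
    have : (CK.dt y (v b) - 16) * (CK.dt y (v b) + 16) = 0 := by linear_combination e b hb
    rcases mul_eq_zero.1 this with u | u <;> omega
  rw [Finset.sum_add_distrib, s2, Finset.sum_const, Finset.card_univ, Perm.card_F9] at d
  simp [CK.dt, dotInt] at d

theorem dt_eq (h : CoD ι v) (x y : F9) : CK.dt (v x) (v y) =
    if x = y then 32 else if x.re = y.re ∨ x.im = y.im then -16 else 8 := by
  split_ifs with a b
  · rw [a, dt_self, h.nm]
  · rw [h.dt x y a, if_pos ((sq_iff x y).2 b)]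
  · rw [h.dt x y a, if_neg (mt (sq_iff x y).1 b)]

set_option synthInstance.maxSize 4000 in
theorem aff {π : F9 → F9} (h : ∀ x y, x ≠ y → π x ≠ π y ∧
    ((π x).re = (π y).re ∨ (π x).im = (π y).im ↔ x.re = y.re ∨ x.im = y.im)) :
    ∃ k ∈ [1, -1, ii, -ii], ∃ e, ∀ x, π x = π 0 + k * fl e x := by
  have A : ∀ p q r : F9, q ≠ p → (q.re = p.re ∨ q.im = p.im) → r ≠ p → (r.re = p.re ∨ r.im = p.im) →
      ¬ (q.re = r.re ∨ q.im = r.im) →
      ∃ k ∈ [1, -1, ii, -ii], ∃ e, ∀ z ∈ [0, 1, ii], [p, q, r].getD (z.re.val + 2 * z.im.val) 0 =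
        p + k * fl e z := by decide +kernel
  have B : ∀ c, ∀ k ∈ [1, -1, ii, -ii], ∀ e, ∀ x y : F9, (∀ z ∈ [0, 1, ii], x ≠ z ∧
      y ≠ c + k * fl e z ∧ (y.re = (c + k * fl e z).re ∨ y.im = (c + k * fl e z).im ↔
        x.re = z.re ∨ x.im = z.im)) → y = c + k * fl e x := by decide +kernel
  obtain ⟨k, hk, e, u⟩ := A (π 0) (π 1) (π ii) (h _ _ (by decide)).1 ((h _ _ (by decide)).2.2 (by decide))
    (h _ _ (by decide)).1 ((h _ _ (by decide)).2.2 (by decide))
    (mt (h _ _ (by decide)).2.1 (by decide))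
  have u' : ∀ z ∈ [0, 1, ii], π z = π 0 + k * fl e z := by
    simp only [List.forall_mem_cons] at u ⊢
    exact ⟨u.1, u.2.1, u.2.2.1, by simp⟩
  refine ⟨k, hk, e, fun x => ?_⟩
  by_cases hx : x ∈ [0, 1, ii]
  · exact u' x hx
  · refine B _ k hk e x _ fun z hz => ?_
    have : x ≠ z := fun e => hx (e ▸ hz)
    rw [← u' z hz]
    exact ⟨this, h x z this⟩

end CoB

open CoB

theorem CoD.syl (h : CoD ι v) (x : F9) :
    ¬ 3 ∣ ι.range.relIndex (MulAction.stabilizer Co0 (v x)) := by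
  have le : ι.range ≤ MulAction.stabilizer Co0 (v x) := by
    rintro _ ⟨g, rfl⟩; exact h.fix g x
  obtain ⟨e⟩ := nonempty_stabilizer_equiv (exists_uu (h.nm x))
  have c := (ι.range.subgroupOf (MulAction.stabilizer Co0 (v x))).card_mul_index
  rw [← Nat.card_congr e.toEquiv, card_sCo2, Nat.card_congr (subgroupOfEquivOfLe le).toEquiv,
    card_range h] at c
  unfold relIndex
  omega

theorem CoD.perm (h : CoD ι v) {w : Co0} (hw : ∀ g, ∃ g', w * ι g * w⁻¹ = ι g') {x₀ : F9}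
    (h0 : w • v x₀ = v x₀) : ∃ (c a b : F9) (σ : F9 ≃+* F9), a ≠ 0 ∧ b ≠ 0 ∧
      ∀ x, w • v x = v (c + lab a b σ x) := by
  have : ∀ x, ∃ b, w • v x = v b := fun x => by
    obtain ⟨b, u | u⟩ := eq_or h ((nm_smul w (v x)).trans (h.nm x)) fun g => by
      obtain ⟨g', e⟩ := surj h hw g
      rw [← e, mul_smul, mul_smul, inv_smul_smul, h.fix]
    · exact ⟨b, u⟩
    · have := dt_smul w (v x) (v x₀)
      rw [u, h0, dt_neg_left, dt_eq h, dt_eq h] at this
      split_ifs at this <;> omega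
  choose π hπ using this
  obtain ⟨k, hk, e, u⟩ := aff (π := π) fun x y hxy => by
    have := dt_smul w (v x) (v y)
    rw [hπ, hπ, dt_eq h, dt_eq h, if_neg hxy] at this
    split_ifs at this <;> first | omega | tauto
  obtain ⟨a, σ, ha, u'⟩ := exists_lab hk e
  exact ⟨π 0, a, 1, σ, ha, one_ne_zero, fun x => by rw [hπ, u', ← u]⟩

set_option synthInstance.maxSize 4000 in
theorem aff_fix {M : Set F9} (hM : Good M) {c a b : F9} {σ : F9 ≃+* F9} (ha : a ≠ 0) (hb : b ≠ 0)
    (h : ∀ x ∈ Bs M, c + lab a b σ x = x) : c = 0 := by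
  obtain ⟨l, hl, rfl⟩ := hM
  obtain ⟨k, hk, e, u⟩ := exists_nf ha hb σ
  have : ∀ l ∈ goodL, ∀ c, ∀ k ∈ [1, -1, ii, -ii], ∀ e,
      (∀ x : F9, (∀ y ∈ l, x.re = y.re ∨ x.im = y.im) → c + k * fl e x = x) → c = 0 := by
    decide +kernel
  exact this l hl c k hk e fun x hx => by rw [← u]; exact h x (mem_Bs.2 hx)

end Cfsg.Lib.U4F
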