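import Cfsg.Agent.U4F.Bas

/-! The normaliser of the unitriangular subgroup in the matrix model. -/

set_option autoImplicit false
set_option linter.unusedSectionVars false

namespace Cfsg.Lib.U4F

open Cfsg Subgroup Equiv U Matrix
open Cfsg.Lib.U5F (UF qq SC sc_refl exists_skew)

universe u

variable {K : Type u} [Field K] [StarRing K] [Finite K] [UF K]

namespace MN

theorem inj_four {R : Type*}
    {a00 a01 a02 a03 a10 a11 a12 a13 a20 a21 a22 a23 a30 a31 a32 a33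
      b00 b01 b02 b03 b10 b11 b12 b13 b20 b21 b22 b23 b30 b31 b32 b33 : R}
    (h : !![a00, a01, a02, a03; a10, a11, a12, a13; a20, a21, a22, a23; a30, a31, a32, a33] =
    !![b00, b01, b02, b03; b10, b11, b12, b13; b20, b21, b22, b23; b30, b31, b32, b33]) :
    (a00 = b00 ∧ a01 = b01 ∧ a02 = b02 ∧ a03 = b03) ∧ (a10 = b10 ∧ a11 = b11 ∧ a12 = b12 ∧ a13 = b13) ∧
      (a20 = b20 ∧ a21 = b21 ∧ a22 = b22 ∧ a23 = b23) ∧
      (a30 = b30 ∧ a31 = b31 ∧ a32 = b32 ∧ a33 = b33) :=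
  have e := fun i j => congrFun (congrFun h i) j
  ⟨⟨e 0 0, e 0 1, e 0 2, e 0 3⟩, ⟨e 1 0, e 1 1, e 1 2, e 1 3⟩, ⟨e 2 0, e 2 1, e 2 2, e 2 3⟩,
    e 3 0, e 3 1, e 3 2, e 3 3⟩

theorem eta_four {R : Type*} (M : Matrix (Fin 4) (Fin 4) R) :
    ∃ a00 a01 a02 a03 a10 a11 a12 a13 a20 a21 a22 a23 a30 a31 a32 a33 : R, M =
    !![a00, a01, a02, a03; a10, a11, a12, a13; a20, a21, a22, a23; a30, a31, a32, a33] :=
  ⟨M 0 0, M 0 1, M 0 2, M 0 3, M 1 0, M 1 1, M 1 2, M 1 3, M 2 0, M 2 1, M 2 2, M 2 3,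
    M 3 0, M 3 1, M 3 2, M 3 3, by
    ext i j
    fin_cases i <;> fin_cases j <;> rfl⟩

theorem uni {t s x x2 n13 n23 : K} {N : Matrix (Fin 4) (Fin 4) K}
    (e : N = !![1, t, s, x; 0, 1, x2, n13; 0, 0, 1, n23; 0, 0, 0, 1])
    (h : Nᴴ * J4 K * N = J4 K) : ∃ k : U K, N = mat k := by
  rw [e, J4, ct_four, mul_four, mul_four] at h
  obtain ⟨-, ⟨-, -, -, h13⟩, ⟨-, -, h22, h23⟩, -, -, -, h33⟩ := inj_four h
  simp only [star_zero, star_one, mul_zero, zero_mul, mul_one, one_mul, add_zero, zero_add]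
    at h13 h22 h23 h33
  obtain rfl : n23 = -star t := by linear_combination h13
  have k2 : star x2 = -x2 := by linear_combination h22
  obtain rfl : n13 = -star s - x2 * star t := by
    linear_combination h23 + star t * k2
  simp only [star_neg, star_star, star_sub, star_mul', k2] at h33
  refine ⟨⟨t, x + s * star t, s, x2, ?_, k2⟩, ?_⟩
  · simp only [star_add, star_mul', star_star]
    linear_combination h33
  · rw [e, mat]
    simp only [add_sub_cancel_right]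

theorem tri {M : Matrix (Fin 4) (Fin 4) K} (h : ∀ g' : U K, ∃ g, M * mat g = mat g' * M) :
    ∃ a00 a01 a02 a03 a11 a12 a13 a22 a23 a33 : K, M =
      !![a00, a01, a02, a03; 0, a11, a12, a13; 0, 0, a22, a23; 0, 0, 0, a33] := by
  obtain ⟨a00, a01, a02, a03, a10, a11, a12, a13, a20, a21, a22, a23,
    a30, a31, a32, a33, rfl⟩ := eta_four M
  have key : ∀ g' : U K, ∃ g : U K,
      g'.t * a10 + g'.s * a20 + (g'.x1 - g'.s * star g'.t) * a30 = 0 ∧
      a10 * g.t = g'.x2 * a21 + (-star g'.s - g'.x2 * star g'.t) * a31 ∧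
      a20 * g.s + a21 * g.x2 = -star g'.t * a32 := fun g' => by
    obtain ⟨g, e⟩ := h g'
    rw [mat, mat, mul_four, mul_four] at e
    obtain ⟨⟨h0, -⟩, ⟨-, h1, -⟩, ⟨-, -, h2, -⟩, -⟩ := inj_four e
    exact ⟨g, by linear_combination -h0, by linear_combination h1, by linear_combination h2⟩
  obtain ⟨d, d0, hd⟩ := exists_skew (K := K)
  obtain ⟨g1, p1, -, p3⟩ := key ⟨1, 0, 0, 0, by simp, by simp⟩
  obtain ⟨g2, q1, q2, -⟩ := key ⟨0, 0, 1, 0, by simp, by simp⟩
  obtain ⟨g3, r1, -⟩ := key ⟨0, d, 0, 0, hd, by simp⟩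
  obtain ⟨g4, -, r2, -⟩ := key ⟨0, 0, 0, d, by simp, hd⟩
  obtain rfl : a10 = 0 := by simpa using p1
  obtain rfl : a20 = 0 := by simpa using q1
  obtain rfl : a30 = 0 := by simpa [d0] using r1
  obtain rfl : a31 = 0 := by simpa using q2
  obtain rfl : a21 = 0 := by simpa [d0] using r2
  obtain rfl : a32 = 0 := by simpa using p3
  exact ⟨_, _, _, _, _, _, _, _, _, _, rfl⟩

theorem diag_conj {α β : K} (ha : α ≠ 0) (hb : β ≠ 0) (g : U K) :
    !![α, 0, 0, 0; 0, β, 0, 0; 0, 0, (star β)⁻¹, 0; 0, 0, 0, (star α)⁻¹] * mat g =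
      mat (dia α β g) * !![α, 0, 0, 0; 0, β, 0, 0; 0, 0, (star β)⁻¹, 0; 0, 0, 0, (star α)⁻¹] := by
  have ha' : star α ≠ 0 := star_ne_zero.2 ha
  have hb' : star β ≠ 0 := star_ne_zero.2 hb
  rw [mat, mat, mul_four, mul_four]
  refine ext_four ?_
  simp only [gam_t, gam_x1, gam_s, gam_x2, RingEquiv.refl_apply, mul_zero, zero_mul,
    add_zero, zero_add, mul_one, one_mul, star_mul', star_div₀, star_star, true_and, and_true]
  and_intros <;> field_simp

end MN

open MN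

theorem norm_emb {w : SJ K} (hw : ∀ g : U K, ∃ g', w * emb g * w⁻¹ = emb g') :
    ∃ (k : U K) (m m' : K), m ≠ 0 ∧ m' ≠ 0 ∧ star m' = m' ∧ ∀ g, w * emb g * w⁻¹ =
      emb (k * dia m m⁻¹ (dia 1 m' g) * k⁻¹) := by
  choose φ hφ using hw
  have inj : Function.Injective φ := fun a b e => emb_injective (by
    have := (hφ a).trans ((congrArg emb e).trans (hφ b).symm)
    simpa using this)
  obtain ⟨a00, a01, a02, a03, a11, a12, a13, a22, a23, a33, e⟩ :=
    tri (M := w.1.1) fun g' => by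
      obtain ⟨g, rfl⟩ := Finite.injective_iff_surjective.1 inj g'
      exact ⟨g, congrArg (·.1.1) (mul_inv_eq_iff_eq_mul.1 (hφ g))⟩
  have hu : w.1.1ᴴ * J4 K * w.1.1 = J4 K := w.2
  have hdet : a00 * a11 * a22 * a33 = 1 := by
    have := w.1.2
    rw [e, det_of_isUpperTriangular, Fin.prod_univ_four] at this
    · exact this
    · intro i j h
      fin_cases i <;> fin_cases j <;> first | rfl | exact absurd h (by decide)
  obtain ⟨h03, h12⟩ : star a00 * a33 = 1 ∧ star a11 * a22 = 1 := by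
    have := hu
    rw [e, J4, ct_four, mul_four, mul_four] at this
    obtain ⟨⟨-, -, -, h0⟩, ⟨-, -, h1, -⟩, -⟩ := inj_four this
    simp only [star_zero, mul_zero, zero_mul, mul_one, add_zero, zero_add] at h0 h1
    exact ⟨h0, h1⟩
  have ha' : star a00 ≠ 0 := left_ne_zero_of_mul_eq_one h03
  have hb' : star a11 ≠ 0 := left_ne_zero_of_mul_eq_one h12
  have ha : a00 ≠ 0 := star_ne_zero.1 ha'
  have hb : a11 ≠ 0 := star_ne_zero.1 hb'
  obtain rfl : a33 = (star a00)⁻¹ := eq_inv_of_mul_eq_one_right h03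
  obtain rfl : a22 = (star a11)⁻¹ := eq_inv_of_mul_eq_one_right h12
  obtain ⟨k, hk⟩ := uni (N := w.1.1 * !![a00⁻¹, 0, 0, 0; 0, a11⁻¹, 0, 0;
      0, 0, star a11, 0; 0, 0, 0, star a00]) (by
    rw [e, mul_four]
    simp only [mul_zero, zero_mul, add_zero, zero_add, mul_inv_cancel₀ ha, mul_inv_cancel₀ hb,
      inv_mul_cancel₀ ha', inv_mul_cancel₀ hb']
    rfl) (by
    rw [conjTranspose_mul, Matrix.mul_assoc, Matrix.mul_assoc, ← Matrix.mul_assoc (J4 K),
      ← Matrix.mul_assoc w.1.1ᴴ, ← Matrix.mul_assoc w.1.1ᴴ, hu, J4, ct_four, mul_four, mul_four]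
    refine ext_four ?_
    simp [ha, hb])
  have hk' : w.1.1 = mat k * !![a00, 0, 0, 0; 0, a11, 0, 0;
      0, 0, (star a11)⁻¹, 0; 0, 0, 0, (star a00)⁻¹] := by
    rw [← hk, Matrix.mul_assoc, mul_four, e, mul_four]
    refine ext_four ?_
    simp [ha, hb]
  refine ⟨k, a00, a00 * a11, ha, mul_ne_zero ha hb, ?_, fun g => ?_⟩
  · rw [star_mul']
    field_simp at hdet
    linear_combination -hdet
  rw [dia_dia, mul_one, inv_mul_cancel_left₀ ha]
  refine mul_inv_eq_iff_eq_mul.2 (Subtype.ext (Subtype.ext ?_))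
  change w.1.1 * mat g = mat _ * w.1.1
  rw [hk', ← Matrix.mul_assoc, ← mat_mul, inv_mul_cancel_right, mat_mul, Matrix.mul_assoc,
    Matrix.mul_assoc, diag_conj ha hb]

end Cfsg.Lib.U4F
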