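import Cfsg.Agent.U4F.Bas
import Cfsg.Agent.Class.HermCount
import Cfsg.Agent.Class.HermSimple
import Cfsg.Agent.Chev.ClsSU

/-! The group `U K` is a Sylow subgroup of `SU₄(q)` and of `PSU₄(q)`. -/

set_option autoImplicit false
set_option linter.unusedSectionVars false

namespace Cfsg.Lib.U4F

open Cfsg Subgroup Matrix Cfsg.Lib.Class
open Cfsg.Lib.U5F (UF qq SC sc_refl card_K star_eq_pow two_le_qq qq_eq_pow)

universe u

namespace Syl

variable {K : Type u} [Field K] [StarRing K] [Fintype K] [UF K]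

theorem card' : Fintype.card K = qq K ^ 2 := by rw [← card_K, Nat.card_eq_fintype_card]

theorem J_apply (a b : Fin 4) : J4 K a b = if b = a.rev then 1 else 0 := by
  fin_cases a <;> fin_cases b <;> rfl

theorem J_adj (M : Matrix (Fin 4) (Fin 4) K) : J4 K * Chev.adjM (frobq card') M = Mᴴ * J4 K := by
  ext i j
  simp only [mul_apply, J_apply, Chev.adjM_apply, frobq_apply, ← star_eq_pow, conjTranspose_apply,
    ite_mul, mul_ite, one_mul, zero_mul, mul_one, mul_zero, Finset.sum_ite_eq', Finset.mem_univ, if_true,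
    Fin.rev_rev]
  rw [Finset.sum_eq_single j.rev (fun b _ hb => if_neg fun e => hb (by rw [e, Fin.rev_rev])) (by simp),
    if_pos (Fin.rev_rev j).symm]

theorem J_J : J4 K * J4 K = 1 := by
  rw [J4, mul_four]
  ext i j
  fin_cases i <;> fin_cases j <;> simp

theorem equiv_SU : Nonempty (SJ K ≃* SU 4 K (qq K)) := by
  obtain ⟨e⟩ := Chev.nonempty_suTw_F_equiv (n := 3) (card' (K := K))
  refine ⟨(MulEquiv.subgroupCongr (Subgroup.ext fun g => ?_)).trans e⟩
  rw [mem_SJ, Chev.mem_suTw_F, ← J_adj, Matrix.mul_assoc]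
  refine ⟨fun h => ?_, fun h => by rw [h, Matrix.mul_one]⟩
  rw [← Matrix.one_mul (_ * _), ← J_J, Matrix.mul_assoc, h]

theorem card_SJ : Nat.card (SJ K) =
    qq K ^ 6 * ((qq K ^ 2 - 1) * (qq K ^ 3 + 1) * (qq K ^ 4 - 1)) := by
  obtain ⟨e⟩ := equiv_SU (K := K)
  rw [Nat.card_congr e.toEquiv]
  refine Nat.eq_of_mul_eq_mul_left (Nat.succ_pos (qq K)) ((Form.card_SU card' 4 (by omega)).trans ?_)
  simp [Form.guOrder, Finset.prod_range_succ, show ¬ Even 3 by decide]
  ring

end Syl

open Syl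

theorem syl_emb {K : Type u} [Field K] [StarRing K] [Finite K] [UF K] (p : ℕ) [Fact p.Prime] [CharP K p] :
    ¬ p ∣ (emb : U K →* SJ K).range.index := by
  have := Fintype.ofFinite K
  have hp : p.Prime := Fact.out
  have h2 := two_le_qq (K := K)
  obtain ⟨n, hn⟩ := qq_eq_pow (K := K) p
  have hq : p ∣ qq K := hn ▸ dvd_pow_self p (by rintro rfl; simp [hn] at h2)
  have h := (emb : U K →* SJ K).range.card_mul_index
  rw [← Nat.card_congr (MonoidHom.ofInjective emb_injective).toEquiv, card_U, card_SJ] at h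
  rw [Nat.eq_of_mul_eq_mul_left (by positivity) h]
  have k : ∀ k, k ≠ 0 → ¬ p ∣ qq K ^ k + 1 := fun k hk h =>
    hp.one_lt.ne' (Nat.dvd_one.1 ((Nat.dvd_add_right (dvd_pow hq hk)).1 h))
  simp only [hp.dvd_mul, not_or]
  exact ⟨⟨FusH.not_dvd_pow_sub_one hp hq (by omega) two_ne_zero, k 3 three_ne_zero⟩,
    FusH.not_dvd_pow_sub_one hp hq (by omega) four_ne_zero⟩

theorem exists_proj {K : Type u} [Field K] [Fintype K] [StarRing K] [UF K] :
    ∃ π : SJ K →* PSU 4 K (qq K), Function.Surjective π ∧ π.ker ≤ center (SJ K) ∧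
      Function.Injective (π.comp emb) := by
  obtain ⟨e⟩ := equiv_SU (K := K)
  let π : SJ K →* PSU 4 K (qq K) := (QuotientGroup.mk' _).comp e.toMonoidHom
  have hπ : Function.Surjective π := (QuotientGroup.mk'_surjective _).comp e.surjective
  have hk : π.ker ≤ center (SJ K) := fun x hx => mem_center_iff.2 fun g => e.injective (by
    rw [map_mul, map_mul]
    exact mem_center_iff.1 ((QuotientGroup.eq_one_iff _).1 hx) (e g))
  refine ⟨π, hπ, hk, (injective_iff_map_eq_one _).2 fun x hx => ?_⟩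
  have c := mem_center_iff.1 (hk hx)
  have z : x ∈ Z K := mem_Z_iff.2 fun g => emb_injective (by rw [map_mul, map_mul]; exact c _)
  let w : SJ K := ⟨⟨!![0, 0, 0, 1; 0, 0, 1, 0; 0, 1, 0, 0; 1, 0, 0, 0], by
    simp [det_succ_row_zero, Fin.sum_univ_succ, Fin.succAbove]; norm_num⟩, mem_SJ.2 (by
      simp only [J4, ct_four, mul_four]
      refine ext_four ?_
      simp)⟩
  have : w.1.1 * mat x = mat x * w.1.1 := congrArg (·.1.1) (c w)
  have := congrFun (congrFun this 0) 0
  simp only [w, mat, mul_four] at this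
  exact eq_one_of_Z z (by simpa [z.2.1] using this.symm)

theorem exists_equiv {K : Type u} [Field K] [Fintype K] [StarRing K] [UF K] {p : ℕ} [Fact p.Prime]
    [CharP K p] (T : Sylow p (PSU 4 K (qq K))) :
    Nonempty (U K ≃* (T : Subgroup (PSU 4 K (qq K)))) := by
  obtain ⟨π, hπ, -, hi⟩ := exists_proj (K := K)
  have hP : IsPGroup p (π.comp emb).range := (isP p).of_equiv (MonoidHom.ofInjective hi)
  have hd : ¬ p ∣ (π.comp emb).range.index := fun h => syl_emb p (h.trans (by
    rw [MonoidHom.range_comp]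
    exact index_map_dvd _ hπ))
  exact ⟨(MonoidHom.ofInjective hi).trans (Sylow.equiv (hP.toSylow hd) T)⟩

end Cfsg.Lib.U4F
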