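import Cfsg.Agent.U4F.MW
import Cfsg.Agent.U4F.MN
import Cfsg.Agent.U4F.Syl

/-! The outer automizer of a Sylow `3`-subgroup of `U₄(3)`. -/

set_option autoImplicit false

namespace Cfsg.Lib.U4F

open Cfsg Subgroup Equiv
open Cfsg.Lib.U5F (UF qq SC sc_refl)
open Cfsg.Lib.Perm (F9)

theorem Cyc4.map {G G' : Type*} [Group G] [Group G'] {P : Subgroup G} (h : Cyc4 P) (e : G ≃* G') :
    Cyc4 (P.map e.toMonoidHom) := by
  obtain ⟨n, h1, ⟨k, hk, h2⟩, h3⟩ := h
  refine ⟨e n, ?_, ⟨e k, mem_map_of_mem _ hk, ?_⟩, fun w hw => ?_⟩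
  · rintro _ ⟨x, hx, rfl⟩
    exact ⟨_, h1 x hx, by simp⟩
  · rintro _ ⟨x, hx, rfl⟩
    simpa using congrArg e (h2 x hx)
  · obtain ⟨w, rfl⟩ := e.surjective w
    obtain ⟨j, k, hk, h⟩ := h3 w fun x hx => by
      obtain ⟨y, hy, u⟩ := hw _ (mem_map_of_mem _ hx)
      rwa [← show y = w * x * w⁻¹ from e.injective (by simpa using u)]
    refine ⟨j, e k, mem_map_of_mem _ hk, ?_⟩
    rintro _ ⟨x, hx, rfl⟩
    simpa using congrArg e (h x hx)

namespace Cy4

theorem pow_conj {G : Type*} [Group G] {j : U F9 →* G} {n : G} {m : F9}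
    (h : ∀ g, n * j g * n⁻¹ = j (dia m m⁻¹ g)) (i : ℕ) (g : U F9) :
    n ^ i * j g * (n ^ i)⁻¹ = j (dia (m ^ i) (m ^ i)⁻¹ g) := by
  induction i with
  | zero => rw [pow_zero, pow_zero, inv_one, inv_one, dia_one, one_mul, mul_one]
  | succ i ih =>
    rw [pow_succ', pow_succ' m, mul_inv m, ← dia_dia, ← h, ← ih]; group

theorem dia_congr {a b a' b' : F9} (h : a / b = a' / b' ∧ a * star a = a' * star a' ∧
    a * star b = a' * star b' ∧ b * star b = b' * star b') (g : U F9) : dia a b g = dia a' b' g :=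
  U.ext (by rw [gam_t, gam_t, h.1]) (by rw [gam_x1, gam_x1, h.2.1]) (by rw [gam_s, gam_s, h.2.2.1])
    (by rw [gam_x2, gam_x2, h.2.2.2])

theorem core {G : Type*} [Group G] {π : SJ F9 →* G} (hπ : Function.Surjective π)
    (hk : π.ker ≤ center (SJ F9)) (hi : Function.Injective (π.comp emb)) :
    Cyc4 (π.comp emb).range := by
  have : Finite (SJ F9) := Finite.of_injective (fun g : SJ F9 => g.1.1) fun a b e =>
    Subtype.ext (Subtype.ext e)
  obtain ⟨n, hn⟩ := exists_wd (m := ze) (by decide)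
  have hn' : ∀ g, π n * π.comp emb g * (π n)⁻¹ = π.comp emb (dia ze ze⁻¹ g) := fun g => by
    simpa using congrArg π (hn g)
  refine ⟨π n, ?_, ⟨1, one_mem _, ?_⟩, fun w hw => ?_⟩
  · rintro _ ⟨g, rfl⟩; exact ⟨_, (hn' g).symm⟩
  · rintro _ ⟨g, rfl⟩
    rw [pow_conj hn', dia_congr (a' := 1) (b' := 1) (by decide +kernel), dia_one, one_mul, inv_one,
      mul_one]
  obtain ⟨w, rfl⟩ := hπ w
  obtain ⟨k, m, m', hm, hm', hr, e⟩ := norm_emb (w := w) fun g => by
    obtain ⟨g', u⟩ := hw _ ⟨g, rfl⟩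
    refine ⟨g', ?_⟩
    have z : (emb g')⁻¹ * (w * emb g * w⁻¹) ∈ π.ker := by
      rw [MonoidHom.mem_ker, map_mul, map_inv, inv_mul_eq_one]
      simpa using u
    generalize hz : (emb g')⁻¹ * (w * emb g * w⁻¹) = z' at z
    have c := mem_center_iff.1 (hk z)
    have hP : IsPGroup 3 (emb : U F9 →* SJ F9).range :=
      (isP 3).of_equiv (MonoidHom.ofInjective emb_injective)
    obtain ⟨a, ha⟩ := isP 3 g
    obtain ⟨b, hb⟩ := isP 3 g'
    have o : z' ^ 3 ^ (a + b) = 1 := by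
      have e1 : (w * emb g * w⁻¹) ^ 3 ^ (a + b) = 1 := by
        rw [conj_pow, ← map_pow, pow_add, pow_mul, ha, one_pow, map_one, mul_one, mul_inv_cancel]
      have e2 : emb g' ^ 3 ^ (a + b) = 1 := by
        rw [← map_pow, pow_add, pow_mul', hb, one_pow, map_one]
      rwa [← mul_inv_cancel_left (emb g') (w * emb g * w⁻¹), hz, (Commute.mul_pow (c _)), e2,
        one_mul] at e1
    have : (zpowers z').Normal := ⟨fun x hx y => by
      rw [mem_center_iff.1 (zpowers_le.2 (hk z) hx) y, mul_inv_cancel_right]; exact hx⟩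
    have s := (hP.toSylow (syl_emb 3)).3 (hP.to_sup_of_normal_right
      (IsPGroup.of_card_dvd_pow (n := a + b) (by
        rw [Nat.card_zpowers]; exact orderOf_dvd_of_pow_eq_one o))) le_sup_left
    obtain ⟨x, rfl⟩ : z' ∈ (emb : U F9 →* SJ F9).range :=
      s.le ((le_sup_right : zpowers z' ≤ _) (mem_zpowers z'))
    rw [(injective_iff_map_eq_one _).1 hi x z, map_one, inv_mul_eq_one] at hz
    exact hz.symm
  have : ∀ m m' : F9, m ≠ 0 → m' ≠ 0 → star m' = m' → ∃ j < 8,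
      m * 1 / (m⁻¹ * m') = ze ^ j / (ze ^ j)⁻¹ ∧ m * 1 * star (m * 1) = ze ^ j * star (ze ^ j) ∧
      m * 1 * star (m⁻¹ * m') = ze ^ j * star (ze ^ j)⁻¹ ∧
      m⁻¹ * m' * star (m⁻¹ * m') = (ze ^ j)⁻¹ * star (ze ^ j)⁻¹ := by decide +kernel
  obtain ⟨j, -, hj⟩ := this m m' hm hm' hr
  refine ⟨j, _, ⟨k, rfl⟩, ?_⟩
  rintro _ ⟨g, rfl⟩
  rw [pow_conj hn', ← dia_congr hj, ← dia_dia]
  simpa using congrArg π (e g)

end Cy4

theorem cyc4_psu (T : Sylow 3 (PSU 4 F9 3)) : Cyc4 (T : Subgroup (PSU 4 F9 3)) := by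
  have := exists_proj (K := F9)
  rw [qq_F9] at this
  obtain ⟨π, hπ, hk, hi⟩ := this
  have hP : IsPGroup 3 (π.comp emb).range := (isP 3).of_equiv (MonoidHom.ofInjective hi)
  have hd : ¬ 3 ∣ (π.comp emb).range.index := fun h => syl_emb 3 (h.trans (by
    rw [MonoidHom.range_comp]
    exact index_map_dvd _ hπ))
  obtain ⟨g, rfl⟩ := MulAction.exists_smul_eq (PSU 4 F9 3) (hP.toSylow hd) T
  exact (Cy4.core hπ hk hi).map (MulAut.conj g)

theorem cyc4_of_iso {G : Type*} [Group G] (e : G ≃* PSU 4 F9 3) (P : Subgroup G)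
    (hP : Nat.card P = 729) : Cyc4 P := by
  have c : Nat.card (P.map e.toMonoidHom) = 3 ^ 6 := by
    rw [card_map_of_injective e.injective, hP]; rfl
  obtain ⟨T, hT⟩ := (IsPGroup.of_card c).exists_le_sylow
  have cT : Nat.card T = 3 ^ 6 := by
    have := fun T : Sylow 3 (PSU 4 F9 (qq F9)) => exists_equiv T
    rw [qq_F9] at this
    obtain ⟨f⟩ := this T
    rw [← Nat.card_congr f.toEquiv, card_U, qq_F9]
  have := (cyc4_psu T).map e.symm
  rwa [← eq_of_le_of_card_ge hT (by rw [c, cT]), map_map, show e.symm.toMonoidHom.comp e.toMonoidHom =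
    MonoidHom.id G from MonoidHom.ext e.symm_apply_apply, map_id] at this

end Cfsg.Lib.U4F
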