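import Cfsg.Agent.U4F.CoB
import Cfsg.Agent.U4F.Cy4
import Cfsg.Agent.S1582

/-! The Conway group is an ambient group. -/

set_option autoImplicit false

namespace Cfsg.Lib.U4F

open Cfsg Subgroup Equiv
open Cfsg.Lib.U5F (UF qq SC sc_refl)
open Cfsg.Lib.Perm (F9)
open Cfsg.Lib.Spor Cfsg.Lib.Spor.CK

namespace CoC

theorem cyc_pow {G : Type*} [Group G] {P : Subgroup G} [Finite P] (h : Cyc4 P) {d w : G}
    (hd : ∀ x ∈ P, d * x * d⁻¹ ∈ P) (hw : ∀ x ∈ P, w * x * w⁻¹ ∈ P)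
    (h2 : ¬ ∃ k ∈ P, ∀ x ∈ P, d ^ 2 * x * (d ^ 2)⁻¹ = k * x * k⁻¹) :
    ∃ l : ℕ, ∃ k ∈ P, ∀ x ∈ P, w * x * w⁻¹ = k * (d ^ l * x * (d ^ l)⁻¹) * k⁻¹ := by
  obtain ⟨n, h1, h4, h3⟩ := h
  let M : Subgroup (normalizer (P : Set G)) :=
    { carrier := {y | ∃ k ∈ P, ∀ x ∈ P, y.1 * x * y.1⁻¹ = k * x * k⁻¹}
      one_mem' := ⟨1, one_mem _, fun _ _ => rfl⟩
      mul_mem' := by
        rintro y z ⟨k, hk, u⟩ ⟨l, hl, u'⟩
        refine ⟨k * l, mul_mem hk hl, fun x hx => ?_⟩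
        have := u _ (mul_mem (mul_mem hl hx) (inv_mem hl))
        rw [coe_mul, mul_inv_rev, mul_inv_rev]
        calc _ = y.1 * (z.1 * x * z.1⁻¹) * y.1⁻¹ := by group
          _ = _ := by rw [u' x hx, this]; group
      inv_mem' := by
        rintro y ⟨k, hk, u⟩
        refine ⟨k⁻¹, inv_mem hk, fun x hx => ?_⟩
        have := u _ (mul_mem (mul_mem (inv_mem hk) hx) hk)
        rw [coe_inv]
        calc _ = y.1⁻¹ * (k * (k⁻¹ * x * k) * k⁻¹) * y.1 := by group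
          _ = _ := by rw [← this]; group }
  have cj : ∀ y : normalizer (P : Set G), ∀ x ∈ P, y.1 * x * y.1⁻¹ ∈ P := fun y x hx =>
    (mem_normalizer_iff.1 y.2 x).1 hx
  have : M.Normal := ⟨by
    rintro y ⟨k, hk, u⟩ z
    refine ⟨_, cj z k hk, fun x hx => ?_⟩
    have := u _ (cj z⁻¹ x hx)
    simp only [coe_mul, coe_inv] at this ⊢
    calc _ = z.1 * (y.1 * (z.1⁻¹ * x * z.1⁻¹⁻¹) * y.1⁻¹) * z.1⁻¹ := by group
      _ = _ := by rw [this]; group⟩
  have key : ∀ y z : normalizer (P : Set G), QuotientGroup.mk' M y = QuotientGroup.mk' M z ↔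
      ∃ k ∈ P, ∀ x ∈ P, y.1 * x * y.1⁻¹ = k * (z.1 * x * z.1⁻¹) * k⁻¹ := fun y z => by
    rw [QuotientGroup.mk'_apply, QuotientGroup.mk'_apply, QuotientGroup.eq_iff_div_mem, div_eq_mul_inv]
    refine exists_congr fun k => and_congr_right fun _ => ⟨fun u x hx => ?_, fun u x hx => ?_⟩
    · rw [← u _ (cj z x hx)]; simp only [coe_mul, coe_inv]; group
    · have := u _ (cj z⁻¹ x hx)
      simp only [coe_mul, coe_inv] at this ⊢
      calc _ = y.1 * (z.1⁻¹ * x * z.1⁻¹⁻¹) * y.1⁻¹ := by group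
        _ = _ := by rw [this]; group
  let n' : normalizer (P : Set G) := ⟨n, mem_normalizer_fintype h1⟩
  let d' : normalizer (P : Set G) := ⟨d, mem_normalizer_fintype hd⟩
  let w' : normalizer (P : Set G) := ⟨w, mem_normalizer_fintype hw⟩
  obtain ⟨i, hi⟩ := h3 w hw
  obtain ⟨j, hj⟩ := h3 d hd
  have e1 := (key w' (n' ^ i)).2 hi
  have e2 := (key d' (n' ^ j)).2 hj
  have e4 := (key (n' ^ 4) 1).2 (by simpa using h4)
  have e3 := mt (key (d' ^ 2) 1).1 (by simpa using h2)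
  refine ⟨j * i, (key w' (d' ^ (j * i))).1 ?_⟩
  rw [map_pow, map_one] at e3 e4
  rw [e2, map_pow, ← pow_mul] at e3
  rw [map_pow, e1, e2, map_pow, map_pow, ← pow_mul, ← mul_assoc, pow_mul]
  congr 1
  generalize QuotientGroup.mk' M n' = a at e3 e4
  rw [pow_eq_pow_mod _ e4] at e3 ⊢
  have : j % 4 = 1 ∨ j % 4 = 3 := by
    by_contra hj
    exact e3 (by rw [show j * 2 % 4 = 0 by omega, pow_zero])
  rw [Nat.mul_mod]
  rcases this with u | u <;> rw [u] <;> exact (pow_one a).symm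

end CoC

variable {ι : U F9 →* Co0} {v : F9 → leechLattice}

theorem CoD.nor0 (h : CoD ι v) {w : Co0} (hw : ∀ g, ∃ g', w * ι g * w⁻¹ = ι g')
    (h0 : ∀ x, w • v x = v x) : ∃ (k : U F9) (m : F9), m ≠ 0 ∧
      ∀ g, w * ι g * w⁻¹ = ι (k * dia m m⁻¹ g * k⁻¹) := by
  have d1 : CK.dt (v 1) (v ii) = 8 := by rw [CoB.dt_eq h]; decide
  have d2 : CK.dt (v 1) (v (-1)) = -16 := by rw [CoB.dt_eq h]; decide
  have d3 : CK.dt (v ii) (v (-1)) = 8 := by rw [CoB.dt_eq h]; decide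
  have n1 : CK.nm (v 1 - v ii) = 48 := by rw [nm_sub, h.nm, h.nm, d1]; rfl
  obtain ⟨e⟩ := Agent.S1582.result (v 1 - v ii) (v 1) (-v (-1)) n1
    ⟨h.nm 1, by
      change CK.nm (v 1 - v ii - v 1) = 32
      rw [sub_sub_cancel_left, nm_neg, h.nm]⟩
    ⟨(nm_neg _).trans (h.nm _), by
      change CK.nm (v 1 - v ii - -v (-1)) = 32
      rw [nm_sub, n1, nm_neg, h.nm, dt_neg_right, dt_sub_left, d2, d3]; rfl, by
      change CK.dt _ _ = 16
      rw [dt_neg_right, d2]; rfl⟩ F9 Perm.card_F9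
  generalize hH : MulAction.stabilizer Co0 (v 1 - v ii) ⊓ MulAction.stabilizer Co0 (v 1) ⊓
    MulAction.stabilizer Co0 (-v (-1)) = H at e
  have mem : ∀ y : Co0, (∀ x, y • v x = v x) → y ∈ H := fun y hy => by
    rw [← hH]
    exact ⟨⟨by change y • _ = _; rw [co0_smul_sub, hy, hy], hy 1⟩,
      by change y • _ = _; rw [co0_smul_neg, hy]⟩
  have le : ι.range ≤ H := by
    rintro _ ⟨g, rfl⟩; exact mem _ (h.fix g)
  have c := cyc4_of_iso e (ι.range.subgroupOf H)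
    ((Nat.card_congr (subgroupOfEquivOfLe le).toEquiv).trans (CoB.card_range h))
  obtain ⟨d, hd, hd'⟩ := h.dg ze ze⁻¹ (RingEquiv.refl F9) sc_refl (by decide) (by decide +kernel)
  have l : ∀ x, lab ze ze⁻¹ (RingEquiv.refl F9) x = x := by decide +kernel
  simp only [l] at hd
  obtain ⟨j, ⟨_, _⟩, ⟨k, rfl⟩, u⟩ := CoC.cyc_pow c (d := ⟨d, mem d hd⟩) (w := ⟨w, mem w h0⟩)
    (by rintro ⟨_, _⟩ ⟨g, rfl⟩; exact ⟨_, (hd' g).symm⟩)
    (by rintro ⟨_, _⟩ ⟨g, rfl⟩; exact (hw g).imp fun _ => Eq.symm)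
    (by
      rintro ⟨⟨_, _⟩, ⟨k, rfl⟩, u⟩
      let g : U F9 := ⟨1, 0, 0, 0, by simp, by simp⟩
      have : d ^ 2 * ι g * (d ^ 2)⁻¹ = ι k * ι g * (ι k)⁻¹ :=
        congrArg Subtype.val (u ⟨ι g, le ⟨g, rfl⟩⟩ ⟨g, rfl⟩)
      rw [Cy4.pow_conj hd', ← map_inv, ← map_mul, ← map_mul] at this
      have := congrArg U.t (h.inj this)
      simp only [gam_t, U.mul_t, U.inv_t, g, add_neg_cancel_comm] at this
      revert this
      decide +kernel)
  refine ⟨k, ze ^ j, pow_ne_zero _ (by decide), fun g => ?_⟩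
  rw [map_mul, map_mul, map_inv, ← Cy4.pow_conj hd']
  exact congrArg Subtype.val (u ⟨ι g, le ⟨g, rfl⟩⟩ ⟨g, rfl⟩)

theorem CoD.amb (h : CoD ι v) : Amb Co0 leechLattice ι v where
  inj := h.inj
  fix := h.fix
  syl := h.syl
  low := h.low
  dg := h.dg
  rf := h.rf
  nor M hM w hw hn := by
    obtain ⟨x₀, hx₀⟩ := bs_ne hM
    obtain ⟨c, a, b, σ, ha, hb, u⟩ := h.perm hn (hw x₀ hx₀)
    have inj : ∀ x y, v x = v y → x = y := fun x y e => by
      have := CoB.dt_eq h x y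
      rw [e, dt_self, h.nm] at this
      split_ifs at this <;> first | assumption | omega
    have fx : ∀ x ∈ Bs M, c + lab a b σ x = x := fun x hx => inj _ _ ((u x).symm.trans (hw x hx))
    obtain rfl := aff_fix hM ha hb fx
    simp only [zero_add] at u fx
    have hσ := U5F.sc σ
    obtain ⟨d, hd, hd'⟩ := h.dg a b σ hσ ha hb
    obtain ⟨k, m, hm, e⟩ := h.nor0 (w := d⁻¹ * w) (fun g => by
      obtain ⟨g', e⟩ := hn g
      obtain ⟨g'', rfl⟩ := (gamA a b σ hσ ha hb).surjective g'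
      refine ⟨g'', ?_⟩
      rw [gamA_apply, ← hd'] at e
      calc _ = d⁻¹ * (w * ι g * w⁻¹) * d := by group
        _ = _ := by rw [e]; group) fun x => by rw [mul_smul, u, ← hd, inv_smul_smul]
    have l : ∀ m : F9, m ≠ 0 → ∀ x, lab m m⁻¹ (RingEquiv.refl F9) x = x := by decide +kernel
    refine ⟨gam a b σ hσ k, a * σ m, b * σ m⁻¹, (RingEquiv.refl F9).trans σ, sc_refl.trans hσ,
      by simp [ha, hm], by simp [hb, hm], fun x hx => by rw [← lab_lab hσ, l m hm, fx x hx],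
      fun g => ?_⟩
    rw [← gam_gam hσ sc_refl, map_mul, map_mul, map_inv, ← hd', ← hd']
    calc _ = d * (d⁻¹ * w * ι g * (d⁻¹ * w)⁻¹) * d⁻¹ := by group
      _ = _ := by rw [e, map_mul, map_mul, map_inv]; group

end Cfsg.Lib.U4F
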