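import Cfsg.Agent.U4F.Def2
import Cfsg.Agent.Spor.Co0Order

/-! The configuration in the Leech lattice. -/

set_option autoImplicit false

namespace Cfsg.Lib.U4F

open Cfsg Cfsg.Lib.Spor Cfsg.Lib.Spor.CK
open Cfsg.Lib.U5F (SC)
open Cfsg.Lib.Perm (F9)

/-- A Sylow `3`-subgroup of `U₄(3)` in `Co₀` with the nine pairs of fixed minimal vectors. -/
structure CoD (ι : U F9 →* Co0) (v : F9 → leechLattice) : Prop where
  inj : Function.Injective ι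
  fix : ∀ g x, ι g • v x = v x
  low : ∀ r, ∃ w : Co0, (∀ x, w • v x = v x) ∧ ∀ g ∈ V F9, w * ι g * w⁻¹ = ι (lo2 r g)
  dg : ∀ (a b : F9) (σ : F9 ≃+* F9) (hσ : SC σ), a ≠ 0 → b ≠ 0 → ∃ w : Co0,
    (∀ x, w • v x = v (lab a b σ x)) ∧ ∀ g, w * ι g * w⁻¹ = ι (gam a b σ hσ g)
  rf : ∀ b, ∃ w : Co0, (∀ x, (x - b) ^ 5 = x - b → w • v x = v x) ∧
    ∀ g ∈ Q F9, ∃ g' ∈ Q F9, w * ι g * w⁻¹ = ι g' ∧ pi1 g' = rr b (pi1 g)
  nm : ∀ x, nm (v x) = 32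
  dt : ∀ x y, x ≠ y → dt (v x) (v y) = if (x - y) ^ 5 = x - y then -16 else 8
  sum : ∑ x, v x = 0
  proj : ∀ y : leechLattice, (∀ g ∈ V F9, ι g • y = y) →
    (72 : ℤ) • y = ∑ x, CK.dt y (v x) • v x

end Cfsg.Lib.U4F
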