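import Cfsg.Agent.U4F.Def2

/-! Generators and relations of `U F9`. -/

set_option autoImplicit false

namespace Cfsg.Lib.U4F.Co

open Cfsg.Lib.Perm (F9)
open U

instance : DecidableEq (U F9) := fun g h =>
  decidable_of_iff (g.t = h.t ∧ g.x1 = h.x1 ∧ g.s = h.s ∧ g.x2 = h.x2) U.ext_iff.symm

theorem skew_mk (a : ZMod 3) : star (⟨0, a⟩ : F9) = -⟨0, a⟩ := by revert a; decide

theorem skew_eta {x : F9} (h : star x = -x) : x = ⟨0, x.im⟩ := by revert x; decide

/-- Coordinates. -/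
def mk4 (t : F9) (a : ZMod 3) (s : F9) (b : ZMod 3) : U F9 :=
  ⟨t, ⟨0, a⟩, s, ⟨0, b⟩, skew_mk a, skew_mk b⟩

theorem eq_mk4 (g : U F9) : g = mk4 g.t g.x1.im g.s g.x2.im :=
  U.ext rfl (skew_eta g.h1) rfl (skew_eta g.h2)

theorem forall_U {P : U F9 → Prop} (h : ∀ t a s b, P (mk4 t a s b)) (g : U F9) : P g := by
  rw [eq_mk4 g]; exact h _ _ _ _

def gz : U F9 := mk4 0 1 0 0
def g1 : U F9 := mk4 0 0 1 0
def g2 : U F9 := mk4 0 0 ii 0
def gx : U F9 := mk4 0 0 0 1
def h1 : U F9 := mk4 1 0 0 0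
def h2 : U F9 := mk4 ii 0 0 0

theorem nf_eq (g : U F9) : g = gz ^ g.x1.im.val * g1 ^ g.s.re.val * g2 ^ g.s.im.val *
    gx ^ g.x2.im.val * (h1 ^ g.t.re.val * h2 ^ g.t.im.val) := by
  have e1 : ∀ a : ZMod 3, gz ^ a.val = mk4 0 a 0 0 := by decide +kernel
  have e2 : ∀ a : ZMod 3, g1 ^ a.val = mk4 0 0 ⟨a, 0⟩ 0 := by decide +kernel
  have e3 : ∀ a : ZMod 3, g2 ^ a.val = mk4 0 0 ⟨0, a⟩ 0 := by decide +kernel
  have e4 : ∀ a : ZMod 3, gx ^ a.val = mk4 0 0 0 a := by decide +kernel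
  have e5 : ∀ a b : ZMod 3, h1 ^ a.val * h2 ^ b.val = mk4 ⟨a, b⟩ 0 0 0 := by decide +kernel
  have z : (⟨0, 0⟩ : F9) = 0 := rfl
  have s : (⟨g.s.re, 0⟩ : F9) + ⟨0, g.s.im⟩ = g.s := by ext <;> simp
  rw [e1, e2, e3, e4, e5]
  refine U.ext ?_ ?_ ?_ ?_ <;>
    simp only [mk4, mul_t, mul_x1, mul_s, mul_x2, z, star_zero, mul_zero, zero_mul, add_zero, zero_add,
      sub_zero, s]
  exacts [skew_eta g.h1, skew_eta g.h2]

theorem gen_top (S : Submonoid (U F9)) (h : ∀ g ∈ [gz, g1, g2, gx, h1, h2], g ∈ S) (g : U F9) :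
    g ∈ S := by
  simp only [List.forall_mem_cons] at h
  obtain ⟨a, b, c, d, e, f, -⟩ := h
  rw [nf_eq g]
  exact mul_mem (mul_mem (mul_mem (mul_mem (pow_mem a _) (pow_mem b _)) (pow_mem c _))
    (pow_mem d _)) (mul_mem (pow_mem e _) (pow_mem f _))

theorem gen_V (S : Submonoid (U F9)) (h : ∀ g ∈ [gz, g1, g2, gx], g ∈ S) {g : U F9}
    (hg : g ∈ V F9) : g ∈ S := by
  simp only [List.forall_mem_cons] at h
  obtain ⟨a, b, c, d, -⟩ := h
  rw [nf_eq g, mem_V.1 hg]
  exact mul_mem (mul_mem (mul_mem (mul_mem (pow_mem a _) (pow_mem b _)) (pow_mem c _))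
    (pow_mem d _)) (mul_mem (one_mem _) (one_mem _))

theorem gen_Q (S : Submonoid (U F9)) (h : ∀ g ∈ [gz, g1, g2, h1, h2], g ∈ S) {g : U F9}
    (hg : g ∈ Q F9) : g ∈ S := by
  simp only [List.forall_mem_cons] at h
  obtain ⟨a, b, c, e, f, -⟩ := h
  rw [nf_eq g, mem_Q.1 hg]
  exact mul_mem (mul_mem (mul_mem (mul_mem (pow_mem a _) (pow_mem b _)) (pow_mem c _))
    (one_mem _)) (mul_mem (pow_mem e _) (pow_mem f _))

section
variable {G : Type*} [Group G]

theorem pow_val_add {a : G} (h : a ^ 3 = 1) (m n : ZMod 3) :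
    a ^ (m + n).val = a ^ m.val * a ^ n.val := by
  rw [ZMod.val_add, ← pow_eq_pow_mod _ h, pow_add]

/-- The word for the part in `V`. -/
def wV (z a b x : G) (g : U F9) : G :=
  z ^ g.x1.im.val * a ^ g.s.re.val * b ^ g.s.im.val * x ^ g.x2.im.val

/-- The word for an element. -/
def wU (z a b x c d : G) (g : U F9) : G := wV z a b x g * (c ^ g.t.re.val * d ^ g.t.im.val)

/-- The defining relations. -/
structure Rel (z a b x c d : G) : Prop where
  pw : ∀ y ∈ [z, a, b, x, c, d], y ^ 3 = 1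
  cm : ∀ y ∈ [z, a, b, x], ∀ y' ∈ [z, a, b, x], y * y' = y' * y
  cd : c * d = d * c
  ac : ∀ g ∈ [gz, g1, g2, gx], c * wV z a b x g = wV z a b x (h1 * g * h1⁻¹) * c
  ad : ∀ g ∈ [gz, g1, g2, gx], d * wV z a b x g = wV z a b x (h2 * g * h2⁻¹) * d

variable {z a b x c d : G}

theorem Rel.wV_mul (h : Rel z a b x c d) {g : U F9} (hg : g ∈ V F9) (k : U F9) :
    wV z a b x (g * k) = wV z a b x g * wV z a b x k := by
  have p := h.pw
  have q := h.cm
  simp only [List.forall_mem_cons] at p q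
  obtain ⟨p1, p2, p3, p4, -⟩ := p
  obtain ⟨⟨-, za, zb, zx, -⟩, ⟨-, -, ab, ax, -⟩, ⟨-, -, -, bx, -⟩, -⟩ := q
  replace za : Commute z a := za
  replace zb : Commute z b := zb
  replace zx : Commute z x := zx
  replace ab : Commute a b := ab
  replace ax : Commute a x := ax
  replace bx : Commute b x := bx
  simp only [wV, mul_x1, mul_s, mul_x2, mem_V.1 hg, star_zero, mul_zero, zero_mul, add_zero, sub_zero,
    QuadraticAlgebra.re_add, QuadraticAlgebra.im_add, pow_val_add p1, pow_val_add p2, pow_val_add p3,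
    pow_val_add p4]
  rw [(za.pow_pow _ _).mul_mul_mul_comm,
    ((zb.pow_pow _ _).mul_left (ab.pow_pow _ _)).mul_mul_mul_comm,
    (((zx.pow_pow _ _).mul_left (ax.pow_pow _ _)).mul_left (bx.pow_pow _ _)).mul_mul_mul_comm]

theorem wV_one : wV z a b x 1 = 1 := by simp [wV]

theorem conj_V (k : U F9) {g : U F9} (hg : g ∈ V F9) : k * g * k⁻¹ ∈ V F9 := by
  simp [mem_V, mem_V.1 hg]

theorem Rel.act (h : Rel z a b x c d) {y : G} {k : U F9}
    (hy : ∀ g ∈ [gz, g1, g2, gx], y * wV z a b x g = wV z a b x (k * g * k⁻¹) * y) {g : U F9}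
    (hg : g ∈ V F9) : y * wV z a b x g = wV z a b x (k * g * k⁻¹) * y := by
  let S : Submonoid (U F9) :=
    { carrier := {g | g ∈ V F9 ∧ y * wV z a b x g = wV z a b x (k * g * k⁻¹) * y}
      one_mem' := ⟨one_mem _, by simp [wV_one]⟩
      mul_mem' := fun {g g'} u v => ⟨mul_mem u.1 v.1, by
        rw [h.wV_mul u.1, ← mul_assoc, u.2, mul_assoc, v.2, ← mul_assoc, ← h.wV_mul (conj_V k u.1)]
        congr 2
        group⟩ }
  refine (gen_V S (fun g hg => ⟨?_, hy g hg⟩) hg).2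
  simp only [List.mem_cons, List.not_mem_nil, or_false] at hg
  rcases hg with rfl | rfl | rfl | rfl <;> exact rfl

/-- The part in `V`. -/
def pV (g : U F9) : U F9 := ⟨0, g.x1, g.s, g.x2, g.h1, g.h2⟩

theorem pV_mul (t : F9) (k : U F9) :
    pV (mk4 t 0 0 0 * k) = mk4 t 0 0 0 * pV k * (mk4 t 0 0 0)⁻¹ := by
  have z : (⟨0, 0⟩ : F9) = 0 := rfl
  refine U.ext ?_ ?_ ?_ ?_ <;>
    simp only [pV, mk4, mul_t, mul_x1, mul_s, mul_x2, inv_t, inv_x1, inv_s, inv_x2, z, star_zero,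
      star_add, star_neg, star_mul'] <;> ring

theorem Rel.wU_mul (h : Rel z a b x c d) (g k : U F9) :
    wU z a b x c d (g * k) = wU z a b x c d g * wU z a b x c d k := by
  have p := h.pw
  simp only [List.forall_mem_cons] at p
  obtain ⟨p1, p2, p3, p4, p5, p6, -⟩ := p
  have cd : Commute c d := h.cd
  have one : wU z a b x c d 1 = 1 := by simp [wU, wV_one]
  let S : Submonoid (U F9) :=
    { carrier := {g | ∀ k, wU z a b x c d (g * k) = wU z a b x c d g * wU z a b x c d k}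
      one_mem' := fun k => by rw [one, one_mul, one_mul]
      mul_mem' := fun {g g'} u v k => by rw [mul_assoc, u, v, u, mul_assoc] }
  have hV : ∀ g ∈ V F9, g ∈ S := fun g hg k => by
    simp [wU, h.wV_mul hg, mem_V.1 hg, mul_assoc]
  refine gen_top S ?_ g k
  simp only [List.forall_mem_cons]
  refine ⟨hV _ rfl, hV _ rfl, hV _ rfl, hV _ rfl, fun k => ?_, fun k => ?_, by simp⟩
  · have e : wV z a b x (h1 * k) = wV z a b x (h1 * pV k * h1⁻¹) := by
      rw [h1, ← pV_mul]; rfl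
    have e1 : wU z a b x c d h1 = c := by
      change z ^ 0 * a ^ 0 * b ^ 0 * x ^ 0 * (c ^ 1 * d ^ 0) = c
      simp
    have e2 : (h1 * k).t.re = 1 + k.t.re := rfl
    have e3 : (h1 * k).t.im = k.t.im := zero_add _
    rw [e1, wU, wU, e, ← mul_assoc c, show wV z a b x k = wV z a b x (pV k) from rfl,
      h.act h.ac (g := pV k) rfl, e2, e3, pow_val_add p5]
    change _ * (c ^ 1 * _ * _) = _
    simp only [pow_one, mul_assoc]
  · have e : wV z a b x (h2 * k) = wV z a b x (h2 * pV k * h2⁻¹) := by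
      rw [h2, ← pV_mul]; rfl
    have e1 : wU z a b x c d h2 = d := by
      change z ^ 0 * a ^ 0 * b ^ 0 * x ^ 0 * (c ^ 0 * d ^ 1) = d
      simp
    have e2 : (h2 * k).t.re = k.t.re := zero_add _
    have e3 : (h2 * k).t.im = 1 + k.t.im := rfl
    rw [e1, wU, wU, e, ← mul_assoc d, show wV z a b x k = wV z a b x (pV k) from rfl,
      h.act h.ad (g := pV k) rfl, e2, e3, pow_val_add p6]
    change _ * (_ * (d ^ 1 * _)) = _
    rw [pow_one, mul_assoc _ d, ← mul_assoc d, ← (cd.pow_left _).eq, mul_assoc (c ^ _)]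

/-- The homomorphism defined by elements which satisfy the relations. -/
def Rel.hom (h : Rel z a b x c d) : U F9 →* G := MonoidHom.mk' (wU z a b x c d) h.wU_mul

theorem inj_of_gz (ι : U F9 →* G) (h : ι gz ≠ 1) : Function.Injective ι := by
  have z : (⟨0, 0⟩ : F9) = 0 := rfl
  have hZ : ∀ g, ι g = 1 → g.t = 0 → g.x2 = 0 → g.s = 0 → g = 1 := fun g hg a b c => by
    have e : g = mk4 0 g.x1.im 0 0 := U.ext a (skew_eta g.h1) c b
    have : ∀ a : ZMod 3, mk4 0 a 0 0 = 1 ∨ mk4 0 a 0 0 = gz ∨ mk4 0 a 0 0 * mk4 0 a 0 0 = gz := by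
      decide +kernel
    have := this g.x1.im
    rw [← e] at this
    rcases this with u | u | u
    · exact u
    · exact absurd (u ▸ hg) h
    · exact absurd (by rw [← u, map_mul, hg, mul_one]) h
  have cm : ∀ g k, ι g = 1 → ι (k * g * k⁻¹ * g⁻¹) = 1 := fun g k hg => by
    rw [map_mul, map_mul, map_mul, map_inv, map_inv, hg]; group
  have ct : ∀ g k : U F9, (k * g * k⁻¹ * g⁻¹).t = 0 := fun g k => by simp
  have cx : ∀ g k : U F9, (k * g * k⁻¹ * g⁻¹).x2 = 0 := fun g k => by simp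
  have hW : ∀ g, ι g = 1 → g.t = 0 → g.x2 = 0 → g = 1 := fun g hg a b => by
    have key : ∀ t, g.s * star t - t * star g.s = 0 := fun t => by
      have := hZ _ (cm g (mk4 t 0 0 0) hg) (ct _ _) (cx _ _) (by simp [a, b, mk4, z])
      have := congrArg U.x1 this
      simp only [mk4, mul_t, mul_x1, inv_t, inv_x1, inv_s, inv_x2, z, a, b, star_zero,
        star_add, star_neg, star_mul', one_x1] at this
      linear_combination this
    have : ∀ s : F9, s * star 1 - 1 * star s = 0 → s * star ii - ii * star s = 0 → s = 0 := by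
      decide +kernel
    exact hZ g hg a b (this _ (key _) (key _))
  have hV : ∀ g, ι g = 1 → g.t = 0 → g = 1 := fun g hg a => by
    have := hW _ (cm g (mk4 1 0 0 0) hg) (ct _ _) (cx _ _)
    have := congrArg U.s this
    simp only [mk4, mul_t, mul_s, inv_t, inv_s, inv_x2, z, a, one_s] at this
    exact hW g hg a (by linear_combination this)
  rw [injective_iff_map_eq_one]
  intro g hg
  have := hW _ (cm g (mk4 0 0 0 1) hg) (ct _ _) (cx _ _)
  have := congrArg U.s this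
  simp only [mk4, mul_t, mul_s, inv_t, inv_s, inv_x2, one_s] at this
  have e : g.t * ⟨0, 1⟩ = 0 := by linear_combination -this
  exact hV g hg ((mul_eq_zero.1 e).resolve_right (by decide))

end

end Cfsg.Lib.U4F.Co
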