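import Cfsg.Agent.U4F.Gam

/-! Further definitions. -/

set_option autoImplicit false

namespace Cfsg.Lib.U4F

open Subgroup Equiv

/-- `1 - c ν` (`c` real) is the root group conjugate under `g`. -/
structure Opp {K : Type*} [Field K] [StarRing K] (X : Subgroup (Perm (K × K))) (g : Perm (K × K))
    (ν : K × K → K × K) : Prop where
  add : ∀ v w, ν (v + w) = ν v + ν w
  lin : ∀ c : K, star c = c → ∀ v, ν (c • v) = c • ν v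
  mem : ∀ c : K, star c = c → ∃ φ ∈ X, (∀ v, φ v = v - c • ν v) ∧ g⁻¹ * φ * g ∈ A1 K
  ker : ∀ v, ν v = 0 ↔ (g⁻¹ v).1 = 0
  im : ∀ v, (g⁻¹ (ν v)).1 = 0
  adj : ∀ v w, bf (ν v) w = -bf v (ν w)
  iso : ∀ v w, ν v = 0 → ν w = 0 → bf v w = 0
  ani : (2 : K) ≠ 0 → ∀ v, bf v (ν v) = 0 → ν v = 0
  alt : (2 : K) = 0 → ∀ v, bf v (ν v) = 0

/-- The outer automizer of `P` is cyclic of order dividing four. -/
def Cyc4 {G : Type*} [Group G] (P : Subgroup G) : Prop :=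
  ∃ n : G, (∀ x ∈ P, n * x * n⁻¹ ∈ P) ∧ (∃ k ∈ P, ∀ x ∈ P, n ^ 4 * x * (n ^ 4)⁻¹ = k * x * k⁻¹) ∧
    ∀ w : G, (∀ x ∈ P, w * x * w⁻¹ ∈ P) →
      ∃ j : ℕ, ∃ k ∈ P, ∀ x ∈ P, w * x * w⁻¹ = k * (n ^ j * x * (n ^ j)⁻¹) * k⁻¹

end Cfsg.Lib.U4F
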