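import Cfsg.Agent.U5F.Defs
import Cfsg.Agent.Perm.SmallFields

/-! Fusion systems over a Sylow subgroup of `SU₄(q)` in the defining characteristic: definitions. -/

set_option autoImplicit false
set_option linter.unusedSectionVars false

namespace Cfsg.Lib.U4F

open Cfsg Cfsg.FusionSystem Subgroup Equiv Cfsg.Lib.Fus
open Cfsg.Lib.U5F (UF qq SC sc_refl)

/-- The upper unitriangular elements of `SU₄` for the antidiagonal form. -/
@[ext] structure U (K : Type*) [Field K] [StarRing K] where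
  t : K
  x1 : K
  s : K
  x2 : K
  h1 : star x1 = -x1
  h2 : star x2 = -x2

variable {K : Type*} [Field K] [StarRing K]

namespace U

instance : One (U K) := ⟨⟨0, 0, 0, 0, by simp, by simp⟩⟩

instance : Mul (U K) := ⟨fun g h => ⟨g.t + h.t,
  g.x1 + h.x1 + h.s * star g.t - g.t * star h.s + g.t * star g.t * h.x2,
  g.s + h.s + g.t * h.x2, g.x2 + h.x2,
  by simp only [star_add, star_sub, star_mul', star_star, g.h1, h.h1, h.h2]; ring,
  by simp only [star_add, g.h2, h.h2]; ring⟩⟩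

instance : Inv (U K) := ⟨fun g => ⟨-g.t,
  -g.x1 + g.s * star g.t - g.t * star g.s - g.t * star g.t * g.x2, -g.s + g.t * g.x2, -g.x2,
  by simp only [star_add, star_sub, star_neg, star_mul', star_star, g.h1, g.h2]; ring,
  by simp only [star_neg, g.h2]⟩⟩

@[simp] theorem one_t : (1 : U K).t = 0 := rfl
@[simp] theorem one_x1 : (1 : U K).x1 = 0 := rfl
@[simp] theorem one_s : (1 : U K).s = 0 := rfl
@[simp] theorem one_x2 : (1 : U K).x2 = 0 := rfl

variable (g h : U K)

@[simp] theorem mul_t : (g * h).t = g.t + h.t := rfl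
@[simp] theorem mul_x1 : (g * h).x1 =
  g.x1 + h.x1 + h.s * star g.t - g.t * star h.s + g.t * star g.t * h.x2 := rfl
@[simp] theorem mul_s : (g * h).s = g.s + h.s + g.t * h.x2 := rfl
@[simp] theorem mul_x2 : (g * h).x2 = g.x2 + h.x2 := rfl
@[simp] theorem inv_t : g⁻¹.t = -g.t := rfl
@[simp] theorem inv_x1 :
  g⁻¹.x1 = -g.x1 + g.s * star g.t - g.t * star g.s - g.t * star g.t * g.x2 := rfl
@[simp] theorem inv_s : g⁻¹.s = -g.s + g.t * g.x2 := rfl
@[simp] theorem inv_x2 : g⁻¹.x2 = -g.x2 := rfl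

instance : Group (U K) := Group.ofLeftAxioms
  (fun a b c => by
    ext <;> simp only [mul_t, mul_x1, mul_s, mul_x2, star_add, star_mul', c.h2] <;> ring)
  (fun a => by ext <;> simp)
  (fun a => by
    ext <;> simp only [mul_t, mul_x1, mul_s, mul_x2, inv_t, inv_x1, inv_s, inv_x2, one_t, one_x1,
      one_s, one_x2, star_neg] <;> ring)

instance [Finite K] : Finite (U K) :=
  Finite.of_injective (fun g : U K => (g.t, g.x1, g.s, g.x2)) fun a b e => by
    simp only [Prod.mk.injEq] at e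
    exact U.ext e.1 e.2.1 e.2.2.1 e.2.2.2

end U

open U

/-- The subgroup cut out by a condition on the coordinates. -/
def sub (K : Type*) [Field K] [StarRing K] (P : U K → Prop) (h1 : P 1)
    (hm : ∀ g h, P g → P h → P (g * h)) (hi : ∀ g, P g → P g⁻¹) : Subgroup (U K) where
  carrier := {g | P g}
  one_mem' := h1
  mul_mem' := hm _ _
  inv_mem' := hi _

variable (K) in
/-- The abelian subgroup of order `q⁴`. -/
def V : Subgroup (U K) := sub K (fun g => g.t = 0) rfl (fun g h a b => by simp [a, b])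
  fun g a => by simp [a]

variable (K) in
/-- The unipotent radical of the stabiliser of an isotropic point, order `q⁵`. -/
def Q : Subgroup (U K) := sub K (fun g => g.x2 = 0) rfl (fun g h a b => by simp [a, b])
  fun g a => by simp [a]

variable (K) in
/-- The commutator subgroup `Q ∩ V`, order `q³`. -/
def W : Subgroup (U K) := sub K (fun g => g.t = 0 ∧ g.x2 = 0) ⟨rfl, rfl⟩
  (fun g h a b => by simp [a.1, a.2, b.1, b.2]) fun g a => by simp [a.1, a.2]

variable (K) in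
/-- The centre, order `q`. -/
def Z : Subgroup (U K) := sub K (fun g => g.t = 0 ∧ g.s = 0 ∧ g.x2 = 0) ⟨rfl, rfl, rfl⟩
  (fun g h a b => by simp [a.1, a.2, b.1, b.2]) fun g a => by simp [a.1, a.2]

/-- The overgroup of `V` over the real line through `a`, order `q⁵` for `a ≠ 0`. -/
def R (a : K) : Subgroup (U K) := sub K (fun g => ∃ c, star c = c ∧ g.t = c * a) ⟨0, by simp⟩
  (by rintro g h ⟨c, h1, h2⟩ ⟨d, h3, h4⟩
      exact ⟨c + d, by rw [star_add, h1, h3], by rw [mul_t, h2, h4, add_mul]⟩)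
  (by rintro g ⟨c, h1, h2⟩
      exact ⟨-c, by rw [star_neg, h1], by rw [inv_t, h2, neg_mul]⟩)

variable {g : U K}

theorem mem_V : g ∈ V K ↔ g.t = 0 := Iff.rfl
theorem mem_Q : g ∈ Q K ↔ g.x2 = 0 := Iff.rfl
theorem mem_W : g ∈ W K ↔ g.t = 0 ∧ g.x2 = 0 := Iff.rfl
theorem mem_Z : g ∈ Z K ↔ g.t = 0 ∧ g.s = 0 ∧ g.x2 = 0 := Iff.rfl
theorem mem_R {a : K} : g ∈ R a ↔ ∃ c, star c = c ∧ g.t = c * a := Iff.rfl

/-! ### Automorphisms -/

/-- Conjugation by `diag (a, b, b⁻*, a⁻*)` after the field automorphism `σ`. -/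
def gam (a b : K) (σ : K ≃+* K) (hσ : SC σ) (g : U K) : U K :=
  ⟨a / b * σ g.t, a * star a * σ g.x1, a * star b * σ g.s, b * star b * σ g.x2,
    by rw [star_mul', star_mul', star_star, ← hσ, g.h1, map_neg]; ring,
    by rw [star_mul', star_mul', star_star, ← hσ, g.h2, map_neg]; ring⟩

/-- The diagonal automorphisms. -/
abbrev dia (a b : K) : U K → U K := gam a b (RingEquiv.refl K) sc_refl

/-- The opposite root elements acting on `Q`. -/
def lo1 (d : K) (hd : star d = -d) : Perm (U K) where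
  toFun g := ⟨g.t - d * g.s, g.x1 + g.s * star g.s * d, g.s, g.x2,
    by simp only [star_add, star_mul', star_star, g.h1, hd]; ring, g.h2⟩
  invFun g := ⟨g.t + d * g.s, g.x1 - g.s * star g.s * d, g.s, g.x2,
    by simp only [star_sub, star_mul', star_star, g.h1, hd]; ring, g.h2⟩
  left_inv g := by ext <;> simp
  right_inv g := by ext <;> simp

/-- The opposite root elements acting on `V`. -/
def lo2 (r : K) : Perm (U K) where
  toFun g := ⟨g.t, g.x1, g.s + r * g.x1, g.x2 + g.s * star r - r * star g.s + r * star r * g.x1,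
    g.h1, by simp only [star_add, star_sub, star_mul', star_star, g.h1, g.h2]; ring⟩
  invFun g := ⟨g.t, g.x1, g.s - r * g.x1, g.x2 - g.s * star r + r * star g.s + r * star r * g.x1,
    g.h1, by simp only [star_add, star_sub, star_mul', star_star, g.h1, g.h2]; ring⟩
  left_inv g := by
    ext <;> simp only [star_add, star_mul', g.h1] <;> ring
  right_inv g := by
    ext <;> simp only [star_sub, star_mul', g.h1] <;> ring

/-- An additive map which preserves the skew elements. -/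
def SkP (ψ : K →+ K) : Prop := ∀ x, star x = -x → star (ψ x) = -ψ x

/-- The central automorphisms which are trivial on `Q`. -/
def zet (ψ : K →+ K) (hψ : SkP ψ) : MulAut (U K) where
  toFun g := ⟨g.t, g.x1 + ψ g.x2, g.s, g.x2, by rw [star_add, g.h1, hψ _ g.h2]; ring, g.h2⟩
  invFun g := ⟨g.t, g.x1 - ψ g.x2, g.s, g.x2, by rw [star_sub, g.h1, hψ _ g.h2]; ring, g.h2⟩
  left_inv g := by ext <;> simp
  right_inv g := by ext <;> simp
  map_mul' g h := by
    ext <;> simp only [mul_t, mul_x1, mul_s, mul_x2, map_add]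
    ring

/-! ### The section `Q / Z = K²` -/

/-- The root elements on `K²` (admissible for skew `c`). -/
def u1 (c : K) : Perm (K × K) where
  toFun v := (v.1, v.2 - c * v.1)
  invFun v := (v.1, v.2 + c * v.1)
  left_inv v := by simp
  right_inv v := by simp

/-- The opposite root elements on `K²` (admissible for skew `d`). -/
def l1 (d : K) : Perm (K × K) where
  toFun v := (v.1 - d * v.2, v.2)
  invFun v := (v.1 + d * v.2, v.2)
  left_inv v := by simp
  right_inv v := by simp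

/-- The diagonal and field automorphisms on `K²`. -/
def gy (a b : K) (σ : K ≃+* K) (v : K × K) : K × K := (a / b * σ v.1, a * star b * σ v.2)

/-- The maps induced by the extra automorphisms of `U`. -/
def ey (b : K) : Perm (K × K) where
  toFun v := (v.1, v.2 + b * star v.1)
  invFun v := (v.1, v.2 - b * star v.1)
  left_inv v := by simp
  right_inv v := by simp

theorem u1_apply (c : K) (v : K × K) : u1 c v = (v.1, v.2 - c * v.1) := rfl
theorem l1_apply (d : K) (v : K × K) : l1 d v = (v.1 - d * v.2, v.2) := rfl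
theorem ey_apply (b : K) (v : K × K) : ey b v = (v.1, v.2 + b * star v.1) := rfl
theorem u1_inv_apply (c : K) (v : K × K) : (u1 c)⁻¹ v = (v.1, v.2 + c * v.1) := rfl
theorem l1_inv_apply (d : K) (v : K × K) : (l1 d)⁻¹ v = (v.1 + d * v.2, v.2) := rfl
theorem ey_inv_apply (b : K) (v : K × K) : (ey b)⁻¹ v = (v.1, v.2 - b * star v.1) := rfl

variable (K) in
/-- The root group on `K²`. -/
def A1 : Subgroup (Perm (K × K)) where
  carrier := {φ | ∃ c, star c = -c ∧ φ = u1 c}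
  one_mem' := ⟨0, by simp, Equiv.ext fun v => by simp [u1_apply]⟩
  mul_mem' := by
    rintro _ _ ⟨c, h1, rfl⟩ ⟨d, h2, rfl⟩
    refine ⟨c + d, by rw [star_add, h1, h2]; ring, Equiv.ext fun v => ?_⟩
    simp only [Perm.mul_apply, u1_apply, Prod.mk.injEq, true_and]; ring
  inv_mem' := by
    rintro _ ⟨c, h1, rfl⟩
    refine ⟨-c, by rw [star_neg, h1], Equiv.ext fun v => ?_⟩
    simp only [u1_inv_apply, u1_apply, Prod.mk.injEq, true_and]; ring

theorem mem_A1 {φ : Perm (K × K)} : φ ∈ A1 K ↔ ∃ c, star c = -c ∧ φ = u1 c := Iff.rfl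

/-- The commutator form on `K²`. -/
def bf (v w : K × K) : K := w.2 * star v.1 - v.1 * star w.2 - (v.2 * star w.1 - w.1 * star v.2)

/-- `g` preserves `0 × K`. -/
def P1 (g : Perm (K × K)) : Prop := ∀ s, (g (0, s)).1 = 0

/-- The hypotheses on the group induced on `Q / Z`. -/
structure Hy1 (p : ℕ) (X : Subgroup (Perm (K × K))) : Prop where
  add : ∀ g ∈ X, ∀ v w, g (v + w) = g v + g w
  syl : SylIn p (A1 K) X
  sim : ∀ g ∈ X, ∃ γ : K → K, ∀ v w, bf (g v) (g w) = γ (bf v w)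
  sq : (2 : K) = 0 → ∀ g ∈ X, ∀ s, (g (0, s)).2 * star (g (0, s)).1 = (g (0, s)).1 * star (g (0, s)).2

/-- The stabiliser of `0 × K` consists of standard elements. -/
def Bo1 (X : Subgroup (Perm (K × K))) : Prop :=
  ∀ g ∈ X, P1 g → ∃ (c a b : K) (σ : K ≃+* K), star c = -c ∧ a ≠ 0 ∧ b ≠ 0 ∧
    ∀ v, g v = u1 c (gy a b σ v)

/-- The coordinates of `Q / Z`. -/
def pi1 (g : U K) : K × K := (g.t, g.s)

/-! ### The module `V` -/

/-- Skew-hermitian matrices of degree two. -/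
@[ext] structure H (K : Type*) [Field K] [StarRing K] where
  x1 : K
  s : K
  x2 : K
  h1 : star x1 = -x1
  h2 : star x2 = -x2

namespace H

instance : Zero (H K) := ⟨⟨0, 0, 0, by simp, by simp⟩⟩
instance : Add (H K) := ⟨fun v w => ⟨v.x1 + w.x1, v.s + w.s, v.x2 + w.x2,
  by rw [star_add, v.h1, w.h1]; ring, by rw [star_add, v.h2, w.h2]; ring⟩⟩
instance : Neg (H K) := ⟨fun v => ⟨-v.x1, -v.s, -v.x2, by rw [star_neg, v.h1], by rw [star_neg, v.h2]⟩⟩

variable (v w : H K)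

@[simp] theorem zero_x1 : (0 : H K).x1 = 0 := rfl
@[simp] theorem zero_s : (0 : H K).s = 0 := rfl
@[simp] theorem zero_x2 : (0 : H K).x2 = 0 := rfl
@[simp] theorem add_x1 : (v + w).x1 = v.x1 + w.x1 := rfl
@[simp] theorem add_s : (v + w).s = v.s + w.s := rfl
@[simp] theorem add_x2 : (v + w).x2 = v.x2 + w.x2 := rfl
@[simp] theorem neg_x1 : (-v).x1 = -v.x1 := rfl
@[simp] theorem neg_s : (-v).s = -v.s := rfl
@[simp] theorem neg_x2 : (-v).x2 = -v.x2 := rfl

instance : AddGroup (H K) := AddGroup.ofLeftAxioms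
  (fun a b c => by ext <;> simp [add_assoc]) (fun a => by ext <;> simp) fun a => by ext <;> simp

instance : AddCommGroup (H K) where
  add_comm a b := by ext <;> simp [add_comm]

@[simp] theorem sub_x1 : (v - w).x1 = v.x1 - w.x1 := by rw [sub_eq_add_neg, sub_eq_add_neg]; rfl
@[simp] theorem sub_s : (v - w).s = v.s - w.s := by rw [sub_eq_add_neg, sub_eq_add_neg]; rfl
@[simp] theorem sub_x2 : (v - w).x2 = v.x2 - w.x2 := by rw [sub_eq_add_neg, sub_eq_add_neg]; rfl

instance [Finite K] : Finite (H K) :=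
  Finite.of_injective (fun v : H K => (v.x1, v.s, v.x2)) fun a b e => by
    simp only [Prod.mk.injEq] at e
    exact H.ext e.1 e.2.1 e.2.2

end H

/-- The root elements on `V`. -/
def u2 (t : K) : Perm (H K) where
  toFun v := ⟨v.x1 + v.s * star t - t * star v.s + t * star t * v.x2, v.s + t * v.x2, v.x2,
    by simp only [star_add, star_sub, star_mul', star_star, v.h1, v.h2]; ring, v.h2⟩
  invFun v := ⟨v.x1 - v.s * star t + t * star v.s + t * star t * v.x2, v.s - t * v.x2, v.x2,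
    by simp only [star_add, star_sub, star_mul', star_star, v.h1, v.h2]; ring, v.h2⟩
  left_inv v := by
    ext <;> simp only [star_add, star_mul', v.h2] <;> ring
  right_inv v := by
    ext <;> simp only [star_sub, star_mul', v.h2] <;> ring

/-- The opposite root elements on `V`. -/
def l2 (r : K) : Perm (H K) where
  toFun v := ⟨v.x1, v.s + r * v.x1, v.x2 + v.s * star r - r * star v.s + r * star r * v.x1,
    v.h1, by simp only [star_add, star_sub, star_mul', star_star, v.h1, v.h2]; ring⟩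
  invFun v := ⟨v.x1, v.s - r * v.x1, v.x2 - v.s * star r + r * star v.s + r * star r * v.x1,
    v.h1, by simp only [star_add, star_sub, star_mul', star_star, v.h1, v.h2]; ring⟩
  left_inv v := by
    ext <;> simp only [star_add, star_mul', v.h1] <;> ring
  right_inv v := by
    ext <;> simp only [star_sub, star_mul', v.h1] <;> ring

/-- The diagonal and field automorphisms on `V`. -/
def gh (a b : K) (σ : K ≃+* K) (hσ : SC σ) (v : H K) : H K :=
  ⟨a * star a * σ v.x1, a * star b * σ v.s, b * star b * σ v.x2,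
    by rw [star_mul', star_mul', star_star, ← hσ, v.h1, map_neg]; ring,
    by rw [star_mul', star_mul', star_star, ← hσ, v.h2, map_neg]; ring⟩

/-- The map induced by `zet`. -/
def z2 (ψ : K →+ K) (hψ : SkP ψ) : Perm (H K) where
  toFun v := ⟨v.x1 + ψ v.x2, v.s, v.x2, by rw [star_add, v.h1, hψ _ v.h2]; ring, v.h2⟩
  invFun v := ⟨v.x1 - ψ v.x2, v.s, v.x2, by rw [star_sub, v.h1, hψ _ v.h2]; ring, v.h2⟩
  left_inv v := by ext <;> simp
  right_inv v := by ext <;> simp

section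
variable (t : K) (v : H K)
@[simp] theorem u2_x1 : (u2 t v).x1 = v.x1 + v.s * star t - t * star v.s + t * star t * v.x2 := rfl
@[simp] theorem u2_s : (u2 t v).s = v.s + t * v.x2 := rfl
@[simp] theorem u2_x2 : (u2 t v).x2 = v.x2 := rfl
@[simp] theorem l2_x1 : (l2 t v).x1 = v.x1 := rfl
@[simp] theorem l2_s : (l2 t v).s = v.s + t * v.x1 := rfl
@[simp] theorem l2_x2 : (l2 t v).x2 = v.x2 + v.s * star t - t * star v.s + t * star t * v.x1 := rfl
end

theorem u2_add (t t' : K) : u2 (t + t') = u2 t * u2 t' := Equiv.ext fun v => by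
  ext <;> simp only [Perm.mul_apply, u2_x1, u2_s, u2_x2, star_add, star_mul', v.h2] <;> ring

theorem u2_zero : u2 (0 : K) = 1 := Equiv.ext fun v => by ext <;> simp

theorem u2_neg (t : K) : u2 (-t) = (u2 t)⁻¹ := by
  rw [eq_inv_iff_mul_eq_one, ← u2_add, neg_add_cancel, u2_zero]

variable (K) in
/-- The root group on `V`. -/
def T2 : Subgroup (Perm (H K)) where
  carrier := {φ | ∃ t, φ = u2 t}
  one_mem' := ⟨0, u2_zero.symm⟩
  mul_mem' := by rintro _ _ ⟨c, rfl⟩ ⟨d, rfl⟩; exact ⟨c + d, (u2_add c d).symm⟩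
  inv_mem' := by rintro _ ⟨c, rfl⟩; exact ⟨-c, (u2_neg c).symm⟩

theorem mem_T2 {φ : Perm (H K)} : φ ∈ T2 K ↔ ∃ t, φ = u2 t := Iff.rfl

/-- The determinant. -/
def qd (v : H K) : K := v.x1 * v.x2 + v.s * star v.s

/-- The centre in the coordinates of `V`. -/
def IZ (v : H K) : Prop := v.s = 0 ∧ v.x2 = 0

/-- `g` normalises the root group. -/
def N2 (g : Perm (H K)) : Prop := ∀ t, ∃ t', g * u2 t * g⁻¹ = u2 t'

/-- The hypotheses on the group induced on `V`. -/
structure Hy2 (p : ℕ) (X : Subgroup (Perm (H K))) : Prop where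
  add : ∀ g ∈ X, ∀ v w, g (v + w) = g v + g w
  syl : SylIn p (T2 K) X
  ti : ∀ g ∈ X, ∀ t t', t ≠ 0 → g * u2 t * g⁻¹ = u2 t' → N2 g

/-- The coordinates of `V`. -/
def pi2 (g : U K) : H K := ⟨g.x1, g.s, g.x2, g.h1, g.h2⟩

/-! ### Fusion systems over `U K` -/

section Fus

variable (F : FusionSystem (⊤ : Subgroup (U K)))

/-- The group induced by `Aut_F(Q)` on `Q / Z`. -/
def X1 : Subgroup (Perm (K × K)) where
  carrier := {φ | ∃ f, PIso F f (Q K) (Q K) ∧ ∀ g ∈ Q K, pi1 (f g) = φ (pi1 g)}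
  one_mem' := ⟨1, PIso.refl F le_top, fun _ _ => rfl⟩
  mul_mem' := by
    rintro φ ψ ⟨f, hf, e⟩ ⟨k, hk, e'⟩
    exact ⟨f * k, hk.trans hf, fun g hg => by
      rw [Perm.mul_apply, e _ (hk.maps hg), e' g hg, Perm.mul_apply]⟩
  inv_mem' := by
    rintro φ ⟨f, hf, e⟩
    exact ⟨f⁻¹, hf.symm, fun g hg => by
      rw [Perm.eq_inv_iff_eq, ← e _ (hf.inv_maps hg), perm_apply_inv]⟩

/-- The group `Aut_F(V)` in coordinates. -/
def X2 : Subgroup (Perm (H K)) where
  carrier := {φ | ∃ f, PIso F f (V K) (V K) ∧ ∀ g ∈ V K, pi2 (f g) = φ (pi2 g)}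
  one_mem' := ⟨1, PIso.refl F le_top, fun _ _ => rfl⟩
  mul_mem' := by
    rintro φ ψ ⟨f, hf, e⟩ ⟨k, hk, e'⟩
    exact ⟨f * k, hk.trans hf, fun g hg => by
      rw [Perm.mul_apply, e _ (hk.maps hg), e' g hg, Perm.mul_apply]⟩
  inv_mem' := by
    rintro φ ⟨f, hf, e⟩
    exact ⟨f⁻¹, hf.symm, fun g hg => by
      rw [Perm.eq_inv_iff_eq, ← e _ (hf.inv_maps hg), perm_apply_inv]⟩

/-- `Aut_F(U)` consists of products of inner, diagonal and field automorphisms. -/
def Std : Prop := ∀ f, PIso F f ⊤ ⊤ → ∃ (k : U K) (a b : K) (σ : K ≃+* K) (hσ : SC σ),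
  a ≠ 0 ∧ b ≠ 0 ∧ ∀ g, f g = k * gam a b σ hσ g * k⁻¹

/-- `Aut_F(U)` contains the torus of the Levi factor `SL₂(q)`. -/
def Tor1 : Prop := ∀ m : K, m ≠ 0 → star m = m → Mor F ⊤ (dia 1 m)

/-- `Aut_F(U)` contains the torus of the Levi factor `SL₂(q²)`. -/
def Tor2 : Prop := ∀ m : K, m ≠ 0 → Mor F ⊤ (dia m m⁻¹)

/-- `F` contains the opposite root elements on `Q`. -/
def Low1 : Prop := ∀ (d : K) (hd : star d = -d), PIso F (lo1 d hd) (Q K) (Q K)

/-- `F` contains the opposite root elements on `V`. -/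
def Low2 : Prop := ∀ r : K, PIso F (lo2 r) (V K) (V K)

/-- `f` agrees on `P` with an element of `Aut_F(U)`. -/
def Ext (P : Subgroup (U K)) (f : Perm (U K)) : Prop := ∃ k, PIso F k ⊤ ⊤ ∧ ∀ g ∈ P, f g = k g

/-- Only `Q` and `V` can be essential. -/
def Hess (p : ℕ) : Prop := ∀ E, F.IsEssential p E → E = Q K ∨ E = V K

end Fus

variable (K) in
/-- The systems with further essential subgroups are under control. -/
def Exc (p : ℕ) : Prop := ∀ F : FusionSystem (⊤ : Subgroup (U K)), F.IsSaturated p →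
  (¬ Hess F p → F.IsRealizable p) ∧ (Low2 F → Hess F p)

/-! ### The fields with four and nine elements -/

open Cfsg.Lib.Perm (F4 F9)

instance : UF F4 := ⟨⟨⟨0, 1⟩, by decide⟩⟩
instance : UF F9 := ⟨⟨⟨0, 1⟩, by decide⟩⟩

/-- The involutions of `H F4` which commute with `u2 a` (for `a ≠ 0`, `c ^ 2 + c + 1 = 0`). -/
def yf (a c : F4) (v : H F4) : H F4 :=
  ⟨v.x1, v.s + a * v.x1 + a * c * (v.s * star a + a * star v.s + v.x2), v.s * star a + a * star v.s,
    v.h1, by generalize v.s = s; revert a s; decide⟩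

/-- `X` contains `yf a c`. -/
def Typ (X : Subgroup (Perm (H F4))) (a c : F4) : Prop :=
  a ≠ 0 ∧ c ^ 2 + c + 1 = 0 ∧ ∃ g ∈ X, ∀ v, g v = yf a c v

/-- A square root of `-1`. -/
def ii : F9 := ⟨0, 1⟩

/-- A generator of the multiplicative group, `ze ^ 2 = -ii`. -/
def ze : F9 := ⟨1, 1⟩

/-- The map induced by `dia ze ze⁻¹`. -/
def hY : Perm (F9 × F9) where
  toFun v := (-ii * v.1, ii * v.2)
  invFun v := (ii * v.1, -ii * v.2)
  left_inv := by decide +kernel
  right_inv := by decide +kernel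

/-- The nine basic conjugates of `hY`. -/
def rr (b : F9) : Perm (F9 × F9) := ey b * (l1 ii * hY * (l1 ii)⁻¹) * (ey b)⁻¹

/-- The action of the diagonal and field automorphisms on the labels. -/
def lab (a b : F9) (σ : F9 ≃+* F9) (x : F9) : F9 := b * star b * ((a / b) / star (a / b)) * σ x

/-- The labels of `X`. -/
def Sig (X : Subgroup (Perm (F9 × F9))) : Set F9 := {b | rr b ∈ X}

/-- The labels which differ from all elements of `M` by a square. -/
def Bs (M : Set F9) : Set F9 := {x | ∀ l ∈ M, (x - l) ^ 5 = x - l}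

/-- The eighteen admissible sets of labels. -/
def goodL : List (List F9) :=
  [[⟨0, 0⟩], [⟨0, 1⟩], [⟨0, 2⟩], [⟨1, 0⟩], [⟨1, 1⟩], [⟨1, 2⟩], [⟨2, 0⟩], [⟨2, 1⟩], [⟨2, 2⟩],
    [⟨0, 1⟩, ⟨1, 0⟩], [⟨0, 1⟩, ⟨2, 0⟩], [⟨0, 2⟩, ⟨1, 0⟩], [⟨0, 2⟩, ⟨2, 0⟩], [⟨1, 1⟩, ⟨2, 2⟩],
    [⟨1, 2⟩, ⟨2, 1⟩], [⟨0, 0⟩, ⟨0, 1⟩, ⟨0, 2⟩], [⟨0, 0⟩, ⟨1, 0⟩, ⟨2, 0⟩],
    [⟨0, 0⟩, ⟨0, 1⟩, ⟨0, 2⟩, ⟨1, 0⟩, ⟨2, 0⟩]]

/-- An admissible set of labels. -/
def Good (M : Set F9) : Prop := ∃ l ∈ goodL, M = {x | x ∈ l}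

/-- The ambient group for `q = 3`. -/
structure Amb (Γ Λ : Type) [Group Γ] [MulAction Γ Λ] (ι : U F9 →* Γ) (v : F9 → Λ) : Prop where
  inj : Function.Injective ι
  fix : ∀ g x, ι g • v x = v x
  syl : ∀ x, ¬ 3 ∣ ι.range.relIndex (MulAction.stabilizer Γ (v x))
  low : ∀ r, ∃ w : Γ, (∀ x, w • v x = v x) ∧ ∀ g ∈ V F9, w * ι g * w⁻¹ = ι (lo2 r g)
  dg : ∀ (a b : F9) (σ : F9 ≃+* F9) (hσ : SC σ), a ≠ 0 → b ≠ 0 → ∃ w : Γ,
    (∀ x, w • v x = v (lab a b σ x)) ∧ ∀ g, w * ι g * w⁻¹ = ι (gam a b σ hσ g)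
  rf : ∀ b, ∃ w : Γ, (∀ x, (x - b) ^ 5 = x - b → w • v x = v x) ∧
    ∀ g ∈ Q F9, ∃ g' ∈ Q F9, w * ι g * w⁻¹ = ι g' ∧ pi1 g' = rr b (pi1 g)
  nor : ∀ M, Good M → ∀ w : Γ, (∀ x ∈ Bs M, w • v x = v x) → (∀ g, ∃ g', w * ι g * w⁻¹ = ι g') →
    ∃ (k : U F9) (a b : F9) (σ : F9 ≃+* F9) (hσ : SC σ), a ≠ 0 ∧ b ≠ 0 ∧
      (∀ x ∈ Bs M, lab a b σ x = x) ∧ ∀ g, w * ι g * w⁻¹ = ι (k * gam a b σ hσ g * k⁻¹)

end Cfsg.Lib.U4F
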