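import Cfsg.Agent.U4F.Bas

/-! Essential subgroups: the centre is invariant. -/

set_option autoImplicit false
set_option linter.unusedSectionVars false

namespace Cfsg.Lib.U4F

open Cfsg Cfsg.FusionSystem Subgroup Equiv Cfsg.Lib.Fus
open Cfsg.Lib.U5F (UF qq SC sc_refl Tr Iv LTr Sec Loc SEm MinL)

universe u

variable {K : Type u} [Field K] [StarRing K] [Finite K] [UF K] {p : ℕ} [Fact p.Prime] [CharP K p]
variable {E M : Subgroup (U K)} {L : Subgroup (Perm (U K))}

theorem essI (h : Loc p E L) (h1 : Iv L (Z K)) : E = Q K ∨ E = V K := by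
  have hW := loc_W_le h h1
  have cz : ∀ g : U K, Tr g (Z K) ⊥ := fun g _ hx => mem_bot.2 (cm_eq_one.2 (comm_Z g hx))
  by_cases k : Iv L (W K)
  · exact absurd (top_le_iff.1 (U5F.climb (isP p) ⊤ fun g _ hg => h.rad g hg _ _ _ k h1 (U5F.iv_bot h)
      hW Z_le_W bot_le (fun x _ => cm_W g x) (fun _ hx => cm_WZ g hx) (cz g)
      fun x hx => cz g x (bot_le (a := Z K) hx))) h.ne
  obtain ⟨M, hM⟩ := h.sec _ _ h1 Z_le_W hW (fun g _ _ hx => cm_WZ g hx)
    (fun z hz => by rw [pow_V p (W_le_V hz)]; exact one_mem _) k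
  obtain ⟨m, hm, n⟩ := SetLike.not_le_iff_exists.1 fun e : M ≤ W K => k (e.antisymm hM.le ▸ hM.inv)
  have c : ∀ g ∈ E, g.t * m.x2 = m.t * g.x2 := fun g hg => cm_Z.1 (hM.cen g hg m hm)
  by_cases a : m.t = 0
  · have l : E ≤ V K := fun g hg => (mul_eq_zero.1 ((c g hg).trans (by rw [a, zero_mul]))).resolve_right
      fun e => n ⟨a, e⟩
    exact .inr (l.antisymm fun v hv => h.cent fun x hx => comm_V hv (l hx))
  by_cases b : m.x2 = 0
  · have l : E ≤ Q K := fun g hg =>
      (mul_eq_zero.1 ((c g hg).symm.trans (by rw [b, mul_zero]))).resolve_left a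
    exact .inl (l.antisymm fun g hg => h.rad g (U5F.mem_norm fun x hx => loc_Z_le h (cm_QQ hg (l hx)))
      _ _ _ h1 h1 h1 (loc_Z_le h) le_rfl le_rfl (fun x hx => cm_QQ hg (l hx))
      (fun x hx => cm_QQ hg (Z_le_Q hx)) (fun x hx => cm_QQ hg (Z_le_Q hx)) (cz g))
  exfalso
  have q := U5F.two_le_qq (K := K)
  have e1 : Nat.card E ≤ qq K ^ 4 := by
    refine (U5F.card_le_fib E (W K) (fun g => g.x2) {x | star x = -x} (fun g _ => g.h2)
      fun x hx y hy e => ?_).trans ?_
    · have e' : x.x2 = y.x2 := e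
      have : x.t = y.t := mul_right_cancel₀ b (by rw [c x hx, c y hy, e'])
      exact mem_W.2 (by simp [e', this])
    · rw [show Nat.card {x : K | star x = -x} = qq K from U5F.card_skew, pow_succ']
      exact Nat.mul_le_mul_left _ (card_W (K := K) ▸ card_le_of_le inf_le_right)
  have e2 : Nat.card M * Nat.card ↥(⊤ ⊓ E) < Nat.card (⊤ : Subgroup (U K)) * Nat.card (W K) := by
    rw [top_inf_eq, card_top, card_U, card_W, ← pow_add]
    exact (Nat.mul_le_mul ((card_le_of_le hM.le').trans e1) e1).trans_lt (by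
      rw [← pow_add]; exact Nat.pow_lt_pow_right q (by decide))
  exact e2.ne (hM.ff ⊤ (W K) (fun g _ => U5F.mem_norm fun x _ => hW (cm_W g x))
    (fun e => h.ne (top_le_iff.1 e)) (fun a _ b _ => hW (cm_W a b)) (fun a _ => hW (pow_W p a))
    Z_le_W hM.le (fun b _ _ hx => cm_WZ b hx) e2.le).2.1

end Cfsg.Lib.U4F
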