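import Cfsg.Agent.U4F.Bas

/-! Essential subgroups which contain `V`. -/

set_option autoImplicit false
set_option linter.unusedSectionVars false

namespace Cfsg.Lib.U4F

open Cfsg Cfsg.FusionSystem Subgroup Equiv Cfsg.Lib.Fus
open Cfsg.Lib.U5F (UF qq SC sc_refl Tr Iv LTr Sec Loc SEm MinL)

universe u

variable {K : Type u} [Field K] [StarRing K] [Finite K] [UF K] {p : ℕ} [Fact p.Prime] [CharP K p]
variable {E M : Subgroup (U K)} {L : Subgroup (Perm (U K))}

theorem essIIa (_h : Loc p E L) (h1 : ¬ Iv L (Z K)) (hM : Sec p E L ⊥ (Z K) M) (hV : M ≤ V K) :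
    E = V K ∨ ∃ a : K, a ≠ 0 ∧ E = R a := by
  have c : ∀ e ∈ E, ∀ w ∈ M, e.t * w.x2 = 0 ∧ w.s * star e.t = e.t * star w.s := fun e he w hw =>
    (comm_V_iff (hV hw)).1 (cm_eq_one.1 (mem_bot.1 (hM.cen e he w hw)))
  by_cases l : E ≤ V K
  · exact .inl (l.antisymm (U5F.climb (isP p) _ fun g hg hn => hM.faith g hn fun x hx =>
      mem_bot.2 (cm_eq_one.2 (comm_V hg (hV hx)))))
  obtain ⟨g, hg, ha⟩ := SetLike.not_le_iff_exists.1 l
  replace ha : g.t ≠ 0 := ha
  obtain ⟨m, hm, n⟩ := SetLike.not_le_iff_exists.1 fun e : M ≤ Z K => h1 (e.antisymm hM.le ▸ hM.inv)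
  have c2 : ∀ w ∈ M, w.x2 = 0 := fun w hw => (mul_eq_zero.1 (c g hg w hw).1).resolve_left ha
  have cs : ∀ w ∈ M, ∃ d, star d = d ∧ w.s = d * g.t := fun w hw =>
    U5F.real_mul ha (c g hg w hw).2.symm
  refine .inr ⟨g.t, ha, le_antisymm (fun x hx => U5F.real_mul ha ?_)
    (U5F.climb (isP p) _ fun x ⟨d, h2, h3⟩ hn => hM.faith x hn fun w hw =>
      mem_bot.2 (cm_eq_one.2 ((comm_V_iff (hV hw)).2 ⟨by rw [c2 w hw, mul_zero], ?_⟩)))⟩
  · obtain ⟨d, h2, h3⟩ := cs m hm
    have := (c x hx m hm).2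
    rw [h3, star_mul', h2] at this
    exact mul_left_cancel₀ (a := d) (fun e => n ⟨hV hm, by rw [h3, e, zero_mul], c2 m hm⟩)
      (by linear_combination this)
  · obtain ⟨e, h4, h5⟩ := cs w hw
    rw [h3, h5, star_mul', star_mul', h2, h4]
    ring

namespace E2

theorem card_c {a : K} (ha : a ≠ 0) {n : U K} (hn : n.t ≠ 0) :
    Nat.card ↥(R a ⊓ centralizer {n}) ≤ qq K ^ 3 := by
  have h1 := U5F.card_le_fib (R a ⊓ centralizer {n}) (V K) (fun g => g.t)
    {y | a * star y = y * star a} (fun g ⟨⟨c, h1, h2⟩, _⟩ => by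
      change a * star g.t = g.t * star a
      rw [h2, star_mul', h1]; ring) fun x _ y _ e => mem_V.2 (by
      have e' : x.t = y.t := e
      simp [e'])
  have k : ∀ x ∈ R a ⊓ centralizer {n} ⊓ V K, n.t * x.x2 = 0 ∧ x.s * star n.t = n.t * star x.s :=
    fun x hx => (comm_V_iff hx.2).1 (mem_centralizer_singleton_iff.1 hx.1.2).symm
  have h2 := U5F.card_le_fib (R a ⊓ centralizer {n} ⊓ V K) (Z K) (fun g => g.s)
    {y | n.t * star y = y * star n.t} (fun g hg => (k g hg).2.symm) fun x hx y hy e => mem_Z.2 (by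
      have e' : x.s = y.s := e
      simp [e', mem_V.1 hx.2, mem_V.1 hy.2, (mul_eq_zero.1 (k x hx).1).resolve_left hn,
        (mul_eq_zero.1 (k y hy).1).resolve_left hn])
  have h3 : Nat.card ↥(R a ⊓ centralizer {n} ⊓ V K ⊓ Z K) ≤ qq K :=
    card_Z (K := K) ▸ card_le_of_le inf_le_right
  rw [show Nat.card {y : K | a * star y = y * star a} = qq K from U5F.card_line ha] at h1
  rw [show Nat.card {y : K | n.t * star y = y * star n.t} = qq K from U5F.card_line hn] at h2
  exact (h1.trans (Nat.mul_le_mul_left _ (h2.trans (Nat.mul_le_mul_left _ h3)))).trans_eq (by ring)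

theorem iv_V {a : K} (ha : a ≠ 0) (h : Loc p (R a) L) : Iv L (V K) := fun f hf v hv => by
  by_contra n
  have l := V_le_R a
  have := Nat.card_le_card_of_injective (α := V K) (β := ↥(R a ⊓ centralizer {f v}))
    (fun x => ⟨f x, h.maps f hf x (l x.2), mem_centralizer_singleton_iff.2 (by
      rw [← h.hom f hf _ (l x.2) _ (l hv), ← h.hom f hf _ (l hv) _ (l x.2), comm_V x.2 hv])⟩)
    fun x y e => Subtype.ext (f.injective (congrArg Subtype.val e))
  rw [card_V] at this
  exact absurd (this.trans (card_c ha n)) (Nat.pow_lt_pow_right (U5F.two_le_qq (K := K))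
    (by decide)).not_ge

/-- The commutator of an element of `V` with an element with first coordinate `t`. -/
def ph (t : K) (v : U K) : U K := ⟨0, v.s * star t - t * star v.s + t * star t * v.x2, t * v.x2, 0,
  by simp only [star_add, star_sub, star_mul', star_star, v.h2]; ring, by simp⟩

theorem ph_eq_1' : type_of% @ph.eq_1 := @ph.eq_1

theorem cm_ph (g : U K) {v : U K} (hv : v ∈ V K) : v⁻¹ * (g * v * g⁻¹) = ph g.t v :=
  U.ext (cm_W g v).1 (cm_x1_V g hv) (by rw [cm_s, mem_V.1 hv, zero_mul, sub_zero]; rfl) (cm_W g v).2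

theorem map_ph {a : K} (ha : a ≠ 0) (h : Loc p (R a) L) {f : Perm (U K)} (hf : f ∈ L) {c : K}
    (hc : star c = c) {v : U K} (hv : v ∈ V K) : f (ph (c * a) v) = ph (c * a) (f v) := by
  have hg : (⟨c * a, 0, 0, 0, by simp, by simp⟩ : U K) ∈ R a := ⟨c, hc, rfl⟩
  have e := mem_V.1 (h.gen _ _ h.maps (iv_V ha h) le_rfl (V_le_R a)
    (fun g _ x _ => W_le_V (cm_W g x)) f hf _ hg)
  rw [U.mul_t, U.inv_t, neg_add_eq_zero] at e
  have := h.map_cm hf (V_le_R a hv) hg
  rwa [cm_ph _ hv, cm_ph _ (iv_V ha h f hf v hv), ← e] at this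

end E2

open E2 in
theorem essR {a : K} (ha : a ≠ 0) (h : Loc p (R a) L) (h1 : ¬ Iv L (Z K)) : qq K = 2 := by
  by_contra hq
  obtain ⟨c, hc, c0, c1⟩ := exists_real_ne hq
  have hW : Iv L (W K) := fun f hf v hv => by
    have hv' : (⟨0, 0, c * v.s, 0, by simp, by simp⟩ : U K) ∈ V K := rfl
    have e1 := map_ph ha h hf (star_one K) hv'
    have e2 := map_ph ha h hf hc hv'
    have hc2 : star (c * c) = c * c := by rw [star_mul', hc]
    rw [show ph (1 * a) _ = ph (c * a) v from U.ext rfl (by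
        simp only [ph, star_mul', hc, hv.2, star_one]; ring) (by simp only [ph, hv.2]; ring) rfl,
      map_ph ha h hf hc (W_le_V hv)] at e1
    rw [show ph (c * a) _ = ph (c * c * a) v from U.ext rfl (by
        simp only [ph, star_mul', hc, hv.2]; ring) (by simp only [ph, hv.2]; ring) rfl,
      map_ph ha h hf hc2 (W_le_V hv)] at e2
    have k1 := congrArg U.x1 e1
    have k2 := congrArg U.s e1
    have k3 := congrArg U.x1 e2
    simp only [ph, star_mul', hc, star_one] at k1 k2 k3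
    refine ⟨iv_V ha h f hf v (W_le_V hv), mul_left_cancel₀ (a := (c * (c - 1)) ^ 2 * (a * star a))
      (mul_ne_zero (pow_ne_zero _ (mul_ne_zero c0 (sub_ne_zero.2 c1)))
        (mul_ne_zero ha (star_ne_zero.2 ha))) ?_⟩
    linear_combination k3 - c * k1 - c * (c - 1) * star a * k2
  refine h1 fun f hf z hz => ?_
  obtain ⟨y, hy⟩ := U5F.exists_im z.h1
  have hb : (⟨0, 0, y / star a, 0, by simp, by simp⟩ : U K) ∈ W K := ⟨rfl, rfl⟩
  have := map_ph ha h hf (star_one K) (W_le_V hb)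
  rw [show ph (1 * a) _ = z from U.ext hz.1.symm (by
    simp only [ph, one_mul, star_div₀, star_star, ← hy, mul_zero, add_zero,
      div_mul_cancel₀ _ (star_ne_zero.2 ha), mul_div_cancel₀ _ ha])
    (by simp only [ph, mul_zero, hz.2.1]) hz.2.2.symm] at this
  rw [this]
  exact ⟨rfl, by simp only [ph, (hW f hf _ hb).2, mul_zero], rfl⟩

end Cfsg.Lib.U4F
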