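import Cfsg.Agent.U4F.Bas

/-! Essential subgroups: the module generated by the centre lies in `V`. -/

set_option autoImplicit false
set_option linter.unusedSectionVars false

namespace Cfsg.Lib.U4F

open Cfsg Cfsg.FusionSystem Subgroup Equiv Cfsg.Lib.Fus
open Cfsg.Lib.U5F (UF qq SC sc_refl Tr Iv LTr Sec Loc SEm MinL)

universe u

variable {K : Type u} [Field K] [StarRing K] [Finite K] [UF K] {p : ℕ} [Fact p.Prime] [CharP K p]
variable {E M : Subgroup (U K)} {L : Subgroup (Perm (U K))}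

theorem E3.ineq (c : ∀ e ∈ E, ∀ w ∈ M, e * w = w * e) :
    Nat.card M * Nat.card ↥(W K ⊓ E) ≤ Nat.card (W K) * Nat.card ↥(M ⊓ V K) := by
  let X : AddSubgroup K :=
    { carrier := {t | ∃ w ∈ M, w.t = t}
      zero_mem' := ⟨1, one_mem _, rfl⟩
      add_mem' := by
        rintro _ _ ⟨a, ha, rfl⟩ ⟨b, hb, rfl⟩
        exact ⟨_, mul_mem ha hb, rfl⟩
      neg_mem' := by
        rintro _ ⟨a, ha, rfl⟩
        exact ⟨_, inv_mem ha, rfl⟩ }
  have h1 : Nat.card M ≤ Nat.card X * Nat.card ↥(M ⊓ V K) :=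
    U5F.card_le_fib M (V K) (fun w => w.t) X (fun w hw => ⟨w, hw, rfl⟩) fun a _ b _ e => mem_V.2 (by
      have e' : a.t = b.t := e
      simp [e'])
  have h2 : Nat.card ↥(W K ⊓ E) ≤ Nat.card {s : K // ∀ t ∈ X, s * star t = t * star s} *
      Nat.card ↥(W K ⊓ E ⊓ Z K) :=
    U5F.card_le_fib (W K ⊓ E) (Z K) (fun w => w.s) {s | ∀ t ∈ X, s * star t = t * star s}
      (fun b hb => by
        rintro _ ⟨w, hw, rfl⟩
        exact ((comm_V_iff (W_le_V hb.1)).1 (c b hb.2 w hw).symm).2)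
      fun a ha b hb e => by
        have e' : a.s = b.s := e
        obtain ⟨a1, a2⟩ := mem_W.1 ha.1
        obtain ⟨b1, b2⟩ := mem_W.1 hb.1
        exact mem_Z.2 (by simp [a1, a2, b1, b2, e'])
  have h3 : Nat.card ↥(W K ⊓ E ⊓ Z K) ≤ qq K := card_Z (K := K) ▸ card_le_of_le inf_le_right
  calc _ ≤ Nat.card X * Nat.card ↥(M ⊓ V K) *
        (Nat.card {s : K // ∀ t ∈ X, s * star t = t * star s} * qq K) :=
        Nat.mul_le_mul h1 (h2.trans (Nat.mul_le_mul_left _ h3))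
    _ = Nat.card X * Nat.card {s : K // ∀ t ∈ X, s * star t = t * star s} * qq K *
        Nat.card ↥(M ⊓ V K) := by ring
    _ ≤ _ := by
        rw [card_W, pow_succ _ 2]
        exact Nat.mul_le_mul_right _ (Nat.mul_le_mul_right _ (U5F.perp_card X))

theorem essIIb (h : Loc p E L) (h1 : ¬ Iv L (Z K)) (hM : Sec p E L ⊥ (Z K) M) : M ≤ V K := by
  intro w hw
  by_contra wt
  have wt' : w.t ≠ 0 := wt
  have c : ∀ e ∈ E, ∀ w ∈ M, e * w = w * e := fun e he w hw =>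
    cm_eq_one.1 (mem_bot.1 (hM.cen e he w hw))
  obtain ⟨hN, -, hR⟩ := hM.ff (W K) (M ⊓ V K) (loc_W_norm h)
    (fun e => wt (mem_V_iff.2 fun b hb => (c b (e hb) w hw).symm))
    (fun a _ b hb => loc_Z_le h (cm_WZ a hb)) (fun a ha => by
      rw [pow_V p (W_le_V ha)]; exact one_mem _) bot_le inf_le_left
    (fun b hb x hx => mem_bot.2 (cm_eq_one.2 (comm_V (W_le_V hb) hx.2))) (E3.ineq c)
  have R1 : ∀ b ∈ W K, b.s * star w.t = w.t * star b.s → b ∈ E := fun b hb e =>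
    hR w hw (fun e => wt e.2) b hb fun f hf => by
      rw [cm_eq_one.2 ((comm_V_iff (W_le_V hb)).2 ⟨by rw [hb.2, mul_zero], e⟩).symm, h.map_one hf,
        mul_one, inv_one]
      exact one_mem _
  have cw : ∀ e ∈ E, e.t * w.x2 = w.t * e.x2 := fun e he =>
    cm_Z.1 (by rw [cm_eq_one.2 (c e he w hw)]; exact one_mem _)
  have dec : ∀ t : K, (⟨t, 0, 0, 0, by simp, by simp⟩ : U K) ∈ normalizer (E : Set (U K)) →
      ∃ e ∈ E, e.t = t ∧ e.x2 = 0 := fun t ht => by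
    obtain ⟨b, hb, e, he, k⟩ := hN _ ht
    have k1 := congrArg U.t k
    have k2 := congrArg U.x2 k
    simp only [U.mul_t, U.mul_x2, hb.1, hb.2, zero_add] at k1 k2
    exact ⟨e, he, k1.symm, k2.symm⟩
  by_cases wy : w.x2 = 0
  · have l : E ≤ Q K := fun e he =>
      (mul_eq_zero.1 ((cw e he).symm.trans (by rw [wy, mul_zero]))).resolve_left wt'
    refine h1 ((comm_QQ (K := K) ▸ commutator_mono l l).antisymm (fun z hz => ?_) ▸
      h.iv_comm h.maps h.maps le_rfl le_rfl)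
    obtain ⟨y, hy⟩ := U5F.exists_im z.h1
    obtain ⟨e, he, e1, -⟩ := dec (star (y / w.t)) (U5F.mem_norm fun x hx =>
      loc_Z_le h (cm_QQ rfl (l hx)))
    have hb : (⟨0, 0, w.t, 0, by simp, by simp⟩ : U K) ∈ W K := ⟨rfl, rfl⟩
    rw [Z_ext hz (cm_WZ e hb) (by
      rw [cm_x1_V e (W_le_V hb), e1, star_star, ← star_mul', ← hy, mul_zero, add_zero,
        div_mul_cancel₀ _ wt', mul_div_cancel₀ _ wt'])]
    exact U5F.cm_mem_comm (R1 _ hb rfl) he
  · obtain ⟨e, he, e1, e2⟩ := dec (w.t / w.x2) (U5F.mem_norm fun x hx => R1 _ (cm_W _ x) (by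
      rw [cm_s, mul_zero, sub_zero, star_mul', star_div₀, w.h2, x.h2]
      field_simp))
    have := cw e he
    rw [e1, e2, mul_zero, div_mul_cancel₀ _ wy] at this
    exact wt' this

end Cfsg.Lib.U4F
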