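import Cfsg.Agent.U5F.LocB
import Cfsg.Agent.U5F.EssL
import Cfsg.Agent.U4F.E1
import Cfsg.Agent.U4F.E2
import Cfsg.Agent.U4F.E3
import Cfsg.Agent.U4F.AutS

/-! Fusion systems over a Sylow subgroup of `SU₄(q)`: the essential subgroups. -/

set_option autoImplicit false
set_option linter.unusedSectionVars false

namespace Cfsg.Lib.U4F

open Cfsg Cfsg.FusionSystem Subgroup Equiv Cfsg.Lib.Fus
open Cfsg.Lib.U5F (UF qq SC sc_refl Tr Iv LTr Sec Loc SEm MinL)

universe u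

variable {K : Type u} [Field K] [StarRing K] [Finite K] [UF K] {p : ℕ} [Fact p.Prime] [CharP K p]
variable {F F' : FusionSystem (⊤ : Subgroup (U K))} {f : Perm (U K)}

theorem ess_eq (hF : F.IsSaturated p) {E : Subgroup (U K)} (hE : F.IsEssential p E) :
    E = Q K ∨ E = V K ∨ (qq K = 2 ∧ ∃ a : K, a ≠ 0 ∧ E = R a) := by
  obtain ⟨M, hM⟩ := U5F.sem_of_essential (isP p) hF hE
  obtain ⟨L, -, h⟩ := hM.exists_loc (isP p) (fun x hx => isCentric_self hE.1 ⟨mem_top x, hx⟩)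
    (lt_of_isEssential (isP_top p) hF hE).ne
  by_cases h1 : Iv (L.map (pext E)) (Z K)
  · exact (essI h h1).imp_right .inl
  · obtain ⟨M, hM⟩ := h.sec ⊥ (Z K) (U5F.iv_bot h) bot_le (loc_Z_le h)
      (fun g _ x hx => mem_bot.2 (cm_eq_one.2 (comm_Z g hx)))
      (fun z hz => mem_bot.2 (pow_V p (Z_le_V hz))) h1
    refine .inr ((essIIa h h1 hM (essIIb h h1 hM)).imp_right fun ⟨a, ha, e⟩ => ⟨?_, a, ha, e⟩)
    generalize L.map (pext E) = L' at h h1
    exact essR ha (e ▸ h) h1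

theorem hess_of_ne (hF : F.IsSaturated p) (hq : qq K ≠ 2) : Hess F p := fun _ hE =>
  (ess_eq hF hE).imp_right fun h => h.resolve_right fun e => hq e.1

theorem exc_of_ne (hq : qq K ≠ 2) : Exc K p := fun _ hF =>
  ⟨fun h => absurd (hess_of_ne hF hq) h, fun _ => hess_of_ne hF hq⟩

theorem Ess.coord (hf : PIso F f ⊤ ⊤) : ∃ (a b : K) (σ : K ≃+* K), a ≠ 0 ∧ b ≠ 0 ∧
    ∀ g, (f g).t = a * σ g.t ∧ (f g).x2 = b * σ g.x2 := by
  obtain ⟨a, b, σ, hσ, ha, hb, e⟩ := aut_gam ⟨f, fun x y => hf.mor.mulOn x (mem_top x) y (mem_top y)⟩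
  refine ⟨a / b, b * star b, σ, div_ne_zero ha hb, mul_ne_zero hb (star_ne_zero.2 hb), fun g => ?_⟩
  obtain ⟨h1, h2⟩ := mem_W.1 (e g)
  rw [U.mul_t, U.inv_t, neg_add_eq_zero] at h1
  rw [U.mul_x2, U.inv_x2, neg_add_eq_zero] at h2
  exact ⟨h1.symm, h2.symm⟩

theorem top_V (hf : PIso F f ⊤ ⊤) (g : U K) : f g ∈ V K ↔ g ∈ V K := by
  obtain ⟨a, b, σ, ha, -, e⟩ := Ess.coord hf
  rw [mem_V, mem_V, (e g).1, mul_eq_zero, or_iff_right ha, map_eq_zero]

theorem top_Q (hf : PIso F f ⊤ ⊤) (g : U K) : f g ∈ Q K ↔ g ∈ Q K := by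
  obtain ⟨a, b, σ, -, hb, e⟩ := Ess.coord hf
  rw [mem_Q, mem_Q, (e g).2, mul_eq_zero, or_iff_right hb, map_eq_zero]

theorem ext_of_lt (hF : F.IsSaturated p) (he : Hess F p) {P : Subgroup (U K)} (hP : V K < P)
    (hf : Mor F P f) : Ext F P f := by
  refine alperin_essential (isP_top p) hF (Φ := fun P f => V K < P → Ext F P f) ?_ ?_ ?_ ?_ P f hf hP
  · intro P f g _ h e hP
    obtain ⟨k, hk, e'⟩ := h hP
    exact ⟨k, hk, fun x hx => (e x hx).symm.trans (e' x hx)⟩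
  · intro P P' f _ h e hP
    obtain ⟨k, hk, e'⟩ := h (hP.trans_le e)
    exact ⟨k, hk, fun x hx => e' x (e hx)⟩
  · intro P P' R f g hf _ h h' hP
    obtain ⟨k, hk, e⟩ := h hP
    obtain ⟨x, hx, hx'⟩ := SetLike.exists_of_lt hP
    obtain ⟨k', hk', e'⟩ := h' (SetLike.lt_iff_le_and_exists.2 ⟨fun y hy => by
      have := hP.le ((top_V hk.symm y).2 hy)
      rw [← perm_apply_inv k y, ← e _ this]
      exact hf.maps this, f x, hf.maps hx, fun hn => hx' ((top_V hk x).1 (e x hx ▸ hn))⟩)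
    exact ⟨k' * k, hk.trans hk', fun y hy => by
      rw [Perm.mul_apply, Perm.mul_apply, e' _ (hf.maps hy), e y hy]⟩
  · intro P hP _ f hf h
    rcases hP with rfl | hP
    · exact ⟨f, hf, fun _ _ => rfl⟩
    · rcases he P hP with rfl | rfl
      · obtain ⟨d, hd, e⟩ := U5F.exists_skew (K := K)
        exact absurd (h.le (show (⟨0, 0, 0, d, by simp, e⟩ : U K) ∈ V K from rfl)) hd
      · exact absurd h (lt_irrefl _)

theorem Ess.constr (hF : F.IsSaturated p) {N : Subgroup (U K)} [N.Normal]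
    (h : ∀ P, P = ⊤ ∨ F.IsEssential p P → N ≤ P ∧ ∀ f, PIso F f P P → ∀ x ∈ N, f x ∈ N)
    (hc : ∀ x, (∀ g ∈ N, g * x = x * g) → x ∈ N) : F.IsConstrained p :=
  ⟨hF, N, isNormal_of_essential (isP_top p) hF h,
    isCentric_of_isFullyCentralized (sat_centralized (isP_top p) hF
      (isFullyNormalized_of_le_normalizer le_top (by rw [normalizer_eq_top])))
      fun x hx => hc x (mem_centralizerIn.1 hx).2⟩

theorem constrained_V (hF : F.IsSaturated p) (h : ¬ F.IsEssential p (Q K))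
    (hR : ∀ (a : K) (f : Perm (U K)), a ≠ 0 → F.IsEssential p (R a) → PIso F f (R a) (R a) →
      ∀ g ∈ V K, f g ∈ V K) :
    F.IsConstrained p := by
  refine Ess.constr hF (N := V K) (fun P hP => ?_) fun x hx => mem_V_iff'.2 fun g hg => (hx g hg).symm
  rcases hP with rfl | hP
  · exact ⟨le_top, fun f hf x => (top_V hf x).2⟩
  · rcases ess_eq hF hP with rfl | rfl | ⟨-, a, ha, rfl⟩
    exacts [absurd hP h, ⟨le_rfl, fun f hf x hx => hf.maps hx⟩, ⟨V_le_R a, fun f hf => hR a f ha hP hf⟩]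

theorem constrained_Q (hF : F.IsSaturated p) (he : Hess F p) (h : ¬ F.IsEssential p (V K)) :
    F.IsConstrained p := by
  refine Ess.constr hF (N := Q K) (fun P hP => ?_) fun x hx => Z_le_Q (mem_Z_iff'.2 hx)
  rcases hP with rfl | hP
  · exact ⟨le_top, fun f hf x => (top_Q hf x).2⟩
  · rcases he P hP with rfl | rfl
    exacts [⟨le_rfl, fun f hf x hx => hf.maps hx⟩, absurd hP h]

end Cfsg.Lib.U4F
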