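import Cfsg.Agent.U4F.L2a

/-! The case `q = 2`: additive permutations of `H F4` which commute with a root element. -/

set_option autoImplicit false
set_option linter.unusedSectionVars false

namespace Cfsg.Lib.U4F

open Cfsg Cfsg.FusionSystem Subgroup Equiv Cfsg.Lib.Fus
open Cfsg.Lib.Perm (F4 F9)

namespace F4a

/-- Numbering of `F4`. -/
def ft (i : ℕ) : F4 := ⟨(i % 2 : ℕ), (i / 2 % 2 : ℕ)⟩

theorem sk : ∀ a : ZMod 2, star (⟨a, 0⟩ : F4) = -⟨a, 0⟩ := by decide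

/-- Numbering of `H F4`. -/
def de (n : ℕ) : H F4 := ⟨⟨(n % 2 : ℕ), 0⟩, ft (n / 2), ⟨(n / 8 % 2 : ℕ), 0⟩, sk _, sk _⟩

instance dec : DecidableEq (H F4) := fun v w =>
  decidable_of_iff (v.x1 = w.x1 ∧ v.s = w.s ∧ v.x2 = w.x2) H.ext_iff.symm

/-- Evaluate the first argument. -/
noncomputable def fc {α : Type} (x : ℕ) (k : ℕ → α) : α :=
  Nat.rec (motive := fun _ => α) (k 0) (fun n _ => k n) (Nat.succ x)

/-- The linear map with the given columns. -/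
def lin (a b c d n : ℕ) : ℕ := n % 2 * a ^^^ n / 2 % 2 * b ^^^ n / 4 % 2 * c ^^^ n / 8 % 2 * d

/-- The root elements. -/
def uu (t : ℕ) : ℕ → ℕ := lin 1 (2 + t / 2) (4 + t % 2) (if t = 0 then 8 else 9 + 2 * t)

/-- The involutions `yf`. -/
def yy (i j : ℕ) : ℕ → ℕ := lin (2 * i + 1) (0xE88C22 / 16 ^ (2 * i + j - 4) % 16)
  (0x8E44A8 / 16 ^ (2 * i + j - 4) % 16) (0x422664 / 16 ^ (2 * i + j - 4) % 16)

/-- The level in the flag with number `i`. -/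
def ht (i n : ℕ) : ℕ := if n < 2 then n else if n / 2 = i then 2 else if n < 8 then 3 else 4

/-- Words in `f`, the root elements, `y` and `y'`. -/
noncomputable def ev (f y y' : ℕ → ℕ) : List ℕ → ℕ → ℕ :=
  List.rec (fun n => n) fun l _ r n => fc (r n)
    (if l = 0 then f else if l = 4 then y else if l = 5 then y' else uu (l % 4))

/-- `f` preserves the flag with number `i`. -/
noncomputable def Fl (i : ℕ) (f : ℕ → ℕ) : Bool :=
  (List.range 16).all fun n => fc (f n) fun m => ht i m ≤ ht i n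

/-- Equality of tables. -/
def eqb (f h : ℕ → ℕ) : Bool := (List.range 16).all fun n => f n == h n

/-- `f` preserves a flag. -/
noncomputable def fl (f : ℕ → ℕ) : Bool := [1, 2, 3].any fun i => Fl i f

/-- `f` preserves a flag and is no root element. -/
noncomputable def bad (f : ℕ → ℕ) : Bool := fl f && !(List.range 4).any fun t => eqb f (uu t)

/-- `f` has trivial kernel. -/
def inj (f : ℕ → ℕ) : Bool := (List.range 16).all fun n => n == 0 || f n != 0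

/-- All matrices which pass the tests. -/
def allM (P : ℕ → ℕ → ℕ → Bool) (Q : (ℕ → ℕ) → Bool) : Bool :=
  (List.range 16).all fun a => (List.range 16).all fun b => (List.range 16).all fun c =>
    !P a b c || (List.range 16).all fun d => !inj (lin a b c d) || Q (lin a b c d)

/-- Additive permutations. -/
def Ad (g : Perm (H F4)) : Prop := ∀ v w, g (v + w) = g v + g w

/-- `f` is the table of `g`. -/
def Rp (g : Perm (H F4)) (f : ℕ → ℕ) : Prop := ∀ n < 16, f n < 16 ∧ g (de n) = de (f n)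

theorem ft_eq_1' : type_of% @ft.eq_1 := @ft.eq_1
theorem de_eq_1' : type_of% @de.eq_1 := @de.eq_1
theorem fc_eq_1' : type_of% @fc.eq_1 := @fc.eq_1
theorem lin_eq_1' : type_of% @lin.eq_1 := @lin.eq_1
theorem uu_eq_1' : type_of% @uu.eq_1 := @uu.eq_1
theorem yy_eq_1' : type_of% @yy.eq_1 := @yy.eq_1
theorem ht_eq_1' : type_of% @ht.eq_1 := @ht.eq_1
theorem ev_eq_1' : type_of% @ev.eq_1 := @ev.eq_1
theorem Fl_eq_1' : type_of% @Fl.eq_1 := @Fl.eq_1
theorem eqb_eq_1' : type_of% @eqb.eq_1 := @eqb.eq_1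
theorem fl_eq_1' : type_of% @fl.eq_1 := @fl.eq_1
theorem bad_eq_1' : type_of% @bad.eq_1 := @bad.eq_1
theorem inj_eq_1' : type_of% @inj.eq_1 := @inj.eq_1
theorem allM_eq_1' : type_of% @allM.eq_1 := @allM.eq_1
theorem Ad_eq_1' : type_of% @Ad.eq_1 := @Ad.eq_1
theorem Rp_eq_1' : type_of% @Rp.eq_1 := @Rp.eq_1

variable {X Y : Subgroup (Perm (H F4))} {g k y y' : Perm (H F4)} {f h h' : ℕ → ℕ} {a c : F4}

theorem fc_eq {α : Type} (x : ℕ) (k : ℕ → α) : fc x k = k x := rfl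

theorem ft_surj : ∀ a : F4, ∃ i < 4, a = ft i := by decide

theorem ft_ne (h : a ≠ 0) : ∃ i ∈ [1, 2, 3], a = ft i := by revert a; decide

theorem ft_c (h : c ^ 2 + c + 1 = 0) : ∃ j ∈ [2, 3], c = ft j := by revert c; decide

theorem de_surj (v : H F4) : ∃ n < 16, v = de n := by
  have : ∀ x s y : F4, star x = -x → star y = -y →
      ∃ n < 16, x = (de n).x1 ∧ s = (de n).s ∧ y = (de n).x2 := by decide +kernel
  exact (this _ _ _ v.h1 v.h2).imp fun n h => ⟨h.1, H.ext_iff.2 h.2⟩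

theorem de_inj : ∀ n < 16, ∀ m < 16, de n = de m → n = m := by decide +kernel

theorem de_xor : ∀ n < 16, ∀ m < 16, n ^^^ m < 16 ∧ de (n ^^^ m) = de n + de m := by decide +kernel

theorem rp_u : ∀ t < 4, Rp (u2 (ft t)) (uu t) := by unfold Rp; decide +kernel

theorem rp_y : ∀ i ∈ [1, 2, 3], ∀ j ∈ [2, 3], ∀ n < 16,
    yy i j n < 16 ∧ yf (ft i) (ft j) (de n) = de (yy i j n) := by decide +kernel

theorem Rp.mul (h1 : Rp g f) (h2 : Rp k h) : Rp (g * k) fun n => f (h n) := fun n hn => by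
  rw [Perm.mul_apply, (h2 n hn).2]; exact h1 _ (h2 n hn).1

theorem eqb_iff : eqb f h = true ↔ ∀ n < 16, f n = h n := by simp [eqb]

theorem Fl_iff {i : ℕ} : Fl i f = true ↔ ∀ n < 16, ht i (f n) ≤ ht i n := by simp [Fl, fc_eq]

theorem Rp.eq_iff (h1 : Rp g f) (h2 : Rp k h) : g = k ↔ eqb f h = true :=
  ⟨fun e => eqb_iff.2 fun n hn => de_inj _ (h1 n hn).1 _ (h2 n hn).1 (by
    rw [← (h1 n hn).2, ← (h2 n hn).2, e]), fun e => Equiv.ext fun v => by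
    obtain ⟨n, hn, rfl⟩ := de_surj v
    rw [(h1 n hn).2, (h2 n hn).2, eqb_iff.1 e n hn]⟩

theorem Ad.zero (ha : Ad g) : g (de 0) = de 0 :=
  show g 0 = 0 by simpa using (ha 0 0).symm.trans (congrArg g (add_zero _))

theorem Ad.all (ha : Ad g) {P : ℕ → ℕ → ℕ → Bool} {Q : (ℕ → ℕ) → Bool} (e : allM P Q = true)
    (hP : ∀ a b c d, Rp g (lin a b c d) → P a b c = true) : ∃ f, Rp g f ∧ Q f = true := by
  have z := ha.zero
  have sc : ∀ x x' e, x < 16 → x' < 16 → g (de x) = de x' →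
      e % 2 * x < 16 ∧ e % 2 * x' < 16 ∧ g (de (e % 2 * x)) = de (e % 2 * x') := fun x x' e a b c => by
    rcases Nat.mod_two_eq_zero_or_one e with h | h <;> simp [h, z, a, b, c]
  have xo : ∀ {x x' y y'}, x < 16 ∧ x' < 16 ∧ g (de x) = de x' → y < 16 ∧ y' < 16 ∧ g (de y) = de y' →
      x ^^^ y < 16 ∧ x' ^^^ y' < 16 ∧ g (de (x ^^^ y)) = de (x' ^^^ y') := fun a b =>
    ⟨(de_xor _ a.1 _ b.1).1, (de_xor _ a.2.1 _ b.2.1).1, by
      rw [(de_xor _ a.1 _ b.1).2, (de_xor _ a.2.1 _ b.2.1).2, ha, a.2.2, b.2.2]⟩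
  obtain ⟨a, a1, a2⟩ := de_surj (g (de 1))
  obtain ⟨b, b1, b2⟩ := de_surj (g (de 2))
  obtain ⟨c, c1, c2⟩ := de_surj (g (de 4))
  obtain ⟨d, d1, d2⟩ := de_surj (g (de 8))
  have r : Rp g (lin a b c d) := fun n hn => by
    have := (xo (xo (xo (sc 1 a n (by decide) a1 a2) (sc 2 b (n / 2) (by decide) b1 b2))
      (sc 4 c (n / 4) (by decide) c1 c2)) (sc 8 d (n / 8) (by decide) d1 d2)).2
    rwa [show _ ^^^ _ = n from (by decide : ∀ n < 16, lin 1 2 4 8 n = n) n hn] at this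
  simp only [allM, List.all_eq_true, List.mem_range, Bool.or_eq_true, Bool.not_eq_true'] at e
  refine ⟨_, r, (((e a a1 b b1 c c1).resolve_left (by simp [hP _ _ _ _ r])) d d1).resolve_left ?_⟩
  simp only [inj, Bool.not_eq_false, List.all_eq_true, List.mem_range, Bool.or_eq_true, beq_iff_eq,
    bne_iff_ne]
  exact fun n hn => or_iff_not_imp_right.2 fun e => de_inj _ hn _ (by decide)
    (g.injective (by rw [(r n hn).2, z, not_not.1 e]))

theorem ad_u (t : F4) : Ad (u2 t) := fun v w => by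
  ext1 <;> simp only [u2_x1, u2_s, u2_x2, H.add_x1, H.add_s, H.add_x2, star_add] <;> ring

theorem four : ∀ i ∈ [1, 2, 3], allM (fun a b c => a == 1 && b < 8 && c < 8)
    (fun f => !Fl i f || eqb (ev f f f [0, 0, 0, 0]) fun n => n) = true := by decide +kernel

theorem fl_u : ∀ i ∈ [1, 2, 3], ∀ t < 4, Fl i (uu t) = true := by decide +kernel

theorem ch (hs : SylIn 2 (T2 F4) X) (hg : g ∈ X) (ha : Ad g) (hr : Rp g f) (hf : fl f = true) :
    g ∈ T2 F4 := by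
  obtain ⟨i, hi, hf⟩ := List.any_eq_true.1 hf
  let B : Subgroup (Perm (H F4)) := subgroupOfFinite {g | Ad g ∧ ∃ f, Rp g f ∧ Fl i f = true}
    ⟨fun _ _ => rfl, fun n => n, fun _ h => ⟨h, rfl⟩, Fl_iff.2 fun _ _ => le_rfl⟩
    fun a b ⟨a1, f, a2, a3⟩ ⟨b1, h, b2, b3⟩ => ⟨fun v w => by simp only [Perm.mul_apply, b1 v, a1 _],
      _, a2.mul b2, Fl_iff.2 fun n hn => (Fl_iff.1 a3 _ (b2 n hn).1).trans (Fl_iff.1 b3 n hn)⟩
  refine (hs.max (X ⊓ B) (le_inf hs.le ?_) inf_le_left ?_).le ⟨hg, ha, f, hr, hf⟩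
  · rintro _ ⟨t, rfl⟩
    obtain ⟨t, ht, rfl⟩ := ft_surj t
    exact ⟨ad_u _, _, rp_u t ht, fl_u i hi t ht⟩
  · rintro ⟨x, -, a1, f, a2, a3⟩
    have tr : ∀ f', Rp x f' → ∀ n < 16, ht i (f' n) ≤ ht i n := fun f' r n hn =>
      eqb_iff.1 ((a2.eq_iff r).1 rfl) n hn ▸ Fl_iff.1 a3 n hn
    obtain ⟨f', r, e⟩ := a1.all (four i hi) fun a b c d r => by
      have k : ∀ i ∈ [1, 2, 3], ∀ m < 16, (m ≠ 0 → ht i m ≤ ht i 1 → m = 1) ∧
        (ht i m ≤ ht i 2 → m < 8) ∧ (ht i m ≤ ht i 4 → m < 8) := by decide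
      have h1 := (k i hi _ (r 1 (by decide)).1).1 (fun e => absurd (x.injective (by
        rw [(r 1 (by decide)).2, (r 0 (by decide)).2, e]; simp [lin])) (by decide : de 1 ≠ de 0))
        (tr _ r 1 (by decide))
      have h2 := (k i hi _ (r 2 (by decide)).1).2.1 (tr _ r 2 (by decide))
      have h3 := (k i hi _ (r 4 (by decide)).1).2.2 (tr _ r 4 (by decide))
      simpa [lin] using And.intro (And.intro h1 h2) h3
    refine ⟨2, Subtype.ext ?_⟩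
    rw [Fl_iff.2 (tr _ r), Bool.not_true, Bool.false_or] at e
    change x ^ 4 = 1
    rw [show x ^ 4 = x * (x * (x * x)) by simp only [pow_succ', pow_zero, mul_one]]
    exact ((r.mul (r.mul (r.mul r))).eq_iff fun _ h => ⟨h, rfl⟩).2 e

/-- An additive element of `X` with its table. -/
def Ok (X : Subgroup (Perm (H F4))) (g : Perm (H F4)) (f : ℕ → ℕ) : Prop := g ∈ X ∧ Ad g ∧ Rp g f

theorem Ok_eq_1' : type_of% @Ok.eq_1 := @Ok.eq_1

theorem Ok.mul (h1 : Ok X g f) (h2 : Ok X k h) : Ok X (g * k) fun n => f (h n) :=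
  ⟨mul_mem h1.1 h2.1, fun v w => by simp only [Perm.mul_apply, h2.2.1 v, h1.2.1 _], h1.2.2.mul h2.2.2⟩

theorem word (hT : T2 F4 ≤ X) (h1 : Ok X g f) (h2 : Ok X y h) (h3 : Ok X y' h') (w : List ℕ) :
    ∃ k, Ok X k (ev f h h' w) := by
  induction w with
  | nil => exact ⟨1, one_mem _, fun _ _ => rfl, fun _ h => ⟨h, rfl⟩⟩
  | cons l w ih =>
    obtain ⟨k, hk⟩ := ih
    change ∃ k, Ok X k fun n =>
      (if l = 0 then f else if l = 4 then h else if l = 5 then h' else uu (l % 4)) (ev f h h' w n)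
    split_ifs
    exacts [⟨_, h1.mul hk⟩, ⟨_, h2.mul hk⟩, ⟨_, h3.mul hk⟩,
      ⟨_, Ok.mul ⟨hT ⟨_, rfl⟩, ad_u _, rp_u _ (Nat.mod_lt _ (by decide))⟩ hk⟩]

theorem Ok.not_bad (hs : SylIn 2 (T2 F4) X) (h1 : Ok X g f) : ¬ bad f = true := fun e => by
  simp only [bad, Bool.and_eq_true, Bool.not_eq_true', List.any_eq_false, List.mem_range] at e
  obtain ⟨t, rfl⟩ := ch hs h1.1 h1.2.1 h1.2.2 e.1
  obtain ⟨t, ht, rfl⟩ := ft_surj t
  exact e.2 t ht ((h1.2.2.eq_iff (rp_u t ht)).1 rfl)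

theorem _root_.Cfsg.Lib.U4F.Typ.ok (h : Typ X a c) : ∃ i ∈ [1, 2, 3], ∃ j ∈ [2, 3], a = ft i ∧ c = ft j ∧
    ∃ y, Ok X y (yy i j) := by
  obtain ⟨h1, h2, y, hy, e⟩ := h
  obtain ⟨i, hi, rfl⟩ := ft_ne h1
  obtain ⟨j, hj, rfl⟩ := ft_c h2
  refine ⟨i, hi, j, hj, rfl, rfl, y, hy, fun v w => ?_, fun n hn => e _ ▸ rp_y i hi j hj n hn⟩
  rw [e, e, e]
  ext1 <;> simp only [yf, H.add_x1, H.add_s, H.add_x2, star_add] <;> ring

/-- The relation `g u = u' g` on the first three columns. -/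
def cm3 (i j a b c : ℕ) : Bool := [1, 2, 4].all fun n => lin a b c 0 (uu i n) == uu j (lin a b c 0 n)

theorem cm3_eq_1' : type_of% @cm3.eq_1 := @cm3.eq_1

theorem cm_eq {i j : ℕ} (hi : i < 4) (hj : j < 4) (e : g * u2 (ft i) * g⁻¹ = u2 (ft j)) (r : Rp g f) :
    eqb (fun n => f (uu i n)) (fun n => uu j (f n)) = true :=
  ((r.mul (rp_u i hi)).eq_iff ((rp_u j hj).mul r)).1 (mul_inv_eq_iff_eq_mul.1 e)

theorem cm3_of {i j : ℕ} (hi : i < 4) (hj : j < 4) (e : g * u2 (ft i) * g⁻¹ = u2 (ft j))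
    (a b c d : ℕ) (r : Rp g (lin a b c d)) : cm3 i j a b c = true := by
  have k : ∀ n < 8, lin a b c 0 n = lin a b c d n := fun n hn => by
    simp only [lin, Nat.div_eq_of_lt hn, Nat.zero_mod, zero_mul]
  have l : ∀ i < 4, ∀ n ∈ [1, 2, 4], n < 8 ∧ uu i n < 8 := by decide
  refine List.all_eq_true.2 fun n hn => beq_iff_eq.2 ?_
  rw [k _ (l i hi n hn).1, k _ (l i hi n hn).2]
  exact eqb_iff.1 (cm_eq hi hj e r) n ((l i hi n hn).1.trans (by decide))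

theorem lt4 : ∀ i ∈ [1, 2, 3], i < 4 := by decide

theorem chk1 : ∀ i ∈ [1, 2, 3], allM (cm3 i i) (fun f =>
    !eqb (fun n => f (uu i n)) (fun n => uu i (f n)) || f 1 == 1 ||
      [[0, 0, 1, 0, 0], [0, 0, 0], [0, 1, 0], [0, 2, 0], [0, 3, 0, 3, 0], [0, 3, 0, 0, 0],
        [0, 2, 0, 1, 0], [1, 0], [2, 0], [3, 0], [2, 0, 0], [1, 0, 0]].any fun w =>
        bad (ev f f f w) || [2, 3].any fun j => eqb (ev f f f w) (yy i j)) = true := by
  decide +kernel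

theorem chk2 : ∀ i ∈ [1, 2, 3], ∀ j ∈ [2, 3], allM (cm3 i i) (fun f =>
    !eqb (fun n => f (uu i n)) (fun n => uu i (f n)) ||
      [[], [4], [4, 1], [4, 2]].any fun w => fl fun n => ev (yy i j) (yy i j) (yy i j) w (f n)) =
    true := by
  decide +kernel

end F4a

open F4a

variable {X Y : Subgroup (Perm (H F4))} {g : Perm (H F4)} {a c a' c' : F4}

theorem typ_of_comm (ha : ∀ g ∈ X, ∀ v w, g (v + w) = g v + g w) (hs : SylIn 2 (T2 F4) X)
    (hg : g ∈ X) (h0 : a ≠ 0) (hc : g * u2 a * g⁻¹ = u2 a) (hz : ¬ ∀ v, IZ v → IZ (g v)) :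
    ∃ c, Typ X a c := by
  obtain ⟨i, hi, rfl⟩ := ft_ne h0
  obtain ⟨f, r, e⟩ := Ad.all (ha g hg) (chk1 i hi) (cm3_of (lt4 i hi) (lt4 i hi) hc)
  simp only [cm_eq (lt4 i hi) (lt4 i hi) hc r, Bool.not_true, Bool.false_or, Bool.or_eq_true,
    beq_iff_eq, List.any_eq_true] at e
  rcases e with e | ⟨w, -, e⟩
  · refine absurd (fun v hv => ?_) hz
    obtain ⟨n, hn, rfl⟩ := de_surj v
    rcases (by unfold IZ; decide : ∀ n < 16, IZ (de n) → n = 0 ∨ n = 1) n hn hv with rfl | rfl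
    · rwa [Ad.zero (ha g hg)]
    · rwa [(r 1 hn).2, e]
  · obtain ⟨k, hk⟩ := word hs.le ⟨hg, ha g hg, r⟩ ⟨hg, ha g hg, r⟩ ⟨hg, ha g hg, r⟩ w
    obtain ⟨j, hj, e⟩ := e.resolve_left (hk.not_bad hs)
    refine ⟨ft j, h0, (by decide : ∀ j ∈ [2, 3], ft j ^ 2 + ft j + 1 = 0) j hj, k, hk.1, fun v => ?_⟩
    obtain ⟨n, hn, rfl⟩ := de_surj v
    rw [(hk.2.2 n hn).2, (rp_y i hi j hj n hn).2, eqb_iff.1 e n hn]

theorem cent_typ (ha : ∀ g ∈ X, ∀ v w, g (v + w) = g v + g w) (hs : SylIn 2 (T2 F4) X)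
    (h : Typ X a c) (hg : g ∈ X) (hc : g * u2 a * g⁻¹ = u2 a) (hT : T2 F4 ≤ Y) (hY : Typ Y a c) :
    g ∈ Y := by
  have : Typ (X ⊓ Y) a c := by
    obtain ⟨h1, h2, y, hy, e⟩ := h
    obtain ⟨-, -, y', hy', e'⟩ := hY
    exact ⟨h1, h2, y, ⟨hy, (Equiv.ext fun v => (e' v).trans (e v).symm : y' = y) ▸ hy'⟩, e⟩
  obtain ⟨i, hi, j, hj, rfl, rfl, y, hy⟩ := this.ok
  obtain ⟨f, r, e⟩ := Ad.all (ha g hg) (chk2 i hi j hj) (cm3_of (lt4 i hi) (lt4 i hi) hc)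
  simp only [cm_eq (lt4 i hi) (lt4 i hi) hc r, Bool.not_true, Bool.false_or, List.any_eq_true] at e
  obtain ⟨w, -, e⟩ := e
  obtain ⟨k, hk⟩ := word (le_inf hs.le hT) hy hy hy w
  exact (Y.mul_mem_cancel_left hk.1.2).1 (hT (ch hs (mul_mem hk.1.1 hg) (ha _ (mul_mem hk.1.1 hg))
    (hk.2.2.mul r) e))

end Cfsg.Lib.U4F
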