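import Cfsg.Agent.U4F.F4a

/-! The case `q = 2`: compatible types and the normaliser of the root group. -/

set_option autoImplicit false
set_option linter.unusedSectionVars false

namespace Cfsg.Lib.U4F

open Cfsg Cfsg.FusionSystem Subgroup Equiv Cfsg.Lib.Fus
open Cfsg.Lib.Perm (F4 F9)
open F4a

theorem F4b.chk3 : ∀ i ∈ [1, 2, 3], ∀ j ∈ [2, 3], ∀ i' ∈ [1, 2, 3], ∀ j' ∈ [2, 3],
    (ft i = ft i' ∧ ft j = ft j') ∨ (ft i ≠ ft i' ∧ ft j ≠ ft j') ∨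
    ([[5, 4], [4, 5, 4, 1, 5, 4], [4, 5, 4, 2, 5, 4], [4, 5, 4, 3, 5, 4], [5, 4, 5, 1, 4, 5],
      [5, 4, 5, 2, 4, 5], [5, 4, 5, 3, 4, 5]].any fun w =>
        bad (ev (yy i j) (yy i j) (yy i' j') w)) = true := by decide +kernel

theorem F4b.chk4 : ∀ s < 4, allM (cm3 1 s) (fun f =>
    !eqb (fun n => f (uu 1 n)) (fun n => uu s (f n)) || (List.range 4).all fun t =>
      !eqb (fun n => f (uu 2 n)) (fun n => uu t (f n)) || ((List.range 4).any fun t => eqb f (uu t)) ||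
        [1, 2, 3].all fun i => [2, 3].all fun j =>
          [[0], [0, 0, 0], [4, 0, 0, 4, 0, 4, 1, 0, 0, 4, 0, 4], [4, 0, 4, 0, 0, 4, 1, 0, 4, 0, 0, 4],
            [4, 0, 0, 4, 0, 4, 2, 0, 0, 4, 0, 4], [4, 0, 4, 0, 0, 4, 2, 0, 4, 0, 0, 4],
            [4, 0, 0, 4, 0, 4, 3, 0, 0, 4, 0, 4], [4, 0, 4, 0, 0, 4, 3, 0, 4, 0, 0, 4]].any fun w =>
            bad (ev f (yy i j) f w)) = true := by decide +kernel

variable {X Y : Subgroup (Perm (H F4))} {g : Perm (H F4)} {a c a' c' : F4}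

theorem typ_typ (hs : SylIn 2 (T2 F4) X) (h : Typ X a c) (h' : Typ X a' c') :
    (a = a' ∧ c = c') ∨ (a ≠ a' ∧ c ≠ c') := by
  obtain ⟨i, hi, j, hj, rfl, rfl, y, hy⟩ := h.ok
  obtain ⟨i', hi', j', hj', rfl, rfl, y', hy'⟩ := h'.ok
  refine (F4b.chk3 i hi j hj i' hi' j' hj').imp_right fun e => e.resolve_right fun e => ?_
  obtain ⟨w, -, e⟩ := List.any_eq_true.1 e
  obtain ⟨k, hk⟩ := word hs.le hy hy hy' w
  exact hk.not_bad hs e

theorem n2_typ (ha : ∀ g ∈ X, ∀ v w, g (v + w) = g v + g w) (hs : SylIn 2 (T2 F4) X)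
    (h : Typ X a c) (hg : g ∈ X) (hn : N2 g) : g ∈ T2 F4 := by
  obtain ⟨i, hi, j, hj, rfl, rfl, y, hy⟩ := h.ok
  obtain ⟨s, e1⟩ := hn (ft 1)
  obtain ⟨t, e2⟩ := hn (ft 2)
  obtain ⟨s, hs', rfl⟩ := ft_surj s
  obtain ⟨t, ht, rfl⟩ := ft_surj t
  obtain ⟨f, r, e⟩ := Ad.all (ha g hg) (F4b.chk4 s hs') (cm3_of (by decide) hs' e1)
  rw [cm_eq (by decide) hs' e1 r, Bool.not_true, Bool.false_or] at e
  replace e := List.all_eq_true.1 e t (List.mem_range.2 ht)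
  rw [cm_eq (by decide) ht e2 r, Bool.not_true, Bool.false_or, Bool.or_eq_true] at e
  rcases e with e | e
  · obtain ⟨u, hu, e⟩ := List.any_eq_true.1 e
    exact ⟨_, (r.eq_iff (rp_u u (List.mem_range.1 hu))).2 e⟩
  · obtain ⟨w, -, e⟩ := List.any_eq_true.1 (List.all_eq_true.1 (List.all_eq_true.1 e i hi) j hj)
    obtain ⟨k, hk⟩ := word hs.le ⟨hg, ha g hg, r⟩ hy ⟨hg, ha g hg, r⟩ w
    exact absurd e (hk.not_bad hs)

end Cfsg.Lib.U4F
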