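import Cfsg.Agent.U4F.F4b
import Cfsg.Agent.U4F.B2
import Cfsg.Agent.U4F.L2d

/-! The essential subgroups `R a` over the field with four elements. -/

set_option autoImplicit false
set_option linter.unusedSectionVars false

namespace Cfsg.Lib.U4F

open Cfsg Cfsg.FusionSystem Subgroup Equiv Cfsg.Lib.Fus U
open Cfsg.Lib.U5F (UF qq SC sc_refl Tr Iv LTr Sec Loc SEm MinL)
open Cfsg.Lib.Perm (F4 F9)

variable {X Y : Subgroup (Perm (H F4))} {g : Perm (H F4)} {a c a' c' : F4}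
variable {F F' : FusionSystem (⊤ : Subgroup (U F4))} {f : Perm (U F4)}

namespace F4c

theorem mem_R4 {x : U F4} : x ∈ R a ↔ x.t = 0 ∨ x.t = a := by
  rw [mem_R]
  generalize x.t = t
  revert a t
  decide +kernel

/-- The root element with parameter `a`. -/
def ea (a : F4) : U F4 := ⟨a, 0, 0, 0, by simp, by simp⟩

theorem ea_mem : ea a ∈ R a := mem_R4.2 (.inr rfl)

theorem ea_sq : ea a * ea a = 1 := by
  ext1 <;> simp [ea]
  revert a; decide +kernel

theorem mem_V4 (h0 : a ≠ 0) {x : U F4} (hx : x ∈ R a) : x ∈ V F4 ↔ ∀ y ∈ R a, ∀ z ∈ R a,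
    x * y = y * x ∨ x * z = z * x ∨ x * (y * z) = y * z * x := by
  constructor
  · intro h y hy z hz
    rcases mem_R4.1 hy with e | e
    · exact .inl (comm_V h e)
    rcases mem_R4.1 hz with e' | e'
    · exact .inr (.inl (comm_V h e'))
    refine .inr (.inr (comm_V h ?_))
    rw [mem_V, mul_t, e, e']
    exact CharTwo.add_self_eq_zero a
  · intro h
    refine (mem_R4.1 hx).resolve_right fun e => ?_
    have h1 : (⟨0, 0, 0, 1, by simp, by decide⟩ : U F4) ∈ V F4 := rfl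
    have h2 : (⟨0, 0, a * ⟨0, 1⟩, 0, by simp, by simp⟩ : U F4) ∈ V F4 := rfl
    have := h _ (V_le_R a h1) _ (V_le_R a h2)
    rw [comm_V_iff h1, comm_V_iff h2, comm_V_iff (mul_mem h1 h2), e] at this
    simp only [mul_x2, add_zero, mul_one, h0, false_and, false_or, or_false] at this
    exact (by decide +kernel : ∀ a : F4, a ≠ 0 → a * ⟨0, 1⟩ * star a ≠ a * star (a * ⟨0, 1⟩)) a h0
      this.2

theorem conj_inv (h0 : a ≠ 0) {x y : U F4} (hx : x.t = a) (hy : y.t = a) (h1 : x * x = 1)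
    (h2 : y * y = 1) : ∃ n ∈ V F4, x = n * y * n⁻¹ := by
  have k : ∀ {x : U F4}, x.t = a → x * x = 1 → x.x2 = 0 ∧ x.s * star a = a * star x.s := by
    intro x hx h
    have e1 : x.x1 + x.x1 + x.s * star x.t - x.t * star x.s + x.t * star x.t * x.x2 = 0 :=
      congrArg U.x1 h
    have e2 : x.s + x.s + x.t * x.x2 = 0 := congrArg U.s h
    rw [hx] at e1 e2
    exact (by decide +kernel : ∀ t : F4, t ≠ 0 → ∀ s y : F4, s + s + t * y = 0 → ∀ x : F4,
      x + x + s * star t - t * star s + t * star t * y = 0 → y = 0 ∧ s * star t = t * star s)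
      a h0 _ _ e2 _ e1
  obtain ⟨a1, a2⟩ := k hx h1
  obtain ⟨b1, b2⟩ := k hy h2
  have : ∀ a : F4, a ≠ 0 → ∀ x : F4, star x = -x → ∀ x' : F4, star x' = -x' → ∀ s : F4,
      s * star a = a * star s → ∀ s' : F4, s' * star a = a * star s' → ∃ y : F4, star y = -y ∧
        s = s' - a * y ∧ ∃ r : F4, x = x' - r * star a + a * star r - a * star a * y := by
    decide +kernel
  obtain ⟨w, hw, e1, r, e2⟩ := this a h0 _ x.h1 _ y.h1 _ a2 _ b2
  refine ⟨⟨0, 0, r, w, by simp, hw⟩, rfl, ?_⟩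
  ext1 <;> simp only [mul_t, mul_x1, mul_s, mul_x2, inv_t, inv_x1, inv_s, inv_x2, hx, hy, a1, b1,
    star_zero, star_add, star_neg, zero_add, zero_mul, mul_zero, add_zero, neg_zero, sub_zero]
  · rw [e2]; ring
  · rw [e1]; ring
  · ring

end F4c

open F4c

theorem maps_R (h0 : a ≠ 0) (hf : PIso F f (R a) (R a)) :
    (∀ g, f g ∈ V F4 ↔ g ∈ V F4) ∧ ∃ φ ∈ X2 F, (∀ g ∈ V F4, pi2 (f g) = φ (pi2 g)) ∧
      φ * u2 a * φ⁻¹ = u2 a := by
  have hm : ∀ x ∈ V F4, f x ∈ V F4 := fun x hx => by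
    have hx' := V_le_R a hx
    refine (mem_V4 h0 (hf.maps hx')).2 fun y hy z hz => ?_
    have hy' := hf.inv_maps hy
    have hz' := hf.inv_maps hz
    rw [← perm_apply_inv f y, ← perm_apply_inv f z, ← hf.map_mul hy' hz', ← hf.map_mul hx' hy',
      ← hf.map_mul hy' hx', ← hf.map_mul hx' hz', ← hf.map_mul hz' hx',
      ← hf.map_mul hx' (mul_mem hy' hz'), ← hf.map_mul (mul_mem hy' hz') hx']
    exact ((mem_V4 h0 hx').1 hx _ hy' _ hz').imp (congrArg f) (.imp (congrArg f) (congrArg f))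
  have hV := (hf.mor.restrict (V_le_R a)).piso_of_maps hm
  obtain ⟨φ, hφ, e⟩ := exists_X2 hV
  refine ⟨hV.mem, φ, hφ, e, ?_⟩
  have e1 := B2.conj_eq hf.mor (V_le_R a) hm e ea_mem
  rwa [(mem_R4.1 (hf.maps ea_mem)).resolve_left fun e2 => h0 ((hV.mem _).1 e2)] at e1

theorem typ_of_ess (hF : F.IsSaturated 2) (h0 : a ≠ 0) (hE : F.IsEssential 2 (R a)) :
    ∃ c, Typ (X2 F) a c := by
  obtain ⟨M, hM⟩ := U5F.sem_of_essential (isP 2) hF hE
  obtain ⟨L, hL, h⟩ := hM.exists_loc (isP 2) (fun x hx => isCentric_self hE.1 ⟨mem_top x, hx⟩)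
    (lt_of_isEssential (isP_top 2) hF hE).ne
  have h1 : ¬ Iv (L.map (pext (R a))) (Z F4) := fun h1 => by
    rcases essI h h1 with e | e
    · exact one_ne_zero (e.le (V_le_R a
        (show (⟨0, 0, 0, 1, by simp, by decide⟩ : U F4) ∈ V F4 from rfl)))
    · exact h0 (e.le ea_mem)
  by_contra hn
  refine h1 ?_
  rintro _ ⟨α, hα, rfl⟩ z hz
  obtain ⟨hV, φ, hφ, e, hc⟩ := maps_R h0 (piso_pext_of_mem le_top (hL hα))
  have hz' : ∀ v, IZ v → IZ (φ v) := by_contra fun h2 =>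
    hn (typ_of_comm (fun _ h => add_X2 h) (syl_X2 hF) hφ h0 hc h2)
  have := hz' (pi2 z) hz.2
  rw [← e z hz.1] at this
  exact ⟨(hV z).2 hz.1, this⟩

theorem mor_R (hF' : F'.IsSaturated 2) (h0 : a ≠ 0) (hf : PIso F f (R a) (R a))
    (h : Mor F' (V F4) f) : Mor F' (R a) f := by
  obtain ⟨hV, φ, -, e, hc⟩ := maps_R h0 hf
  obtain ⟨k, hk, ek, ek'⟩ := ext_comm hF' (h.piso_of_maps fun x hx => (hV x).2 hx) e (V_le_R a)
    fun x hx => by
      rcases mem_R4.1 hx with e1 | e1 <;> rw [e1]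
      · exact ⟨0, by rw [u2_zero, mul_one, mul_inv_cancel]⟩
      · exact ⟨a, hc⟩
  obtain ⟨n, hn, e1⟩ := conj_inv h0 (x := f (ea a)) (y := k (ea a))
    ((mem_R4.1 (hf.maps ea_mem)).resolve_left fun e2 => h0 ((hV _).1 e2))
    (u2_inj ((ek' _ ea_mem).symm.trans hc))
    (by rw [← hf.map_mul ea_mem ea_mem, ea_sq, hf.mor.map_one])
    (by rw [← hk.map_mul ea_mem ea_mem, ea_sq, hk.map_one])
  have e2 : ∀ x ∈ V F4, n * k x * n⁻¹ = f x := fun x hx => by
    rw [ek x hx, comm_V hn ((hV x).2 hx), mul_inv_cancel_right]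
  refine (hk.conj_comp (mem_top n)).congr fun x hx => ?_
  rcases mem_R4.1 hx with e3 | e3
  · exact e2 x e3
  have hx' : (ea a)⁻¹ * x ∈ V F4 := by rw [mem_V, mul_t, inv_t, e3]; exact neg_add_cancel a
  rw [← mul_inv_cancel_left (ea a) x, hf.map_mul ea_mem (V_le_R a hx'),
    hk.map_mul ea_mem (V_le_R a hx'), e1, ← e2 _ hx']
  group

theorem aut_inn (hF : F.IsSaturated 2) (h : Typ (X2 F) a c) (hf : PIso F f ⊤ ⊤) :
    ∃ k, ∀ g, f g = k * g * k⁻¹ := by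
  have hN : (V F4).Normal := inferInstance
  obtain ⟨φ, hφ, e⟩ := exists_X2 ((hf.mor.restrict le_top).piso_of_maps fun x hx => (top_V hf x).2 hx)
  obtain ⟨t, rfl⟩ := n2_typ (fun _ h => add_X2 h) (syl_X2 hF) h hφ (n2_of_ext hf e)
  have hf' := hf.trans (B1.piso_cj F ⊤ (ea t)⁻¹)
  have e1 : ∀ x ∈ V F4, (cj (ea t)⁻¹ * f) x = x := fun x hx => by
    have hx' := (top_V hf x).2 hx
    refine pi2_inj (hN.conj_mem _ hx' _) hx ?_
    rw [Perm.mul_apply, cj_apply, pi2_conj _ hx', e x hx, inv_t, u2_neg]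
    exact perm_inv_apply _ _
  have e2 : ∀ x, x⁻¹ * (cj (ea t)⁻¹ * f) x ∈ V F4 := fun x => by
    have := B2.conj_eq hf'.mor le_top (fun x hx => by rwa [e1 x hx]) (φ := 1)
      (fun x hx => by rw [e1 x hx]; rfl) (mem_top x)
    rw [one_mul, inv_one, mul_one] at this
    rw [mem_V, mul_t, inv_t, ← u2_inj this, neg_add_cancel]
  have e3 : hf'.aut ^ 2 ^ 1 = 1 := MulEquiv.ext fun x => Subtype.ext (by
    change (cj (ea t)⁻¹ * f) ((cj (ea t)⁻¹ * f) x) = x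
    have e4 := pow_V 2 (e2 x)
    rw [← mul_inv_cancel_left x.1 ((cj (ea t)⁻¹ * f) x), hf'.map_mul trivial trivial, e1 _ (e2 x),
      ← mul_inv_cancel_left x.1 ((cj (ea t)⁻¹ * f) x), inv_mul_cancel_left, mul_assoc, ← pow_two, e4,
      mul_one])
  obtain ⟨k, -, hk⟩ := mem_inn_pext.1 ((sat_aut_top (isP_top 2) hF).le_of_normalizes
    (zpowers_le.2 hf'.aut_mem) (isPGroup_zpowers_of_pow e3)
    (le_top.trans (normalizer_eq_top _).ge) (mem_zpowers _))
  refine ⟨ea t * k, fun x => ?_⟩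
  have e4 := hk x trivial
  rw [hf'.pext_aut trivial, Perm.mul_apply, cj_apply] at e4
  calc f x = ea t * ((ea t)⁻¹ * f x * (ea t)⁻¹⁻¹) * (ea t)⁻¹ := by group
    _ = _ := by rw [e4]; group

theorem hess_of_low2 (hF : F.IsSaturated 2) (hl : Low2 F) : Hess F 2 := fun E hE => by
  refine (ess_eq hF hE).imp_right fun h => h.resolve_right ?_
  rintro ⟨-, a, h0, rfl⟩
  obtain ⟨c, h⟩ := typ_of_ess hF h0 hE
  obtain ⟨m, hm⟩ := UF.nt (K := F4)
  have hm0 : m ≠ 0 := fun e => hm (by rw [e, star_zero])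
  obtain ⟨φ, hφ, e⟩ := tor_of_l2 (syl_X2 hF).le (low2_iff.1 hl) hm0
  obtain ⟨t, rfl⟩ := n2_typ (fun _ h => add_X2 h) (syl_X2 hF) h hφ
    fun t => ⟨_, n2_gh hm0 (inv_ne_zero hm0) e t⟩
  have e1 := congrArg H.s (e ⟨0, 1, 0, by simp, by simp⟩)
  rw [u2_s, gh_s, mul_zero, add_zero, RingEquiv.refl_apply, mul_one, star_inv₀, eq_comm,
    mul_inv_eq_one₀ (star_ne_zero.2 hm0)] at e1
  exact hm e1.symm

end Cfsg.Lib.U4F
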