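import Cfsg.Agent.U4F.F4c

/-! If some `R a` is essential, then `V` is not. -/

set_option autoImplicit false
set_option linter.unusedSectionVars false

namespace Cfsg.Lib.U4F

open Cfsg Cfsg.FusionSystem Subgroup Equiv Cfsg.Lib.Fus U
open Cfsg.Lib.U5F (UF qq SC sc_refl Tr Iv LTr Sec Loc SEm MinL)
open Cfsg.Lib.Perm (F4 F9)

variable {X Y : Subgroup (Perm (H F4))} {g : Perm (H F4)} {a c a' c' : F4}
variable {F F' : FusionSystem (⊤ : Subgroup (U F4))} {f : Perm (U F4)}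

namespace F4d

theorem dih {G : Type*} [Group G] [Finite G] {s t : G} (hs : s * s = 1) (ht : t * t = 1) :
    (∃ n : ℕ, t = ((s * t) ^ n)⁻¹ * s * (s * t) ^ n) ∨ ∃ n : ℕ, (s * t) ^ n ≠ 1 ∧
      ((s * t) ^ n) ^ 2 ^ 1 = 1 ∧ Commute s ((s * t) ^ n) ∧ Commute t ((s * t) ^ n) := by
  have h0 : SemiconjBy s (s * t) (s * t)⁻¹ := by
    rw [SemiconjBy, mul_inv_rev, inv_eq_of_mul_eq_one_right hs, inv_eq_of_mul_eq_one_right ht,
      ← mul_assoc, mul_assoc t, hs, one_mul, mul_one]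
  have h1 : ∀ n : ℕ, s * (s * t) ^ n = ((s * t) ^ n)⁻¹ * s := fun n => by
    rw [← inv_pow]; exact h0.pow_right n
  have h2 := pow_orderOf_eq_one (s * t)
  rcases Nat.even_or_odd' (orderOf (s * t)) with ⟨k, e | e⟩
  · have h3 : (s * t) ^ k * (s * t) ^ k = 1 := by rw [← pow_add, ← two_mul, ← e, h2]
    have h4 : Commute s ((s * t) ^ k) := (h1 k).trans (by rw [inv_eq_of_mul_eq_one_right h3])
    have := orderOf_pos (s * t)
    refine .inr ⟨k, pow_ne_one_of_lt_orderOf (by omega) (by omega), by rw [pow_one, pow_two, h3], h4, ?_⟩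
    have h5 := h4.mul_left ((Commute.refl (s * t)).pow_right k)
    rwa [← mul_assoc, hs, one_mul] at h5
  · refine .inl ⟨k + 1, ?_⟩
    rw [← h1, mul_assoc, ← pow_add, show k + 1 + (k + 1) = orderOf (s * t) + 1 by omega, pow_succ, h2,
      one_mul, ← mul_assoc, hs, one_mul]

theorem u2_sq (t : F4) : u2 t * u2 t = 1 := by rw [← u2_add, CharTwo.add_self_eq_zero, u2_zero]

theorem u2_conj (s t : F4) : u2 s * u2 t * (u2 s)⁻¹ = u2 t := by
  rw [← u2_add, add_comm, u2_add, mul_inv_cancel_right]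

theorem le_of_emb {M : Subgroup (Perm (H F4))} (hs : SylIn 2 (T2 F4) X)
    (hn : ∀ g ∈ X, N2 g → g ∈ T2 F4) (hT : T2 F4 ≤ M)
    (hM : ∀ g ∈ X, ∀ t, t ≠ 0 → g * u2 t * g⁻¹ ∈ M → g ∈ M) : X ≤ M := fun g hg => by
  have hu : ∀ t, u2 t ∈ X := fun t => hs.le ⟨t, rfl⟩
  have hb : (⟨0, 1⟩ : F4) ≠ 0 := by decide
  have hb1 : (⟨0, 1⟩ : F4) ≠ 1 := by decide
  generalize (⟨0, 1⟩ : F4) = b at hb hb1
  have ht : g * u2 b * g⁻¹ ∈ X := mul_mem (mul_mem hg (hu b)) (inv_mem hg)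
  have hy : ∀ n : ℕ, (u2 1 * (g * u2 b * g⁻¹)) ^ n ∈ X := fun n => pow_mem (mul_mem (hu 1) ht) n
  rcases dih (u2_sq 1) (t := g * u2 b * g⁻¹) (by rw [conj_mul, u2_sq, mul_one, mul_inv_cancel]) with
    ⟨n, e⟩ | ⟨n, h1, h2, h3, h4⟩
  · exfalso
    have hx := mul_mem (inv_mem hg) (inv_mem (hy n))
    have e1 : g⁻¹ * ((u2 1 * (g * u2 b * g⁻¹)) ^ n)⁻¹ * u2 1 *
        (g⁻¹ * ((u2 1 * (g * u2 b * g⁻¹)) ^ n)⁻¹)⁻¹ = u2 b := by
      generalize (u2 1 * (g * u2 b * g⁻¹)) ^ n = y at e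
      calc _ = g⁻¹ * (y⁻¹ * u2 1 * y) * g := by group
        _ = _ := by rw [← e]; group
    generalize g⁻¹ * ((u2 1 * (g * u2 b * g⁻¹)) ^ n)⁻¹ = x at hx e1
    obtain ⟨c, hc, e2⟩ := (hs.mono (B := X ⊓ centralizer {u2 b}) (by
      rintro _ ⟨t, rfl⟩
      exact ⟨hu t, mem_centralizer_singleton_iff.2 (by rw [← u2_add, ← u2_add, add_comm])⟩)
      inf_le_left).exists_conj (U := (T2 F4).map (MulAut.conj x).toMonoidHom) (by
        rintro _ ⟨_, ⟨t, rfl⟩, rfl⟩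
        refine ⟨X.mul_mem (X.mul_mem hx (hu t)) (X.inv_mem hx), mem_centralizer_singleton_iff.2 ?_⟩
        change x * u2 t * x⁻¹ * u2 b = u2 b * (x * u2 t * x⁻¹)
        rw [← e1, conj_mul, conj_mul, ← u2_add, ← u2_add, add_comm]) (hs.pgroup.map _)
    obtain ⟨t, e3⟩ := hn (c * x) (mul_mem hc.1 hx) fun t => by
      obtain ⟨t', e3⟩ := e2 _ ⟨u2 t, ⟨t, rfl⟩, rfl⟩
      exact ⟨t', by rw [← e3]; simp [mul_assoc]⟩
    have e4 := u2_conj t 1
    have e5 : c * u2 b = u2 b * c := mem_centralizer_singleton_iff.1 hc.2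
    rw [← e3, show c * x * u2 1 * (c * x)⁻¹ = c * (x * u2 1 * x⁻¹) * c⁻¹ by group, e1, e5,
      mul_inv_cancel_right] at e4
    exact hb1 (u2_inj e4)
  · have hz := hy n
    generalize (u2 1 * (g * u2 b * g⁻¹)) ^ n = z at h1 h2 h3 h4 hz
    have hz' : z ∈ M := hM z hz 1 one_ne_zero (by
      rw [← h3.eq, mul_inv_cancel_right]; exact hT ⟨1, rfl⟩)
    obtain ⟨m, hm, e⟩ := (hs.mono (B := X ⊓ M) (le_inf hs.le hT) inf_le_left).exists_conj
      (U := zpowers z) (zpowers_le.2 ⟨hz, hz'⟩) (isPGroup_zpowers_of_pow h2)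
    obtain ⟨t, e⟩ := e z (mem_zpowers z)
    refine hM g hg b hb ?_
    generalize g * u2 b * g⁻¹ = y at ht h4
    have h5 := hM (m * y * m⁻¹) (mul_mem (mul_mem hm.1 ht) (inv_mem hm.1)) t
      (fun e0 => h1 (by rwa [e0, u2_zero, conj_eq_one_iff] at e)) (by
        rw [← e, conj_mul, h4.eq, ← conj_mul, mul_inv_cancel_right, e]; exact hT ⟨t, rfl⟩)
    simpa [mul_assoc] using M.mul_mem (M.mul_mem (M.inv_mem hm.2) h5) hm.2

/-- The coordinates of `V`. -/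
def eV : V F4 ≃ H F4 where
  toFun g := pi2 g
  invFun v := ⟨B2.jv v, B2.jv_mem v⟩
  left_inv g := Subtype.ext (B2.jv_pi2 g.2)
  right_inv _ := rfl

/-- The automorphisms of `V` in coordinates. -/
def rho : MulAut (V F4) →* Perm (H F4) := eV.permCongrHom.toMonoidHom.comp (MulAut.toPerm _)

theorem rho_inj : Function.Injective rho := eV.permCongrHom.injective.comp fun _ _ e =>
  MulEquiv.toEquiv_injective e

theorem rho_apply (α : MulAut (V F4)) (x : V F4) : rho α (pi2 x) = pi2 (α x) := by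
  change eV (α (eV.symm (eV x))) = eV (α x)
  rw [symm_apply_apply]

theorem rho_eq {α : MulAut (V F4)} {φ : Perm (H F4)} (h : ∀ x : V F4, pi2 (α x) = φ (pi2 x)) :
    rho α = φ := Equiv.ext fun v => by
  obtain ⟨x, hx, rfl⟩ := exists_V v
  exact (rho_apply α ⟨x, hx⟩).trans (h ⟨x, hx⟩)

end F4d

open F4d

theorem not_ess_V (hF : F.IsSaturated 2) (h : Typ (X2 F) a c) : ¬ F.IsEssential 2 (V F4) := fun hE => by
  obtain ⟨M, hM⟩ := U5F.sem_of_essential (isP 2) hF hE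
  have hu : ∀ t, ∃ β ∈ autInducedBy ⊤ (V F4), rho β = u2 t := fun t => by
    have hf := B1.piso_cj F (V F4) (F4c.ea t)
    exact ⟨hf.aut, mem_autInducedBy_pext.2 ⟨F4c.ea t, trivial, fun x hx => hf.pext_aut hx⟩,
      rho_eq fun x => pi2_conj _ x.2⟩
  have key := le_of_emb (M := M.map rho) (syl_X2 hF)
    (fun g hg hn => n2_typ (fun _ h => add_X2 h) (syl_X2 hF) h hg hn) (by
      rintro _ ⟨t, rfl⟩
      obtain ⟨β, hβ, e⟩ := hu t
      exact ⟨β, hM.le hβ, e⟩) (by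
      rintro φ ⟨f, hf, e⟩ t ht hm
      obtain ⟨β, hβ, e1⟩ := hu t
      have e2 : rho hf.aut = φ := rho_eq fun x => e x x.2
      rw [← e1, ← e2, ← map_inv, ← map_mul, ← map_mul, mem_map_iff_mem rho_inj] at hm
      refine ⟨_, hM.mem _ hf.aut_mem β hβ (fun hi => ht (u2_inj ?_)) hm, e2⟩
      obtain ⟨k, hk, e3⟩ := mem_inn_iff.1 hi
      rw [← e1, u2_zero]
      exact rho_eq fun x => by rw [e3, comm_V hk x.2, mul_inv_cancel_right]; rfl)
  refine hM.not_le fun α hα => (mem_map_iff_mem rho_inj).1 (key ?_)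
  exact ⟨_, piso_pext_of_mem le_top hα, fun x hx => by
    rw [pext_of_mem α hx]; exact (rho_apply α ⟨x, hx⟩).symm⟩

end Cfsg.Lib.U4F
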