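import Cfsg.Agent.U4F.B1

/-! The opposite root elements on `Q` belong to the system. -/

set_option autoImplicit false
set_option linter.unusedSectionVars false

namespace Cfsg.Lib.U4F

open Cfsg Cfsg.FusionSystem Subgroup Equiv Cfsg.Lib.Fus U
open Cfsg.Lib.U5F (UF qq SC sc_refl)

universe u

variable {K : Type u} [Field K] [StarRing K] [Finite K] [UF K] {p : ℕ} [Fact p.Prime] [CharP K p]
  {F F' : FusionSystem (⊤ : Subgroup (U K))} {f : Perm (U K)}

namespace W1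

theorem nu {c d : K} (hc : star c = -c) (hd : star d = -d) (h : c * d = -1) {v g : U K}
    (hv : v = ⟨0, 0, 0, c, by simp, hc⟩) (hg : g ∈ Q K) :
    (v * lo1 d hd (v * g * v⁻¹) * v⁻¹).t = -d * g.s ∧
    (v * lo1 d hd (v * g * v⁻¹) * v⁻¹).x1 = g.x1 - g.s * star g.t + g.t * star g.s ∧
    (v * lo1 d hd (v * g * v⁻¹) * v⁻¹).s = -c * g.t ∧
    (v * lo1 d hd (v * g * v⁻¹) * v⁻¹).x2 = 0 := by
  subst hv
  simp only [mul_t, mul_x1, mul_s, mul_x2, inv_t, inv_x1, inv_s, inv_x2, lo1_t, lo1_x1, lo1_s,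
    lo1_x2, mem_Q.1 hg, star_add, star_sub, star_mul', star_neg, star_zero, hc, hd, mul_zero,
    zero_mul, add_zero, zero_add, sub_zero, neg_zero]
  refine ⟨by linear_combination g.t * h, ?_, by linear_combination (g.s - c * g.t) * h, by ring⟩
  have h0 : d ≠ 0 := by rintro rfl; simp at h
  obtain rfl : c = -d⁻¹ := by field_simp; linear_combination h
  field_simp
  ring

theorem tor (ht : Tor1 F) {m : K} (hm : m ≠ 0) (hr : star m = m) :
    ∃ h : Perm (U K), PIso F h (Q K) (Q K) ∧ ∀ g, h g = dia 1 m g :=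
  ⟨(gamA 1 m (RingEquiv.refl K) sc_refl one_ne_zero hm).toEquiv,
    ((ht m hm hr).restrict le_top).piso_of_maps fun _ hx => B1.gam_mem (hσ := sc_refl) hx,
    fun _ => rfl⟩

end W1

theorem low1 (hE : F.IsEssential p (Q K)) (ht : Tor1 F)
    (hl : ∀ d : K, star d = -d → l1 d ∈ X1 F) : Low1 F := by
  intro d hd
  obtain rfl | h0 := eq_or_ne d 0
  · exact (PIso.refl F le_top).congr fun x _ => by ext <;> simp
  obtain ⟨c, hc, hcd⟩ : ∃ c : K, star c = -c ∧ c * d = -1 :=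
    ⟨-d⁻¹, by rw [star_neg, star_inv₀, hd, inv_neg], by rw [neg_mul, inv_mul_cancel₀ h0]⟩
  obtain ⟨v, hv⟩ : ∃ v : U K, v = ⟨0, 0, 0, c, by simp, hc⟩ := ⟨_, rfl⟩
  obtain ⟨ν, hν⟩ : ∃ ν : U K → U K, ∀ g, ν g = v * lo1 d hd (v * g * v⁻¹) * v⁻¹ := ⟨_, fun _ => rfl⟩
  have hN := (inferInstance : (Q K).Normal).conj_mem
  have n1 : ∀ g ∈ Q K, ν g ∈ Q K := fun g hg => by rw [hν]; exact hN _ (hN _ hg v) v
  have n2 : ∀ g ∈ Q K, ∀ h ∈ Q K, ν (g * h) = ν g * ν h := fun g hg h hh => by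
    rw [hν, hν, hν, ← conj_mul, lo1_mul hd (hN _ hg v) (hN _ hh v), conj_mul]
  have hu : u1 c ∈ X1 F := ⟨_, B1.piso_cj F (Q K) v, fun g hg => by
    rw [cj_apply, pi1_conj v hg, hv]⟩
  obtain ⟨f, hf, e⟩ := mul_mem (mul_mem hu (hl d hd)) hu
  have n3 : ∀ g ∈ Q K, pi1 (ν g) = pi1 (f g) := fun g hg => by
    rw [e g hg, hν, pi1_conj v ((lo1_mem hd _).2 (hN _ hg v)), pi1_lo1, pi1_conj v hg, hv]; rfl
  have ei : ∀ g ∈ Q K, ∀ x ∈ Q K, pi1 x = pi1 (f g) → pi1 (f⁻¹ x) = pi1 g := fun g hg x hx h =>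
    (u1 c * l1 d * u1 c).injective (by rw [← e _ (hf.inv_maps hx), perm_apply_inv, h, e g hg])
  have k1 : ∀ g ∈ Q K, f⁻¹ (ν g) ∈ Q K := fun g hg => hf.inv_maps (n1 g hg)
  have k3 : ∀ g ∈ Q K, pi1 (f⁻¹ (ν g)) = pi1 g := fun g hg => ei g hg _ (n1 g hg) (n3 g hg)
  obtain ⟨l, hl, el⟩ := B1.inn_th (f := fun g => f⁻¹ (ν g)) k1
    (fun g hg h hh => by rw [n2 g hg h hh, hf.symm.map_mul (n1 g hg) (n1 h hh)]) k3
    fun Θ hΘ r hr w => by
      by_contra hne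
      have hm0 : r ≠ 0 := by rintro rfl; exact hne (by simp)
      have hm1 : r ≠ 1 := by rintro rfl; exact hne (by simp)
      obtain ⟨h, hh, eh⟩ := W1.tor ht hm0 hr
      obtain ⟨h', hh', eh'⟩ := W1.tor ht (inv_ne_zero hm0) (by rw [star_inv₀, hr])
      have n4 : ∀ g ∈ Q K, ν (h g) = h' (ν g) := fun g hg => by
        obtain ⟨a1, a2, a3, a4⟩ := W1.nu hc hd hcd hv hg
        obtain ⟨b1, b2, b3, b4⟩ := W1.nu hc hd hcd hv (hh.maps hg)
        rw [← hν] at a1 a2 a3 a4 b1 b2 b3 b4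
        rw [eh']
        ext
        · rw [b1, gam_t, eh]; simp [a1, hr]; ring
        · rw [b2, gam_x1, eh]; simp [a2, hr]; field_simp
        · rw [b3, gam_s, eh]; simp [a3, hr]; ring
        · rw [b4, gam_x2]; simp [a4]
      obtain ⟨k, hk, ek⟩ := inn1 hE (hh.symm.trans (hf.trans (hh'.trans hf.symm))) fun x hx => by
        have hy := hh.inv_maps hx
        rw [← perm_apply_inv h x]
        generalize h⁻¹ x = y at hy
        simp only [Perm.mul_apply, perm_inv_apply]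
        refine ei _ (hh.maps hy) _ (hh'.maps (hf.maps hy)) ?_
        rw [← n3 _ (hh.maps hy), n4 y hy, eh', eh', pi1_gam, pi1_gam, n3 y hy]
      have key : ∀ t s : K, Θ ((r⁻¹ - 1) * t, (r - 1) * s) = bf (pi1 k) (r⁻¹ * t, r * s) := by
        intro t s
        obtain ⟨g, hg, eg⟩ := exists_Q (t, s)
        have hz := (pi1_eq hg (k1 g hg)).1 (k3 g hg).symm
        have e1 : pi1 (h g) = (r⁻¹ * t, r * s) := by rw [eh, pi1_gam, eg]; simp [gy, hr]
        have e2 : h (g⁻¹ * f⁻¹ (ν g)) = g⁻¹ * f⁻¹ (ν g) := by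
          rw [eh]; ext <;> simp only [gam_t, gam_x1, gam_s, gam_x2, hz.1, hz.2.1, hz.2.2] <;> simp
        have e3 : (h g)⁻¹ * f⁻¹ (ν (h g)) =
            (h g)⁻¹ * (k * h g * k⁻¹) * (g⁻¹ * f⁻¹ (ν g)) := by
          have := ek _ (hh.maps (k1 g hg))
          simp only [Perm.mul_apply, perm_inv_apply, perm_apply_inv] at this
          rw [n4 g hg, this, ← mul_inv_cancel_left g (f⁻¹ (ν g)), hh.map_mul hg (Z_le_Q hz), e2,
            mul_inv_cancel_left, mul_assoc _ (k * h g * k⁻¹), mul_assoc _ k⁻¹, comm_Z k⁻¹ hz]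
          group
        have e4 := hΘ _ (hh.maps hg)
        have hz' := cm_QQ hk (hh.maps hg)
        rw [e3, mul_x1, hz'.1, hz.2.1, cm_x1_Q hk (hh.maps hg), hΘ g hg, e1, eg] at e4
        rw [show ((r⁻¹ - 1) * t, (r - 1) * s) = (r⁻¹ * t, r * s) - (t, s) from
          Prod.ext (by simp; ring) (by simp; ring), map_sub, ← e4]
        simp
      have a1 : r⁻¹ - 1 ≠ 0 := sub_ne_zero.2 (inv_ne_one.2 hm1)
      have a2 : r - 1 ≠ 0 := sub_ne_zero.2 hm1
      have b1 := key (w.1 / (r⁻¹ - 1)) (w.2 / (r - 1))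
      have b2 := key (r * (w.1 / (r⁻¹ - 1))) (r * (w.2 / (r - 1)))
      rw [mul_left_comm, mul_left_comm (r - 1), mul_left_comm r⁻¹] at b2
      rw [mul_div_cancel₀ _ a1, mul_div_cancel₀ _ a2] at b1 b2
      exact hne (b2.trans ((bf_smul_right hr _ (_, _)).trans (by rw [← b1])))
  have hc := B1.piso_cj F (Q K)
  exact ((hc v⁻¹).trans ((hc l).trans (hf.trans (hc v⁻¹)))).congr fun x hx => by
    simp only [Perm.mul_apply, cj_apply]
    rw [← el _ (hN x hx v⁻¹), perm_apply_inv, hν]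
    group

end Cfsg.Lib.U4F
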