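import Cfsg.Agent.U4F.F4d
import Cfsg.Agent.U4F.Cmp
import Cfsg.Agent.U4F.W1

/-! The case `q = 2`: comparison of systems with an essential subgroup `R a`. -/

set_option autoImplicit false
set_option linter.unusedSectionVars false

namespace Cfsg.Lib.U4F

open Cfsg Cfsg.FusionSystem Subgroup Equiv Cfsg.Lib.Fus U
open Cfsg.Lib.U5F (UF qq SC sc_refl)
open Cfsg.Lib.Perm (F4)

variable {a c : F4} {F F' : FusionSystem (⊤ : Subgroup (U F4))} {f : Perm (U F4)}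

namespace F4e

theorem real : ∀ m : F4, star m = m → m = 0 ∨ m = 1 := by decide

theorem skew : ∀ m : F4, star m = -m → m = 0 ∨ m = 1 := by decide

theorem q3 : qq F4 ≠ 3 := by rw [qq_F4]; decide

theorem std (hF : F.IsSaturated 2) (h : Typ (X2 F) a c) : Std F := fun f hf => by
  obtain ⟨k, hk⟩ := aut_inn hF h hf
  exact ⟨k, 1, 1, RingEquiv.refl F4, sc_refl, one_ne_zero, one_ne_zero, fun g => by
    rw [hk, show gam 1 1 (RingEquiv.refl F4) sc_refl g = g from dia_one g]⟩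

theorem top (hF : F.IsSaturated 2) (h : Typ (X2 F) a c) (f : Perm (U F4)) (hf : PIso F f ⊤ ⊤) :
    Mor F' ⊤ f := by
  obtain ⟨k, hk⟩ := aut_inn hF h hf
  exact (Mor.conj F' le_top (mem_top k)).congr fun x _ => (hk x).symm

theorem add2 : ∀ a x y : F4, x = 0 ∨ x = a → y = 0 ∨ y = a → x + y = 0 ∨ x + y = a := by decide

/-- The elementary abelian subgroup of order eight. -/
def N (a : F4) : Subgroup (U F4) :=
  sub F4 (fun g => g.x2 = 0 ∧ (g.t = 0 ∨ g.t = a) ∧ (g.s = 0 ∨ g.s = a)) ⟨rfl, .inl rfl, .inl rfl⟩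
    (fun g h x y => ⟨by simp [x.1, y.1], add2 _ _ _ x.2.1 y.2.1, by
      rw [mul_s, y.1, mul_zero, add_zero]; exact add2 _ _ _ x.2.2 y.2.2⟩)
    fun g x => ⟨by simp [x.1], by rw [inv_t, CharTwo.neg_eq]; exact x.2.1, by
      rw [inv_s, x.1, mul_zero, add_zero, CharTwo.neg_eq]; exact x.2.2⟩

theorem N_eq_1' : type_of% @N.eq_1 := @N.eq_1

theorem mem_N {g : U F4} :
    g ∈ N a ↔ g.x2 = 0 ∧ (g.t = 0 ∨ g.t = a) ∧ (g.s = 0 ∨ g.s = a) := Iff.rfl

theorem nrm (a t s d : F4) (hd : star d = -d) (h1 : t = 0 ∨ t = a) (h2 : s = 0 ∨ s = a) :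
    s - d * t = 0 ∨ s - d * t = a := by
  rcases skew d hd with rfl | rfl
  · rwa [zero_mul, sub_zero]
  · rw [one_mul, CharTwo.sub_eq_add]; exact add2 _ _ _ h2 h1

theorem lo {g : U F4} {d : F4} {hd : star d = -d} (h : lo1 d hd g ∈ N a) : g ∈ N a := by
  have := nrm a _ _ d hd h.2.2 h.2.1
  rw [lo1_t, lo1_s, sub_sub, CharTwo.add_self_eq_zero, sub_zero] at this
  exact ⟨h.1, this, h.2.2⟩

instance : (N a).Normal := ⟨fun x hx g => by
  have e := pi1_conj g (mem_Q.2 hx.1)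
  rw [u1_apply, pi1, pi1, Prod.mk.injEq] at e
  exact ⟨(inferInstance : (Q F4).Normal).conj_mem x hx.1 g, e.1 ▸ hx.2.1,
    e.2 ▸ nrm _ _ _ _ g.h2 hx.2.1 hx.2.2⟩⟩

theorem N_le_R : N a ≤ R a := fun _ hx => hx.2.1.elim (fun e => ⟨0, star_zero _, by rw [e, zero_mul]⟩)
  fun e => ⟨1, star_one _, by rw [e, one_mul]⟩

theorem sq1 : ∀ a t s : F4, t = 0 ∨ t = a → s = 0 ∨ s = a → s * star t - t * star s = 0 := by decide

theorem sq {g : U F4} (h : g ∈ N a) : g * g = 1 := by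
  have := sq1 _ _ _ h.2.1 h.2.2
  ext <;> simp only [mul_t, mul_x1, mul_s, mul_x2, one_t, one_x1, one_s, one_x2, h.1, mul_zero,
    add_zero, CharTwo.add_self_eq_zero, zero_add, this]

theorem inv1 : ∀ a s : F4, a ≠ 0 → s * star a - a * star s = 0 → s = 0 ∨ s = a := by decide

theorem of_sq {g : U F4} (h0 : a ≠ 0) (h1 : g ∈ R a) (h2 : g ∉ V F4) (h3 : g * g = 1) : g ∈ N a := by
  obtain ⟨m, hm, e⟩ := h1
  have ht : g.t = a := (real m hm).elim (fun k => absurd (by rw [mem_V, e, k, zero_mul]) h2)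
    fun k => by rw [e, k, one_mul]
  have e1 := congrArg U.s h3
  have e2 := congrArg U.x1 h3
  rw [mul_s, one_s, CharTwo.add_self_eq_zero, zero_add, ht, mul_eq_zero, or_iff_right h0] at e1
  rw [mul_x1, one_x1, CharTwo.add_self_eq_zero, zero_add, e1, mul_zero, add_zero, ht] at e2
  exact ⟨e1, .inr ht, inv1 _ _ h0 e2⟩

theorem cen1 : ∀ a t : F4, a ≠ 0 → a * star t = t * star a → t = 0 ∨ t = a := by decide

theorem cen (h0 : a ≠ 0) (x : U F4) (h : ∀ g ∈ N a, g * x = x * g) : x ∈ N a := by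
  have h1 := h ⟨a, 0, 0, 0, by simp, by simp⟩ ⟨rfl, .inr rfl, .inl rfl⟩
  have h2 := h ⟨0, 0, a, 0, by simp, by simp⟩ ⟨rfl, .inl rfl, .inr rfl⟩
  have e1 := congrArg U.s h1
  have e2 := congrArg U.x1 h1
  have e3 := ((comm_V_iff (mem_V.2 rfl)).1 h2.symm).2
  simp only [mul_s, mul_x1, zero_add, mul_zero, add_zero, add_eq_left, mul_eq_zero, h0, false_or,
    star_zero, zero_mul, sub_zero] at e1 e2
  refine ⟨e1, cen1 _ _ h0 e3, inv1 _ _ h0 ?_⟩
  rw [e1] at e2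
  linear_combination e2

theorem maps (h0 : a ≠ 0) (hf : PIso F f (R a) (R a)) (x : U F4) (hx : x ∈ N a) : f x ∈ N a := by
  have k : ∀ y ∈ N a, y ∉ V F4 → f y ∈ N a := fun y hy hv =>
    of_sq h0 (hf.maps (N_le_R hy)) (fun e => hv (((maps_R h0 hf).1 y).1 e)) (by
      rw [← hf.mor.mulOn y (N_le_R hy) y (N_le_R hy), sq hy, hf.mor.mulOn.map_one])
  by_cases hv : x ∈ V F4
  · let n : U F4 := ⟨a, 0, 0, 0, by simp, by simp⟩
    have hn : n ∈ N a := ⟨rfl, .inr rfl, .inl rfl⟩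
    have hn' : n ∉ V F4 := h0
    have h1 := mul_mem hn hx
    have h2 := k _ h1 fun e => hn' ((mul_mem_cancel_right hv).1 e)
    rw [hf.mor.mulOn n (N_le_R hn) x (N_le_R hx)] at h2
    exact (mul_mem_cancel_left (k n hn hn')).1 h2
  · exact k x hx hv

end F4e

open F4e

theorem low1_four (hF : F.IsSaturated 2) (h : Typ (X2 F) a c) (hE : F.IsEssential 2 (Q F4)) :
    Low1 F :=
  low1 hE (tor1 hF (std hF h) q3 hE) (l1_mem hF (std hF h) q3 hE)

theorem sub4 (hF : F.IsSaturated 2) (hF' : F'.IsSaturated 2) (h : Typ (X2 F) a c) (hl : Low1 F')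
    (ht : ∀ a c, Typ (X2 F) a c → Typ (X2 F') a c) : F.IsSubsystemOf F' :=
  sub_of_alperin_essential (isP_top 2) hF fun P hP _ f hf => by
    rcases hP with rfl | hE
    · exact top hF h f hf
    rcases ess_eq hF hE with rfl | rfl | ⟨-, b, hb, rfl⟩
    · exact subQ hF (std hF h) q3 hE (low1_four hF h hE) hl (top hF h) hf
    · exact absurd hE (not_ess_V hF h)
    · obtain ⟨e, he⟩ := typ_of_ess hF hb hE
      obtain ⟨h1, φ, hφ, h2, h3⟩ := maps_R hb hf
      obtain ⟨k, hk, h4⟩ := cent_typ (fun _ => add_X2) (syl_X2 hF) he hφ h3 (syl_X2 hF').le (ht _ _ he)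
      exact mor_R hF' hb hf (hk.mor.congr fun x hx =>
        pi2_inj (hk.maps hx) ((h1 x).2 hx) ((h4 x hx).trans (h2 x hx).symm))

theorem constrained_four (hF : F.IsSaturated 2) (h : Typ (X2 F) a c)
    (h1 : ∀ a' c', Typ (X2 F) a' c' → a' = a) : F.IsConstrained 2 := by
  refine Ess.constr hF (N := N a) (fun P hP => ?_) (cen h.1)
  have tp : ∀ f, PIso F f ⊤ ⊤ → ∀ x ∈ N a, f x ∈ N a := fun f hf x hx => by
    obtain ⟨k, hk⟩ := aut_inn hF h hf
    rw [hk]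
    exact (inferInstance : (N a).Normal).conj_mem x hx k
  rcases hP with rfl | hE
  · exact ⟨le_top, tp⟩
  rcases ess_eq hF hE with rfl | rfl | ⟨-, b, hb, rfl⟩
  · refine ⟨fun x hx => hx.1, fun f hf x hx => ?_⟩
    obtain ⟨φ, hφ, e⟩ := exists_X1 hf
    obtain ⟨c, d, hc, hd, h2⟩ := (lin1 (hy1 hF) (bo1 hF (std hF h)) q3 (mv1 hF hE)).2 φ hφ
    have hf' := (hf.trans (B1.piso_cj F (Q F4) ⟨0, 0, 0, c, by simp, hc⟩)).trans (low1_four hF h hE d hd)
    obtain ⟨k, hk, e'⟩ := ext1 hF hf' (fun g hg => by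
      rw [Perm.mul_apply, Perm.mul_apply, Perm.mul_apply, Perm.mul_apply, pi1_lo1, cj_apply,
        pi1_conj _ (hf.maps hg), e g hg]) h2
    have := tp k hk x hx
    rw [← e' x hx.1, Perm.mul_apply, Perm.mul_apply, cj_apply] at this
    simpa only [mul_assoc, inv_mul_cancel, mul_one, inv_mul_cancel_left] using
      (inferInstance : (N a).Normal).conj_mem' _ (lo this) ⟨0, 0, 0, c, by simp, hc⟩
  · exact absurd hE (not_ess_V hF h)
  · obtain ⟨e, he⟩ := typ_of_ess hF hb hE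
    obtain rfl := h1 _ _ he
    exact ⟨N_le_R, fun f hf => maps hb hf⟩

end Cfsg.Lib.U4F
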