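import Cfsg.Agent.U4F.Defs
import Cfsg.Agent.U5F.Gam

/-! Elementary facts on the automorphisms of `U K` and the matrix model. -/

set_option autoImplicit false
set_option linter.unusedSectionVars false

namespace Cfsg.Lib.U4F

open Subgroup Equiv U Matrix
open Cfsg.Lib.U5F (UF qq SC sc_refl)

variable {K : Type*} [Field K] [StarRing K]

section
variable {a b a' b' : K} {σ σ' : K ≃+* K}

section
variable (hσ : SC σ) (g h : U K)
@[simp] theorem gam_t : (gam a b σ hσ g).t = a / b * σ g.t := rfl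
@[simp] theorem gam_x1 : (gam a b σ hσ g).x1 = a * star a * σ g.x1 := rfl
@[simp] theorem gam_s : (gam a b σ hσ g).s = a * star b * σ g.s := rfl
@[simp] theorem gam_x2 : (gam a b σ hσ g).x2 = b * star b * σ g.x2 := rfl

theorem gam_mul (hb : b ≠ 0) : gam a b σ hσ (g * h) = gam a b σ hσ g * gam a b σ hσ h := by
  have hb' : star b ≠ 0 := star_ne_zero.2 hb
  ext <;> simp only [gam_t, gam_x1, gam_s, gam_x2, mul_t, mul_x1, mul_s, mul_x2, map_add, map_sub,
    map_mul, hσ _, star_mul', star_div₀, star_star] <;> field_simp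

theorem dia_one : dia 1 1 g = g := by ext <;> simp

theorem pi1_gam : pi1 (gam a b σ hσ g) = gy a b σ (pi1 g) := rfl
theorem pi2_gam : pi2 (gam a b σ hσ g) = gh a b σ hσ (pi2 g) := rfl
end

section
variable (hσ : SC σ) (v : H K)
@[simp] theorem gh_x1 : (gh a b σ hσ v).x1 = a * star a * σ v.x1 := rfl
@[simp] theorem gh_s : (gh a b σ hσ v).s = a * star b * σ v.s := rfl
@[simp] theorem gh_x2 : (gh a b σ hσ v).x2 = b * star b * σ v.x2 := rfl
end

theorem gam_gam (hσ : SC σ) (hσ' : SC σ') (g : U K) :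
    gam a b σ hσ (gam a' b' σ' hσ' g) = gam (a * σ a') (b * σ b') (σ'.trans σ) (hσ'.trans hσ) g := by
  ext <;> simp only [gam_t, gam_x1, gam_s, gam_x2, map_mul, map_div₀, hσ _, star_mul',
    RingEquiv.trans_apply] <;> ring

theorem dia_dia (g : U K) : dia a b (dia a' b' g) = dia (a * a') (b * b') g := gam_gam _ _ g

theorem gam_congr {hσ : SC σ} (h : ∀ x, σ x = x) (g : U K) : gam a b σ hσ g = dia a b g := by
  ext <;> simp [h]

/-- `gam` as an automorphism. -/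
def gamA (a b : K) (σ : K ≃+* K) (hσ : SC σ) (ha : a ≠ 0) (hb : b ≠ 0) : MulAut (U K) where
  toFun := gam a b σ hσ
  invFun := gam (σ.symm a⁻¹) (σ.symm b⁻¹) σ.symm hσ.symm
  left_inv g := by
    rw [gam_gam, ← map_mul, ← map_mul, inv_mul_cancel₀ ha, inv_mul_cancel₀ hb, map_one]
    exact (gam_congr (fun x => by simp) g).trans (dia_one g)
  right_inv g := by
    rw [gam_gam, σ.apply_symm_apply, σ.apply_symm_apply, mul_inv_cancel₀ ha, mul_inv_cancel₀ hb]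
    exact (gam_congr (fun x => by simp) g).trans (dia_one g)
  map_mul' g h := gam_mul hσ g h hb

theorem gamA_apply (hσ : SC σ) (ha : a ≠ 0) (hb : b ≠ 0) (g : U K) :
    gamA a b σ hσ ha hb g = gam a b σ hσ g := rfl

end

section
variable {d : K} (hd : star d = -d) (r : K) (g : U K) {ψ : K →+ K} (hψ : SkP ψ) (v : H K)
@[simp] theorem lo1_t : (lo1 d hd g).t = g.t - d * g.s := rfl
@[simp] theorem lo1_x1 : (lo1 d hd g).x1 = g.x1 + g.s * star g.s * d := rfl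
@[simp] theorem lo1_s : (lo1 d hd g).s = g.s := rfl
@[simp] theorem lo1_x2 : (lo1 d hd g).x2 = g.x2 := rfl
@[simp] theorem lo2_t : (lo2 r g).t = g.t := rfl
@[simp] theorem lo2_x1 : (lo2 r g).x1 = g.x1 := rfl
@[simp] theorem lo2_s : (lo2 r g).s = g.s + r * g.x1 := rfl
@[simp] theorem lo2_x2 :
  (lo2 r g).x2 = g.x2 + g.s * star r - r * star g.s + r * star r * g.x1 := rfl
@[simp] theorem zet_t : (zet ψ hψ g).t = g.t := rfl
@[simp] theorem zet_x1 : (zet ψ hψ g).x1 = g.x1 + ψ g.x2 := rfl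
@[simp] theorem zet_s : (zet ψ hψ g).s = g.s := rfl
@[simp] theorem zet_x2 : (zet ψ hψ g).x2 = g.x2 := rfl
@[simp] theorem z2_x1 : (z2 ψ hψ v).x1 = v.x1 + ψ v.x2 := rfl
@[simp] theorem z2_s : (z2 ψ hψ v).s = v.s := rfl
@[simp] theorem z2_x2 : (z2 ψ hψ v).x2 = v.x2 := rfl
@[simp] theorem z2_inv_x1 : ((z2 ψ hψ)⁻¹ v).x1 = v.x1 - ψ v.x2 := rfl
@[simp] theorem z2_inv_s : ((z2 ψ hψ)⁻¹ v).s = v.s := rfl
@[simp] theorem z2_inv_x2 : ((z2 ψ hψ)⁻¹ v).x2 = v.x2 := rfl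
@[simp] theorem pi2_x1 : (pi2 g).x1 = g.x1 := rfl
@[simp] theorem pi2_s : (pi2 g).s = g.s := rfl
@[simp] theorem pi2_x2 : (pi2 g).x2 = g.x2 := rfl

theorem lo1_mem : lo1 d hd g ∈ Q K ↔ g ∈ Q K := Iff.rfl
theorem lo2_mem : lo2 r g ∈ V K ↔ g ∈ V K := Iff.rfl
theorem pi1_lo1 : pi1 (lo1 d hd g) = l1 d (pi1 g) := rfl
theorem pi2_lo2 : pi2 (lo2 r g) = l2 r (pi2 g) := rfl
theorem pi2_zet : pi2 (zet ψ hψ g) = z2 ψ hψ (pi2 g) := rfl
end

theorem lo1_mul {d : K} (hd : star d = -d) {g h : U K} (hg : g ∈ Q K) (hh : h ∈ Q K) :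
    lo1 d hd (g * h) = lo1 d hd g * lo1 d hd h := by
  ext <;> simp only [lo1_t, lo1_x1, lo1_s, lo1_x2, mul_t, mul_x1, mul_s, mul_x2, mem_Q.1 hg,
    mem_Q.1 hh, star_add, star_sub, star_mul', hd, mul_zero, add_zero] <;> ring

theorem lo2_mul (r : K) {g h : U K} (hg : g ∈ V K) (hh : h ∈ V K) :
    lo2 r (g * h) = lo2 r g * lo2 r h := by
  ext <;> simp only [lo2_t, lo2_x1, lo2_s, lo2_x2, mul_t, mul_x1, mul_s, mul_x2, mem_V.1 hg,
    mem_V.1 hh, star_add, star_zero, mul_zero, zero_mul, add_zero, sub_zero] <;> ring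

theorem pi1_mul {g h : U K} (hh : h ∈ Q K) : pi1 (g * h) = pi1 g + pi1 h := by
  simp [pi1, mem_Q.1 hh]

theorem pi2_mul {g h : U K} (hg : g ∈ V K) : pi2 (g * h) = pi2 g + pi2 h := by
  ext <;> simp [mem_V.1 hg]

theorem pi1_conj (k : U K) {g : U K} (hg : g ∈ Q K) : pi1 (k * g * k⁻¹) = u1 k.x2 (pi1 g) := by
  simp only [pi1, u1_apply, mul_t, mul_s, mul_x2, inv_t, inv_s, inv_x2, mem_Q.1 hg, Prod.mk.injEq]
  constructor <;> ring

theorem pi2_conj (k : U K) {g : U K} (hg : g ∈ V K) : pi2 (k * g * k⁻¹) = u2 k.t (pi2 g) := by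
  ext <;> simp only [pi2_x1, pi2_s, pi2_x2, u2_x1, u2_s, u2_x2, mul_t, mul_x1, mul_s, mul_x2, inv_t,
    inv_x1, inv_s, inv_x2, mem_V.1 hg, star_add, star_neg, star_mul', k.h2, add_zero] <;> ring

theorem pi2_inj {g h : U K} (hg : g ∈ V K) (hh : h ∈ V K) (e : pi2 g = pi2 h) : g = h :=
  U.ext ((mem_V.1 hg).trans (mem_V.1 hh).symm) (congrArg H.x1 e) (congrArg H.s e) (congrArg H.x2 e)

theorem exists_V (v : H K) : ∃ g ∈ V K, pi2 g = v := ⟨⟨0, v.x1, v.s, v.x2, v.h1, v.h2⟩, rfl, rfl⟩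

theorem exists_Q (v : K × K) : ∃ g ∈ Q K, pi1 g = v := ⟨⟨v.1, 0, v.2, 0, by simp, by simp⟩, rfl, rfl⟩

theorem cm_Q {g h : U K} (hg : g ∈ Q K) (hh : h ∈ Q K) :
    (h * g)⁻¹ * (g * h) ∈ Z K ∧ ((h * g)⁻¹ * (g * h)).x1 = bf (pi1 g) (pi1 h) := by
  refine ⟨⟨?_, ?_, ?_⟩, ?_⟩ <;>
    simp only [bf, pi1, mul_t, mul_x1, mul_s, mul_x2, inv_t, inv_x1, inv_s, inv_x2, mem_Q.1 hg,
      mem_Q.1 hh, star_add, star_neg, mul_zero, add_zero, neg_zero] <;> ring

theorem qd_u2 (t : K) (v : H K) : qd (u2 t v) = qd v := by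
  simp only [qd, u2_x1, u2_s, u2_x2, star_add, star_mul', v.h2]; ring

theorem qd_l2 (r : K) (v : H K) : qd (l2 r v) = qd v := by
  simp only [qd, l2_x1, l2_s, l2_x2, star_add, star_mul', v.h1]; ring

/-! ### Matrices -/

theorem mul_four {R : Type*} [CommRing R]
    (a00 a01 a02 a03 a10 a11 a12 a13 a20 a21 a22 a23 a30 a31 a32 a33
      b00 b01 b02 b03 b10 b11 b12 b13 b20 b21 b22 b23 b30 b31 b32 b33 : R) :
    !![a00, a01, a02, a03; a10, a11, a12, a13; a20, a21, a22, a23; a30, a31, a32, a33] *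
    !![b00, b01, b02, b03; b10, b11, b12, b13; b20, b21, b22, b23; b30, b31, b32, b33] =
    !![a00 * b00 + a01 * b10 + a02 * b20 + a03 * b30, a00 * b01 + a01 * b11 + a02 * b21 + a03 * b31,
        a00 * b02 + a01 * b12 + a02 * b22 + a03 * b32, a00 * b03 + a01 * b13 + a02 * b23 + a03 * b33;
      a10 * b00 + a11 * b10 + a12 * b20 + a13 * b30, a10 * b01 + a11 * b11 + a12 * b21 + a13 * b31,
        a10 * b02 + a11 * b12 + a12 * b22 + a13 * b32, a10 * b03 + a11 * b13 + a12 * b23 + a13 * b33;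
      a20 * b00 + a21 * b10 + a22 * b20 + a23 * b30, a20 * b01 + a21 * b11 + a22 * b21 + a23 * b31,
        a20 * b02 + a21 * b12 + a22 * b22 + a23 * b32, a20 * b03 + a21 * b13 + a22 * b23 + a23 * b33;
      a30 * b00 + a31 * b10 + a32 * b20 + a33 * b30, a30 * b01 + a31 * b11 + a32 * b21 + a33 * b31,
        a30 * b02 + a31 * b12 + a32 * b22 + a33 * b32,
        a30 * b03 + a31 * b13 + a32 * b23 + a33 * b33] := by
  ext i j
  rw [Matrix.mul_apply, Fin.sum_univ_four]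
  fin_cases i <;> fin_cases j <;> rfl

theorem ct_four {R : Type*} [Star R]
    (a00 a01 a02 a03 a10 a11 a12 a13 a20 a21 a22 a23 a30 a31 a32 a33 : R) :
    !![a00, a01, a02, a03; a10, a11, a12, a13; a20, a21, a22, a23; a30, a31, a32, a33]ᴴ =
    !![star a00, star a10, star a20, star a30; star a01, star a11, star a21, star a31;
      star a02, star a12, star a22, star a32; star a03, star a13, star a23, star a33] := by
  ext i j
  fin_cases i <;> fin_cases j <;> rfl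

theorem ext_four {R : Type*}
    {a00 a01 a02 a03 a10 a11 a12 a13 a20 a21 a22 a23 a30 a31 a32 a33
      b00 b01 b02 b03 b10 b11 b12 b13 b20 b21 b22 b23 b30 b31 b32 b33 : R}
    (h : a00 = b00 ∧ a01 = b01 ∧ a02 = b02 ∧ a03 = b03 ∧ a10 = b10 ∧ a11 = b11 ∧ a12 = b12 ∧
      a13 = b13 ∧ a20 = b20 ∧ a21 = b21 ∧ a22 = b22 ∧ a23 = b23 ∧ a30 = b30 ∧ a31 = b31 ∧
      a32 = b32 ∧ a33 = b33) :
    !![a00, a01, a02, a03; a10, a11, a12, a13; a20, a21, a22, a23; a30, a31, a32, a33] =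
    !![b00, b01, b02, b03; b10, b11, b12, b13; b20, b21, b22, b23; b30, b31, b32, b33] := by
  obtain ⟨rfl, rfl, rfl, rfl, rfl, rfl, rfl, rfl, rfl, rfl, rfl, rfl, rfl, rfl, rfl, rfl⟩ := h
  rfl

variable (K) in
/-- The antidiagonal Gram matrix. -/
def J4 : Matrix (Fin 4) (Fin 4) K := !![0, 0, 0, 1; 0, 0, 1, 0; 0, 1, 0, 0; 1, 0, 0, 0]

variable (K) in
/-- The special unitary group of the antidiagonal form. -/
def SJ : Subgroup (SpecialLinearGroup (Fin 4) K) where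
  carrier := {g | g.1ᴴ * J4 K * g.1 = J4 K}
  one_mem' := by simp
  mul_mem' := fun {g h} hg hh => by
    have hg : g.1ᴴ * J4 K * g.1 = J4 K := hg
    have hh : h.1ᴴ * J4 K * h.1 = J4 K := hh
    change (g.1 * h.1)ᴴ * J4 K * (g.1 * h.1) = J4 K
    calc _ = h.1ᴴ * (g.1ᴴ * J4 K * g.1) * h.1 := by simp only [conjTranspose_mul, Matrix.mul_assoc]
      _ = _ := by rw [hg, hh]
  inv_mem' := fun {g} hg => by
    have hg : g.1ᴴ * J4 K * g.1 = J4 K := hg
    have e : g.1 * (g⁻¹).1 = 1 := congrArg Subtype.val (mul_inv_cancel g)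
    change (g⁻¹).1ᴴ * J4 K * (g⁻¹).1 = J4 K
    calc _ = (g⁻¹).1ᴴ * (g.1ᴴ * J4 K * g.1) * (g⁻¹).1 := by rw [hg]
      _ = (g.1 * (g⁻¹).1)ᴴ * J4 K * (g.1 * (g⁻¹).1) := by
        simp only [conjTranspose_mul, Matrix.mul_assoc]
      _ = _ := by rw [e]; simp

theorem mem_SJ {g : SpecialLinearGroup (Fin 4) K} : g ∈ SJ K ↔ g.1ᴴ * J4 K * g.1 = J4 K := Iff.rfl

/-- The matrix of an element of `U K`. -/
def mat (g : U K) : Matrix (Fin 4) (Fin 4) K :=
  !![1, g.t, g.s, g.x1 - g.s * star g.t;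
    0, 1, g.x2, -star g.s - g.x2 * star g.t;
    0, 0, 1, -star g.t;
    0, 0, 0, 1]

theorem det_mat (g : U K) : (mat g).det = 1 := by
  rw [det_of_isUpperTriangular]
  · rw [Fin.prod_univ_four]
    exact (by simp : (1 : K) * 1 * 1 * 1 = 1)
  · intro i j h
    fin_cases i <;> fin_cases j <;> first | rfl | exact absurd h (by decide)

theorem mat_mul (g h : U K) : mat (g * h) = mat g * mat h := by
  rw [mat, mat, mat, mul_four]
  refine ext_four ?_
  simp only [mul_t, mul_x1, mul_s, mul_x2, star_add, star_mul', h.h2]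
  refine ⟨?_, ?_, ?_, ?_, ?_, ?_, ?_, ?_, ?_, ?_, ?_, ?_, ?_, ?_, ?_, ?_⟩ <;> ring

theorem mat_unitary (g : U K) : (mat g)ᴴ * J4 K * mat g = J4 K := by
  rw [mat, J4, ct_four, mul_four, mul_four]
  refine ext_four ?_
  simp only [star_sub, star_neg, star_mul', star_star, star_zero, star_one, g.h1, g.h2]
  refine ⟨?_, ?_, ?_, ?_, ?_, ?_, ?_, ?_, ?_, ?_, ?_, ?_, ?_, ?_, ?_, ?_⟩ <;> ring

/-- The embedding of `U K` into the special unitary group. -/
def emb : U K →* SJ K := MonoidHom.mk' (fun g => ⟨⟨mat g, det_mat g⟩, mat_unitary g⟩)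
  fun g h => Subtype.ext (Subtype.ext (mat_mul g h))

theorem coe_emb (g : U K) : (emb g).1.1 = mat g := rfl

theorem emb_injective : Function.Injective (emb : U K →* SJ K) := fun g h e => by
  have e : ∀ i j, mat g i j = mat h i j := fun i j => by rw [← coe_emb, e, coe_emb]
  have h1 : g.t = h.t := e 0 1
  have h2 : g.s = h.s := e 0 2
  have h3 : g.x1 - g.s * star g.t = h.x1 - h.s * star h.t := e 0 3
  exact U.ext h1 (by rw [h1, h2] at h3; linear_combination h3) h2 (e 1 2)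

end Cfsg.Lib.U4F
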