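import Cfsg.Agent.U4F.Bas

/-! Groups of additive permutations of `K²` with Sylow subgroup `A1 K`: basic facts. -/

set_option autoImplicit false
set_option linter.unusedSectionVars false

namespace Cfsg.Lib.U4F

open Cfsg Cfsg.FusionSystem Subgroup Equiv Cfsg.Lib.Fus
open Cfsg.Lib.U5F (UF qq SC sc_refl Tr Iv LTr Sec Loc SEm MinL)

universe u v

variable {K : Type u} [Field K] [StarRing K] [Finite K] [UF K] {p : ℕ} [Fact p.Prime] [CharP K p]
variable {X : Subgroup (Perm (K × K))} {g : Perm (K × K)} {ν : K × K → K × K}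

theorem Hy1.u (h : Hy1 p X) {c : K} (hc : star c = -c) : u1 c ∈ X := h.syl.le ⟨c, hc, rfl⟩

namespace L1a

theorem zero (h : Hy1 p X) (hg : g ∈ X) : g 0 = 0 := by simpa using h.add g hg 0 0

theorem msub (h : Hy1 p X) (hg : g ∈ X) (v w : K × K) : g (v - w) = g v - g w := by
  rw [eq_sub_iff_add_eq, ← h.add g hg, sub_add_cancel]

theorem perp (h : Hy1 p X) (hg : g ∈ X) {v w : K × K} (e : bf v w = 0) : bf (g v) (g w) = 0 := by
  obtain ⟨γ, hγ⟩ := h.sim g hg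
  have e0 : bf (0 : K × K) 0 = 0 := by simp [bf]
  rw [hγ, e, ← e0, ← hγ, zero h hg]

theorem perp_iff (h : Hy1 p X) (hg : g ∈ X) {v w : K × K} : bf (g v) (g w) = 0 ↔ bf v w = 0 :=
  ⟨fun e => by simpa using perp h (X.inv_mem hg) e, perp h hg⟩

theorem line (h : Hy1 p X) (hg : g ∈ X) {v : K × K} (hv : v ≠ 0) {c : K} (hc : star c = c) :
    ∃ c' : K, star c' = c' ∧ g (c • v) = c' • g v := by
  refine bf_perp (fun e => hv (g.injective (e.trans (zero h hg).symm))) fun y hy => ?_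
  obtain ⟨y, rfl⟩ := g.surjective y
  rw [perp_iff h hg] at hy ⊢
  rw [bf_smul_left hc, hy, mul_zero]

end L1a

open L1a

theorem semi1 (h : Hy1 p X) (hg : g ∈ X) : ∃ ρ : K → K,
    (∀ c, star c = c → star (ρ c) = ρ c ∧ ∀ v, g (c • v) = ρ c • g v) ∧
      ∀ c', star c' = c' → ∃ c, star c = c ∧ ρ c = c' := by
  obtain ⟨γ, hγ⟩ := h.sim g hg
  obtain ⟨d, hd, hs⟩ := U5F.exists_skew (K := K)
  have h1 : ((1, 0) : K × K) ≠ 0 := by simp
  have key : ∀ {v : K × K} {c c' : K}, v ≠ 0 → star c = c → star c' = c' → g (c • v) = c' • g v →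
      γ d ≠ 0 ∧ γ (c * d) = c' * γ d := fun {v c c'} hv hc hc' e => by
    obtain ⟨w, hw⟩ := bf_surj hv hs
    refine ⟨fun e0 => hd ?_, ?_⟩
    · rw [← hw, ← hγ, perp_iff h hg] at e0
      exact hw.symm.trans e0
    · rw [← hw, ← bf_smul_left hc, ← hγ, ← hγ, e, bf_smul_left hc']
  have ex : ∀ c : K, ∃ c' : K, star c = c → star c' = c' ∧ ∀ v, g (c • v) = c' • g v := fun c => by
    by_cases hc : star c = c
    · obtain ⟨c', hc', e⟩ := line h hg h1 hc
      refine ⟨c', fun _ => ⟨hc', fun v => ?_⟩⟩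
      by_cases hv : v = 0
      · rw [hv, smul_zero, zero h hg, smul_zero]
      obtain ⟨c1, hc1, e1⟩ := line h hg hv hc
      obtain ⟨a1, a2⟩ := key h1 hc hc' e
      rw [e1, mul_right_cancel₀ a1 (a2.symm.trans (key hv hc hc1 e1).2)]
    · exact ⟨0, fun e => absurd e hc⟩
  choose ρ hρ using ex
  refine ⟨ρ, hρ, fun c' hc' => ?_⟩
  let f : {x : K // star x = x} → {x : K // star x = x} := fun x => ⟨ρ x, (hρ x x.2).1⟩
  have hf : Function.Injective f := fun x y e => by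
    have e : ρ x = ρ y := congrArg Subtype.val e
    have e1 := g.injective (((hρ x x.2).2 (1, 0)).trans (e ▸ ((hρ y y.2).2 (1, 0)).symm))
    exact Subtype.ext (by simpa using e1)
  obtain ⟨x, hx⟩ := Finite.surjective_of_injective hf ⟨c', hc'⟩
  exact ⟨x, x.2, congrArg Subtype.val hx⟩

theorem exists_opp (h : Hy1 p X) (hg : g ∈ X) : ∃ ν, Opp X g ν := by
  obtain ⟨d, hd, hs⟩ := U5F.exists_skew (K := K)
  obtain ⟨ρ, hρ, hρ'⟩ := semi1 h hg
  obtain ⟨γ, hγ⟩ := h.sim g hg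
  have hk : ∀ v, g (0, d * (g⁻¹ v).1) = 0 ↔ (g⁻¹ v).1 = 0 := fun v => by
    rw [← zero h hg, g.injective.eq_iff]
    simp [hd]
  have hb : ∀ v : K × K, bf v (0, d * v.1) = 2 * (d * (v.1 * star v.1)) := fun v => by
    simp only [bf, star_mul', hs, star_zero]; ring
  refine ⟨fun v => g (0, d * (g⁻¹ v).1), fun v w => ?_, fun c' hc' v => ?_, fun c' hc' => ?_, hk,
    fun v => by rw [perm_inv_apply], fun v w => ?_, fun v w hv hw => ?_, fun h2 v hv => ?_,
    fun h2 v => ?_⟩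
  · rw [h.add _ (X.inv_mem hg), ← h.add g hg]
    simp [mul_add]
  · obtain ⟨c, hc, rfl⟩ := hρ' c' hc'
    obtain ⟨v, rfl⟩ := g.surjective v
    rw [← (hρ c hc).2, ← (hρ c hc).2, perm_inv_apply, perm_inv_apply]
    congr 1
    ext <;> simp
    ring
  · obtain ⟨c, hc, rfl⟩ := hρ' c' hc'
    have hcd : star (c * d) = -(c * d) := by rw [star_mul', hc, hs]; ring
    refine ⟨g * u1 (c * d) * g⁻¹, X.mul_mem (X.mul_mem hg (h.u hcd)) (X.inv_mem hg), fun v => ?_,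
      c * d, hcd, by group⟩
    obtain ⟨v, rfl⟩ := g.surjective v
    rw [← (hρ c hc).2, ← msub h hg, Perm.mul_apply, Perm.mul_apply, perm_inv_apply, u1_apply]
    congr 1
    ext <;> simp
    ring
  · obtain ⟨v, rfl⟩ := g.surjective v
    obtain ⟨w, rfl⟩ := g.surjective w
    rw [perm_inv_apply, perm_inv_apply, ← bf_swap, hγ, hγ]
    congr 1
    simp only [bf, star_mul', hs, star_zero]; ring
  · obtain ⟨v, rfl⟩ := g.surjective v
    obtain ⟨w, rfl⟩ := g.surjective w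
    rw [hk, perm_inv_apply] at hv hw
    exact perp h hg (by simp [bf, hv, hw])
  · obtain ⟨v, rfl⟩ := g.surjective v
    rw [hk]
    rw [perm_inv_apply] at hv ⊢
    rw [perp_iff h hg, hb] at hv
    simpa [h2, hd] using hv
  · obtain ⟨v, rfl⟩ := g.surjective v
    rw [perm_inv_apply, perp_iff h hg, hb, h2, zero_mul]

theorem P1.mul {g k : Perm (K × K)} (hg : P1 g) (hk : P1 k) : P1 (g * k) := fun s => by
  have e : k (0, s) = (0, (k (0, s)).2) := Prod.ext (hk s) rfl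
  rw [Perm.mul_apply, e, hg]

theorem P1.inv (hg : P1 g) : P1 g⁻¹ := fun s =>
  Perm.perm_symm_on_of_perm_on_finite (f := g) (p := fun v : K × K => v.1 = 0)
    (fun v hv => by rw [show v = (0, v.2) from Prod.ext hv rfl]; exact hg _) rfl

theorem Bo1.norm (hb : Bo1 X) (hg : g ∈ X) (h1 : P1 g) {c : K} (hc : star c = -c) :
    g * u1 c * g⁻¹ ∈ A1 K := by
  obtain ⟨c0, a, b, σ, -, -, hb0, e⟩ := hb g hg h1
  refine ⟨b * star b * σ c, by
    rw [star_mul', star_mul', star_star, ← U5F.sc σ, hc, map_neg]; ring, ?_⟩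
  rw [mul_inv_eq_iff_eq_mul]
  refine Equiv.ext fun v => ?_
  simp only [Perm.mul_apply, e, u1_apply, gy, map_sub, map_mul, Prod.mk.injEq, true_and]
  field_simp
  ring

theorem Bo1.mem_A1 (hb : Bo1 X) (hg : g ∈ X) (h1 : ∀ s, g (0, s) = (0, s))
    (h2 : ∀ v, (g v).1 = v.1) : g ∈ A1 K := by
  obtain ⟨c, a, b, σ, hc, -, -, e⟩ := hb g hg fun s => by rw [h1]
  refine ⟨c, hc, Equiv.ext fun v => ?_⟩
  have e1 : a / b * σ v.1 = v.1 := by simpa [e, u1_apply, gy] using h2 v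
  have e2 : a * star b * σ v.2 = v.2 := by simpa [e, u1_apply, gy] using h1 v.2
  rw [e, gy, e1, e2]

theorem Hy1.mem_A1 (h : Hy1 p X) (hb : Bo1 X) (hg : g ∈ X) (h1 : P1 g) (hp : ∃ n, g ^ p ^ n = 1) :
    g ∈ A1 K := by
  obtain ⟨n, hp⟩ := hp
  refine h.syl.le_of_normalizes (U := zpowers g) (zpowers_le.2 hg) ?_ (zpowers_le.2 ?_)
    (mem_zpowers g)
  · rintro ⟨_, m, rfl⟩
    refine ⟨n, Subtype.ext ?_⟩
    change (g ^ m) ^ p ^ n = 1
    rw [← zpow_natCast, ← zpow_mul, mul_comm, zpow_mul, zpow_natCast, hp, one_zpow]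
  · refine mem_normalizer_iff.2 fun x => ⟨?_, ?_⟩
    · rintro ⟨c, hc, rfl⟩
      exact hb.norm hg h1 hc
    · rintro ⟨c, hc, e⟩
      have := hb.norm (X.inv_mem hg) h1.inv hc
      rw [← e] at this
      simpa [mul_assoc] using this

theorem tor_of_l1 (hu : A1 K ≤ X) (hl : ∀ d : K, star d = -d → l1 d ∈ X) {m : K} (hm : m ≠ 0)
    (hr : star m = m) : ∃ g ∈ X, ∀ v, g v = gy 1 m (RingEquiv.refl K) v := by
  obtain ⟨d, hd, hs⟩ := U5F.exists_skew (K := K)
  have hw : ∀ c : K, c ≠ 0 → star c = -c → ∃ w ∈ X, ∀ v : K × K, w v = (v.2 / c, -c * v.1) :=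
    fun c h0 hc => ⟨u1 c * l1 (-c⁻¹) * u1 c, X.mul_mem (X.mul_mem (hu ⟨c, hc, rfl⟩)
      (hl _ (by rw [star_neg, star_inv₀, hc, inv_neg]))) (hu ⟨c, hc, rfl⟩), fun v => by
        simp only [Perm.mul_apply, u1_apply, l1_apply, Prod.mk.injEq]
        constructor <;> field_simp <;> ring⟩
  obtain ⟨w1, h1, e1⟩ := hw (m * d) (mul_ne_zero hm hd) (by rw [star_mul', hr, hs]; ring)
  obtain ⟨w2, h2, e2⟩ := hw (-d) (neg_ne_zero.2 hd) (by rw [star_neg, hs])
  refine ⟨w1 * w2, X.mul_mem h1 h2, fun v => ?_⟩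
  simp only [Perm.mul_apply, e1, e2, gy, hr, RingEquiv.refl_apply, Prod.mk.injEq]
  constructor <;> field_simp

end Cfsg.Lib.U4F
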