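import Cfsg.Agent.U4F.L1a

/-! The conjugates of `0 × K` intersect trivially. -/

set_option autoImplicit false
set_option linter.unusedSectionVars false

namespace Cfsg.Lib.U4F

open Cfsg Cfsg.FusionSystem Subgroup Equiv Cfsg.Lib.Fus
open Cfsg.Lib.U5F (UF qq SC sc_refl Tr Iv LTr Sec Loc SEm MinL)

universe u v

variable {K : Type u} [Field K] [StarRing K] [Finite K] [UF K] {p : ℕ} [Fact p.Prime] [CharP K p]
variable {X : Subgroup (Perm (K × K))} {g : Perm (K × K)} {ν : K × K → K × K}

namespace L1b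

theorem qq_ne_two (h2 : (2 : K) ≠ 0) : qq K ≠ 2 := fun e => h2 (by
  have := U5F.star_eq_pow (-1 : K)
  rw [e, star_neg, star_one] at this
  linear_combination -this)

theorem nn (ho : Opp X g ν) (v : K × K) : ν (ν v) = 0 := (ho.ker _).2 (ho.im v)

theorem nsub (ho : Opp X g ν) (v w : K × K) : ν (v - w) = ν v - ν w := by
  rw [eq_sub_iff_add_eq, ← ho.add, sub_add_cancel]

theorem span (ho : Opp X g ν) {s0 : K} {f y : K × K} (h0 : s0 ≠ 0) (hf : f.1 ≠ 0)
    (he : ν (0, s0) = 0) (hf' : ν f = 0) (hy : ν y = 0) :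
    ∃ κ μ : K, star κ = κ ∧ star μ = μ ∧ y = κ • f + μ • (0, s0) := by
  have a : ∀ y, ν y = 0 → ∃ c, star c = c ∧ y.1 = c * s0 := fun y hy =>
    U5F.real_mul h0 (by
      have := ho.iso _ _ he hy
      simp only [bf, star_zero, mul_zero, zero_mul, sub_zero, zero_sub, neg_eq_zero] at this
      linear_combination this)
  obtain ⟨c0, hc0, e0⟩ := a f hf'
  obtain ⟨c1, hc1, e1⟩ := a y hy
  have h1 : c0 ≠ 0 := fun e => hf (by rw [e0, e, zero_mul])
  have hk : star (c1 / c0) = c1 / c0 := by rw [star_div₀, hc0, hc1]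
  have e2 : (y - (c1 / c0) • f).1 = 0 := by
    rw [Prod.fst_sub, Prod.smul_fst, e0, e1, smul_eq_mul]; field_simp; ring
  obtain ⟨c2, hc2, e3⟩ := U5F.real_mul (y' := (y - (c1 / c0) • f).2) hf (by
    have := ho.iso (y - (c1 / c0) • f) f (by rw [nsub ho, ho.lin _ hk, hy, hf']; simp) hf'
    simp only [bf, e2, star_zero, mul_zero, zero_mul, sub_zero, zero_sub, neg_eq_zero] at this
    linear_combination -this)
  refine ⟨c1 / c0, c2 * c0, hk, by rw [star_mul', hc0, hc2], ?_⟩
  rw [← sub_eq_iff_eq_add']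
  refine Prod.ext (by simpa using e2) ?_
  rw [e3, e0]; simp [mul_assoc]

end L1b

open L1b

theorem ti1 (h : Hy1 p X) (hb : Bo1 X) (hq : qq K ≠ 3) (hg : g ∈ X) :
    P1 g ∨ ∀ s, s ≠ 0 → (g (0, s)).1 ≠ 0 := by
  by_contra hn
  rw [not_or, P1] at hn
  obtain ⟨h1, h2⟩ := hn
  push Not at h1 h2
  obtain ⟨s1, hf⟩ := h1
  obtain ⟨s', hs', he⟩ := h2
  obtain ⟨ν, ho⟩ := exists_opp h hg
  have hk : ∀ s, ν (g (0, s)) = 0 := fun s => (ho.ker _).2 (by rw [perm_inv_apply])
  have hf' := hk s1
  have he' := hk s'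
  have h0 : (g (0, s')).2 ≠ 0 := fun e => hs' (congrArg Prod.snd
    (g.injective ((Prod.ext he e).trans (L1a.zero h hg).symm)))
  rw [show g (0, s') = (0, (g (0, s')).2) from Prod.ext he rfl] at he'
  generalize (g (0, s')).2 = s0 at h0 he'
  generalize g (0, s1) = f at hf hf'
  obtain ⟨c0, hc0, e0⟩ : ∃ c, star c = c ∧ f.1 = c * s0 := U5F.real_mul h0 (by
    have := ho.iso _ _ he' hf'
    simp only [bf, star_zero, mul_zero, zero_mul, sub_zero, zero_sub, neg_eq_zero] at this
    linear_combination this)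
  have hb0 : ∀ s t : K, bf (0, s) (0, t) = 0 := fun s t => by simp [bf]
  by_cases h2 : (2 : K) = 0
  · obtain ⟨φ, hφ, e1, -⟩ := ho.mem 1 (star_one K)
    have hp : p = 2 := (Nat.prime_dvd_prime_iff_eq Fact.out Nat.prime_two).1
      ((CharP.cast_eq_zero_iff K p 2).1 (by exact_mod_cast h2))
    obtain ⟨c, -, rfl⟩ := h.mem_A1 hb hφ (fun s => by
        obtain ⟨κ, μ, hκ, hμ, e⟩ := span ho h0 hf he' hf' (nn ho (0, s))
        have e2 := ho.alt h2 (0, s)
        rw [e, bf_add_right, bf_smul_right hκ, bf_smul_right hμ, hb0, mul_zero, add_zero] at e2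
        rcases mul_eq_zero.1 e2 with e2 | e2
        · simp [e1, e, e2]
        · obtain ⟨c, hc, e3⟩ := U5F.real_mul (y' := s) hf (by
            simp only [bf, star_zero, mul_zero, zero_mul, sub_zero, zero_sub, neg_eq_zero] at e2
            linear_combination -e2)
          have e4 : ((0, s) : K × K) = (c * c0) • (0, s0) := by simp [e3, e0, mul_assoc]
          have e5 : ν (0, s) = 0 := by
            rw [e4, ho.lin _ (by rw [star_mul', hc, hc0]), he', smul_zero]
          simp [e1, e5])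
      ⟨1, Equiv.ext fun v => by
        rw [hp, pow_one, pow_two, Perm.mul_apply, e1, e1, one_smul, one_smul, nsub ho, nn ho,
          sub_zero, sub_sub, ← two_smul K, h2, zero_smul, sub_zero, Perm.one_apply]⟩
    have e2 := congrArg Prod.snd (e1 f)
    rw [hf', smul_zero, sub_zero, u1_apply, sub_eq_self] at e2
    have e3 := e1 (g (1, 0))
    rw [(mul_eq_zero.1 e2).resolve_right hf, u1_apply, zero_mul, sub_zero, one_smul, eq_comm,
      sub_eq_self, ho.ker, perm_inv_apply] at e3
    exact one_ne_zero e3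
  obtain ⟨l, hl, hl0, hl1⟩ := exists_real_sq (qq_ne_two h2) hq
  obtain ⟨d, hd, hs⟩ := U5F.exists_skew (K := K)
  obtain ⟨κ, μ, hκ, hμ, e⟩ := span ho h0 hf he' hf' (nn ho (0, d * f.1))
  have hκ0 : κ ≠ 0 := fun e1 => by
    have e2 := ho.ani h2 (0, d * f.1) (by
      rw [e, e1, zero_smul, zero_add, bf_smul_right hμ, hb0, mul_zero])
    have e3 := ho.iso _ _ hf' e2
    have e4 : 2 * (d * (f.1 * star f.1)) = 0 := by
      simp only [bf, star_mul', hs, star_zero] at e3
      linear_combination e3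
    simp [h2, hd, hf] at e4
  let P : K → K → K → K × K := fun x y z => x • (0, s0) + y • (0, d * f.1) + z • f
  have ha : ∀ c x y z, u1 (c * d) (P x y z) = P x (y - c * z) z := fun c x y z => by
    simp only [P, u1_apply]
    ext <;> simp
    ring
  have hw : ∀ c : K, c ≠ 0 → star c = c → ∃ w ∈ X, ∀ x y z, star x = x → star y = y → star z = z →
      w (P x y z) = P (x + (y - c * z) * μ / (c * κ)) (-c * z) (y / c) := fun c hc0 hc => by
    obtain ⟨φ, hφ, e1, -⟩ := ho.mem (-(c * κ)⁻¹) (by rw [star_neg, star_inv₀, star_mul', hc, hκ])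
    have hu := h.u (c := c * d) (by rw [star_mul', hc, hs]; ring)
    refine ⟨u1 (c * d) * φ * u1 (c * d), X.mul_mem (X.mul_mem hu hφ) hu, fun x y z hx hy hz => ?_⟩
    have e2 : φ (P x (y - c * z) z) = P (x + (y - c * z) * μ / (c * κ)) (y - c * z) (y / c) := by
      rw [e1]
      simp only [P]
      rw [ho.add, ho.add, ho.lin _ hx, ho.lin _ hz, ho.lin _ (by rw [star_sub, star_mul', hy, hc, hz]),
        he', hf', e]
      ext <;> simp <;> field_simp <;> ring
    rw [Perm.mul_apply, Perm.mul_apply, ha, e2, ha]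
    congr 1
    field_simp
    ring
  obtain ⟨w1, hw1, e1⟩ := hw (-1) (by simp) (by simp)
  obtain ⟨w2, hw2, e2⟩ := hw l hl0 hl
  have e3 : ∀ x y, star x = x → star y = y → (w1 * w2) (0, (x + y * (d * c0)) * s0) =
      (0, (x + y / l * (d * c0)) * s0) := fun x y hx hy => by
    have a : ((0, (x + y * (d * c0)) * s0) : K × K) = P x y 0 := by
      simp only [P, e0]
      ext <;> simp
      ring
    rw [a, Perm.mul_apply, e2 _ _ _ hx hy (star_zero K), e1 _ _ _
      (by simp only [star_add, star_div₀, star_mul', star_sub, star_zero, hx, hy, hl, hμ, hκ])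
      (by simp) (by rw [star_div₀, hy, hl])]
    simp only [P, e0]
    ext <;> simp
    field_simp
    ring
  have hc : c0 ≠ 0 := fun e => hf (by rw [e0, e, zero_mul])
  have hj : star (d * c0) = -(d * c0) := by rw [star_mul', hs, hc0]; ring
  have hj0 : d * c0 ≠ 0 := mul_ne_zero hd hc
  generalize d * c0 = j at e3 hj hj0
  obtain ⟨c, a, b, σ, -, -, -, e4⟩ := hb _ (X.mul_mem hw1 hw2) fun s => by
    have a : s = ((s / s0 + star (s / s0)) / 2 + (s / s0 - star (s / s0)) / (2 * j) * j) * s0 := by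
      field_simp; ring
    rw [a, e3 _ _ (by simp [add_comm]) (by
      rw [star_div₀, star_sub, star_star, star_mul', hj, star_ofNat]; field_simp; ring)]
  have e5 : ∀ x y, star x = x → star y = y → a * star b * σ ((x + y * j) * s0) =
      (x + y / l * j) * s0 := fun x y hx hy => by
    have := congrArg Prod.snd ((e4 _).symm.trans (e3 x y hx hy))
    simpa [u1_apply, gy] using this
  have a1 := e5 1 0 (by simp) (by simp)
  have a2 := e5 0 1 (by simp) (by simp)
  have a3 := e5 (j * j) 0 (by rw [star_mul', hj]; ring) (by simp)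
  simp only [zero_mul, add_zero, one_mul, zero_div, zero_add, map_mul] at a1 a2 a3
  have b2 : σ j = 1 / l * j := mul_right_cancel₀ h0 (by linear_combination a2 - σ j * a1)
  have b3 : σ j * σ j = j * j := mul_right_cancel₀ h0 (by linear_combination a3 - σ j * σ j * a1)
  rw [b2] at b3
  field_simp at b3
  exact hl1 b3.symm

end Cfsg.Lib.U4F
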