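import Cfsg.Agent.U4F.L2a
import Cfsg.Agent.U4F.CW

/-! The group induced on `V` is doubly transitive on the conjugates of the root group. -/

set_option autoImplicit false
set_option linter.unusedSectionVars false

namespace Cfsg.Lib.U4F

open Cfsg Cfsg.FusionSystem Subgroup Equiv Cfsg.Lib.Fus
open Cfsg.Lib.U5F (UF qq SC sc_refl Tr Iv LTr Sec Loc SEm MinL)

universe u v

variable {K : Type u} [Field K] [StarRing K] [Finite K] [UF K] {p : ℕ} [Fact p.Prime] [CharP K p]
variable {X : Subgroup (Perm (H K))} {g k : Perm (H K)} {v w : H K}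

namespace L2b

theorem sect' (p : ℕ) [Fact p.Prime] {A B : Type*} [AddCommGroup A] [AddCommGroup B]
    [Module (ZMod p) A] [Module (ZMod p) B] (f : A →+ B) (hf : Function.Surjective f) :
    ∃ s : B →+ A, ∀ b, f (s b) = b := by
  obtain ⟨s, hs⟩ := (f.toZModLinearMap p).exists_rightInverse_of_surjective
    (LinearMap.range_eq_top.2 hf)
  exact ⟨s.toAddMonoidHom, fun b => LinearMap.congr_fun hs b⟩

theorem sect (p : ℕ) [Fact p.Prime] {A B : Type*} [AddCommGroup A] [AddCommGroup B]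
    (hA : ∀ a : A, p • a = 0) (hB : ∀ b : B, p • b = 0) (f : A →+ B) (hf : Function.Surjective f) :
    ∃ s : B →+ A, ∀ b, f (s b) = b :=
  @sect' p _ A B _ _ (AddCommGroup.zmodModule hA) (AddCommGroup.zmodModule hB) f hf

theorem p_K (p : ℕ) [CharP K p] (a : K) : p • a = 0 := by
  rw [nsmul_eq_mul, CharP.cast_eq_zero, zero_mul]

theorem zero (h : Hy2 p X) (hg : g ∈ X) : g 0 = 0 := by simpa using h.add g hg 0 0

theorem exists_chi (h : Hy2 p X) (hg : g ∈ X) :
    ∃ χ : K →+ H K, ∀ a, (χ a).s = a ∧ (χ a).x2 = 0 ∧ (g⁻¹ (χ a)).x2 = 0 := by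
  have hi := h.add _ (X.inv_mem hg)
  let A : AddSubgroup (H K) :=
    { carrier := {w | w.x2 = 0 ∧ (g⁻¹ w).x2 = 0}
      zero_mem' := ⟨rfl, by rw [zero h (X.inv_mem hg)]; rfl⟩
      add_mem' := fun {v w} a b => ⟨by simp [a.1, b.1], by rw [hi, H.add_x2, a.2, b.2, add_zero]⟩
      neg_mem' := fun {v} a => ⟨by simp [a.1], by
        rw [← zero_sub, L2a.map_sub' hi, zero h (X.inv_mem hg), H.sub_x2, a.2]; simp⟩ }
  obtain ⟨s, hs⟩ := sect p (A := A) (B := K) (fun a => Subtype.ext (L2a.p_smul p a.1)) (p_K p)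
    (AddMonoidHom.mk' (fun w => w.1.s) fun _ _ => rfl) fun a => by
      obtain ⟨w, h1, h2⟩ := wz h hg a
      exact ⟨⟨w, h2⟩, h1⟩
  exact ⟨A.subtype.comp s, fun a => ⟨hs a, (s a).2⟩⟩

theorem exists_pr : ∃ pr : K →+ selfAdjoint K, ∀ c, star c = c → (pr c : K) = c := by
  obtain ⟨y, hy⟩ := U5F.exists_norm (c := (-1 : K)) (by simp)
  obtain ⟨θ, hθ⟩ := U5F.exists_adm y
  refine ⟨AddMonoidHom.mk' (fun x => ⟨θ * x + star (θ * x), by
    change star _ = _; rw [star_add, star_star, add_comm]⟩) fun a b => Subtype.ext ?_, fun c hc => ?_⟩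
  · change _ = θ * a + star (θ * a) + (θ * b + star (θ * b))
    simp only [mul_add, star_add]; ring
  · change θ * c + star (θ * c) = c
    rw [star_mul', hθ, hy, hc]; ring

theorem root1 (p : ℕ) [Fact p.Prime] [CharP K p] (l : K →+ K) (hl : ∀ a, star (l a) = l a) {c : K}
    (hc : star c = c) (h0 : c ≠ 0) : ∃ a, a ≠ 0 ∧ ∃ n : ℤ, a * star a + l a = n * c := by
  obtain ⟨pr, hp⟩ := exists_pr (K := K)
  let S := AddSubgroup.zmultiples (⟨c, hc⟩ : selfAdjoint K)
  let π := (QuotientAddGroup.mk' S).comp pr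
  obtain ⟨a, ha, e⟩ := cw (p := p) (A := K) (B := selfAdjoint K ⧸ S) (p_K p)
    (fun b => by
      obtain ⟨b, rfl⟩ := QuotientAddGroup.mk'_surjective S b
      rw [← map_nsmul, show p • b = 0 from Subtype.ext (p_K p b.1), map_zero])
    (AddMonoidHom.mk' (fun a => AddMonoidHom.mk' (fun a' => π (a * star a')) fun x y => by
      rw [star_add, mul_add, map_add]) fun x y => AddMonoidHom.ext fun z => by
        change π ((x + y) * star z) = π (x * star z) + π (y * star z)
        rw [add_mul, map_add]) (π.comp l) (by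
      have e1 := AddSubgroup.card_eq_card_quotient_mul_card_addSubgroup S
      have e2 : Nat.card (selfAdjoint K) = qq K := rfl
      have e3 : 1 < Nat.card S := (AddSubgroup.one_lt_card_iff_ne_bot S).2 fun e =>
        h0 (congrArg Subtype.val (AddSubgroup.zmultiples_eq_bot.1 e))
      have e4 := U5F.two_le_qq (K := K)
      rw [U5F.card_K (K := K)]
      refine Nat.pow_lt_pow_left ?_ two_ne_zero
      rw [e2] at e1
      by_contra h5
      push Not at h5
      nlinarith)
  have e : π (a * star a + l a) = 0 := (map_add π _ _).trans e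
  obtain ⟨n, hn⟩ := AddSubgroup.mem_zmultiples_iff.1 ((QuotientAddGroup.eq_zero_iff _).1 e)
  have hn := congrArg Subtype.val hn
  rw [hp _ (by rw [star_add, star_mul', star_star, hl, mul_comm])] at hn
  exact ⟨a, ha, n, by rw [← hn, ← zsmul_eq_mul]; rfl⟩

theorem root2 (p : ℕ) [Fact p.Prime] [CharP K p] (l : K →+ K) (hl : ∀ a, star (l a) = l a) {c : K}
    (hc : star c = c) : ∃ a, a * star a + l a = c := by
  obtain ⟨pr, hp⟩ := exists_pr (K := K)
  let κ : ZMod p →+* K := ZMod.castHom (dvd_refl p) K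
  obtain ⟨⟨a, n⟩, ha, e⟩ := cw (p := p) (A := K × ZMod p) (B := selfAdjoint K)
    (fun a => Prod.ext (p_K p a.1) (by simp))
    (fun b => Subtype.ext (p_K p b.1))
    (AddMonoidHom.mk' (fun a => AddMonoidHom.mk'
      (fun a' => pr (a.1 * star a'.1 + κ a.2 * l a'.1 - κ a.2 * κ a'.2 * c)) fun x y => by
        rw [← map_add]; congr 1
        simp only [Prod.fst_add, Prod.snd_add, star_add, map_add]; ring)
      fun x y => AddMonoidHom.ext fun z => by
        change pr _ = pr _ + pr _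
        rw [← map_add]; congr 1
        simp only [Prod.fst_add, Prod.snd_add, map_add]; ring) 0 (by
      have e2 : Nat.card (selfAdjoint K) = qq K := rfl
      have e4 := U5F.two_le_qq (K := K)
      rw [Nat.card_prod, U5F.card_K (K := K), e2, Nat.card_zmod]
      exact lt_mul_of_one_lt_right (by positivity) (Fact.out : p.Prime).one_lt)
  obtain ⟨n, rfl⟩ := ZMod.natCast_zmod_surjective n
  have e : (pr (a * star a + κ n * l a - κ n * κ n * c) : K) = 0 := by
    simpa using congrArg Subtype.val e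
  rw [map_natCast, hp _ (by
    simp only [star_add, star_sub, star_mul', star_star, star_natCast, hl, hc]; ring)] at e
  have hn : (n : K) ≠ 0 := fun e0 => ha (by
    rw [e0] at e
    have e1 : a = 0 := by simpa using e
    rw [e1, κ.injective ((map_natCast κ n).trans (e0.trans (map_zero κ).symm))]; rfl)
  have e1 : l a = n * l (a / n) := by
    rw [← nsmul_eq_mul, ← map_nsmul, nsmul_eq_mul, mul_div_cancel₀ _ hn]
  refine ⟨a / n, ?_⟩
  rw [e1] at e
  rw [star_div₀, star_natCast]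
  field_simp
  linear_combination e

/-- The linear part of the determinant. -/
def ell (χ : K →+ H K) (v : H K) : K →+ K :=
  AddMonoidHom.mk' (fun a => a * star v.s + v.s * star a + v.x2 * (χ a).x1) fun a b => by
    rw [map_add, H.add_x1, star_add]; ring

theorem ell_real (χ : K →+ H K) (v : H K) (a : K) : star (ell χ v a) = ell χ v a := by
  change star (a * star v.s + v.s * star a + v.x2 * (χ a).x1) =
    a * star v.s + v.s * star a + v.x2 * (χ a).x1
  simp only [star_add, star_mul', star_star, v.h2, (χ a).h1]; ring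

theorem qd_real (v : H K) : star (qd v) = qd v := by
  simp only [qd, star_add, star_mul', star_star, v.h1, v.h2]; ring

end L2b

open L2b

theorem key2 (h : Hy2 p X) (hg : g ∈ X) (hv : IZ v) (h0 : (g v).x2 ≠ 0) (hw : w.x2 = 0)
    (hw' : (g⁻¹ w).x2 = 0) (e : qd (g v + w) = qd (g v)) : w.s = 0 := by
  obtain ⟨t, ht⟩ := exists_u2 (v := g v) (w := g v + w) (by simp [hw]) h0 e.symm
  have e1 : (g⁻¹ * u2 t * g) v = v + g⁻¹ w := by
    rw [Perm.mul_apply, Perm.mul_apply, ht, h.add _ (X.inv_mem hg), perm_inv_apply]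
  have e2 := zw h (X.mul_mem (X.mul_mem (X.inv_mem hg) (h.u t)) hg) hv
    (by rw [e1, H.add_x2, hv.2, hw', add_zero])
  rw [e1] at e2
  have e3 := zw h hg (v := g⁻¹ w) ⟨by simpa only [H.add_s, hv.1, zero_add] using e2.1, hw'⟩
    (by rw [perm_apply_inv, hw])
  rw [perm_apply_inv] at e3
  exact e3.1

theorem d0 (h : Hy2 p X) (hg : g ∈ X) (hn : ¬ N2 g) (hv : IZ v) (hx : (g v).x2 = 0) : v = 0 := by
  by_contra h0
  obtain ⟨v1, hv1, h1⟩ : ∃ v1, IZ v1 ∧ (g v1).x2 ≠ 0 := by
    by_contra h1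
    push Not at h1
    exact hn (n2_of_iz h hg fun v hv => zw h hg hv (h1 v hv))
  have hz := zw h hg hv hx
  have hδ : (g v).x1 ≠ 0 := fun e => h0 (g.injective ((H.ext e hz.1 hz.2).trans (zero h hg).symm))
  obtain ⟨χ, hχ⟩ := exists_chi h hg
  obtain ⟨a, ha, n, e⟩ := root1 p (ell χ (g v1)) (ell_real χ _) (c := (g v1).x2 * (g v).x1)
    (by rw [star_mul', (g v1).h2, (g v).h1, neg_mul_neg]) (mul_ne_zero h1 hδ)
  have e : a * star a + (a * star (g v1).s + (g v1).s * star a + (g v1).x2 * (χ a).x1) =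
    n * ((g v1).x2 * (g v).x1) := e
  have hi := h.add _ (X.inv_mem hg)
  let y : H K := ⟨n * (g v).x1, 0, 0, by rw [star_mul', star_intCast, (g v).h1, mul_neg], by simp⟩
  have hy : (g⁻¹ y).x2 = 0 := by
    have e1 : y = n • g v := by
      let f1 : H K →+ K := AddMonoidHom.mk' H.x1 H.add_x1
      let f2 : H K →+ K := AddMonoidHom.mk' H.s H.add_s
      let f3 : H K →+ K := AddMonoidHom.mk' H.x2 H.add_x2
      refine H.ext ?_ ?_ ?_
      · exact ((map_zsmul f1 n (g v)).trans (zsmul_eq_mul _ _)).symm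
      · exact ((map_zsmul f2 n (g v)).trans (by change n • (g v).s = 0; rw [hz.1, smul_zero])).symm
      · exact ((map_zsmul f3 n (g v)).trans (by change n • (g v).x2 = 0; rw [hz.2, smul_zero])).symm
    let f : H K →+ K := AddMonoidHom.mk' (fun w => (g⁻¹ w).x2) fun a b => by rw [hi, H.add_x2]
    rw [e1]
    exact (map_zsmul f n (g v)).trans (by
      change n • (g⁻¹ (g v)).x2 = 0; rw [perm_inv_apply, hv.2, smul_zero])
  have e2 := key2 h hg hv1 h1 (w := χ a - y) (by simp [y, (hχ a).2.1])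
    (by rw [L2a.map_sub' hi, H.sub_x2, hy, (hχ a).2.2, sub_zero]) (by
      simp only [qd, y, H.add_x1, H.add_s, H.add_x2, H.sub_x1, H.sub_s, H.sub_x2, (hχ a).1,
        (hχ a).2.1, star_add, sub_zero, add_zero]
      linear_combination e)
  exact ha (by simpa [y, (hχ a).1] using e2)

theorem exists_iz (h : Hy2 p X) (hg : g ∈ X) (hn : ¬ N2 g) {c : K} (hc : star c = -c) :
    ∃ v, IZ v ∧ (g v).x2 = c := by
  let j : {x : K // star x = -x} → H K := fun x => ⟨x, 0, 0, x.2, by simp⟩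
  let f : {x : K // star x = -x} → {x : K // star x = -x} := fun x => ⟨(g (j x)).x2, (g (j x)).h2⟩
  have hf : Function.Injective f := fun x y e => by
    have e : (g (j x)).x2 = (g (j y)).x2 := congrArg Subtype.val e
    have e1 := d0 h hg hn (v := j x - j y) ⟨by simp [j], by simp [j]⟩
      (by rw [L2a.map_sub' (h.add g hg), H.sub_x2, e, sub_self])
    exact Subtype.ext (congrArg H.x1 (sub_eq_zero.1 e1))
  obtain ⟨x, hx⟩ := Finite.surjective_of_injective hf ⟨c, hc⟩
  exact ⟨j x, ⟨rfl, rfl⟩, congrArg Subtype.val hx⟩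

theorem tr2 (h : Hy2 p X) (hg : g ∈ X) (hk : k ∈ X) (hn : ¬ N2 g) (hn' : ¬ N2 k) :
    ∃ t, N2 (g⁻¹ * u2 t * k) := by
  obtain ⟨d, hd, hs⟩ := U5F.exists_skew (K := K)
  obtain ⟨v, hv, e0⟩ := exists_iz h hg hn hs
  obtain ⟨v', hv', e1⟩ := exists_iz h hk hn' hs
  obtain ⟨χ, hχ⟩ := exists_chi h hg
  obtain ⟨a, e⟩ := root2 p (ell χ (g v)) (ell_real χ _) (c := qd (k v') - qd (g v))
    (by rw [star_sub, qd_real, qd_real])
  have e : a * star a + (a * star (g v).s + (g v).s * star a + (g v).x2 * (χ a).x1) =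
    qd (k v') - qd (g v) := e
  obtain ⟨t, ht⟩ := exists_u2 (v := k v') (w := g v + χ a)
    (by rw [H.add_x2, e0, e1, (hχ a).2.1, add_zero]) (e1 ▸ hd) (by
      rw [eq_sub_iff_add_eq] at e
      rw [← e]
      simp only [qd, H.add_x1, H.add_s, H.add_x2, (hχ a).1, (hχ a).2.1, star_add, add_zero]
      ring)
  refine ⟨t, by_contra fun hm => hd ?_⟩
  have e2 := d0 h (X.mul_mem (X.mul_mem (X.inv_mem hg) (h.u t)) hk) hm hv' (by
    rw [Perm.mul_apply, Perm.mul_apply, ht, h.add _ (X.inv_mem hg), perm_inv_apply, H.add_x2, hv.2,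
      (hχ a).2.2, add_zero])
  rw [← e1, e2, zero h hk]; rfl

end Cfsg.Lib.U4F
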