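import Cfsg.Agent.U4F.L2b

/-! A normal form for the opposite root group on `V`. -/

set_option autoImplicit false
set_option linter.unusedSectionVars false

namespace Cfsg.Lib.U4F

open Cfsg Cfsg.FusionSystem Subgroup Equiv Cfsg.Lib.Fus
open Cfsg.Lib.U5F (UF qq SC sc_refl Tr Iv LTr Sec Loc SEm MinL)

universe u v

variable {K : Type u} [Field K] [StarRing K] [Finite K] [UF K] {p : ℕ} [Fact p.Prime] [CharP K p]
variable {X : Subgroup (Perm (H K))} {g k : Perm (H K)} {v w : H K}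

namespace L2c

theorem uniq (h : Hy2 p X) (hg : g ∈ X) (hn : ¬ N2 g) (e : v.s = w.s) (hv : v.x2 = 0)
    (hv' : (g⁻¹ v).x2 = 0) (hw : w.x2 = 0) (hw' : (g⁻¹ w).x2 = 0) : v = w :=
  sub_eq_zero.1 (d0 h (X.inv_mem hg) (fun e => hn (inv_inv g ▸ e.inv)) ⟨by simp [e], by simp [hv, hw]⟩
    (by rw [L2a.map_sub' (h.add _ (X.inv_mem hg)), H.sub_x2, hv', hw', sub_self]))

theorem not_n2 (hk : N2 k) (hn : ¬ N2 g) : ¬ N2 (k * g) := fun e =>
  hn (by simpa using hk.inv.mul e)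

theorem step1 (h : Hy2 p X) (mv : ∃ g ∈ X, ¬ N2 g)
    (hl : (∃ m : K, star m = m ∧ m ≠ 0 ∧ m ≠ 1 ∧
      ∃ k ∈ X, ∀ v, k v = gh 1 m (RingEquiv.refl K) sc_refl v) ∨ qq K = p) :
    ∃ g ∈ X, ¬ N2 g ∧ ∀ a, (g⁻¹ ⟨0, a, 0, by simp, by simp⟩).x2 = 0 := by
  obtain ⟨g0, hg0, hn0⟩ := mv
  rcases hl with ⟨m, hm, hm0, hm1, k, hk, e⟩ | hq
  · have hN := n2_gh one_ne_zero hm0 e
    obtain ⟨t0, h0⟩ := tr2 h hg0 (X.mul_mem hk hg0) hn0 (not_n2 (fun t => ⟨_, hN t⟩) hn0)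
    have hm2 : 1 - m ≠ 0 := sub_ne_zero.2 hm1.symm
    have hg := X.mul_mem (h.u (t0 * m / (1 - m))) hg0
    have hn := not_n2 (n2_u2 (t0 * m / (1 - m))) hn0
    have h1 : N2 ((u2 (t0 * m / (1 - m)) * g0)⁻¹ * k * (u2 (t0 * m / (1 - m)) * g0)) := by
      have e1 : u2 t0 = (u2 (t0 * m / (1 - m)))⁻¹ * (k * u2 (t0 * m / (1 - m)) * k⁻¹) := by
        rw [hN, ← u2_neg, ← u2_add]
        congr 1
        simp only [RingEquiv.refl_apply]
        field_simp
        ring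
      rw [e1] at h0
      convert h0 using 1
      group
    generalize u2 (t0 * m / (1 - m)) * g0 = g at hg hn h1
    obtain ⟨χ, hχ⟩ := L2b.exists_chi h hg
    have e2 : ∀ a, (χ (m * a)).x1 = (χ a).x1 := fun a => by
      have e3 := N2.x2 (h.add _ (X.mul_mem (X.mul_mem (X.inv_mem hg) hk) hg)) h1 (hχ a).2.2
      rw [Perm.mul_apply, Perm.mul_apply, perm_apply_inv] at e3
      rw [uniq h hg hn (v := χ (m * a)) (w := k (χ a)) (by simp [e, hχ, hm]) (hχ _).2.1 (hχ _).2.2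
        (by simp [e, hχ]) e3, e]
      simp
    refine ⟨g, hg, hn, fun a => ?_⟩
    have e3 : (χ a).x1 = 0 := by
      have e4 : a = a / (1 - m) - m * (a / (1 - m)) := by field_simp
      rw [e4, map_sub, H.sub_x1, e2, sub_self]
    refine .trans ?_ (hχ a).2.2
    congr 2
    exact H.ext e3.symm (hχ a).1.symm (hχ a).2.1.symm
  · obtain ⟨χ, hχ⟩ := L2b.exists_chi h hg0
    obtain ⟨α, β, e⟩ := U5F.f0lin (f := fun a => (χ a).x1) (fun a b => by rw [map_add, H.add_x1])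
      fun c t hc => by
        obtain ⟨n, rfl⟩ := real_prime hq hc
        let f : K →+ K := (AddMonoidHom.mk' H.x1 H.add_x1).comp χ
        rw [← nsmul_eq_mul, ← nsmul_eq_mul]
        exact map_nsmul f n t
    have e1 : star α + β = 0 := (U5F.sep (a := star β + α) fun t => by
      have := (χ t).h1
      rw [e, star_add, star_mul', star_mul', star_star] at this
      linear_combination this).2
    refine ⟨u2 (-star α) * g0, X.mul_mem (h.u _) hg0, not_n2 (n2_u2 _) hn0, fun a => ?_⟩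
    refine .trans ?_ (hχ a).2.2
    rw [mul_inv_rev, Perm.mul_apply]
    congr 2
    rw [Perm.inv_eq_iff_eq]
    refine H.ext ?_ ?_ (hχ a).2.1.symm
    · rw [u2_x1, e, (hχ a).1, (hχ a).2.1, star_neg, star_star]
      linear_combination -star a * e1
    · rw [u2_s, (hχ a).1, (hχ a).2.1, mul_zero, add_zero]

theorem exists_psi (h : Hy2 p X) (hg : g ∈ X) (hn : ¬ N2 g) :
    ∃ ψ : K →+ K, SkP ψ ∧ ∀ v, IZ v → (g v).x1 = ψ (g v).x2 := by
  have ha := h.add g hg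
  obtain ⟨y, hy⟩ := U5F.exists_norm (c := (-1 : K)) (by simp)
  obtain ⟨θ, hθ⟩ := U5F.exists_adm y
  let r : K →+ skewAdjoint K := AddMonoidHom.mk' (fun x => ⟨θ * x - star (θ * x), by
    change star _ = _; rw [star_sub, star_star, neg_sub]⟩) fun a b => Subtype.ext (by
      change _ = θ * a - star (θ * a) + (θ * b - star (θ * b))
      simp only [mul_add, star_add]; ring)
  have hr : ∀ c, star c = -c → (r c : K) = c := fun c hc => by
    change θ * c - star (θ * c) = c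
    rw [star_mul', hθ, hy, hc]; ring
  let j : skewAdjoint K →+ H K := AddMonoidHom.mk' (fun x => ⟨x, 0, 0, x.2, by simp⟩) fun a b => by
    ext <;> simp
  obtain ⟨s, hs⟩ := L2b.sect p (A := skewAdjoint K) (B := skewAdjoint K)
    (fun a => Subtype.ext (L2b.p_K p a.1)) (fun a => Subtype.ext (L2b.p_K p a.1))
    (AddMonoidHom.mk' (fun x => ⟨(g (j x)).x2, (g (j x)).h2⟩) fun a b => Subtype.ext (by
      change (g (j (a + b))).x2 = (g (j a)).x2 + (g (j b)).x2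
      rw [map_add, ha, H.add_x2])) fun c => by
      obtain ⟨v, hv, e⟩ := exists_iz h hg hn c.2
      refine ⟨⟨v.x1, v.h1⟩, Subtype.ext ?_⟩
      change (g (j ⟨v.x1, v.h1⟩)).x2 = c
      rw [← e]
      congr 2
      exact H.ext rfl hv.1.symm hv.2.symm
  refine ⟨AddMonoidHom.mk' (fun x => (g (j (s (r x)))).x1) fun a b => by
    rw [map_add, map_add, map_add, ha, H.add_x1], fun x _ => (g (j (s (r x)))).h1, fun v hv => ?_⟩
  have e : (g (j (s (r (g v).x2)))).x2 = (g v).x2 :=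
    (congrArg Subtype.val (hs _)).trans (hr _ (g v).h2)
  have e1 := d0 h hg hn (v := v - j (s (r (g v).x2))) ⟨by simp [j, hv.1], by simp [j, hv.2]⟩
    (by rw [L2a.map_sub' ha, H.sub_x2, e, sub_self])
  change _ = (g (j (s (r (g v).x2)))).x1
  rw [← sub_eq_zero.1 e1]

end L2c

open L2c

theorem nf2 (h : Hy2 p X) (mv : ∃ g ∈ X, ¬ N2 g)
    (hl : (∃ m : K, star m = m ∧ m ≠ 0 ∧ m ≠ 1 ∧
      ∃ k ∈ X, ∀ v, k v = gh 1 m (RingEquiv.refl K) sc_refl v) ∨ qq K = p) :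
    ∃ g ∈ X, ¬ N2 g ∧ ∃ (ψ : K →+ K) (hψ : SkP ψ), (∀ v, IZ v → (g v).s = 0) ∧
      (∀ v : H K, v.x2 = 0 → (g v).x1 = ψ (g v).x2) ∧
      ∀ (a b : K) (σ : K ≃+* K) (hσ : SC σ), a ≠ 0 → b ≠ 0 → (∃ k ∈ X, ∀ v, k v = gh a b σ hσ v) →
        ∀ x, star x = -x → ψ (b * star b * σ x) = a * star a * σ (ψ x) := by
  obtain ⟨g, hg, hn, h0⟩ := step1 h mv hl
  obtain ⟨ψ, hψ, e⟩ := exists_psi h hg hn
  have ha := h.add g hg
  have hz : ∀ v, IZ v → (g v).s = 0 := fun v hv => by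
    by_cases h1 : (g v).x2 = 0
    · exact (zw h hg hv h1).1
    obtain ⟨z, hz1, hz⟩ := U5F.exists_norm_one (K := K)
    have e1 := key2 h hg hv h1 (w := ⟨0, (z - 1) * (g v).s, 0, by simp, by simp⟩) rfl (h0 _) (by
      simp only [qd, H.add_x1, H.add_s, H.add_x2, add_zero, star_add, star_mul', star_sub, star_one]
      linear_combination (g v).s * star (g v).s * hz)
    exact (mul_eq_zero.1 e1).resolve_left (sub_ne_zero.2 hz1)
  refine ⟨g, hg, hn, ψ, hψ, hz, fun v hv => ?_, ?_⟩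
  · obtain ⟨z, hz', e1⟩ := exists_iz h hg hn (g v).h2
    have e2 := uniq h hg hn (v := g (v - z)) (w := ⟨0, (g (v - z)).s, 0, by simp, by simp⟩) rfl
      (by rw [L2a.map_sub' ha, H.sub_x2, e1, sub_self])
      (by rw [perm_inv_apply, H.sub_x2, hv, hz'.2, sub_self]) rfl (h0 _)
    have e3 : (g (v - z)).x1 = 0 := by rw [e2]
    rw [L2a.map_sub' ha, H.sub_x1, sub_eq_zero] at e3
    rw [e3, e z hz', e1]
  · rintro a b σ hσ ha hb ⟨k, hk, ek⟩ x hx
    obtain ⟨t, ht⟩ := tr2 h hg (X.mul_mem hk hg) hn (not_n2 (fun t => ⟨_, n2_gh ha hb ek t⟩) hn)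
    obtain ⟨v, hv, rfl⟩ := exists_iz h hg hn hx
    have e1 := hz _ (ht.iz hv)
    have e2 := e _ (ht.iz hv)
    simp only [Perm.mul_apply, perm_apply_inv, ek, u2_x1, u2_s, u2_x2, gh_x1, gh_s, gh_x2, hz v hv,
      map_zero, mul_zero, zero_add, zero_mul, star_zero, add_zero, sub_zero] at e1 e2
    rw [← e2, e v hv]
    linear_combination star t * e1

end Cfsg.Lib.U4F
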