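import Cfsg.Agent.U4F.L2c
import Cfsg.Agent.U4F.L2d

/-! The group induced on `V` contains a conjugate of the opposite root group. -/

set_option autoImplicit false
set_option linter.unusedSectionVars false

namespace Cfsg.Lib.U4F

open Cfsg Cfsg.FusionSystem Subgroup Equiv Cfsg.Lib.Fus
open Cfsg.Lib.U5F (UF qq SC sc_refl Tr Iv LTr Sec Loc SEm MinL)

universe u v

variable {K : Type u} [Field K] [StarRing K] [Finite K] [UF K] {p : ℕ} [Fact p.Prime] [CharP K p]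
variable {X : Subgroup (Perm (H K))} {g k : Perm (H K)} {v w : H K}

namespace L2e

theorem zcomm (ψ : K →+ K) (hψ : SkP ψ) (t : K) : z2 ψ hψ * u2 t * (z2 ψ hψ)⁻¹ = u2 t := by
  rw [mul_inv_eq_iff_eq_mul]
  refine Equiv.ext fun v => ?_
  ext <;> simp only [Perm.mul_apply, z2_x1, z2_s, z2_x2, u2_x1, u2_s, u2_x2]
  ring

theorem n2 (ψ : K →+ K) (hψ : SkP ψ) : N2 (z2 ψ hψ) := fun t => ⟨t, zcomm ψ hψ t⟩

theorem fix (ψ : K →+ K) (hψ : SkP ψ) (hv : v.x2 = 0) : z2 ψ hψ v = v := by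
  ext <;> simp [hv]

end L2e

open L2e

theorem hy2_conj (h : Hy2 p X) (ψ : K →+ K) (hψ : SkP ψ) :
    Hy2 p (X.comap (MulAut.conj (z2 ψ hψ)).toMonoidHom) := by
  have hm : ∀ x, x ∈ X.comap (MulAut.conj (z2 ψ hψ)).toMonoidHom ↔
      z2 ψ hψ * x * (z2 ψ hψ)⁻¹ ∈ X := fun x => Iff.rfl
  have ha : ∀ v w, z2 ψ hψ (v + w) = z2 ψ hψ v + z2 ψ hψ w := fun v w => by
    ext <;> simp
    ring
  have hT : T2 K ≤ X.comap (MulAut.conj (z2 ψ hψ)).toMonoidHom := by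
    rintro _ ⟨t, rfl⟩
    rw [hm, zcomm]
    exact h.u t
  refine ⟨fun x hx v w => (z2 ψ hψ).injective ?_, ⟨hT, h.syl.pgroup, fun S h1 h2 h3 => ?_⟩,
    fun x hx t t' ht e => ?_⟩
  · simpa only [Perm.mul_apply, ← ha, perm_inv_apply] using h.add _ ((hm x).1 hx) (z2 ψ hψ v) (z2 ψ hψ w)
  · have e := h.syl.max (S.map (MulAut.conj (z2 ψ hψ)).toMonoidHom) (by
      rintro _ ⟨t, rfl⟩
      exact ⟨u2 t, h1 ⟨t, rfl⟩, zcomm ψ hψ t⟩) (map_le_iff_le_comap.2 h2) (h3.map _)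
    refine le_antisymm (fun x hx => ?_) h1
    obtain ⟨t, ht⟩ : z2 ψ hψ * x * (z2 ψ hψ)⁻¹ ∈ T2 K := e ▸ ⟨x, hx, rfl⟩
    exact ⟨t, mul_left_cancel (mul_right_cancel (ht.trans (zcomm ψ hψ t).symm))⟩
  · have e1 := h.ti _ ((hm x).1 hx) t t' ht (by
      rw [← zcomm ψ hψ t, ← zcomm ψ hψ t', ← e]; group)
    simpa [mul_assoc] using ((n2 ψ hψ).inv.mul e1).mul (n2 ψ hψ)

theorem lin2 (h : Hy2 p X) (mv : ∃ g ∈ X, ¬ N2 g)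
    (hl : (∃ m : K, star m = m ∧ m ≠ 0 ∧ m ≠ 1 ∧
      ∃ k ∈ X, ∀ v, k v = gh 1 m (RingEquiv.refl K) sc_refl v) ∨ qq K = p) :
    ∃ (ψ : K →+ K) (hψ : SkP ψ), (∀ r, z2 ψ hψ * l2 r * (z2 ψ hψ)⁻¹ ∈ X) ∧
      ∀ (a b : K) (σ : K ≃+* K) (hσ : SC σ), a ≠ 0 → b ≠ 0 → (∃ k ∈ X, ∀ v, k v = gh a b σ hσ v) →
        ∀ x, star x = -x → ψ (b * star b * σ x) = a * star a * σ (ψ x) := by
  obtain ⟨g, hg, hn, ψ, hψ, h1, h2, h3⟩ := nf2 h mv hl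
  refine ⟨ψ, hψ, low_of_nf (hy2_conj h ψ hψ) (g := (z2 ψ hψ)⁻¹ * g * z2 ψ hψ) ?_ (fun e => hn ?_)
    (fun v hv => ?_) fun v hv => ?_, h3⟩
  · change z2 ψ hψ * ((z2 ψ hψ)⁻¹ * g * z2 ψ hψ) * (z2 ψ hψ)⁻¹ ∈ X
    simpa [mul_assoc] using hg
  · simpa [mul_assoc] using ((n2 ψ hψ).mul e).mul (n2 ψ hψ).inv
  · rw [Perm.mul_apply, Perm.mul_apply, fix ψ hψ hv.2, z2_inv_s, h1 v hv]
  · rw [Perm.mul_apply, Perm.mul_apply, fix ψ hψ hv, z2_inv_x1, h2 v hv, sub_self]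

end Cfsg.Lib.U4F
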