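import Cfsg.Agent.U4F.Gam
import Cfsg.Agent.U5F.Fld

/-! The opposite root elements and the diagonal and field automorphisms in the matrix model. -/

set_option autoImplicit false
set_option linter.unusedSectionVars false

namespace Cfsg.Lib.U4F

open Cfsg Subgroup Equiv U Matrix
open Cfsg.Lib.U5F (UF qq SC sc_refl)

universe u

variable {K : Type u} [Field K] [StarRing K] [Finite K] [UF K]

namespace MW

theorem conj_of {w : SJ K} {g g' : U K} (h : w.1.1 * mat g = mat g' * w.1.1) :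
    w * emb g * w⁻¹ = emb g' :=
  mul_inv_eq_iff_eq_mul.2 (Subtype.ext (Subtype.ext h))

theorem map_four {R S : Type*} (f : R → S)
    (a00 a01 a02 a03 a10 a11 a12 a13 a20 a21 a22 a23 a30 a31 a32 a33 : R) :
    (!![a00, a01, a02, a03; a10, a11, a12, a13; a20, a21, a22, a23; a30, a31, a32, a33]).map f =
    !![f a00, f a01, f a02, f a03; f a10, f a11, f a12, f a13; f a20, f a21, f a22, f a23;
      f a30, f a31, f a32, f a33] := by
  ext i j
  fin_cases i <;> fin_cases j <;> rfl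

/-- The diagonal entries. -/
def dd (a b : K) : Fin 4 → K := ![a, b, (star b)⁻¹, (star a)⁻¹]

theorem dd_eq_1' : type_of% @dd.eq_1 := @dd.eq_1

theorem dd_ne {a b : K} (ha : a ≠ 0) (hb : b ≠ 0) (i : Fin 4) : dd a b i ≠ 0 := by
  fin_cases i <;> simp [dd, ha, hb]

theorem dd_mul {a b a' b' : K} {σ : K ≃+* K} (hσ : SC σ) (i : Fin 4) :
    dd (a * σ a') (b * σ b') i = dd a b i * σ (dd a' b' i) := by
  fin_cases i <;> simp [dd, hσ _, mul_comm]

theorem dd_one (i : Fin 4) : dd (1 : K) 1 i = 1 := by fin_cases i <;> simp [dd]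

theorem dd_inv (a b : K) : (fun i => (dd a b i)⁻¹) = dd a⁻¹ b⁻¹ := by
  funext i
  fin_cases i <;> simp [dd]

theorem diag_dd (a b : K) : diagonal (dd a b) = !![a, 0, 0, 0; 0, b, 0, 0;
    0, 0, (star b)⁻¹, 0; 0, 0, 0, (star a)⁻¹] := by
  ext i j
  fin_cases i <;> fin_cases j <;> rfl

theorem dd_unitary {a b : K} (ha : a ≠ 0) (hb : b ≠ 0) :
    (diagonal (dd a b))ᴴ * J4 K * diagonal (dd a b) = J4 K := by
  rw [diag_dd, J4, ct_four, mul_four, mul_four]
  refine ext_four ?_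
  simp [ha, hb]

/-- The twisted matrix. -/
def tw (a b : K) (σ : K ≃+* K) (M : Matrix (Fin 4) (Fin 4) K) : Matrix (Fin 4) (Fin 4) K :=
  diagonal (dd a b) * M.map σ * diagonal fun i => (dd a b i)⁻¹

theorem tw_eq_1' : type_of% @tw.eq_1 := @tw.eq_1

variable {a b a' b' : K} {σ σ' : K ≃+* K}

theorem tw_apply (M : Matrix (Fin 4) (Fin 4) K) (i j : Fin 4) :
    tw a b σ M i j = dd a b i * σ (M i j) / dd a b j := by
  rw [tw, mul_diagonal, diagonal_mul, map_apply, div_eq_mul_inv]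

theorem dd_cancel (ha : a ≠ 0) (hb : b ≠ 0) :
    (diagonal fun i => (dd a b i)⁻¹) * diagonal (dd a b) = 1 := by
  rw [diagonal_mul_diagonal, ← diagonal_one]
  exact congrArg _ (funext fun i => inv_mul_cancel₀ (dd_ne ha hb i))

theorem tw_mul (ha : a ≠ 0) (hb : b ≠ 0) (M N : Matrix (Fin 4) (Fin 4) K) :
    tw a b σ (M * N) = tw a b σ M * tw a b σ N := by
  have : (M * N).map σ = M.map σ * N.map σ := Matrix.map_mul (f := σ.toRingHom)
  rw [tw, tw, tw, this]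
  simp only [Matrix.mul_assoc]
  rw [← Matrix.mul_assoc (diagonal fun i => (dd a b i)⁻¹), dd_cancel ha hb, Matrix.one_mul]

theorem tw_det (ha : a ≠ 0) (hb : b ≠ 0) {M : Matrix (Fin 4) (Fin 4) K} (h : M.det = 1) :
    (tw a b σ M).det = 1 := by
  have : (M.map σ).det = 1 := by
    have := (σ : K →+* K).map_det M
    rw [h, map_one] at this
    exact this.symm
  rw [tw, det_mul, det_mul, this, mul_one, mul_comm, ← det_mul, dd_cancel ha hb, det_one]

theorem tw_tw (hσ : SC σ) (M : Matrix (Fin 4) (Fin 4) K) :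
    tw a b σ (tw a' b' σ' M) = tw (a * σ a') (b * σ b') (σ'.trans σ) M := by
  ext i j
  simp only [tw_apply, dd_mul hσ, map_div₀, map_mul, RingEquiv.trans_apply]
  ring

theorem tw_scal (h : ∀ x, σ x = x) (ha : a * star a = 1) (M : Matrix (Fin 4) (Fin 4) K) :
    tw a a σ M = M := by
  have a0 : a ≠ 0 := left_ne_zero_of_mul_eq_one ha
  have e : ∀ i, dd a a i = a := fun i => by
    fin_cases i <;> simp [dd, inv_eq_of_mul_eq_one_left ha]
  ext i j
  rw [tw_apply, e, e, h, mul_div_cancel_left₀ _ a0]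

theorem tw_one (h : ∀ x, σ x = x) (M : Matrix (Fin 4) (Fin 4) K) : tw 1 1 σ M = M := by
  ext i j
  simp [tw_apply, dd_one, h]

theorem tw_unitary (hσ : SC σ) (ha : a ≠ 0) (hb : b ≠ 0) {M : Matrix (Fin 4) (Fin 4) K}
    (h : Mᴴ * J4 K * M = J4 K) : (tw a b σ M)ᴴ * J4 K * tw a b σ M = J4 K := by
  have h1 := dd_unitary ha hb
  have h2 := dd_unitary (inv_ne_zero ha) (inv_ne_zero hb)
  rw [← dd_inv] at h2
  have h3 : (M.map σ)ᴴ * J4 K * M.map σ = J4 K := by
    have e1 : (M.map σ)ᴴ = Mᴴ.map σ := by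
      ext i j
      simp [hσ _]
    have e2 : (J4 K).map σ = J4 K := by
      rw [J4, map_four, map_zero, map_one]
    have e3 : ∀ A B : Matrix (Fin 4) (Fin 4) K, (A * B).map σ = A.map σ * B.map σ := fun A B =>
      Matrix.map_mul (f := σ.toRingHom)
    rw [e1, ← e2, ← e3, ← e3, h]
  calc _ = (diagonal fun i => (dd a b i)⁻¹)ᴴ * ((M.map σ)ᴴ * ((diagonal (dd a b))ᴴ * J4 K *
        diagonal (dd a b)) * M.map σ) * diagonal fun i => (dd a b i)⁻¹ := by
        simp only [tw, conjTranspose_mul, Matrix.mul_assoc]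
    _ = _ := by rw [h1, h3, h2]

/-- The twisted element. -/
def twS (hσ : SC σ) (ha : a ≠ 0) (hb : b ≠ 0) (w : SJ K) : SJ K :=
  ⟨⟨tw a b σ w.1.1, tw_det ha hb w.1.2⟩, tw_unitary hσ ha hb w.2⟩

theorem twS_eq_1' : type_of% @twS.eq_1 := @twS.eq_1

/-- The automorphism. -/
def twA (hσ : SC σ) (ha : a ≠ 0) (hb : b ≠ 0) : MulAut (SJ K) where
  toFun := twS hσ ha hb
  invFun := twS (a := σ.symm a⁻¹) (b := σ.symm b⁻¹) hσ.symm (by simpa) (by simpa)
  left_inv w := Subtype.ext (Subtype.ext (by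
    change tw _ _ _ (tw _ _ _ _) = _
    rw [tw_tw hσ.symm, ← map_mul, ← map_mul, inv_mul_cancel₀ ha, inv_mul_cancel₀ hb, map_one,
      tw_one (by simp)]))
  right_inv w := Subtype.ext (Subtype.ext (by
    change tw _ _ _ (tw _ _ _ _) = _
    rw [tw_tw hσ, RingEquiv.apply_symm_apply, RingEquiv.apply_symm_apply, mul_inv_cancel₀ ha,
      mul_inv_cancel₀ hb, tw_one (by simp)]))
  map_mul' v w := Subtype.ext (Subtype.ext (tw_mul ha hb _ _))

theorem twA_eq_1' : type_of% @twA.eq_1 := @twA.eq_1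

theorem tw_mat (hσ : SC σ) (ha : a ≠ 0) (hb : b ≠ 0) (g : U K) :
    tw a b σ (mat g) = mat (gam a b σ hσ g) := by
  have ha' : star a ≠ 0 := star_ne_zero.2 ha
  have hb' : star b ≠ 0 := star_ne_zero.2 hb
  rw [tw, dd_inv, diag_dd, diag_dd, mat, mat, map_four, mul_four, mul_four]
  refine ext_four ?_
  simp only [gam_t, gam_x1, gam_s, gam_x2, map_zero, map_one, map_sub,
    map_neg, map_mul, hσ _, mul_zero, zero_mul, add_zero, zero_add, mul_one, star_mul',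
    star_div₀, star_inv₀, star_star, inv_inv, true_and]
  and_intros <;> field_simp

end MW

open MW

theorem exists_w1 (d : K) (hd : star d = -d) :
    ∃ w : SJ K, ∀ g ∈ Q K, w * emb g * w⁻¹ = emb (lo1 d hd g) := by
  refine ⟨⟨⟨!![1, 0, 0, 0; 0, 1, 0, 0; 0, d, 1, 0; 0, 0, 0, 1], ?_⟩, ?_⟩, fun g hg => conj_of ?_⟩
  · simp [det_succ_row_zero, Fin.sum_univ_succ, Fin.succAbove]
  · refine mem_SJ.2 ?_
    simp only [J4, ct_four, mul_four]
    refine ext_four ?_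
    simp [hd]
  · simp only [mat, mul_four]
    refine ext_four ?_
    simp only [lo1_t, lo1_x1, lo1_s, lo1_x2, mem_Q.1 hg, star_sub, star_mul', hd]
    and_intros <;> first | trivial | ring

theorem exists_w2 (r : K) : ∃ w : SJ K, ∀ g ∈ V K, w * emb g * w⁻¹ = emb (lo2 r g) := by
  refine ⟨⟨⟨!![1, 0, 0, 0; star r, 1, 0, 0; 0, 0, 1, 0; 0, 0, -r, 1], ?_⟩, ?_⟩,
    fun g hg => conj_of ?_⟩
  · simp [det_succ_row_zero, Fin.sum_univ_succ, Fin.succAbove]
  · refine mem_SJ.2 ?_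
    simp only [J4, ct_four, mul_four]
    refine ext_four ?_
    simp
  · simp only [mat, mul_four]
    refine ext_four ?_
    simp only [lo2_t, lo2_x1, lo2_s, lo2_x2, mem_V.1 hg, star_add, star_mul', g.h1, star_zero]
    and_intros <;> ring

theorem exists_wd {m : K} (hm : m ≠ 0) :
    ∃ w : SJ K, ∀ g, w * emb g * w⁻¹ = emb (dia m m⁻¹ g) := by
  have hm' := inv_ne_zero hm
  have hs : star m ≠ 0 := star_ne_zero.2 hm
  refine ⟨⟨⟨diagonal (dd m m⁻¹), ?_⟩, dd_unitary hm hm'⟩, fun g => conj_of ?_⟩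
  · rw [det_diagonal, Fin.prod_univ_four]
    change m * m⁻¹ * (star m⁻¹)⁻¹ * (star m)⁻¹ = 1
    rw [star_inv₀]; field_simp
  · change diagonal _ * _ = _ * diagonal _
    rw [← tw_mat sc_refl hm hm', tw, Matrix.mul_assoc, dd_cancel hm hm', Matrix.mul_one]
    rfl

theorem exists_act : ∃ Γ : Subgroup (MulAut (SJ K)),
    (∀ θ ∈ Γ, ∃ (a b : K) (σ : K ≃+* K) (hσ : SC σ), a ≠ 0 ∧ b ≠ 0 ∧
      ∀ g, θ (emb g) = emb (gam a b σ hσ g)) ∧
    (∀ (a b : K) (σ : K ≃+* K) (hσ : SC σ), a ≠ 0 → b ≠ 0 →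
      ∃ θ ∈ Γ, ∀ g, θ (emb g) = emb (gam a b σ hσ g)) ∧
    ∀ θ ∈ Γ, (∀ g, θ (emb g) = emb g) → θ = 1 := by
  let Γ : Subgroup (MulAut (SJ K)) :=
    { carrier := {θ | ∃ (a b : K) (σ : K ≃+* K) (hσ : SC σ) (ha : a ≠ 0) (hb : b ≠ 0),
        θ = twA hσ ha hb}
      one_mem' := ⟨1, 1, RingEquiv.refl K, sc_refl, one_ne_zero, one_ne_zero, MulEquiv.ext fun w =>
        Subtype.ext (Subtype.ext (tw_one (fun _ => rfl) _).symm)⟩
      mul_mem' := by
        rintro _ _ ⟨a, b, σ, hσ, ha, hb, rfl⟩ ⟨a', b', σ', hσ', ha', hb', rfl⟩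
        exact ⟨a * σ a', b * σ b', σ'.trans σ, hσ'.trans hσ, by simp [ha, ha'], by simp [hb, hb'],
          MulEquiv.ext fun w => Subtype.ext (Subtype.ext (tw_tw hσ _))⟩
      inv_mem' := by
        rintro _ ⟨a, b, σ, hσ, ha, hb, rfl⟩
        exact ⟨σ.symm a⁻¹, σ.symm b⁻¹, σ.symm, hσ.symm, by simpa, by simpa,
          MulEquiv.ext fun w => rfl⟩ }
  have key : ∀ {a b : K} {σ : K ≃+* K} (hσ : SC σ) (ha : a ≠ 0) (hb : b ≠ 0) (g : U K),
      twA hσ ha hb (emb g) = emb (gam a b σ hσ g) := fun hσ ha hb g =>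
    Subtype.ext (Subtype.ext (tw_mat hσ ha hb g))
  refine ⟨Γ, ?_, fun a b σ hσ ha hb => ⟨_, ⟨a, b, σ, hσ, ha, hb, rfl⟩, key hσ ha hb⟩, ?_⟩
  · rintro _ ⟨a, b, σ, hσ, ha, hb, rfl⟩
    exact ⟨a, b, σ, hσ, ha, hb, key hσ ha hb⟩
  · rintro _ ⟨a, b, σ, hσ, ha, hb, rfl⟩ h
    have h0 : ∀ g, gam a b σ hσ g = g := fun g => emb_injective ((key hσ ha hb g).symm.trans (h g))
    have h1 : ∀ y : K, a / b * σ y = y ∧ a * star b * σ y = y := fun y =>
      ⟨congrArg U.t (h0 ⟨y, 0, y, 0, by simp, by simp⟩),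
        congrArg U.s (h0 ⟨y, 0, y, 0, by simp, by simp⟩)⟩
    have e1 : a / b = 1 := by simpa using (h1 1).1
    have e2 : a * star b = 1 := by simpa using (h1 1).2
    obtain rfl : a = b := (div_eq_one_iff_eq hb).1 e1
    exact MulEquiv.ext fun w => Subtype.ext (Subtype.ext
      (tw_scal (fun y => by simpa [e1] using (h1 y).1) e2 _))

end Cfsg.Lib.U4F
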