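import Cfsg.Agent.U4F.MW
import Cfsg.Agent.U4F.MN
import Cfsg.Agent.U4F.Syl
import Cfsg.Agent.U5F.Bas
import Cfsg.Agent.Fus.Rk2Pull

/-! The realizing group. -/

set_option autoImplicit false
set_option linter.unusedSectionVars false
set_option linter.unusedVariables false

namespace Cfsg.Lib.U4F

open Cfsg Cfsg.FusionSystem Subgroup Equiv Cfsg.Lib.Fus
open Cfsg.Lib.U5F (UF qq SC sc_refl)

universe u

variable {K : Type u} [Field K] [StarRing K] [Finite K] [UF K] {p : ℕ} [Fact p.Prime] [CharP K p]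
  {F : FusionSystem (⊤ : Subgroup (U K))}

theorem Real.gam_eq {a b : K} {σ : K ≃+* K} {hσ : SC σ} {k : U K} (hb : b ≠ 0)
    (h : ∀ g, gam a b σ hσ g = k * g * k⁻¹) (g : U K) : gam a b σ hσ g = g := by
  have h1 : ∀ y, a / b * σ y = y := fun y => by
    simpa using congrArg U.t (h ⟨y, 0, 0, 0, by simp, by simp⟩)
  have e1 : a / b = 1 := by simpa using h1 1
  have h2 : ∀ y, σ y = y := fun y => by simpa [e1] using h1 y
  obtain rfl : a = b := (div_eq_one_iff_eq hb).1 e1
  obtain ⟨d, d0, hd⟩ := U5F.exists_skew (K := K)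
  have e2 : a * star a = 1 := by
    have : a * star a * σ d = d := by simpa using congrArg U.x2 (h ⟨0, 0, 0, d, by simp, hd⟩)
    rw [h2] at this
    exact mul_right_cancel₀ d0 (this.trans (one_mul d).symm)
  ext <;> simp [h2, e1, e2]

open SemidirectProduct in
theorem exists_real (hF : F.IsSaturated p) (hs : Std F) (h1 : Tor1 F) (h2 : Tor2 F) :
    ∃ D : FusionSystem (⊤ : Subgroup (U K)), D.IsSaturated p ∧ D.IsRealizable p ∧ Std D ∧ Low1 D ∧
      Low2 D ∧ ∀ f : Perm (U K), PIso D f ⊤ ⊤ ↔ PIso F f ⊤ ⊤ := by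
  obtain ⟨Γ, g1, g2, g3⟩ := exists_act (K := K)
  have : Finite (SJ K) := Finite.of_injective (fun g : SJ K => g.1.1) fun a b e =>
    Subtype.ext (Subtype.ext e)
  have := Ess.finite_mulAut' (E := SJ K)
  let H : Subgroup (MulAut (SJ K)) := Γ ⊓
    { carrier := {θ | ∃ f, PIso F f ⊤ ⊤ ∧ ∀ g, θ (emb g) = emb (f g)}
      one_mem' := ⟨1, PIso.refl F le_rfl, fun _ => rfl⟩
      mul_mem' := by
        rintro θ η ⟨f, hf, e⟩ ⟨k, hk, e'⟩
        exact ⟨f * k, hk.trans hf, fun g => by rw [MulAut.mul_apply, e', e, Perm.mul_apply]⟩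
      inv_mem' := by
        rintro θ ⟨f, hf, e⟩
        exact ⟨f⁻¹, hf.symm, fun g => by
          rw [MulAut.inv_def, MulEquiv.symm_apply_eq, e, perm_apply_inv]⟩ }
  have hH : ¬ p ∣ Nat.card H := fun d => by
    obtain ⟨⟨θ, hθ⟩, o⟩ := exists_prime_orderOf_dvd_card' p d
    rw [orderOf_mk] at o
    obtain ⟨hθ, f, hf, e⟩ := hθ
    have pw : ∀ (n : ℕ) g, (θ ^ n) (emb g) = emb ((f ^ n) g) := fun n => by
      induction n with
      | zero => exact fun _ => rfl
      | succ n ih => exact fun g => by rw [pow_succ, pow_succ, MulAut.mul_apply, e, ih, Perm.mul_apply]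
    have a1 : hf.aut ^ p ^ 1 = 1 := aut_ext_pext fun g hg => by
      rw [pow_one, hf.pext_aut_pow p hg, map_one]
      refine emb_injective ?_
      rw [← pw, ← o, pow_orderOf_eq_one]
      rfl
    obtain ⟨k, -, hk⟩ := mem_inn_pext.1 ((sat_aut_top (isP_top p) hF).le_of_normalizes
      (zpowers_le.2 hf.aut_mem) (isPGroup_zpowers_of_pow a1)
      (le_top.trans (normalizer_eq_top _).ge) (mem_zpowers _))
    obtain ⟨a, b, σ, hσ, -, hb, e'⟩ := g1 θ hθ
    rw [g3 θ hθ fun g => by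
      rw [e', Real.gam_eq hb fun g => emb_injective (by
        rw [← e', e, ← hk g trivial, hf.pext_aut trivial])], orderOf_one] at o
    exact (Fact.out : p.Prime).one_lt.ne o
  let G := SJ K ⋊[H.subtype] H
  have : Finite G := Finite.of_equiv _ SemidirectProduct.equivProd.symm
  let j : (⊤ : Subgroup (U K)) →* G := (inl.comp emb).comp (Subgroup.subtype ⊤)
  have hj : Function.Injective j := (inl_injective.comp emb_injective).comp (subtype_injective ⊤)
  have hr := Rk2.pullSys_realized j hj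
  have hT : ∃ T : Sylow p G, (T : Subgroup G) = j.range := by
    refine ⟨((isP_top p).of_surjective _ j.rangeRestrict_surjective).toSylow fun d => ?_, rfl⟩
    rw [MonoidHom.range_comp, range_subtype, ← MonoidHom.range_eq_map, MonoidHom.range_comp,
      index_map_of_injective _ inl_injective, range_inl_eq_ker_rightHom, index_ker,
      MonoidHom.range_eq_top.2 rightHom_surjective, card_top] at d
    exact ((Fact.out : p.Prime).dvd_mul.1 d).elim (syl_emb p) hH
  have mD : ∀ (P : Subgroup (U K)) (f : U K → U K), Mor (Rk2.pullSys j hj) P f ↔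
      ∃ w, ∃ θ ∈ H, ∀ g ∈ P, emb (f g) = w * θ (emb g) * w⁻¹ := fun P f => by
    have ej : ∀ g, extFun j g = inl (emb g) := fun g => extFun_of_mem j trivial
    have cj : ∀ (x : G) v, x * inl v * x⁻¹ = inl (x.left * x.right.1 v * x.left⁻¹) := fun x v => by
      rw [map_mul, map_mul, map_inv, show inl (x.right.1 v) = _ from inl_aut x.right v, map_inv]
      conv_lhs => rw [← inl_left_mul_inr_right x]
      simp only [mul_inv_rev, mul_assoc]
    rw [mor_iff_of_realized hr]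
    simp only [ej, cj, inl_injective.eq_iff]
    exact ⟨fun ⟨_, _, x, h⟩ => ⟨x.left, _, x.right.2, h⟩,
      fun ⟨w, θ, hθ, h⟩ => ⟨le_top, fun _ _ => trivial, ⟨w, θ, hθ⟩, h⟩⟩
  have key : ∀ f : Perm (U K), PIso (Rk2.pullSys j hj) f ⊤ ⊤ ↔ PIso F f ⊤ ⊤ := fun f => by
    refine ⟨fun hf => ?_, fun hf => ?_⟩
    · obtain ⟨w, θ, ⟨-, f₀, h₀, e₀⟩, e⟩ := (mD _ _).1 hf.mor
      obtain ⟨k, m, m', hm, hm', hr, e'⟩ := norm_emb (w := w) fun g => ⟨f (f₀⁻¹ g), by
        rw [e _ trivial, e₀, perm_apply_inv]⟩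
      exact ((((h₀.mor.comp (h1 m' hm' hr) fun _ _ => trivial).comp (h2 m hm)
        fun _ _ => trivial).conj_comp (mem_top k)).congr fun g hg => emb_injective (by
          rw [e g hg, e₀, e']; rfl)).piso_top
    · obtain ⟨k, a, b, σ, hσ, ha, hb, e⟩ := hs f hf
      obtain ⟨θ, hθ, e'⟩ := g2 a b σ hσ ha hb
      refine ((mD _ _).2 ⟨emb k, θ, ⟨hθ, Fus.cj k⁻¹ * f, hf.trans
        (Mor.cj F le_rfl (mem_top _)).piso_top, fun g => ?_⟩, fun g _ => ?_⟩).piso_top
      · rw [e', Perm.mul_apply, cj_apply, e]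
        congr 1
        group
      · rw [e, e', map_mul, map_mul, map_inv]
  refine ⟨_, saturated_of_realized hr hT, ⟨G, inferInstance, inferInstance, j, hr, hT⟩,
    fun f hf => hs f ((key f).1 hf), fun d hd => ?_, fun r => ?_, key⟩
  · obtain ⟨w, e⟩ := exists_w1 d hd
    exact ⟨(mD _ _).2 ⟨w, 1, one_mem _, fun g hg => (e g hg).symm⟩, lo1_mem hd⟩
  · obtain ⟨w, e⟩ := exists_w2 r
    exact ⟨(mD _ _).2 ⟨w, 1, one_mem _, fun g hg => (e g hg).symm⟩, lo2_mem r⟩

end Cfsg.Lib.U4F
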